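import Mathlib

/-!
Counting classes of involutions: abstract lemmas.
-/

set_option autoImplicit false

open scoped commutatorElement

namespace H42.Inv2Ab

/-- two classes -/
theorem ncard_two {G : Type*} [Group G] {A Z : G} (hA : orderOf A = 2) (hZ : orderOf Z = 2)
    (hcls : ∀ g : G, orderOf g = 2 → IsConj g A ∨ IsConj g Z) (hne : ¬ IsConj A Z) :
    (ConjClasses.mk '' {g : G | orderOf g = 2}).ncard = 2 := by
  have e : ConjClasses.mk '' {g : G | orderOf g = 2} = {ConjClasses.mk A, ConjClasses.mk Z} := by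
    ext c
    constructor
    · rintro ⟨g, hg, rfl⟩
      rcases hcls g hg with h | h
      · left; exact ConjClasses.mk_eq_mk_iff_isConj.2 h
      · right; exact ConjClasses.mk_eq_mk_iff_isConj.2 h
    · rintro (rfl | rfl)
      · exact ⟨A, hA, rfl⟩
      · exact ⟨Z, hZ, rfl⟩
  rw [e]
  apply Set.ncard_pair
  intro h
  exact hne (ConjClasses.mk_eq_mk_iff_isConj.1 h)

/-- two classes in the derived subgroup -/
theorem ncard_comm {G : Type*} [Group G] {A Z B c : G} (hA : orderOf A = 2) (hZ : orderOf Z = 2)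
    (hcls : ∀ g : G, orderOf g = 2 → IsConj g A ∨ IsConj g Z) (hne : ¬ IsConj A Z)
    (hAN : A ∈ commutator G) (hZN : Z ∈ commutator G)
    (hB : ∀ g : G, ∃ j : ℕ, ∃ n ∈ commutator G, g = B ^ j * n)
    (hBZ : Commute B Z) (hcA : Commute c A) (hcB : ∃ w : G, c = w * B * w⁻¹) :
    (ConjClasses.mk '' {g : ↥(commutator G) | orderOf g = 2}).ncard = 2 := by
  have hc : ∀ g : G, ∃ j : ℕ, ∃ n ∈ commutator G, g = c ^ j * n := by
    obtain ⟨w, hw⟩ := hcB
    have h1 : ∀ j : ℕ, (c ^ j)⁻¹ * B ^ j ∈ commutator G := by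
      intro j
      have : (c ^ j)⁻¹ * B ^ j = ⁅w, (B ^ j)⁻¹⁆ := by
        rw [hw, conj_pow, commutatorElement_def]; group
      rw [this]
      exact Subgroup.commutator_mem_commutator (Subgroup.mem_top _) (Subgroup.mem_top _)
    intro g
    obtain ⟨j, n, hn, rfl⟩ := hB g
    exact ⟨j, (c ^ j)⁻¹ * B ^ j * n, mul_mem (h1 j) hn, by group⟩
  have key : ∀ (x : G) (b : G), Commute b x → (∀ g : G, ∃ j : ℕ, ∃ n ∈ commutator G, g = b ^ j * n) →
      ∀ t : G, IsConj t x → ∃ n ∈ commutator G, n * t * n⁻¹ = x := by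
    intro x b hbx hb t ht
    obtain ⟨g, hg⟩ := isConj_iff.1 ht
    obtain ⟨j, n, hn, rfl⟩ := hb g
    refine ⟨n, hn, ?_⟩
    have h1 : n * t * n⁻¹ = (b ^ j)⁻¹ * x * b ^ j := by
      rw [← hg]; group
    rw [h1, mul_assoc, ← (hbx.pow_left j).eq]; group
  refine ncard_two (A := (⟨A, hAN⟩ : ↥(commutator G))) (Z := ⟨Z, hZN⟩) ?_ ?_ ?_ ?_
  · rw [← Subgroup.orderOf_coe]; exact hA
  · rw [← Subgroup.orderOf_coe]; exact hZ
  · rintro ⟨t, htN⟩ ht
    rw [← Subgroup.orderOf_coe] at ht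
    rcases hcls t ht with h | h
    · obtain ⟨n, hn, e⟩ := key A c hcA hc t h
      left
      exact isConj_iff.2 ⟨⟨n, hn⟩, Subtype.ext e⟩
    · obtain ⟨n, hn, e⟩ := key Z B hBZ hB t h
      right
      exact isConj_iff.2 ⟨⟨n, hn⟩, Subtype.ext e⟩
  · intro h
    obtain ⟨n, e⟩ := isConj_iff.1 h
    exact hne (isConj_iff.2 ⟨n.1, congrArg Subtype.val e⟩)

/-- the quotient by the derived subgroup is generated by an element -/
theorem exists_pow {G : Type*} [Group G] {B : G} {S : Set G} (hS : Subgroup.closure S = ⊤) {k : ℕ}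
    (hk : B ^ k ∈ commutator G) (hk0 : 0 < k)
    (h : ∀ s ∈ S, ∃ j : ℕ, ∃ n ∈ commutator G, s = B ^ j * n) (g : G) :
    ∃ j : ℕ, ∃ n ∈ commutator G, g = B ^ j * n := by
  have hg : g ∈ Subgroup.closure S := by rw [hS]; trivial
  have hmul : ∀ x y : G, (∃ j : ℕ, ∃ n ∈ commutator G, x = B ^ j * n) →
      (∃ j : ℕ, ∃ n ∈ commutator G, y = B ^ j * n) → ∃ j : ℕ, ∃ n ∈ commutator G, x * y = B ^ j * n := by
    rintro _ _ ⟨j, n, hn, rfl⟩ ⟨j', n', hn', rfl⟩
    refine ⟨j + j', (B ^ j')⁻¹ * n * ((B ^ j')⁻¹)⁻¹ * n', mul_mem ?_ hn', by rw [pow_add]; group⟩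
    exact (inferInstance : (commutator G).Normal).conj_mem _ hn _
  induction hg using Subgroup.closure_induction with
  | mem x hx => exact h x hx
  | one => exact ⟨0, 1, one_mem _, by simp⟩
  | mul x y _ _ hx hy => exact hmul x y hx hy
  | inv x _ hx =>
    obtain ⟨j, n, hn, rfl⟩ := hx
    -- `(B^j n)⁻¹ = n⁻¹ B^-j`, `B^-j = B^(jk - j) (B^k)^-j`
    have h1 : (B ^ j)⁻¹ = B ^ (j * k - j) * ((B ^ k) ^ j)⁻¹ := by
      rw [← pow_mul, eq_mul_inv_iff_mul_eq, inv_mul_eq_iff_eq_mul, ← pow_add]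
      congr 1
      have : j * 1 ≤ j * k := Nat.mul_le_mul_left j hk0
      rw [mul_comm k j]; omega
    rw [mul_inv_rev]
    apply hmul
    · exact ⟨0, n⁻¹, inv_mem hn, by simp⟩
    · exact ⟨j * k - j, ((B ^ k) ^ j)⁻¹, inv_mem (pow_mem hk _), h1⟩

end H42.Inv2Ab
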