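import Cfsg.Agent.Lib.H42.Inv2N
import Cfsg.Agent.Lib.H42.Inv2D

/-!
Involutions in groups with a root group system whose Weyl group is not crystallographic.
-/

set_option autoImplicit false
set_option linter.unusedSectionVars false

namespace H42.Inv2G

open H22.RGD H22.Coord H42.Inv2N

section sys

variable {G Φ I : Type*} [Group G] {C : RootComb Φ I} (S : Sys G C) [Finite Φ]


/-- every involution is conjugate into the monomial group -/
theorem conj_N' (hc1 : ∀ w ∈ C.W, ∀ i, w (C.simple i) = C.simple i → w * C.refl i = C.refl i * w)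
    (hc2 : ∀ w ∈ C.W, ∀ x ∈ C.W, w * w = 1 →
      (∀ i, C.pos (w (C.simple i)) → w (C.simple i) = C.simple i) →
      (∀ i, w (C.simple i) = C.simple i → ¬ C.pos (x (C.simple i))) →
      ∀ r, C.pos r → C.pos (w r) → ¬ C.pos (x r))
    (hc3 : ∃ w ∈ C.W, ∀ r, C.pos r → ¬ C.pos (w r))
    {t : G} (ht : t ∈ S.Γ) (h2 : t * t = 1) : ∃ g ∈ S.Γ, g * t * g⁻¹ ∈ S.N := by
  classical
  -- a conjugate of maximal length
  obtain ⟨w, ⟨m, v, h⟩, hmax⟩ : ∃ w, (∃ m v, Has S t m v w) ∧
      ∀ m' v' w', Has S t m' v' w' → C.len w' ≤ C.len w := by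
    obtain ⟨m, v, w, h⟩ := exists_has S ht
    have hfin : (Set.range fun p : {w : Equiv.Perm Φ // ∃ m v, Has S t m v w} => C.len p.1).Finite :=
      Set.finite_range _
    have : Nonempty {w : Equiv.Perm Φ // ∃ m v, Has S t m v w} := ⟨⟨w, m, v, h⟩⟩
    obtain ⟨p, hp⟩ := Finite.exists_max (fun p : {w : Equiv.Perm Φ // ∃ m v, Has S t m v w} => C.len p.1)
    exact ⟨p.1, p.2, fun m' v' w' h' => hp ⟨w', m', v', h'⟩⟩
  have hsq : ∀ {m v : G}, Has S t m v w → m * v * (m * v) = 1 := by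
    rintro m v ⟨_, _, g, _, e⟩
    rw [← e]
    have : g * t * g⁻¹ * (g * t * g⁻¹) = g * (t * t) * g⁻¹ := by group
    rw [this, h2]; simp
  have hww : w * w = 1 := (form S h.1 h.2.1 (hsq h)).1
  have hinv : w⁻¹ = w := inv_eq_of_mul_eq_one_left hww
  have hfix : ∀ i, C.pos (w (C.simple i)) → w (C.simple i) = C.simple i := by
    intro i hp
    by_contra hne
    obtain ⟨m', v', w', h', hl⟩ := longer₁ S h hinv hp hne
    have := hmax m' v' w' h'
    omega
  have hW : w ∈ C.W := h.1.2.1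
  have hcomm : ∀ i, w (C.simple i) = C.simple i → w * C.refl i = C.refl i * w :=
    fun i hi => hc1 w hW i hi
  have hstep : ∀ {m v : G}, Has S t m v w → ∀ i, w (C.simple i) = C.simple i →
      Has S t (S.n i * m * (S.n i)⁻¹) (S.n i * v * (S.n i)⁻¹) w := by
    intro m v h i hi
    rcases longer₂ S h hi (hcomm i hi) with ⟨m', v', w', h', hl⟩ | h'
    · have := hmax m' v' w' h'
      omega
    · exact h'
  have hwords : ∀ L : List I, (∀ i ∈ L, w (C.simple i) = C.simple i) →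
      Has S t (S.nw L * m * (S.nw L)⁻¹) (S.nw L * v * (S.nw L)⁻¹) w := by
    intro L
    induction L with
    | nil => intro _; simpa using h
    | cons i L ih =>
      intro hL
      have h1 := hstep (ih fun j hj => hL j (List.mem_cons_of_mem _ hj)) i (hL i List.mem_cons_self)
      have e : ∀ y : G, S.nw (i :: L) * y * (S.nw (i :: L))⁻¹ =
          S.n i * (S.nw L * y * (S.nw L)⁻¹) * (S.n i)⁻¹ := by
        intro y; rw [S.nw_cons]; group
      rw [e, e]; exact h1
  -- a longest element of the parabolic subgroup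
  obtain ⟨L, hL, hLmax⟩ : ∃ L : List I, (∀ i ∈ L, w (C.simple i) = C.simple i) ∧
      ∀ i, w (C.simple i) = C.simple i → ¬ C.pos (C.w L (C.simple i)) := by
    have : Nonempty {x : Equiv.Perm Φ // ∃ L : List I, (∀ i ∈ L, w (C.simple i) = C.simple i) ∧ C.w L = x} :=
      ⟨⟨1, [], by simp, rfl⟩⟩
    obtain ⟨⟨x, L, hL, hx⟩, hp⟩ := Finite.exists_max
      (fun p : {x : Equiv.Perm Φ // ∃ L : List I, (∀ i ∈ L, w (C.simple i) = C.simple i) ∧ C.w L = x} =>
        C.len p.1)
    refine ⟨L, hL, fun i hi hpos => ?_⟩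
    have h1 := C.len_mul_refl_of_pos (C.w L) i (C.W_neg (C.w_mem L)) hpos
    have h2 := hp ⟨C.w L * C.refl i, L ++ [i], by
      intro j hj
      rcases List.mem_append.1 hj with h | h
      · exact hL j h
      · rw [List.mem_singleton.1 h]; exact hi, by rw [C.w_append, C.w_singleton]⟩
    simp only at h2
    rw [h1, ← hx] at h2
    omega
  have hvU : m⁻¹ * v * m ∈ S.U := (form S h.1 h.2.1 (hsq h)).2
  obtain ⟨w₀, hw₀, hw₀n⟩ := hc3
  obtain ⟨g₀, hg₀⟩ := S.exists_rep' hw₀
  have hw₀p : ∀ r, ¬ C.pos r → C.pos (w₀ r) := by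
    intro r hr
    by_contra hcon
    have h1 : C.pos (C.neg r) := by rw [C.pos_neg]; exact hr
    have h3 := hw₀n _ h1
    rw [C.W_neg hw₀, C.pos_neg] at h3
    exact h3 hcon
  have hv1 : v ∈ S.Um (w₀ * w⁻¹) := by
    apply S.mem_Um_of_U_V (hg₀.mul h.1.inv) h.2.1
    have e : g₀ * m⁻¹ * v * (g₀ * m⁻¹)⁻¹ = g₀ * (m⁻¹ * v * m) * g₀⁻¹ := by group
    rw [e, ← S.cj_U_eq_V hg₀ hw₀n]
    exact conj_mem_cj hvU
  have hv2 : v ∈ S.Um (C.w L) := by
    refine S.Um_le ?_ hv1
    intro r hr hr'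
    apply S.X_le_Um hr
    refine hc2 w hW _ (C.w_mem L) hww hfix hLmax r hr ?_
    rw [← hinv]
    by_contra hcon
    exact hr' (by rw [Equiv.Perm.mul_apply]; exact hw₀p _ hcon)
  have hv3 : S.nw L * v * (S.nw L)⁻¹ ∈ S.V := S.cj_Um_le_V (S.rep_nw L) (conj_mem_cj hv2)
  have hv4 : S.nw L * v * (S.nw L)⁻¹ = 1 :=
    S.eq_one_of_mem_B_V (S.U_le_B (hwords L hL).2.1) hv3
  have hv5 : v = 1 := by
    have : v = (S.nw L)⁻¹ * (S.nw L * v * (S.nw L)⁻¹) * S.nw L := by group
    rw [this, hv4]; group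
  obtain ⟨hm, _, g, hg, e⟩ := h
  refine ⟨g, hg, ?_⟩
  rw [e, hv5, mul_one]; exact hm.1

end sys

section sq

open H22.RCCheck H22.RCComb H22.ChevTri H22.ChevRel H22.ChevSys H22.ChevMain
open H42.Inv2E
open Cfsg.Lie (ChevalleyDatum)
open scoped MatrixGroups Matrix

variable {D : ChevalleyDatum} {F : Type*} [Field F] (R : Rel D F) (X : RCX D)
  {Φ I : Type*} [Finite Φ] {C : RootComb Φ I} (S : Sys (GL D.Idx F) C)

/-- two involutions of the monomial group over the same element of the Weyl group -/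
theorem sqrt_conj [Fintype F] (h2F : (2 : F) = 0) (hH : S.H ≤ (chevSys R X).H) {m n : GL D.Idx F}
    {w : Equiv.Perm Φ} (hm : S.Rep m w) (hn : S.Rep n w) (hm2 : m * m = 1) (hn2 : n * n = 1) :
    ∃ k ∈ S.H, k⁻¹ * m * k = n := by
  have hh : m * n⁻¹ ∈ S.H := by
    have := hm.mul hn.inv
    rw [mul_inv_cancel] at this
    exact S.mem_H_of_rep_one this
  set h := m * n⁻¹ with hhdef
  have hmh : m = h * n := by rw [hhdef]; group
  have hninv : n⁻¹ = n := inv_eq_of_mul_eq_one_left hn2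
  have hinv : n * h * n⁻¹ = h⁻¹ := by
    rw [hmh] at hm2
    rw [eq_comm, inv_eq_iff_mul_eq_one, hninv]
    calc h * (n * h * n) = h * n * (h * n) := by group
      _ = 1 := hm2
  have hq2 : Fintype.card F % 2 = 0 := by
    have : ringChar F = 2 := by
      have h3 : ringChar F ∣ 2 := (ringChar.spec F 2).1 (by exact_mod_cast h2F)
      rcases (Nat.dvd_prime Nat.prime_two).1 h3 with h4 | h4
      · exact absurd h4 (CharP.ringChar_ne_one (R := F))
      · exact h4
    exact FiniteField.even_card_of_char_two this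
  have hq1 : 1 < Fintype.card F := Fintype.one_lt_card
  set k := h ^ (Fintype.card F / 2) with hk
  have hk2 : k * k = h := by
    rw [hk, ← pow_add]
    have : Fintype.card F / 2 + Fintype.card F / 2 = (Fintype.card F - 1) + 1 := by omega
    rw [this, pow_succ, H_pow R (hH hh), one_mul]
  have hkH : k ∈ S.H := S.H.pow_mem hh _
  have hkinv : n * k * n⁻¹ = k⁻¹ := by
    rw [hk, ← conj_pow, hinv, inv_pow]
  refine ⟨k, hkH, ?_⟩
  have e1 : n * k = k⁻¹ * n := by rw [← hkinv]; group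
  calc k⁻¹ * m * k = k⁻¹ * (k * k) * (n * k) := by rw [hmh, ← hk2]; group
    _ = n := by rw [e1]; group

/-- an involution over the identity is trivial -/
theorem eq_one_of_rep_one [Fintype F] (h2F : (2 : F) = 0) (hH : S.H ≤ (chevSys R X).H) {m : GL D.Idx F}
    (hm : S.Rep m 1) (hm2 : m * m = 1) : m = 1 := by
  obtain ⟨k, _, h⟩ := sqrt_conj R X S h2F hH hm (S.rep_H (one_mem _)) hm2 (one_mul 1)
  have : m = k * 1 * k⁻¹ := by rw [← h]; group
  rw [this]; group

end sq

end H42.Inv2G
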