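import Cfsg.Agent.Lib.H42.Inv2P

/-!
Characteristic two: involutions of twisted groups.
-/

set_option autoImplicit false
set_option linter.unusedSectionVars false

namespace H42.Inv2T

open H22.RGD H22.Coord H22.RCCheck H22.RCComb H22.ChevTri H22.ChevRel H22.ChevSys H22.ChevMain
open H22.RCPack H42.InvCK H42.InvW H42.Inv2F H42.Inv2E H42.Inv2M H42.Inv2C H42.Inv2D
open Cfsg.Lie (ChevalleyDatum)
open scoped MatrixGroups Matrix

/-! ### orthogonality of roots, not both short -/

section so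

variable {Φ I : Type*} {C : RootComb Φ I} [Fintype I] [DecidableEq I] {K : CoordSys C} (Q : Frm K)

/-- orthogonal and not both short -/
def SO (r s : Φ) : Prop := ip Q r s = 0 ∧ ¬ (ip Q r r = 2 ∧ ip Q s s = 2)

theorem SO.symm {r s : Φ} (h : SO Q r s) : SO Q s r :=
  ⟨by rw [ip_comm]; exact h.1, fun h' => h.2 ⟨h'.2, h'.1⟩⟩

theorem so_W {w : Equiv.Perm Φ} (hw : w ∈ C.W) {r s : Φ} (h : SO Q r s) : SO Q (w r) (w s) := by
  unfold SO
  rw [ip_W Q hw, ip_W Q hw, ip_W Q hw]; exact h

/-- two orthogonal short roots add up to a long root -/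
def HL : Prop := ∀ r s : Φ, ip Q r s = 0 → ip Q r r = 2 → ip Q s s = 2 →
  ∃ l : Φ, ip Q l l ≠ 2 ∧ ∀ i, K.co l i = K.co r i + K.co s i

theorem neg_of_add [Finite Φ] {w : Equiv.Perm Φ} (hw : w ∈ C.W) {r s l : Φ}
    (h : ∀ i, K.co l i = K.co r i + K.co s i) (hr : w r = C.neg r) (hs : w s = C.neg s) :
    w l = C.neg l := by
  apply K.co_inj
  funext i
  have h1 : K.co (w l) i = K.co (w r) i + K.co (w s) i := by
    rw [K.co_of_mem hw, K.co_of_mem hw r, K.co_of_mem hw s, ← Finset.sum_add_distrib]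
    refine Finset.sum_congr rfl fun m _ => ?_
    rw [h]; ring
  rw [h1, hr, hs, K.co_neg, K.co_neg, K.co_neg, h]; ring

variable (hsc : ∀ r : Φ, ∃ L i, C.w L (C.simple i) = r)

/-- every involution of the Weyl group is a product of reflections in roots, pairwise orthogonal and
at most one of them short -/
theorem exists_so [Finite Φ] (hl : HL Q) : ∀ (n : ℕ) (w : Equiv.Perm Φ), w ∈ C.W → w * w = 1 →
    Nat.card {r : Φ // w r = C.neg r} = n →
    ∃ L : List Φ, L.Pairwise (SO Q) ∧ (L.map (rf hsc)).prod = w ∧ ∀ r ∈ L, w r = C.neg r := by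
  intro n
  induction n using Nat.strong_induction_on with
  | _ n ih =>
    intro w hw h2 hn
    by_cases hex : ∃ b, w b = C.neg b
    · obtain ⟨b, hb, hbl⟩ : ∃ b, w b = C.neg b ∧ (ip Q b b = 2 → ∀ l, w l = C.neg l → ip Q l l = 2) := by
        by_cases h3 : ∃ l, w l = C.neg l ∧ ip Q l l ≠ 2
        · obtain ⟨l, h4, h5⟩ := h3
          exact ⟨l, h4, fun h => absurd h h5⟩
        · push Not at h3
          obtain ⟨b, hb⟩ := hex
          exact ⟨b, hb, fun _ => h3⟩
      have hcomm : w * rf hsc b = rf hsc b * w := by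
        have := rf_conj hsc K hw b
        rw [hb, rf_neg hsc K] at this
        rw [eq_mul_inv_iff_mul_eq] at this
        exact this.symm
      set w' := rf hsc b * w with hw'
      have hw'W : w' ∈ C.W := C.W.mul_mem (rf_mem hsc b) hw
      have hw'2 : w' * w' = 1 := by
        have : w' * w' = rf hsc b * (w * rf hsc b) * w := by rw [hw']; group
        rw [this, hcomm]
        have : rf hsc b * (rf hsc b * w) * w = (rf hsc b * rf hsc b) * (w * w) := by group
        rw [this, rf_sq, h2, mul_one]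
      have hw'b : w' b = b := by
        rw [hw', Equiv.Perm.mul_apply, hb, C.W_neg (rf_mem hsc b), rf_self, C.neg_neg]
      have horth : ∀ r, w' r = C.neg r → ip Q b r = 0 := by
        intro r hr
        have h3 := ip_W Q hw'W b r
        rw [hw'b, hr, ip_neg_right] at h3
        omega
      have hw'' : w = rf hsc b * w' := by rw [hw', ← mul_assoc, rf_sq, one_mul]
      have hneg : ∀ r, w' r = C.neg r → w r = C.neg r := by
        intro r hr
        rw [hw'', Equiv.Perm.mul_apply, hr, C.W_neg (rf_mem hsc b), rf_fix Q hsc (horth r hr)]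
      have hlt : Nat.card {r : Φ // w' r = C.neg r} < n := by
        rw [← hn]
        have hbn : w' b ≠ C.neg b := by
          intro h3
          have h4 := horth b h3
          have := ip_self_pos Q hsc b
          omega
        rw [← Set.coe_ofPred, ← Set.coe_ofPred, Nat.card_coe_set_eq, Nat.card_coe_set_eq]
        apply Set.ncard_lt_ncard _ (Set.toFinite _)
        refine ⟨fun r hr => hneg r hr, fun h3 => hbn (h3 hb)⟩
      obtain ⟨L, hL1, hL2, hL3⟩ := ih _ hlt w' hw'W hw'2 rfl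
      refine ⟨b :: L, List.pairwise_cons.2 ⟨?_, hL1⟩, ?_, ?_⟩
      · intro r hr
        refine ⟨horth r (hL3 r hr), ?_⟩
        rintro ⟨h3, h4⟩
        obtain ⟨l, hl1, hl2⟩ := hl b r (horth r (hL3 r hr)) h3 h4
        exact hl1 (hbl h3 l (neg_of_add hw hl2 hb (hneg r (hL3 r hr))))
      · rw [List.map_cons, List.prod_cons, hL2, hw', ← mul_assoc, rf_sq, one_mul]
      · intro r hr
        rcases List.mem_cons.1 hr with rfl | hr
        · exact hb
        · exact hneg r (hL3 r hr)
    · obtain ⟨L, _, hL2, hL3⟩ := exists_orth hsc Q _ w hw h2 rfl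
      have : L = [] := by
        rcases L with _ | ⟨a, L⟩
        · rfl
        · exact absurd ⟨a, hL3 a List.mem_cons_self⟩ hex
      subst this
      exact ⟨[], List.Pairwise.nil, hL2, by simp⟩

end so

/-- the data for a twisted group -/
structure TEnv (D D' : ChevalleyDatum) (F : Type*) [Field F] where
  E : Env D F
  X' : RCX D'
  Q' : Frm (H22.RCComb.coord X')
  T' : ℕ
  A' : ℕ → ℕ → ℤ
  d' : ℕ → ℤ
  hco' : X'.rc.co = co T' D'.rank
  hA' : X'.rc.A = A'
  hd' : ∀ i : Fin D'.rank, Q'.d i = d' i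
  h0' : 0 < D'.nroots
  M : Sys (GL D.Idx F) (H22.RCComb.comb X')
  hΓ : M.Γ ≤ D.group F
  hH : M.H ≤ (chevSys E.R E.X).H
  word : Fin D'.rank → List (Fin D.rank)
  hn : ∀ J, M.n J = nsw E.R (word J)
  bl : Fin D'.nroots → List (Fin D.nroots)
  bl_refl : ∀ J c, ((bl c).map ((H22.RCComb.comb E.X).w (word J))).Perm
    (bl ((H22.RCComb.comb X').refl J c))
  bl_simple : ∀ J, (bl ((H22.RCComb.comb X').simple J)).Perm ((word J).map (H22.RCComb.comb E.X).simple)
  bl_neg : ∀ c, ((bl c).map (H22.RCComb.comb E.X).neg).Perm (bl ((H22.RCComb.comb X').neg c))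
  bl_orth : ∀ c, Orth E.Q (bl c)
  bl_so : ∀ c c', SO Q' c c' → ∀ r ∈ bl c, ∀ s ∈ bl c', ip E.Q r s = 0
  hx : ∀ J, aL E.R (bl ((H22.RCComb.comb X').simple J)) ∈ M.Γ
  hl : HL Q'

/-! ### characteristic two conjugation -/

section cj2

variable {D : ChevalleyDatum} {F : Type*} [Field F] (E : Env D F)

theorem nsw_conj (W : List (Fin D.rank)) (s : Fin D.nroots) (t : F) :
    nsw E.R W * xg E.R s t * (nsw E.R W)⁻¹ = xg E.R ((H22.RCComb.comb E.X).w W s : Fin D.nroots) t ∧
    nsw E.R W * ng E.R s t * (nsw E.R W)⁻¹ = ng E.R ((H22.RCComb.comb E.X).w W s : Fin D.nroots) t := by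
  have h2F := E.h2F
  have hn : (-1 : F) = 1 := by linear_combination (-1) * h2F
  obtain ⟨ε, h1, h2⟩ := exists_sign_word E.R E.X W
  have hε : ∀ s, ε s = 1 := by
    intro s
    rcases (h1 s).1 with h | h
    · exact h
    · rw [h, hn]
  have h3 := nsw_ng E.R E.X W h1 h2 s t
  have h4 := h2 s t
  rw [hε, one_mul] at h3 h4
  exact ⟨h4, h3⟩

theorem nsw_aL (W : List (Fin D.rank)) (L : List (Fin D.nroots)) :
    nsw E.R W * aL E.R L * (nsw E.R W)⁻¹ = aL E.R (L.map ((H22.RCComb.comb E.X).w W)) := by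
  induction L with
  | nil => simp [aL]
  | cons r L ih =>
    rw [aL_cons, List.map_cons, aL_cons, ← ih, ← (nsw_conj E W r 1).1]
    group

theorem nsw_nL (W : List (Fin D.rank)) (L : List (Fin D.nroots)) :
    nsw E.R W * nL E.R L * (nsw E.R W)⁻¹ = nL E.R (L.map ((H22.RCComb.comb E.X).w W)) := by
  induction L with
  | nil => simp [nL]
  | cons r L ih =>
    rw [nL_cons, List.map_cons, nL_cons, ← ih, ← (nsw_conj E W r 1).2]
    group

theorem aL_perm {L M : List (Fin D.nroots)} (hL : Orth E.Q L) (h : L.Perm M) :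
    aL E.R L = aL E.R M := by
  have hc2 : (L.map fun r : Fin D.nroots => xg E.R (r : ℕ) (1 : F)).Pairwise Commute := by
    rw [List.pairwise_map]
    exact hL.imp fun {r s} hrs => orth_commute E.R E.Q E.h2F E.hc hrs 1 1
  have h3 : (L.map fun r : Fin D.nroots => xg E.R (r : ℕ) (1 : F)).Perm
      (M.map fun r : Fin D.nroots => xg E.R (r : ℕ) (1 : F)) := h.map _
  exact h3.prod_eq' hc2

theorem nL_perm {L M : List (Fin D.nroots)} (hL : Orth E.Q L) (h : L.Perm M) :
    nL E.R L = nL E.R M := by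
  have hc2 : (L.map fun r : Fin D.nroots => ng E.R (r : ℕ) (1 : F)).Pairwise Commute := by
    rw [List.pairwise_map]
    exact hL.imp fun {r s} hrs => (φ_commute E.R E.Q E.h2F E.hc hrs 1).2.2
  have h3 : (L.map fun r : Fin D.nroots => ng E.R (r : ℕ) (1 : F)).Perm
      (M.map fun r : Fin D.nroots => ng E.R (r : ℕ) (1 : F)) := h.map _
  exact h3.prod_eq' hc2

theorem nL_append (L M : List (Fin D.nroots)) : nL E.R (L ++ M) = nL E.R L * nL E.R M := by
  simp [nL]
theorem yL_append (L M : List (Fin D.nroots)) : yL E.R (L ++ M) = yL E.R L * yL E.R M := by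
  simp [yL]

theorem nsw_append (L M : List (Fin D.rank)) : nsw E.R (L ++ M) = nsw E.R L * nsw E.R M := by
  simp [nsw]

theorem nL_simple (L : List (Fin D.rank)) :
    nL E.R (L.map (H22.RCComb.comb E.X).simple) = nsw E.R L := by
  induction L with
  | nil => rfl
  | cons i L ih => rw [List.map_cons, nL_cons, nsw_cons, ih]; rfl

theorem yL_eq (L : List (Fin D.nroots)) :
    yL E.R L = aL E.R (L.map (H22.RCComb.comb E.X).neg) := by
  unfold yL aL
  rw [List.map_map]
  rfl

end cj2

namespace TEnv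

variable {D D' : ChevalleyDatum} {F : Type*} [Field F] (V : TEnv D D' F)

/-- flattened words -/
def fw (L : List (Fin D'.rank)) : List (Fin D.rank) := L.flatMap V.word

theorem nw_eq (L : List (Fin D'.rank)) : V.M.nw L = nsw V.E.R (V.fw L) := by
  induction L with
  | nil => rfl
  | cons J L ih =>
    rw [Sys.nw_cons, ih, V.hn]
    unfold fw
    rw [List.flatMap_cons, nsw_append V.E]

theorem bl_w (L : List (Fin D'.rank)) (c : Fin D'.nroots) :
    ((V.bl c).map ((H22.RCComb.comb V.E.X).w (V.fw L))).Perm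
      (V.bl ((H22.RCComb.comb V.X').w L c)) := by
  induction L with
  | nil =>
    have : (H22.RCComb.comb V.E.X).w (V.fw []) = 1 := rfl
    rw [this]
    simp
  | cons J L ih =>
    have e : (H22.RCComb.comb V.E.X).w (V.fw (J :: L)) =
        (H22.RCComb.comb V.E.X).w (V.word J) * (H22.RCComb.comb V.E.X).w (V.fw L) := by
      unfold fw
      rw [List.flatMap_cons, RootComb.w_append]
    rw [e, RootComb.w_cons, Equiv.Perm.mul_apply]
    have h1 := ih.map ((H22.RCComb.comb V.E.X).w (V.word J))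
    rw [List.map_map] at h1
    exact h1.trans (V.bl_refl J _)

theorem a_mem (c : Fin D'.nroots) : aL V.E.R (V.bl c) ∈ V.M.Γ := by
  obtain ⟨L, J, rfl⟩ := hsc V.X' c
  have h1 := V.bl_w L ((H22.RCComb.comb V.X').simple J)
  rw [← aL_perm V.E (orth_map V.E.Q _ (V.bl_orth _)) h1, ← nsw_aL, ← V.nw_eq]
  have h2 : V.M.nw L ∈ V.M.Γ := V.M.N_le_Γ (V.M.nw_mem_N L)
  exact mul_mem (mul_mem h2 (V.hx J)) (inv_mem h2)

theorem rep_bl (c : Fin D'.nroots) : V.M.Rep (nL V.E.R (V.bl c)) (rf (hsc V.X') c) := by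
  obtain ⟨L, J, hL⟩ := hsc V.X' c
  have h0 : V.M.Rep (nL V.E.R (V.bl ((H22.RCComb.comb V.X').simple J)))
      ((H22.RCComb.comb V.X').refl J) := by
    rw [nL_perm V.E (V.bl_orth _) (V.bl_simple J), nL_simple, ← V.hn]
    exact V.M.rep_n J
  have h1 := V.bl_w L ((H22.RCComb.comb V.X').simple J)
  rw [hL] at h1
  rw [← nL_perm V.E (orth_map V.E.Q _ (V.bl_orth _)) h1, ← nsw_nL, ← V.nw_eq,
    rf_eq (hsc V.X') (H22.RCComb.coord V.X') ((H22.RCComb.comb V.X').w_mem L) J hL]
  exact ((V.M.rep_nw L).mul h0).mul (V.M.rep_nw L).inv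

/-- blocks of a list -/
def fb (L : List (Fin D'.nroots)) : List (Fin D.nroots) := L.flatMap V.bl

theorem fb_cons (c : Fin D'.nroots) (L : List (Fin D'.nroots)) : V.fb (c :: L) = V.bl c ++ V.fb L := rfl
theorem fb_append (L L' : List (Fin D'.nroots)) : V.fb (L ++ L') = V.fb L ++ V.fb L' := by
  unfold fb; rw [List.flatMap_append]

/-- the element of a list -/
noncomputable def el (L : List (Fin D'.nroots)) : GL D.Idx F := aL V.E.R (V.fb L)

theorem el_cons (c : Fin D'.nroots) (L : List (Fin D'.nroots)) :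
    V.el (c :: L) = aL V.E.R (V.bl c) * V.el L := by
  unfold el; rw [fb_cons, aL_append]

theorem el_append (L L' : List (Fin D'.nroots)) : V.el (L ++ L') = V.el L * V.el L' := by
  unfold el; rw [fb_append, aL_append]

theorem el_mem (L : List (Fin D'.nroots)) : V.el L ∈ V.M.Γ := by
  induction L with
  | nil => unfold el fb aL; simp
  | cons c L ih => rw [el_cons]; exact mul_mem (V.a_mem c) ih

/-- lists of orthogonal roots, at most one short -/
abbrev SOL (L : List (Fin D'.nroots)) : Prop := L.Pairwise (SO V.Q')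

theorem fb_orth {L : List (Fin D'.nroots)} (hL : V.SOL L) : Orth V.E.Q (V.fb L) := by
  induction L with
  | nil => exact List.Pairwise.nil
  | cons c L ih =>
    have hL' := List.pairwise_cons.1 hL
    rw [fb_cons]
    refine List.pairwise_append.2 ⟨V.bl_orth c, ih hL'.2, ?_⟩
    intro r hr s hs
    obtain ⟨c', hc', hs'⟩ := List.mem_flatMap.1 hs
    exact V.bl_so c c' (hL'.1 c' hc') r hr s hs'

theorem rep_fb (L : List (Fin D'.nroots)) :
    V.M.Rep (nL V.E.R (V.fb L)) (L.map (rf (hsc V.X'))).prod := by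
  induction L with
  | nil => exact V.M.rep_H (one_mem _)
  | cons c L ih =>
    rw [fb_cons, nL_append V.E, List.map_cons, List.prod_cons]
    exact (V.rep_bl c).mul ih

theorem y_mem (L : List (Fin D'.nroots)) : yL V.E.R (V.fb L) ∈ V.M.Γ := by
  induction L with
  | nil => unfold fb yL; simp
  | cons c L ih =>
    rw [fb_cons, yL_append V.E]
    refine mul_mem ?_ ih
    rw [yL_eq, aL_perm V.E _ (V.bl_neg c)]
    · exact V.a_mem _
    · unfold Orth
      rw [List.pairwise_map]
      exact (V.bl_orth c).imp fun {r s} hrs => by rw [ip_neg_left, ip_neg_right, hrs]; simp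

/-- every involution is conjugate to the element of a list of orthogonal roots, at most one short -/
theorem to_list [Fintype F] {t : GL D.Idx F} (ht : t ∈ V.M.Γ) (h2 : t * t = 1) :
    ∃ L : List (Fin D'.nroots), V.SOL L ∧ ∃ g ∈ V.M.Γ, g * t * g⁻¹ = V.el L := by
  obtain ⟨g, hg, hgN⟩ := H42.Inv2N.conj_N V.M (H22.RCComb.coord V.X') ht h2
  obtain ⟨w, hw⟩ := V.M.exists_rep hgN
  set m := g * t * g⁻¹ with hm
  have hm2 : m * m = 1 := by
    have : m * m = g * (t * t) * g⁻¹ := by rw [hm]; group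
    rw [this, h2]; simp
  have hw2 : w * w = 1 := by
    have h1 := hw.mul hw
    rw [hm2] at h1
    exact h1.unique (V.M.rep_H V.M.H.one_mem)
  obtain ⟨L, hL1, hL2, _⟩ := exists_so V.Q' (hsc V.X') V.hl _ w hw.2.1 hw2 rfl
  have hn := V.rep_fb L
  rw [hL2] at hn
  have hLo := V.fb_orth hL1
  have hn2 := nL_sq V.E.R V.E.Q V.E.h2F V.E.hc hLo
  set n := nL V.E.R (V.fb L) with hnn
  have hh : m * n⁻¹ ∈ V.M.H := by
    have := hw.mul hn.inv
    rw [mul_inv_cancel] at this
    exact V.M.mem_H_of_rep_one this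
  set h := m * n⁻¹ with hhdef
  have hmh : m = h * n := by rw [hhdef]; group
  have hninv : n⁻¹ = n := inv_eq_of_mul_eq_one_left hn2
  have hinv : n * h * n⁻¹ = h⁻¹ := by
    rw [hmh] at hm2
    rw [eq_comm, inv_eq_iff_mul_eq_one, hninv]
    calc h * (n * h * n) = h * n * (h * n) := by group
      _ = 1 := hm2
  have hq2 : Fintype.card F % 2 = 0 := by
    have : ringChar F = 2 := by
      have h3 : ringChar F ∣ 2 := (ringChar.spec F 2).1 (by exact_mod_cast V.E.h2F)
      rcases (Nat.dvd_prime Nat.prime_two).1 h3 with h4 | h4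
      · exact absurd h4 (CharP.ringChar_ne_one (R := F))
      · exact h4
    exact FiniteField.even_card_of_char_two this
  have hq1 : 1 < Fintype.card F := Fintype.one_lt_card
  set k := h ^ (Fintype.card F / 2) with hk
  have hk2 : k * k = h := by
    rw [hk, ← pow_add]
    have : Fintype.card F / 2 + Fintype.card F / 2 = (Fintype.card F - 1) + 1 := by omega
    rw [this, pow_succ, H_pow V.E.R (V.hH hh), one_mul]
  have hkH : k ∈ V.M.H := V.M.H.pow_mem hh _
  have hkinv : n * k * n⁻¹ = k⁻¹ := by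
    rw [hk, ← conj_pow, hinv, inv_pow]
  have hconj : k⁻¹ * m * k = n := by
    have e1 : n * k = k⁻¹ * n := by rw [← hkinv]; group
    calc k⁻¹ * m * k = k⁻¹ * (k * k) * (n * k) := by rw [hmh, ← hk2]; group
      _ = n := by rw [e1]; group
  have hfin := nL_conj V.E.R V.E.Q V.E.h2F V.E.hc V.E.K hLo
  refine ⟨L, hL1, yL V.E.R (V.fb L) * k⁻¹ * g, ?_, ?_⟩
  · exact mul_mem (mul_mem (V.y_mem L) (inv_mem (V.M.B_le_Γ (V.M.H_le_B hkH)))) hg
  · have e2 : yL V.E.R (V.fb L) * k⁻¹ * g * t * (yL V.E.R (V.fb L) * k⁻¹ * g)⁻¹ =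
        yL V.E.R (V.fb L) * (k⁻¹ * m * k) * (yL V.E.R (V.fb L))⁻¹ := by
      rw [hm]; group
    rw [e2, hconj, hfin]
    unfold el
    group

/-- conjugacy in the twisted group -/
def CjT (L M : List (Fin D'.nroots)) : Prop := ∃ g ∈ V.M.Γ, g * V.el L * g⁻¹ = V.el M

variable {V}

theorem CjT.trans {L M N : List (Fin D'.nroots)} (h : V.CjT L M) (h' : V.CjT M N) : V.CjT L N := by
  obtain ⟨g, hg, e⟩ := h
  obtain ⟨g', hg', e'⟩ := h'
  exact ⟨g' * g, mul_mem hg' hg, by rw [← e', ← e]; group⟩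

theorem CjT.symm {L M : List (Fin D'.nroots)} (h : V.CjT L M) : V.CjT M L := by
  obtain ⟨g, hg, e⟩ := h
  exact ⟨g⁻¹, inv_mem hg, by rw [← e]; group⟩

variable (V)

theorem sol_map (W : List (Fin D'.rank)) {L : List (Fin D'.nroots)} (hL : V.SOL L) :
    V.SOL (L.map ((H22.RCComb.comb V.X').w W)) := by
  unfold SOL
  rw [List.pairwise_map]
  exact hL.imp fun {r s} hrs => so_W V.Q' ((H22.RCComb.comb V.X').w_mem W) hrs

theorem sol_perm {L M : List (Fin D'.nroots)} (hL : V.SOL L) (h : L.Perm M) : V.SOL M :=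
  hL.perm h (fun hrs => hrs.symm)

theorem cjT_map (W : List (Fin D'.rank)) {L : List (Fin D'.nroots)} (hL : V.SOL L) :
    V.CjT L (L.map ((H22.RCComb.comb V.X').w W)) := by
  refine ⟨V.M.nw W, V.M.N_le_Γ (V.M.nw_mem_N W), ?_⟩
  unfold el
  rw [V.nw_eq, nsw_aL]
  apply aL_perm V.E (orth_map V.E.Q _ (V.fb_orth hL))
  clear hL
  induction L with
  | nil => exact List.Perm.refl _
  | cons c L ih =>
    rw [fb_cons, List.map_append, List.map_cons, fb_cons]
    exact (V.bl_w W c).append ih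

theorem cjT_perm {L M : List (Fin D'.nroots)} (hL : V.SOL L) (h : L.Perm M) : V.CjT L M := by
  refine ⟨1, one_mem _, ?_⟩
  have : V.el L = V.el M := aL_perm V.E (V.fb_orth hL) (h.flatMap_right _)
  rw [this]; simp

end TEnv

end H42.Inv2T
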