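import Cfsg.Agent.Lib.H42.Inv2TD4a
import Cfsg.Agent.Lib.H22.PoinG2
import Cfsg.Agent.Lib.H22.TwD4b
import Cfsg.Agent.Lib.H22.ChevAll
import Cfsg.Agent.Lib.H23.ChevAll

/-!
Characteristic two, type ³D₄: classification of involutions.
-/

set_option autoImplicit false
set_option maxRecDepth 100000

namespace H42.Inv2TD4

open H22.RGD H22.Coord H22.RCPack H42.Inv2M H42.Inv2D H42.Inv2E H42.Inv2C H42.Inv2F H22.ChevRel
open H22.ChevUni H42.Inv2P H42.Inv2T H42.Inv2T.TEnv H42.Inv2V H22.TwThm H22.RCComb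

/-- lengths -/
def dd : ℕ → ℤ := fun _ => 1
/-- lengths -/
def dg : ℕ → ℤ := fun i => bif Nat.beq i 1 then 3 else 1

/-- the form -/
def frm : Frm (H22.RCComb.coord H22.PoinD4.rcxD4) :=
  frmOf H22.PoinD4.rcxD4 H22.RCSmall.matD4 dd rfl (by decide +kernel) (by decide +kernel)

/-- the form -/
def frm' : Frm (H22.RCComb.coord H22.PoinG2.rcxG2) :=
  frmOf H22.PoinG2.rcxG2 H22.RCSmall.matG2 dg rfl (by decide +kernel) (by decide +kernel)

/-- the environment -/
noncomputable def env {F : Type*} [Field F] (h2F : (2 : F) = 0) : Env Cfsg.Lie.chevD4 F where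
  R := H22.TwD4.RR F
  X := H22.PoinD4.rcxD4
  Q := frm
  h2F := h2F
  hc := hc
  K := H23.ChevAll.core Cfsg.Lie.chevD4 (by simp)
  T := H22.RCSmall.tabD4
  A := H22.RCSmall.matD4
  d := dd
  hco := rfl
  hA := rfl
  hd := fun _ => rfl
  h0 := by decide

/-- blocks -/
def tb (c : ℕ) : List ℕ := H22.TwDat.ttD4.bk.getD c []
/-- words -/
def wds (J : ℕ) : List ℕ := H22.TwDat.ttD4.words.getD J []

theorem c1 : ck1 tb Cfsg.Lie.chevD4 Cfsg.Lie.chevG2 = true := by decide +kernel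
theorem c3a : ck3 tb wds Cfsg.Lie.chevD4 Cfsg.Lie.chevG2 0 = true := by decide +kernel
theorem c3b : ck3 tb wds Cfsg.Lie.chevD4 Cfsg.Lie.chevG2 1 = true := by decide +kernel
theorem c4 : ck4 tb wds Cfsg.Lie.chevD4 Cfsg.Lie.chevG2 = true := by decide +kernel
theorem c5 : ck5 tb Cfsg.Lie.chevD4 Cfsg.Lie.chevG2 = true := by decide +kernel
theorem c6 : ck6 H22.RCSmall.tabD4 H22.RCSmall.matD4 dd tb Cfsg.Lie.chevD4 Cfsg.Lie.chevG2 = true := by
  decide +kernel
theorem c7 : ck7 H22.RCSmall.tabD4 H22.RCSmall.matD4 dd H22.RCSmall.tabG2 H22.RCSmall.matG2 dg tb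
    Cfsg.Lie.chevD4 Cfsg.Lie.chevG2 = true := by decide +kernel
theorem c8 : ck8 H22.RCSmall.tabG2 H22.RCSmall.matG2 dg Cfsg.Lie.chevG2 = true := by decide +kernel

section

variable {K : Type*} [Field K] [Fintype K] (h2F : (2 : K) = 0) (φ : K →+* K)
  (hφ : Function.Surjective φ)

/-- the system -/
noncomputable abbrev MM : Sys (GL Cfsg.Lie.chevD4.Idx K) (H22.RCComb.comb H22.PoinG2.rcxG2) :=
  M (H22.TwD4.T (H22.TwD4.RR K) (H22.St.hmul_all _ H22.TwD4.memD4) φ hφ).tw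

theorem mem_of_X1 {J : Fin Cfsg.Lie.chevG2.rank} {g : ↥(Cfsg.Lie.chevD4.group K)}
    (h : g ∈ X1 ((H22.TwD4.St (H22.TwD4.RR K) (H22.St.hmul_all _ H22.TwD4.memD4)).stSys
      H22.PoinD4.rcxD4 H22.ChevLex.lexD4 H22.TwD4.certD4')
      (H22.TwD4.A (H22.TwD4.RR K) (H22.St.hmul_all _ H22.TwD4.memD4) φ hφ).σ
      (H22.TwD4.E (H22.TwD4.RR K) (H22.St.hmul_all _ H22.TwD4.memD4) φ hφ).clF
      ((H22.RCComb.comb H22.PoinG2.rcxG2).simple J)) : (g : GL Cfsg.Lie.chevD4.Idx K) ∈ (MM φ hφ).Γ := by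
  refine (le_of_eq (M_Γ _).symm : _ ≤ _) (Subgroup.mem_map_of_mem (Cfsg.Lie.chevD4.group K).subtype ?_)
  set TT := (H22.TwD4.T (H22.TwD4.RR K) (H22.St.hmul_all _ H22.TwD4.memD4) φ hφ).tw
  exact TT.sys.B_le_Γ (TT.sys.U_le_B (TT.sys.X_le_U ((H22.RCComb.comb H22.PoinG2.rcxG2).simple_pos J) h))

theorem hx (J : Fin Cfsg.Lie.chevG2.rank) :
    aL (env h2F).R ((env h2F).fl (tb (Cfsg.Lie.chevG2.simple J))) ∈ (MM φ hφ).Γ := by
  rcases H22.TwD4.two J with rfl | rfl
  · have h1 := mem_of_X1 φ hφ ((H22.TwD4.m0 (H22.TwD4.RR K) (H22.St.hmul_all _ H22.TwD4.memD4) φ hφ).2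
      ⟨1, by simp, rfl⟩)
    convert h1 using 1
    unfold H22.TwD4.xs
    rw [map_one, map_one]
    have e : (env h2F).fl (tb (Cfsg.Lie.chevG2.simple ((0 : Fin 2) : ℕ))) = (env h2F).fl [18, 13, 12] := rfl
    have e2 : aL (env h2F).R ((env h2F).fl [18, 13, 12]) = xg (env h2F).R 18 1 * (xg (env h2F).R 13 1 *
        (xg (env h2F).R 12 1 * 1)) := rfl
    refine (congrArg _ e).trans (e2.trans ?_)
    rw [mul_one, ← mul_assoc]
    rfl
  · have h1 := mem_of_X1 φ hφ ((H22.TwD4.m1 (H22.TwD4.RR K) (H22.St.hmul_all _ H22.TwD4.memD4) φ hφ).2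
      ⟨1, by simp, rfl⟩)
    convert h1 using 1
    have e : (env h2F).fl (tb (Cfsg.Lie.chevG2.simple ((1 : Fin 2) : ℕ))) = (env h2F).fl [14] := rfl
    have e2 : aL (env h2F).R ((env h2F).fl [14]) = xg (env h2F).R 14 1 * 1 := rfl
    refine (congrArg _ e).trans (e2.trans ?_)
    rw [mul_one]
    rfl

/-- the twisted environment -/
noncomputable def tv : TEnv Cfsg.Lie.chevD4 Cfsg.Lie.chevG2 K :=
  tenv (T' := H22.RCSmall.tabG2) (A' := H22.RCSmall.matG2) (d' := dg) (tb := tb) (wds := wds)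
    (env h2F) H22.PoinG2.rcxG2 frm' rfl rfl (fun _ => rfl) (by decide) (MM φ hφ)
    (M_Γ_le _) (M_H_le _)
    (fun J => (H22.TwD4.E (H22.TwD4.RR K) (H22.St.hmul_all _ H22.TwD4.memD4) φ hφ).wd J)
    (fun J => (H22.TwD4.E (H22.TwD4.RR K) (H22.St.hmul_all _ H22.TwD4.memD4) φ hφ).wd_val J)
    (fun J => M_n _ J)
    c1 (by
      intro J hJ
      have hJ' : J < 2 := hJ
      interval_cases J
      · exact c3a
      · exact c3b) c4 c5 c6 c7 c8 (hx h2F φ hφ)

theorem htb : ∀ c < Cfsg.Lie.chevG2.nroots,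
    ((tv h2F φ hφ).bl (fn (tv h2F φ hφ).h0' c)).map Fin.val = tb c := by
  intro c hc
  have e : (tv h2F φ hφ).bl (fn (tv h2F φ hφ).h0' c) =
      (env h2F).fl (tb (fn (tv h2F φ hφ).h0' c : Fin Cfsg.Lie.chevG2.nroots)) := rfl
  rw [e, fn_val (tv h2F φ hφ).h0' hc]
  exact (env h2F).fl_val (allN_spec c1 c hc)

/-- the representatives -/
def Ts : List (List ℕ) := [[11], [9]]

local notation "ckN" => Env.ckNode H22.RCSmall.tabG2 H22.RCSmall.matG2 dg Cfsg.Lie.chevG2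

theorem n0 : ckN [] 3 [9, 11] = true := by decide +kernel
theorem n11 : ckN [11] 1 [7] = true := by decide +kernel
theorem n9 : ckN [9] 2 [6] = true := by decide +kernel

theorem r1 : TEnv.ckRw H22.RCSmall.tabG2 H22.RCSmall.matG2 dg O tb Cfsg.Lie.chevD4 Cfsg.Lie.chevG2
    [7, 6, 3] [11, 7] [9] = true := by decide +kernel
theorem r1s : (([7, 6, 3] : List ℕ).flatMap tb ++ ([11, 7] : List ℕ).flatMap tb ++
    ([9] : List ℕ).flatMap tb) ⊆ Rs := by decide

theorem m1 : Env.ckMove Cfsg.Lie.chevG2 [] [11, 7] ([11, 7] ++ []) = true := by decide +kernel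
theorem m2 : Env.ckMove Cfsg.Lie.chevG2 [1, 0] [9, 6] ([11, 7] ++ []) = true := by decide +kernel
theorem t1 : Env.ckMove Cfsg.Lie.chevG2 [] [11] [11] = true := by decide +kernel
theorem t2 : Env.ckMove Cfsg.Lie.chevG2 [] [9] [9] = true := by decide +kernel
theorem q1 : ckSOL H22.RCSmall.tabG2 H22.RCSmall.matG2 dg Cfsg.Lie.chevG2 [11] = true := by decide +kernel
theorem q2 : ckSOL H22.RCSmall.tabG2 H22.RCSmall.matG2 dg Cfsg.Lie.chevG2 [9] = true := by decide +kernel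

theorem cls : ∀ L : List (Fin Cfsg.Lie.chevG2.nroots), (tv h2F φ hφ).SOL L → L ≠ [] →
    (tv h2F φ hφ).Goal Ts L := by
  have key : ∀ n, ∀ L : List (Fin Cfsg.Lie.chevG2.nroots), L.length = n → (tv h2F φ hφ).SOL L →
      L ≠ [] → (tv h2F φ hφ).Goal Ts L := by
    intro n
    induction n using Nat.strong_induction_on with
    | _ n ih =>
      have Nl := (tv h2F φ hφ).node (P := [11]) n11 (G := (tv h2F φ hφ).Goal Ts)
        (fun _ _ h h' => h'.tr h) (n := n) (fun _ => (tv h2F φ hφ).goal_end q1 t1 (by decide)) (by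
          intro θ hθ
          simp only [List.mem_cons, List.not_mem_nil, or_false] at hθ
          subst hθ
          exact (tv h2F φ hφ).goal_red (htb h2F φ hφ) ckO r1s r1 (by decide) (by decide) (ex := []) m1 ih)
      have Ns := (tv h2F φ hφ).node (P := [9]) n9 (G := (tv h2F φ hφ).Goal Ts)
        (fun _ _ h h' => h'.tr h) (n := n) (fun _ => (tv h2F φ hφ).goal_end q2 t2 (by decide)) (by
          intro θ hθ
          simp only [List.mem_cons, List.not_mem_nil, or_false] at hθ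
          subst hθ
          exact (tv h2F φ hφ).goal_red (htb h2F φ hφ) ckO r1s r1 (by decide) (by decide) (ex := []) m2 ih)
      intro L hL ho hne
      have h0 : 0 < n := by rw [← hL]; exact List.length_pos_iff.2 hne
      have N0 := (tv h2F φ hφ).node (P := []) n0 (G := (tv h2F φ hφ).Goal Ts)
        (fun _ _ h h' => h'.tr h) (n := n) (fun h => absurd h (by simp only [List.length_nil]; omega)) (by
          intro θ hθ
          simp only [List.mem_cons, List.not_mem_nil, or_false] at hθ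
          rcases hθ with rfl | rfl
          · exact Ns
          · exact Nl)
      exact N0 L (by simpa using hL) ho
  intro L
  exact key L.length L rfl

theorem hB : ∀ Y ∈ Ts, ckB Cfsg.Lie.chevG2 Y = true := by decide

theorem horth : ∀ Y ∈ Ts, (tv h2F φ hφ).SOL ((tv h2F φ hφ).fl Y) := by
  intro Y hY
  unfold Ts at hY
  simp only [List.mem_cons, List.not_mem_nil, or_false] at hY
  rcases hY with rfl | rfl
  · exact (tv h2F φ hφ).sol_spec q1
  · exact (tv h2F φ hφ).sol_spec q2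

include h2F in
omit [Fintype K] in
theorem rk : ∀ Y ∈ Ts, ∀ Y' ∈ Ts,
    rkP (2 ^ 28 - 1) (wm Cfsg.Lie.chevD4 K (Y.flatMap tb)) =
      rkP (2 ^ 28 - 1) (wm Cfsg.Lie.chevD4 K (Y'.flatMap tb)) → Y = Y' := by
  intro Y hY Y' hY'
  unfold Ts at hY hY'
  simp only [List.mem_cons, List.not_mem_nil, or_false] at hY hY'
  have e1 : ([11] : List ℕ).flatMap tb = [23] := by decide
  have e2 : ([9] : List ℕ).flatMap tb = [21, 20, 17] := by decide
  rcases hY with rfl | rfl <;> rcases hY' with rfl | rfl <;>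
    simp only [e1, e2, rk1 h2F, rk2 h2F] <;> decide

include h2F in
omit [Fintype K] in
theorem rkne : ∀ Y ∈ Ts, rkP (2 ^ 28 - 1) (wm Cfsg.Lie.chevD4 K (Y.flatMap tb)) ≠
    rkP (2 ^ 28 - 1) (1 : Matrix Cfsg.Lie.chevD4.Idx Cfsg.Lie.chevD4.Idx K) := by
  intro Y hY
  unfold Ts at hY
  simp only [List.mem_cons, List.not_mem_nil, or_false] at hY
  rw [rkP_one]
  have e1 : ([11] : List ℕ).flatMap tb = [23] := by decide
  have e2 : ([9] : List ℕ).flatMap tb = [21, 20, 17] := by decide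
  rcases hY with rfl | rfl <;>
    simp only [e1, e2, rk1 h2F, rk2 h2F] <;> decide

include h2F in
theorem card {q : ℕ} (hG : (MM φ hφ).Γ = Cfsg.Lie.twistedD4 K q) :
    (ConjClasses.mk '' {g : ↥(Cfsg.Lie.twistedD4 K q) | orderOf g = 2}).ncard = 2 :=
  (tv h2F φ hφ).final_card (Ts := Ts) (tb := tb) (htb h2F φ hφ) (cls h2F φ hφ) (horth h2F φ hφ)
    (rkP (D := Cfsg.Lie.chevD4) (F := K) (2 ^ 28 - 1))
    (fun g _ M => rk_full_conj (D := Cfsg.Lie.chevD4) (N := 28) (by decide) g M)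
    (rk h2F) (rkne h2F) hB (by decide) hG

end

/-- the theorem -/
theorem main {K : Type*} [Field K] [Fintype K] (h2F : (2 : K) = 0) {q : ℕ} (hq : IsPrimePow q)
    (hK : Fintype.card K = q ^ 3) :
    (ConjClasses.mk '' {g : ↥(Cfsg.Lie.twistedD4 K q) | orderOf g = 2}).ncard = 2 := by
  have hK' : Nat.card K = q ^ 3 := by rw [Nat.card_eq_fintype_card]; exact hK
  obtain ⟨φ, hφ, hφq⟩ := H22.TwAut.exists_frob hq (by norm_num : (3 : ℕ) ≠ 0) hK'
  have h3 : ∀ t : K, φ (φ (φ t)) = t := by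
    intro t
    rw [hφq, hφq, hφq, ← pow_mul, ← pow_mul]
    have := FiniteField.pow_card t
    rwa [hK, show q ^ 3 = q * (q * q) by ring] at this
  exact card h2F φ hφ (H22.TwD4.Γ_eq (H22.TwD4.RR K) (H22.St.hmul_all _ H22.TwD4.memD4) φ hφ h3 hφq)

end H42.Inv2TD4
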