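import Cfsg.Agent.Lib.H42.Inv2TE6a
import Cfsg.Agent.Lib.H22.PoinF4
import Cfsg.Agent.Lib.H22.TwE6c
import Cfsg.Agent.Lib.H22.ChevAll
import Cfsg.Agent.Lib.H23.ChevAll

/-!
Characteristic two, type ²E₆: classification of involutions.
-/

set_option autoImplicit false
set_option maxRecDepth 100000

namespace H42.Inv2TE6

open H22.RGD H22.Coord H22.RCPack H42.Inv2M H42.Inv2D H42.Inv2E H42.Inv2C H42.Inv2F H22.ChevRel
open H22.ChevUni H42.Inv2P H42.Inv2T H42.Inv2T.TEnv H42.Inv2V H22.TwThm H22.RCComb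

/-- lengths -/
def dd : ℕ → ℤ := fun _ => 1
/-- lengths -/
def dg : ℕ → ℤ := fun i => bif Nat.ble 2 i then 2 else 1

/-- the form -/
def frm : Frm (H22.RCComb.coord H22.PoinE6.rcxE6) :=
  frmOf H22.PoinE6.rcxE6 H22.RCE6.matE6 dd rfl (by decide +kernel) (by decide +kernel)

/-- the form -/
def frm' : Frm (H22.RCComb.coord H22.PoinF4.rcxF4) :=
  frmOf H22.PoinF4.rcxF4 H22.RCSmall.matF4 dg rfl (by decide +kernel) (by decide +kernel)

/-- the environment -/
noncomputable def env {F : Type*} [Field F] (h2F : (2 : F) = 0) : Env Cfsg.Lie.chevE6 F where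
  R := H22.TwE6.RR F
  X := H22.PoinE6.rcxE6
  Q := frm
  h2F := h2F
  hc := hc
  K := H23.ChevAll.core Cfsg.Lie.chevE6 (by simp)
  T := H22.RCE6.tabE6
  A := H22.RCE6.matE6
  d := dd
  hco := rfl
  hA := rfl
  hd := fun _ => rfl
  h0 := by decide

/-- blocks -/
def tb (c : ℕ) : List ℕ := H22.TwDat.ttE6.bk.getD c []
/-- words -/
def wds (J : ℕ) : List ℕ := H22.TwDat.ttE6.words.getD J []

theorem c1 : ck1 tb Cfsg.Lie.chevE6 Cfsg.Lie.chevF4 = true := by decide +kernel
theorem c3a : ck3 tb wds Cfsg.Lie.chevE6 Cfsg.Lie.chevF4 0 = true := by decide +kernel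
theorem c3b : ck3 tb wds Cfsg.Lie.chevE6 Cfsg.Lie.chevF4 1 = true := by decide +kernel
theorem c3c : ck3 tb wds Cfsg.Lie.chevE6 Cfsg.Lie.chevF4 2 = true := by decide +kernel
theorem c3d : ck3 tb wds Cfsg.Lie.chevE6 Cfsg.Lie.chevF4 3 = true := by decide +kernel
theorem c4 : ck4 tb wds Cfsg.Lie.chevE6 Cfsg.Lie.chevF4 = true := by decide +kernel
theorem c5 : ck5 tb Cfsg.Lie.chevE6 Cfsg.Lie.chevF4 = true := by decide +kernel
theorem c6 : ck6 H22.RCE6.tabE6 H22.RCE6.matE6 dd tb Cfsg.Lie.chevE6 Cfsg.Lie.chevF4 = true := by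
  decide +kernel
theorem c7 : ck7 H22.RCE6.tabE6 H22.RCE6.matE6 dd H22.RCSmall.tabF4 H22.RCSmall.matF4 dg tb
    Cfsg.Lie.chevE6 Cfsg.Lie.chevF4 = true := by decide +kernel
theorem c8 : ck8 H22.RCSmall.tabF4 H22.RCSmall.matF4 dg Cfsg.Lie.chevF4 = true := by decide +kernel

section

variable {K : Type*} [Field K] [Fintype K] (h2F : (2 : K) = 0) (φ : K →+* K)
  (hφ : Function.Surjective φ)

/-- the system -/
noncomputable abbrev MM : Sys (GL Cfsg.Lie.chevE6.Idx K) (H22.RCComb.comb H22.PoinF4.rcxF4) :=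
  M (H22.TwE6.T (H22.TwE6.RR K) (H22.St.hmul_all _ H22.TwE6.memE6) φ hφ).tw

theorem mem_of_X1 {J : Fin Cfsg.Lie.chevF4.rank} {g : ↥(Cfsg.Lie.chevE6.group K)}
    (h : g ∈ X1 ((H22.TwE6.St (H22.TwE6.RR K) (H22.St.hmul_all _ H22.TwE6.memE6)).stSys
      H22.PoinE6.rcxE6 H22.ChevLex.lexE6 H22.TwE6.certE6')
      (H22.TwE6.A (H22.TwE6.RR K) (H22.St.hmul_all _ H22.TwE6.memE6) φ hφ).σ
      (H22.TwE6.E (H22.TwE6.RR K) (H22.St.hmul_all _ H22.TwE6.memE6) φ hφ).clF
      ((H22.RCComb.comb H22.PoinF4.rcxF4).simple J)) : (g : GL Cfsg.Lie.chevE6.Idx K) ∈ (MM φ hφ).Γ := by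
  refine (le_of_eq (M_Γ _).symm : _ ≤ _) (Subgroup.mem_map_of_mem (Cfsg.Lie.chevE6.group K).subtype ?_)
  set TT := (H22.TwE6.T (H22.TwE6.RR K) (H22.St.hmul_all _ H22.TwE6.memE6) φ hφ).tw
  exact TT.sys.B_le_Γ (TT.sys.U_le_B (TT.sys.X_le_U ((H22.RCComb.comb H22.PoinF4.rcxF4).simple_pos J) h))

theorem hx (J : Fin Cfsg.Lie.chevF4.rank) :
    aL (env h2F).R ((env h2F).fl (tb (Cfsg.Lie.chevF4.simple J))) ∈ (MM φ hφ).Γ := by
  rcases H22.TwE6.four J with rfl | rfl | rfl | rfl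
  · have h1 := mem_of_X1 φ hφ ((H22.TwE6.m0 (H22.TwE6.RR K) (H22.St.hmul_all _ H22.TwE6.memE6) φ hφ).2
      ⟨1, by simp, rfl⟩)
    convert h1 using 1
    unfold H22.TwE6.xs
    rw [map_one]
    have e : (env h2F).fl (tb (Cfsg.Lie.chevF4.simple ((0 : Fin 4) : ℕ))) = (env h2F).fl [56, 36] := rfl
    have e2 : aL (env h2F).R ((env h2F).fl [56, 36]) = xg (env h2F).R 56 1 * (xg (env h2F).R 36 1 * 1) := rfl
    refine (congrArg _ e).trans (e2.trans ?_)
    rw [mul_one]
    rfl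
  · have h1 := mem_of_X1 φ hφ ((H22.TwE6.m1 (H22.TwE6.RR K) (H22.St.hmul_all _ H22.TwE6.memE6) φ hφ).2
      ⟨1, by simp, rfl⟩)
    convert h1 using 1
    unfold H22.TwE6.xs
    rw [map_one]
    have e : (env h2F).fl (tb (Cfsg.Lie.chevF4.simple ((1 : Fin 4) : ℕ))) = (env h2F).fl [42, 37] := rfl
    have e2 : aL (env h2F).R ((env h2F).fl [42, 37]) = xg (env h2F).R 42 1 * (xg (env h2F).R 37 1 * 1) := rfl
    refine (congrArg _ e).trans (e2.trans ?_)
    rw [mul_one]
    rfl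
  · have h1 := mem_of_X1 φ hφ ((H22.TwE6.m2 (H22.TwE6.RR K) (H22.St.hmul_all _ H22.TwE6.memE6) φ hφ).2
      ⟨1, by simp, rfl⟩)
    convert h1 using 1
    have e : (env h2F).fl (tb (Cfsg.Lie.chevF4.simple ((2 : Fin 4) : ℕ))) = (env h2F).fl [39] := rfl
    have e2 : aL (env h2F).R ((env h2F).fl [39]) = xg (env h2F).R 39 1 * 1 := rfl
    refine (congrArg _ e).trans (e2.trans ?_)
    rw [mul_one]
    rfl
  · have h1 := mem_of_X1 φ hφ ((H22.TwE6.m3 (H22.TwE6.RR K) (H22.St.hmul_all _ H22.TwE6.memE6) φ hφ).2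
      ⟨1, by simp, rfl⟩)
    convert h1 using 1
    have e : (env h2F).fl (tb (Cfsg.Lie.chevF4.simple ((3 : Fin 4) : ℕ))) = (env h2F).fl [46] := rfl
    have e2 : aL (env h2F).R ((env h2F).fl [46]) = xg (env h2F).R 46 1 * 1 := rfl
    refine (congrArg _ e).trans (e2.trans ?_)
    rw [mul_one]
    rfl

/-- the twisted environment -/
noncomputable def tv : TEnv Cfsg.Lie.chevE6 Cfsg.Lie.chevF4 K :=
  tenv (T' := H22.RCSmall.tabF4) (A' := H22.RCSmall.matF4) (d' := dg) (tb := tb) (wds := wds)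
    (env h2F) H22.PoinF4.rcxF4 frm' rfl rfl (fun _ => rfl) (by decide) (MM φ hφ)
    (M_Γ_le _) (M_H_le _)
    (fun J => (H22.TwE6.E (H22.TwE6.RR K) (H22.St.hmul_all _ H22.TwE6.memE6) φ hφ).wd J)
    (fun J => (H22.TwE6.E (H22.TwE6.RR K) (H22.St.hmul_all _ H22.TwE6.memE6) φ hφ).wd_val J)
    (fun J => M_n _ J)
    c1 (by
      intro J hJ
      have hJ' : J < 4 := hJ
      interval_cases J
      · exact c3a
      · exact c3b
      · exact c3c
      · exact c3d) c4 c5 c6 c7 c8 (hx h2F φ hφ)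

theorem htb : ∀ c < Cfsg.Lie.chevF4.nroots,
    ((tv h2F φ hφ).bl (fn (tv h2F φ hφ).h0' c)).map Fin.val = tb c := by
  intro c hc
  have e : (tv h2F φ hφ).bl (fn (tv h2F φ hφ).h0' c) =
      (env h2F).fl (tb (fn (tv h2F φ hφ).h0' c : Fin Cfsg.Lie.chevF4.nroots)) := rfl
  rw [e, fn_val (tv h2F φ hφ).h0' hc]
  exact (env h2F).fl_val (allN_spec c1 c hc)

/-- the representatives -/
def Ts : List (List ℕ) := [[47], [44], [47, 37]]

local notation "ckN" => Env.ckNode H22.RCSmall.tabF4 H22.RCSmall.matF4 dg Cfsg.Lie.chevF4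

theorem n0 : ckN [] 15 [44, 47] = true := by decide +kernel
theorem n47 : ckN [47] 7 [37, 41] = true := by decide +kernel
theorem n44 : ckN [44] 14 [29, 32] = true := by decide +kernel
theorem nll : ckN [47, 41] 6 [28, 30] = true := by decide +kernel
theorem nls : ckN [47, 37] 5 [25, 33] = true := by decide +kernel

theorem bad1 : ckBad H22.RCSmall.tabF4 H22.RCSmall.matF4 dg Cfsg.Lie.chevF4 ([44] ++ [29]) = true := by
  decide +kernel
theorem bad2 : ckBad H22.RCSmall.tabF4 H22.RCSmall.matF4 dg Cfsg.Lie.chevF4 ([47, 37] ++ [33]) = true := by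
  decide +kernel

theorem rL : TEnv.ckRw H22.RCSmall.tabF4 H22.RCSmall.matF4 dg O tb Cfsg.Lie.chevE6 Cfsg.Lie.chevF4
    [7, 29, 30, 33, 17] [47, 41, 30] [47, 33] = true := by decide +kernel
theorem rLs : (([7, 29, 30, 33, 17] : List ℕ).flatMap tb ++ ([47, 41, 30] : List ℕ).flatMap tb ++
    ([47, 33] : List ℕ).flatMap tb) ⊆ Rs := by decide
theorem rM : TEnv.ckRw H22.RCSmall.tabF4 H22.RCSmall.matF4 dg O tb Cfsg.Lie.chevE6 Cfsg.Lie.chevF4
    [18, 23, 42] [47, 41, 28] [47, 28] = true := by decide +kernel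
theorem rMs : (([18, 23, 42] : List ℕ).flatMap tb ++ ([47, 41, 28] : List ℕ).flatMap tb ++
    ([47, 28] : List ℕ).flatMap tb) ⊆ Rs := by decide

theorem mL : Env.ckMove Cfsg.Lie.chevF4 [] [47, 41, 30] ([47, 41, 30] ++ []) = true := by decide +kernel
theorem mM : Env.ckMove Cfsg.Lie.chevF4 [] [47, 41, 28] ([47, 41, 28] ++ []) = true := by decide +kernel
theorem mls : Env.ckMove Cfsg.Lie.chevF4 [0, 1] [47, 37, 25] ([47, 41, 28] ++ []) = true := by decide +kernel
theorem m44 : Env.ckMove Cfsg.Lie.chevF4 [3, 2, 1, 0] [44, 32] [47, 37] = true := by decide +kernel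
theorem m45 : Env.ckMove Cfsg.Lie.chevF4 [3, 2] [45, 43] [47, 41] = true := by decide +kernel
theorem t1 : Env.ckMove Cfsg.Lie.chevF4 [] [47] [47] = true := by decide +kernel
theorem t2 : Env.ckMove Cfsg.Lie.chevF4 [] [44] [44] = true := by decide +kernel
theorem t3 : Env.ckMove Cfsg.Lie.chevF4 [] [47, 37] [47, 37] = true := by decide +kernel
theorem q1 : ckSOL H22.RCSmall.tabF4 H22.RCSmall.matF4 dg Cfsg.Lie.chevF4 [47] = true := by decide +kernel
theorem q2 : ckSOL H22.RCSmall.tabF4 H22.RCSmall.matF4 dg Cfsg.Lie.chevF4 [44] = true := by decide +kernel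
theorem q3 : ckSOL H22.RCSmall.tabF4 H22.RCSmall.matF4 dg Cfsg.Lie.chevF4 [47, 37] = true := by decide +kernel
theorem q4 : ckSOL H22.RCSmall.tabF4 H22.RCSmall.matF4 dg Cfsg.Lie.chevF4 [45, 43] = true := by decide +kernel

/-! ### the rule with an element of trace one -/

section trace

omit [Fintype K] in
theorem ct (h2F : (2 : K) = 0) {r s m : ℕ} {c : ℤ} (hr : r < Cfsg.Lie.chevE6.nroots)
    (hs : s < Cfsg.Lie.chevE6.nroots) (h1 : s ≠ r) (h2 : s ≠ Cfsg.Lie.chevE6.neg r)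
    (h : Cfsg.Lie.chevE6.commTerms r s = [(m, c, 1, 1)]) (hc : c = 1 ∨ c = -1) (u v : K) :
    xg (env h2F).R s v * xg (env h2F).R r u =
      xg (env h2F).R r u * xg (env h2F).R s v * xg (env h2F).R m (u * v) := by
  have hn : (-1 : K) = 1 := by linear_combination (-1) * h2F
  have h3 := H22.ChevMain.comm_g (env h2F).R hr hs h1 h2 u v
  rw [h3]
  congr 1
  unfold Cfsg.Lie.ChevalleyDatum.commWord
  rw [h]
  simp only [List.map_cons, List.map_nil]
  unfold wg
  simp only [List.map_cons, List.map_nil, List.prod_cons, List.prod_nil, mul_one, pow_one]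
  congr 1
  rcases hc with rfl | rfl
  · push_cast
    linear_combination (-u * v) * h2F
  · push_cast
    ring

omit [Fintype K] in
theorem cz (h2F : (2 : K) = 0) {r s : ℕ} (hr : r < Cfsg.Lie.chevE6.nroots)
    (hs : s < Cfsg.Lie.chevE6.nroots) (h1 : s ≠ r) (h2 : s ≠ Cfsg.Lie.chevE6.neg r)
    (h : Cfsg.Lie.chevE6.commTerms r s = []) (u v : K) :
    xg (env h2F).R s v * xg (env h2F).R r u = xg (env h2F).R r u * xg (env h2F).R s v := by
  have h3 := H22.ChevMain.comm_g (env h2F).R hr hs h1 h2 u v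
  rw [h3]
  have : wg (env h2F).R (Cfsg.Lie.chevE6.commWord K r s u v) = 1 := by
    unfold Cfsg.Lie.ChevalleyDatum.commWord
    rw [h]
    simp [wg]
  rw [this, mul_one]

omit [Fintype K] in
theorem trace_rel (h2F : (2 : K) = 0) (b b' : K) (hb : b + b' = 1) :
    (xg (env h2F).R 42 b * xg (env h2F).R 37 b') * (xg (env h2F).R 68 1 * xg (env h2F).R 66 1) =
      (xg (env h2F).R 68 1 * xg (env h2F).R 66 1 * xg (env h2F).R 69 1) *
        (xg (env h2F).R 42 b * xg (env h2F).R 37 b') := by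
  have e1 := cz h2F (r := 68) (s := 42) (by decide) (by decide) (by decide) (by decide)
    (by decide +kernel) 1 b
  obtain ⟨c, hc, e⟩ : ∃ c : ℤ, (c = 1 ∨ c = -1) ∧ Cfsg.Lie.chevE6.commTerms 68 37 = [(69, c, 1, 1)] := by
    refine ⟨((Cfsg.Lie.chevE6.commTerms 68 37).getD 0 (0, 0, 0, 0)).2.1, by decide +kernel, by decide +kernel⟩
  have e2 := ct h2F (r := 68) (s := 37) (by decide) (by decide) (by decide) (by decide) e hc 1 b'
  obtain ⟨c', hc', e'⟩ : ∃ c : ℤ, (c = 1 ∨ c = -1) ∧ Cfsg.Lie.chevE6.commTerms 66 42 = [(69, c, 1, 1)] := by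
    refine ⟨((Cfsg.Lie.chevE6.commTerms 66 42).getD 0 (0, 0, 0, 0)).2.1, by decide +kernel, by decide +kernel⟩
  have e3 := ct h2F (r := 66) (s := 42) (by decide) (by decide) (by decide) (by decide) e' hc' 1 b
  have e4 := cz h2F (r := 66) (s := 37) (by decide) (by decide) (by decide) (by decide)
    (by decide +kernel) 1 b'
  have e5 := cz h2F (r := 66) (s := 69) (by decide) (by decide) (by decide) (by decide)
    (by decide +kernel) 1 b'
  have e6 := cz h2F (r := 37) (s := 69) (by decide) (by decide) (by decide) (by decide)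
    (by decide +kernel) b' b'
  have e7 := cz h2F (r := 42) (s := 69) (by decide) (by decide) (by decide) (by decide)
    (by decide +kernel) b b'
  have e8 := cz h2F (r := 42) (s := 69) (by decide) (by decide) (by decide) (by decide)
    (by decide +kernel) b b
  rw [one_mul] at e2 e3
  set x42 := xg (env h2F).R 42 b
  set x37 := xg (env h2F).R 37 b'
  set x68 := xg (env h2F).R 68 1
  set x66 := xg (env h2F).R 66 1
  set z := xg (env h2F).R 69 b
  set z' := xg (env h2F).R 69 b'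
  have ez : xg (env h2F).R 69 1 = z * z' := by rw [← hb, ← xg_mul]
  rw [ez]
  calc x42 * x37 * (x68 * x66) = x42 * (x37 * x68) * x66 := by simp only [mul_assoc]
    _ = (x42 * x68) * x37 * (z' * x66) := by rw [e2]; simp only [mul_assoc]
    _ = x68 * x42 * (x37 * x66) * z' := by rw [e1, e5]; simp only [mul_assoc]
    _ = x68 * (x42 * x66) * x37 * z' := by rw [e4]; simp only [mul_assoc]
    _ = x68 * x66 * (x42 * z) * (x37 * z') := by rw [e3]; simp only [mul_assoc]
    _ = x68 * x66 * z * (x42 * z') * x37 := by rw [← e8, ← e6]; simp only [mul_assoc]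
    _ = _ := by rw [← e7]; simp only [mul_assoc]

end trace

theorem cj44 {b : K} (hb : b + φ b = 1) (hbb : φ (φ b) = b) :
    (tv h2F φ hφ).CjT ((tv h2F φ hφ).fl [44]) ((tv h2F φ hφ).fl [47, 41]) := by
  -- first step
  have h1 := mem_of_X1 φ hφ ((H22.TwE6.m1 (H22.TwE6.RR K) (H22.St.hmul_all _ H22.TwE6.memE6) φ hφ).2
      ⟨b, hbb, rfl⟩)
  have h2 : ((H22.TwE6.xs (H22.TwE6.RR K) (H22.St.hmul_all _ H22.TwE6.memE6) φ 42 37 b :
      ↥(Cfsg.Lie.chevE6.group K)) : GL Cfsg.Lie.chevE6.Idx K) =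
      xg (env h2F).R 42 b * xg (env h2F).R 37 (φ b) := rfl
  rw [h2] at h1
  have e1 : (tv h2F φ hφ).el ((tv h2F φ hφ).fl [44]) = xg (env h2F).R 68 1 * (xg (env h2F).R 66 1 * 1) := rfl
  have e2 : (tv h2F φ hφ).el ((tv h2F φ hφ).fl [44, 45]) =
      xg (env h2F).R 68 1 * (xg (env h2F).R 66 1 * (xg (env h2F).R 69 1 * 1)) := rfl
  have c1 : (tv h2F φ hφ).CjT ((tv h2F φ hφ).fl [44]) ((tv h2F φ hφ).fl [44, 45]) := by
    refine ⟨_, h1, ?_⟩
    rw [e1, e2, mul_one, mul_one, trace_rel h2F b (φ b) hb, mul_inv_cancel_right]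
    simp only [mul_assoc]
  -- second step
  have c2 : (tv h2F φ hφ).CjT ((tv h2F φ hφ).fl [44, 45]) ((tv h2F φ hφ).fl [45, 43]) := by
    refine ⟨(tv h2F φ hφ).el ((tv h2F φ hφ).fl [20]), (tv h2F φ hφ).el_mem _, ?_⟩
    rw [mul_inv_eq_iff_eq_mul]
    apply Units.ext
    rw [Units.val_mul, Units.val_mul, (tv h2F φ hφ).el_val (htb h2F φ hφ) (by decide),
      (tv h2F φ hφ).el_val (htb h2F φ hφ) (by decide), (tv h2F φ hφ).el_val (htb h2F φ hφ) (by decide),
      ← wm_append, ← wm_append]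
    have hs1 : (([20] : List ℕ).flatMap tb ++ ([44, 45] : List ℕ).flatMap tb) ⊆ Rs := by decide
    have hs2 : (([45, 43] : List ℕ).flatMap tb ++ ([20] : List ℕ).flatMap tb) ⊆ Rs := by decide
    exact eqW_spec (O := O) h2F (fun r hr => ckO r (hs1 hr)) (fun r hr => ckO r (hs2 hr))
      (by decide +kernel)
  -- third step
  obtain ⟨rest', hl, c3, _⟩ := (tv h2F φ hφ).move m45 (rest := []) (by
    rw [List.append_nil]; exact (tv h2F φ hφ).sol_spec q4)
  have : rest' = [] := List.length_eq_zero_iff.1 (by simpa using hl)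
  subst this
  rw [List.append_nil, List.append_nil] at c3
  exact (c1.trans c2).trans c3

theorem cls (hφ2 : ∀ t, φ (φ t) = t) {b : K} (hb : b + φ b = 1) :
    ∀ L : List (Fin Cfsg.Lie.chevF4.nroots), (tv h2F φ hφ).SOL L → L ≠ [] →
    (tv h2F φ hφ).Goal Ts L := by
  have key : ∀ n, ∀ L : List (Fin Cfsg.Lie.chevF4.nroots), L.length = n → (tv h2F φ hφ).SOL L →
      L ≠ [] → (tv h2F φ hφ).Goal Ts L := by
    intro n
    induction n using Nat.strong_induction_on with
    | _ n ih =>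
      have Nll := (tv h2F φ hφ).node (P := [47, 41]) nll (G := (tv h2F φ hφ).Goal Ts)
        (fun _ _ h h' => h'.tr h) (n := n) (fun _ => ⟨[44], by decide, (cj44 h2F φ hφ hb (hφ2 b)).symm⟩) (by
          intro θ hθ
          simp only [List.mem_cons, List.not_mem_nil, or_false] at hθ
          rcases hθ with rfl | rfl
          · exact (tv h2F φ hφ).goal_red (htb h2F φ hφ) ckO rMs rM (by decide) (by decide) (ex := []) mM ih
          · exact (tv h2F φ hφ).goal_red (htb h2F φ hφ) ckO rLs rL (by decide) (by decide) (ex := []) mL ih)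
      have Nls := (tv h2F φ hφ).node (P := [47, 37]) nls (G := (tv h2F φ hφ).Goal Ts)
        (fun _ _ h h' => h'.tr h) (n := n) (fun _ => (tv h2F φ hφ).goal_end q3 t3 (by decide)) (by
          intro θ hθ
          simp only [List.mem_cons, List.not_mem_nil, or_false] at hθ
          rcases hθ with rfl | rfl
          · exact (tv h2F φ hφ).goal_red (htb h2F φ hφ) ckO rMs rM (by decide) (by decide) (ex := []) mls ih
          · intro rest _ ho
            exact ((tv h2F φ hφ).bad_spec bad2 ho).elim)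
      have Ns := (tv h2F φ hφ).node (P := [44]) n44 (G := (tv h2F φ hφ).Goal Ts)
        (fun _ _ h h' => h'.tr h) (n := n) (fun _ => (tv h2F φ hφ).goal_end q2 t2 (by decide)) (by
          intro θ hθ
          simp only [List.mem_cons, List.not_mem_nil, or_false] at hθ
          rcases hθ with rfl | rfl
          · intro rest _ ho
            exact ((tv h2F φ hφ).bad_spec bad1 ho).elim
          · exact (tv h2F φ hφ).goal_move m44 Nls)
      have Nl := (tv h2F φ hφ).node (P := [47]) n47 (G := (tv h2F φ hφ).Goal Ts)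
        (fun _ _ h h' => h'.tr h) (n := n) (fun _ => (tv h2F φ hφ).goal_end q1 t1 (by decide)) (by
          intro θ hθ
          simp only [List.mem_cons, List.not_mem_nil, or_false] at hθ
          rcases hθ with rfl | rfl
          · exact Nls
          · exact Nll)
      intro L hL ho hne
      have h0 : 0 < n := by rw [← hL]; exact List.length_pos_iff.2 hne
      have N0 := (tv h2F φ hφ).node (P := []) n0 (G := (tv h2F φ hφ).Goal Ts)
        (fun _ _ h h' => h'.tr h) (n := n) (fun h => absurd h (by simp only [List.length_nil]; omega)) (by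
          intro θ hθ
          simp only [List.mem_cons, List.not_mem_nil, or_false] at hθ
          rcases hθ with rfl | rfl
          · exact Ns
          · exact Nl)
      exact N0 L (by simpa using hL) ho
  intro L
  exact key L.length L rfl

theorem hB : ∀ Y ∈ Ts, ckB Cfsg.Lie.chevF4 Y = true := by decide

theorem horth : ∀ Y ∈ Ts, (tv h2F φ hφ).SOL ((tv h2F φ hφ).fl Y) := by
  intro Y hY
  unfold Ts at hY
  simp only [List.mem_cons, List.not_mem_nil, or_false] at hY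
  rcases hY with rfl | rfl | rfl
  · exact (tv h2F φ hφ).sol_spec q1
  · exact (tv h2F φ hφ).sol_spec q2
  · exact (tv h2F φ hφ).sol_spec q3

include h2F in
omit [Fintype K] in
theorem rk : ∀ Y ∈ Ts, ∀ Y' ∈ Ts,
    rkP (2 ^ 78 - 1) (wm Cfsg.Lie.chevE6 K (Y.flatMap tb)) =
      rkP (2 ^ 78 - 1) (wm Cfsg.Lie.chevE6 K (Y'.flatMap tb)) → Y = Y' := by
  intro Y hY Y' hY'
  unfold Ts at hY hY'
  simp only [List.mem_cons, List.not_mem_nil, or_false] at hY hY'
  have e1 : ([47] : List ℕ).flatMap tb = [71] := by decide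
  have e2 : ([44] : List ℕ).flatMap tb = [68, 66] := by decide
  have e3 : ([47, 37] : List ℕ).flatMap tb = [71, 59, 45] := by decide
  rcases hY with rfl | rfl | rfl <;> rcases hY' with rfl | rfl | rfl <;>
    simp only [e1, e2, e3, rk1 h2F, rk2 h2F, rk3 h2F] <;> decide

include h2F in
omit [Fintype K] in
theorem rkne : ∀ Y ∈ Ts, rkP (2 ^ 78 - 1) (wm Cfsg.Lie.chevE6 K (Y.flatMap tb)) ≠
    rkP (2 ^ 78 - 1) (1 : Matrix Cfsg.Lie.chevE6.Idx Cfsg.Lie.chevE6.Idx K) := by
  intro Y hY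
  unfold Ts at hY
  simp only [List.mem_cons, List.not_mem_nil, or_false] at hY
  rw [rkP_one]
  have e1 : ([47] : List ℕ).flatMap tb = [71] := by decide
  have e2 : ([44] : List ℕ).flatMap tb = [68, 66] := by decide
  have e3 : ([47, 37] : List ℕ).flatMap tb = [71, 59, 45] := by decide
  rcases hY with rfl | rfl | rfl <;>
    simp only [e1, e2, e3, rk1 h2F, rk2 h2F, rk3 h2F] <;> decide

include h2F in
theorem card (hφ2 : ∀ t, φ (φ t) = t) {b : K} (hb : b + φ b = 1) {q : ℕ}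
    (hG : (MM φ hφ).Γ = Cfsg.Lie.twistedE6 K q) :
    (ConjClasses.mk '' {g : ↥(Cfsg.Lie.twistedE6 K q) | orderOf g = 2}).ncard = 3 :=
  (tv h2F φ hφ).final_card (Ts := Ts) (tb := tb) (htb h2F φ hφ) (cls h2F φ hφ hφ2 hb) (horth h2F φ hφ)
    (rkP (D := Cfsg.Lie.chevE6) (F := K) (2 ^ 78 - 1))
    (fun g _ M => rk_full_conj (D := Cfsg.Lie.chevE6) (N := 78) (by decide) g M)
    (rk h2F) (rkne h2F) hB (by decide) hG

end

/-- the theorem -/
theorem main {K : Type*} [Field K] [Fintype K] (h2F : (2 : K) = 0) {q : ℕ} (hq : IsPrimePow q)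
    (hK : Fintype.card K = q ^ 2) :
    (ConjClasses.mk '' {g : ↥(Cfsg.Lie.twistedE6 K q) | orderOf g = 2}).ncard = 3 := by
  have hK' : Nat.card K = q ^ 2 := by rw [Nat.card_eq_fintype_card]; exact hK
  obtain ⟨φ, hφ, hφq⟩ := H22.TwAut.exists_frob hq (by norm_num : (2 : ℕ) ≠ 0) hK'
  have h2 : ∀ t : K, φ (φ t) = t := by
    intro t
    rw [hφq, hφq, ← pow_mul]
    have := FiniteField.pow_card t
    rwa [hK, show q ^ 2 = q * q by ring] at this
  have hf : Nat.card {t : K // φ t = t} = q := by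
    simp only [hφq]
    exact H22.TwAut.card_fixed hq.one_lt (by norm_num) hK'
  obtain ⟨t, ht⟩ : ∃ t : K, φ t ≠ t := by
    by_contra hcon
    push Not at hcon
    have : Nat.card {t : K // φ t = t} = Nat.card K :=
      Nat.card_congr (Equiv.subtypeUnivEquiv hcon)
    rw [hf, hK'] at this
    have := hq.one_lt
    nlinarith
  have h11 : (1 : K) + 1 = 0 := by rw [← h2F]; norm_num
  have hc : t + φ t ≠ 0 := by
    intro h
    apply ht
    linear_combination h - t * h11
  refine card h2F φ hφ h2 (b := t / (t + φ t)) ?_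
    (H22.TwE6.Γ_eq (H22.TwE6.RR K) (H22.St.hmul_all _ H22.TwE6.memE6) φ hφ h2 hφq)
  rw [map_div₀, map_add, h2, add_comm (φ t) t, ← add_div, div_self hc]

end H42.Inv2TE6
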