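import Cfsg.Agent.Lib.H42.Inv2G
import Cfsg.Agent.Lib.H22.TwF4d

/-!
The dihedral Weyl group of order 16: involutions.
-/

set_option autoImplicit false
set_option maxRecDepth 100000

namespace H42.Inv2TF4

open H22.RGD H22.TwDat H22.TwDih

theorem mem_W {w : Equiv.Perm (Fin 16)} (hw : w ∈ C16.W) :
    ∃ i : Fin 8, w = rot ^ i.val ∨ w = C16.refl 0 * rot ^ i.val := by
  rw [← range_P] at hw
  obtain ⟨x, rfl⟩ := hw
  rcases x with i | i
  · exact ⟨i, Or.inl rfl⟩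
  · exact ⟨i, Or.inr rfl⟩

theorem all_W {p : Equiv.Perm (Fin 16) → Prop} (h1 : ∀ i : Fin 8, p (rot ^ i.val))
    (h2 : ∀ i : Fin 8, p (C16.refl 0 * rot ^ i.val)) : ∀ w ∈ C16.W, p w := by
  intro w hw
  obtain ⟨i, rfl | rfl⟩ := mem_W hw
  · exact h1 i
  · exact h2 i

theorem hc1 : ∀ w ∈ C16.W, ∀ i, w (C16.simple i) = C16.simple i → w * C16.refl i = C16.refl i * w := by
  apply all_W
  · intro i J
    revert i J
    show ∀ i : Fin 8, ∀ J : Fin 2, _
    decide +kernel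
  · intro i J
    revert i J
    show ∀ i : Fin 8, ∀ J : Fin 2, _
    decide +kernel

theorem one1 : ∀ i : Fin 8, (rot ^ i.val) * (rot ^ i.val) = 1 →
    (∀ J : Fin 2, 8 ≤ ((rot ^ i.val) (C16.simple J) : Fin 16).val → (rot ^ i.val) (C16.simple J) = C16.simple J) →
    i = 0 ∨ ∀ r : Fin 16, 8 ≤ r.val → 8 ≤ ((rot ^ i.val) r : Fin 16).val →
      ∃ J : Fin 2, (rot ^ i.val) (C16.simple J) = C16.simple J ∧ r = C16.simple J := by
  decide +kernel

theorem one2 : ∀ i : Fin 8,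
    (∀ J : Fin 2, 8 ≤ ((C16.refl 0 * rot ^ i.val) (C16.simple J) : Fin 16).val →
      (C16.refl 0 * rot ^ i.val) (C16.simple J) = C16.simple J) →
    ∀ r : Fin 16, 8 ≤ r.val → 8 ≤ ((C16.refl 0 * rot ^ i.val) r : Fin 16).val →
      ∃ J : Fin 2, (C16.refl 0 * rot ^ i.val) (C16.simple J) = C16.simple J ∧ r = C16.simple J := by
  decide +kernel

theorem two1 : ∀ i : Fin 8, (∀ J : Fin 2, ¬ 8 ≤ ((rot ^ i.val) (C16.simple J) : Fin 16).val) →
    ∀ r : Fin 16, 8 ≤ r.val → ¬ 8 ≤ ((rot ^ i.val) r : Fin 16).val := by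
  decide +kernel

theorem two2 : ∀ i : Fin 8, (∀ J : Fin 2, ¬ 8 ≤ ((C16.refl 0 * rot ^ i.val) (C16.simple J) : Fin 16).val) →
    ∀ r : Fin 16, 8 ≤ r.val → ¬ 8 ≤ ((C16.refl 0 * rot ^ i.val) r : Fin 16).val := by
  decide +kernel

theorem one : ∀ w ∈ C16.W, w * w = 1 →
    (∀ J : Fin 2, C16.pos (w (C16.simple J)) → w (C16.simple J) = C16.simple J) →
    w = 1 ∨ ∀ r, C16.pos r → C16.pos (w r) → ∃ J : Fin 2, w (C16.simple J) = C16.simple J ∧ r = C16.simple J := by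
  apply all_W
  · intro i h1 h2
    rcases one1 i h1 h2 with h | h
    · left; rw [h]; exact pow_zero _
    · right; exact h
  · intro i _ h2
    right; exact one2 i h2

theorem two : ∀ w ∈ C16.W, (∀ J : Fin 2, ¬ C16.pos (w (C16.simple J))) →
    ∀ r, C16.pos r → ¬ C16.pos (w r) := by
  apply all_W
  · exact fun i h => two1 i h
  · exact fun i h => two2 i h

theorem hc2 : ∀ w ∈ C16.W, ∀ x ∈ C16.W, w * w = 1 →
      (∀ i, C16.pos (w (C16.simple i)) → w (C16.simple i) = C16.simple i) →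
      (∀ i, w (C16.simple i) = C16.simple i → ¬ C16.pos (x (C16.simple i))) →
      ∀ r, C16.pos r → C16.pos (w r) → ¬ C16.pos (x r) := by
  intro w hw x hx h2 h3 h4 r hr hwr
  rcases one w hw h2 h3 with rfl | h
  · exact two x hx (fun J => h4 J rfl) r hr
  · obtain ⟨J, hJ, rfl⟩ := h r hr hwr
    exact h4 J hJ

theorem inv1 : ∀ i : Fin 8, (rot ^ i.val) * (rot ^ i.val) = 1 → i = 0 ∨ i = 4 := by
  decide +kernel

theorem inv2 : rot ^ 4 = C16.w [0, 1, 0, 1, 0, 1, 0, 1] := by decide +kernel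

/-- conjugators -/
def Vs (i : ℕ) : List (Fin 2) :=
  ([[], [], [1], [0, 1], [1, 0, 1], [0, 1, 0], [1, 0], [0]] : List (List (Fin 2))).getD i []
/-- targets -/
def Js (i : ℕ) : Fin 2 := ([0, 1, 0, 1, 0, 1, 0, 1] : List (Fin 2)).getD i 0

theorem inv3 : ∀ i : Fin 8, C16.w (Vs i.val) * (C16.refl 0 * rot ^ i.val) * C16.w (Vs i.val).reverse =
    C16.refl (Js i.val) := by decide +kernel

/-- classification of the involutions of the Weyl group -/
theorem inv_W {w : Equiv.Perm (Fin 16)} (hw : w ∈ C16.W) (h2 : w * w = 1) :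
    w = 1 ∨ w = C16.w [0, 1, 0, 1, 0, 1, 0, 1] ∨
    ∃ (V : List (Fin 2)) (J : Fin 2), C16.w V * w * (C16.w V)⁻¹ = C16.refl J := by
  obtain ⟨i, rfl | rfl⟩ := mem_W hw
  · rcases inv1 i h2 with rfl | rfl
    · left; exact pow_zero _
    · right; left; exact inv2
  · right; right
    exact ⟨Vs i.val, Js i.val, by rw [← RootComb.w_reverse]; exact inv3 i⟩

end H42.Inv2TF4
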