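import Cfsg.Agent.Lib.H42.Inv2U
import Cfsg.Agent.Lib.H22.TwThm

/-!
Characteristic two: construction of the data for the twisted groups from tables.
-/

set_option autoImplicit false
set_option linter.unusedSectionVars false

namespace H42.Inv2V

open H22.RGD H22.Coord H22.RCCheck H22.RCComb H22.ChevTri H22.ChevRel H22.ChevSys H22.ChevMain
open H22.RCPack H42.InvCK H42.InvW H42.Inv2F H42.Inv2E H42.Inv2M H42.Inv2C H42.Inv2D H42.Inv2T
open H42.Inv2T.TEnv H22.TwThm H22.TwChev
open Cfsg.Lie (ChevalleyDatum)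
open scoped MatrixGroups Matrix

variable (T : ℕ) (A : ℕ → ℕ → ℤ) (d : ℕ → ℤ) (T' : ℕ) (A' : ℕ → ℕ → ℤ) (d' : ℕ → ℤ)
  (tb wds : ℕ → List ℕ) (D D' : ChevalleyDatum)

def ck1 : Bool := allN (fun c => ckB D (tb c)) D'.nroots
def ck3 (J : ℕ) : Bool :=
  allN (fun c => ((tb c).map (wr D (wds J))).isPerm (tb (D'.reflectRoot J c))) D'.nroots
def ck4 : Bool := allN (fun J => (tb (D'.simple J)).isPerm ((wds J).map D.simple)) D'.rank
def ck5 : Bool := allN (fun c => ((tb c).map D.neg).isPerm (tb (D'.neg c))) D'.nroots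
def ck6 : Bool := allN (fun c => Env.ckOrth T A d D (tb c)) D'.nroots
def ck7 : Bool :=
  allN (fun c => allN (fun c' => !(soB T' A' d' D' c c') ||
    allL (fun r => allL (fun s => zB (ipB T A d D D.rank r s D.rank)) (tb c')) (tb c)) D'.nroots) D'.nroots
def ck8 : Bool :=
  allN (fun r => allN (fun s => !(zB (ipB T' A' d' D' D'.rank r s D'.rank)) ||
    !(decide (ipB T' A' d' D' D'.rank r r D'.rank = 2) && decide (ipB T' A' d' D' D'.rank s s D'.rank = 2)) ||
    exN (fun l => allN (fun i => zB (co T' D'.rank l i - co T' D'.rank r i - co T' D'.rank s i)) D'.rank &&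
      !(decide (ipB T' A' d' D' D'.rank l l D'.rank = 2))) D'.nroots) D'.nroots) D'.nroots

variable {T A d T' A' d' tb wds D D'}

theorem hl_of {X' : RCX D'} (Q' : Frm (H22.RCComb.coord X')) (hco' : X'.rc.co = co T' D'.rank)
    (hA' : X'.rc.A = A') (hd' : ∀ i : Fin D'.rank, Q'.d i = d' i)
    (h : ck8 T' A' d' D' = true) : HL Q' := by
  intro r s h1 h2 h3
  have h4 := allN_spec (allN_spec h r r.2) s s.2
  rw [ip_eq' hco' hA' Q' hd', ip_eq' hco' hA' Q' hd', ip_eq' hco' hA' Q' hd', h1, h2, h3] at h4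
  have e : (!(zB 0) || !(decide ((2 : ℤ) = 2) && decide ((2 : ℤ) = 2))) = false := by decide
  rw [e, Bool.false_or] at h4
  obtain ⟨l, hl, h5⟩ := exN_spec h4
  rw [Bool.and_eq_true, Bool.not_eq_true', decide_eq_false_iff_not] at h5
  obtain ⟨h6, h7⟩ := h5
  have e2 := ip_eq' hco' hA' Q' hd' ⟨l, hl⟩ ⟨l, hl⟩
  simp only at e2
  rw [e2] at h7
  refine ⟨⟨l, hl⟩, h7, ?_⟩
  intro i
  have h8 := (zB_iff _).1 (allN_spec h6 i i.2)
  have e3 : ∀ r : Fin D'.nroots, (H22.RCComb.coord X').co r i = co T' D'.rank r i := by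
    intro r
    have : (H22.RCComb.coord X').co r i = X'.rc.co r i := rfl
    rw [this, hco']
  rw [e3, e3, e3]
  simp only
  omega

variable {F : Type*} [Field F]

/-- the data from tables -/
def tenv (E : Env D F) (X' : RCX D') (Q' : Frm (H22.RCComb.coord X')) (hco' : X'.rc.co = co T' D'.rank)
    (hA' : X'.rc.A = A') (hd' : ∀ i : Fin D'.rank, Q'.d i = d' i) (h0' : 0 < D'.nroots)
    (M : Sys (GL D.Idx F) (H22.RCComb.comb X')) (hΓ : M.Γ ≤ D.group F)
    (hH : M.H ≤ (chevSys E.R E.X).H) (word : Fin D'.rank → List (Fin D.rank))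
    (hw : ∀ J, (word J).map Fin.val = wds J) (hn : ∀ J, M.n J = nsw E.R (word J))
    (c1 : ck1 tb D D' = true) (c3 : ∀ J < D'.rank, ck3 tb wds D D' J = true)
    (c4 : ck4 tb wds D D' = true) (c5 : ck5 tb D D' = true) (c6 : ck6 E.T E.A E.d tb D D' = true)
    (c7 : ck7 E.T E.A E.d T' A' d' tb D D' = true) (c8 : ck8 T' A' d' D' = true)
    (hx : ∀ J : Fin D'.rank, aL E.R (E.fl (tb (D'.simple J))) ∈ M.Γ) : TEnv D D' F where
  E := E
  X' := X'
  Q' := Q'
  T' := T'
  A' := A'
  d' := d'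
  hco' := hco'
  hA' := hA'
  hd' := hd'
  h0' := h0'
  M := M
  hΓ := hΓ
  hH := hH
  word := word
  hn := hn
  bl := fun c => E.fl (tb c)
  bl_refl := by
    intro J c
    have h1 := E.fl_val (allN_spec c1 c c.2)
    have h2 := E.fl_val (allN_spec c1 _ ((H22.RCComb.comb X').refl J c).2)
    rw [← List.map_perm_map_iff Fin.val_injective, h2]
    have e : ((E.fl (tb c)).map ((H22.RCComb.comb E.X).w (word J))).map Fin.val =
        (tb c).map (wr D (wds J)) := by
      conv_rhs => rw [← h1]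
      rw [List.map_map, List.map_map]
      apply List.map_congr_left
      intro s _
      show (((H22.RCComb.comb E.X).w (word J) s : Fin D.nroots) : ℕ) = wr D (wds J) s
      rw [wr_eq, hw]
    rw [e]
    exact List.isPerm_iff.1 (allN_spec (c3 J J.2) c c.2)
  bl_simple := by
    intro J
    have h1 := E.fl_val (allN_spec c1 _ ((H22.RCComb.comb X').simple J).2)
    rw [← List.map_perm_map_iff Fin.val_injective, h1]
    have e : (((word J).map (H22.RCComb.comb E.X).simple)).map Fin.val = (wds J).map D.simple := by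
      rw [← hw, List.map_map, List.map_map]; rfl
    rw [e]
    exact List.isPerm_iff.1 (allN_spec c4 J J.2)
  bl_neg := by
    intro c
    have h1 := E.fl_val (allN_spec c1 c c.2)
    have h2 := E.fl_val (allN_spec c1 _ ((H22.RCComb.comb X').neg c).2)
    rw [← List.map_perm_map_iff Fin.val_injective, h2]
    have e : ((E.fl (tb c)).map (H22.RCComb.comb E.X).neg).map Fin.val = (tb c).map D.neg := by
      conv_rhs => rw [← h1]
      rw [List.map_map, List.map_map]; rfl
    rw [e]
    exact List.isPerm_iff.1 (allN_spec c5 c c.2)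
  bl_orth := fun c => E.orth_spec (allN_spec c6 c c.2)
  bl_so := by
    intro c c' hcc r hr s hs
    have h1 := allN_spec (allN_spec c7 c c.2) c' c'.2
    have h2 : soB T' A' d' D' c c' = true := by
      unfold soB
      rw [ip_eq' hco' hA' Q' hd', ip_eq' hco' hA' Q' hd', ip_eq' hco' hA' Q' hd']
      unfold SO at hcc
      simp only [Bool.and_eq_true, zB_iff, Bool.not_eq_true', Bool.and_eq_false_iff,
        decide_eq_false_iff_not]
      tauto
    rw [h2, Bool.not_true, Bool.false_or] at h1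
    obtain ⟨k, hk, rfl⟩ := List.mem_map.1 hr
    obtain ⟨l, hl, rfl⟩ := List.mem_map.1 hs
    have hkb := ckB_spec (allN_spec c1 c c.2) k hk
    have hlb := ckB_spec (allN_spec c1 c' c'.2) l hl
    have h3 := allL_spec (allL_spec h1 k hk) l hl
    have h4 := ip_eq' E.hco E.hA E.Q E.hd (fn E.h0 k) (fn E.h0 l)
    rw [fn_val E.h0 hkb, fn_val E.h0 hlb] at h4
    rw [h4, zB_iff] at h3
    exact h3
  hx := fun J => hx J
  hl := hl_of Q' hco' hA' hd' c8

/-! ### twisted systems of helper22 -/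

section tw

variable {R : Rel D F} {X : RCX D} {Z : H22.ChevUni.Lex X.rc}
  {W : H22.St.StCert D X.rc.half} {hmul : ∀ r < D.nroots, ∀ c d : F, c ≠ 0 → d ≠ 0 →
      D.hMat F r c * D.hMat F r d = D.hMat F r (c * d)}
  {I' : Type*} {C' : RootComb (Fin D'.nroots) I'}
  (TT : TwD (gsys R X Z W hmul) C')

theorem M_Γ_le : (M TT.tw).Γ ≤ D.group F := by
  rw [M_Γ]
  rintro _ ⟨x, _, rfl⟩
  exact x.2

theorem M_H_le : (M TT.tw).H ≤ (chevSys R X).H := by
  rw [chevSys_H, ← map_H R X Z W hmul]
  apply Subgroup.map_mono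
  exact inf_le_left

theorem M_n (J : I') : (M TT.tw).n J = nsw R (TT.word J) := by
  show (D.group F).subtype ((gsys R X Z W hmul).nw (TT.word J)) = _
  have key : ∀ L : List (Fin D.rank), (D.group F).subtype ((gsys R X Z W hmul).nw L) = nsw R L := by
    intro L
    induction L with
    | nil => simp [nsw]
    | cons i L ih =>
      rw [Sys.nw_cons, map_mul, ih, nsw_cons]
      have := (grp R X.rc hmul).θ_nb X.rc (X.rc.simple_lt i i.2) 1
      have e : (D.group F).subtype ((gsys R X Z W hmul).n i) = ns R i := this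
      rw [e]
  exact key _

end tw

end H42.Inv2V
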