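import Cfsg.Agent.Lib.H42.Inv2TF4a
import Cfsg.Agent.Lib.H42.Inv2TF4w
import Cfsg.Agent.Lib.H42.Inv2Ab
import Cfsg.Agent.Lib.H42.Inv2V
import Cfsg.Agent.Lib.H22.ChevAll
import Cfsg.Agent.Lib.H23.ChevAll

/-!
Characteristic two, type ²F₄: classification of involutions.
-/

set_option autoImplicit false
set_option maxRecDepth 100000
set_option linter.unusedSectionVars false

namespace H42.Inv2TF4

open H22.RGD H22.Coord H22.RCPack H42.Inv2M H42.Inv2D H42.Inv2E H42.Inv2C H42.Inv2F H22.ChevRel
open H22.ChevUni H42.Inv2P H22.TwThm H22.RCComb H22.TwDat H22.TwF4 H22.ChevSys H42.InvW H42.Inv2G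
open scoped commutatorElement

local notation "F4" => Cfsg.Lie.chevF4
local notation "X4" => H22.PoinF4.rcxF4

section words

variable {F : Type*} [Field F] (R : Rel F4 F)

/-- words in the root elements -/
noncomputable def gw (L : List ℕ) : GL (F4).Idx F := (L.map fun r => xg R r 1).prod

theorem gw_val (L : List ℕ) : ((gw R L : GL (F4).Idx F) : Matrix (F4).Idx (F4).Idx F) = wm F4 F L := by
  induction L with
  | nil => simp [gw, wm]
  | cons r L ih =>
    rw [wm_cons, ← ih]
    have : gw R (r :: L) = xg R r 1 * gw R L := by simp [gw]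
    rw [this, Units.val_mul, xg_val]

theorem gw_append (L M : List ℕ) : gw R (L ++ M) = gw R L * gw R M := by simp [gw]

theorem gw_nil : gw R [] = 1 := rfl

theorem gw_flatten (Ls : List (List ℕ)) : gw R Ls.flatten = (Ls.map (gw R)).prod := by
  induction Ls with
  | nil => rfl
  | cons L Ls ih => rw [List.flatten_cons, gw_append, ih, List.map_cons, List.prod_cons]

/-- all letters are in the table -/
def ckR (L : List ℕ) : Bool := L.all fun r => Rs.elem r

theorem ckR_spec {L : List ℕ} (h : ckR L = true) : ∀ r ∈ L, r ∈ Rs := by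
  intro r hr
  unfold ckR at h
  rw [List.all_eq_true] at h
  exact List.elem_iff.1 (h r hr)

theorem gw_eq (h2F : (2 : F) = 0) {Ls Ls' : List (List ℕ)} (hL : ckR Ls.flatten = true)
    (hL' : ckR Ls'.flatten = true) (e : eqW O 52 Ls.flatten Ls'.flatten = true) :
    (Ls.map (gw R)).prod = (Ls'.map (gw R)).prod := by
  rw [← gw_flatten, ← gw_flatten]
  apply Units.ext
  rw [gw_val, gw_val]
  exact eqW_spec h2F (fun r hr => ckO r (ckR_spec hL r hr)) (fun r hr => ckO r (ckR_spec hL' r hr)) e

/-- the words of simple reflections -/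
def nwd (L : List ℕ) : List ℕ := L.flatMap fun i => [(F4).simple i, (F4).neg ((F4).simple i), (F4).simple i]

theorem nsw_gw (h2F : (2 : F) = 0) (L : List (Fin (F4).rank)) : nsw R L = gw R (nwd (L.map Fin.val)) := by
  have hn : (-1 : F) = 1 := by linear_combination (-1) * h2F
  induction L with
  | nil => rfl
  | cons i L ih =>
    have e : nwd ((i :: L).map Fin.val) = [(F4).simple i, (F4).neg ((F4).simple i), (F4).simple i] ++
      nwd (L.map Fin.val) := by
      unfold nwd; rw [List.map_cons, List.flatMap_cons]
    rw [e, gw_append, ← ih, nsw_cons]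
    congr 1
    show ng R ((F4).simple i) 1 = _
    rw [ng_def, inv_one, hn]
    simp [gw, mul_assoc]

end words

section idents

variable {F : Type*} [Field F] (R : Rel F4 F) (h2F : (2 : F) = 0)
include h2F

theorem j_n0 : gw R ga * gw R n0 = gw R gA * gw R ga := by
  have := gw_eq R h2F (by decide +kernel) (by decide +kernel) i_n0
  simpa using this
theorem j_n1 : (gw R gb * gw R gB) * gw R n1 = gw R gZ * (gw R gb * gw R gB) := by
  have := gw_eq R h2F (by decide +kernel) (by decide +kernel) i_n1
  simpa [mul_assoc] using this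
theorem j_nl : (gw R ga * gw R gB * gw R gA * gw R gB * gw R gA * gw R gz * gw R ga * gw R gb * gw R gB *
    gw R gA * gw R gB * gw R ga) * gw R nl = gw R gA * (gw R ga * gw R gB * gw R gA * gw R gB * gw R gA *
    gw R gz * gw R ga * gw R gb * gw R gB * gw R gA * gw R gB * gw R ga) := by
  have := gw_eq R h2F (by decide +kernel) (by decide +kernel) i_nl
  simpa [mul_assoc] using this
theorem j_AA : gw R gA * gw R gA = 1 := by
  have := gw_eq R h2F (by decide +kernel) (by decide +kernel) i_AA
  simpa using this
theorem j_aa : gw R ga * gw R ga = 1 := by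
  have := gw_eq R h2F (by decide +kernel) (by decide +kernel) i_aa
  simpa using this
theorem j_ZZ : gw R gZ * gw R gZ = 1 := by
  have := gw_eq R h2F (by decide +kernel) (by decide +kernel) i_ZZ
  simpa using this
theorem j_BB : gw R gB * gw R gB = gw R gZ := by
  have := gw_eq R h2F (by decide +kernel) (by decide +kernel) i_BB
  simpa using this
theorem j_bb : gw R gb * gw R gb = gw R gz := by
  have := gw_eq R h2F (by decide +kernel) (by decide +kernel) i_bb
  simpa using this
theorem j_BZ : gw R gB * gw R gZ = gw R gZ * gw R gB := by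
  have := gw_eq R h2F (by decide +kernel) (by decide +kernel) i_BZ
  simpa using this
theorem j_bz : gw R gb * gw R gz = gw R gz * gw R gb := by
  have := gw_eq R h2F (by decide +kernel) (by decide +kernel) i_bz
  simpa using this
theorem j_s : (gw R gB * gw R gA * gw R gZ * gw R gb * gw R ga * gw R gz * gw R gA * gw R ga) *
    (gw R gA * gw R gZ * gw R gA * gw R gZ * gw R gA * gw R gZ * gw R gA * gw R gZ) =
    gw R gA * (gw R gB * gw R gA * gw R gZ * gw R gb * gw R ga * gw R gz * gw R gA * gw R ga) := by
  have := gw_eq R h2F (by decide +kernel) (by decide +kernel) i_s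
  simpa [mul_assoc] using this
theorem j_p : (gw R gz * gw R ga * gw R gz * gw R ga * gw R gz * gw R ga * gw R gz) *
    (gw R gB * gw R gA * gw R ga * gw R gb * gw R gB * gw R gZ * gw R gb * gw R gz * gw R ga * gw R gA *
    (gw R gA * gw R gb * gw R gB * gw R gA * gw R gB * gw R gZ * gw R gb * gw R gz)) =
    gw R gZ * (gw R gz * gw R ga * gw R gz * gw R ga * gw R gz * gw R ga * gw R gz) := by
  have := gw_eq R h2F (by decide +kernel) (by decide +kernel) i_p
  simpa [mul_assoc] using this
theorem j_aAa : gw R ga * gw R gA * gw R ga = gw R gA * gw R ga * gw R gA := by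
  have := gw_eq R h2F (by decide +kernel) (by decide +kernel) i_aAa
  simpa [mul_assoc] using this
theorem j_Bb : gw R gB * gw R gz * gw R gB = gw R gb * gw R gB * gw R gz := by
  have := gw_eq R h2F (by decide +kernel) (by decide +kernel) i_Bb
  simpa [mul_assoc] using this
theorem j_cA : gw R ga * gw R gA * gw R gB * gw R gA * gw R ga * gw R gA =
    gw R gA * gw R ga * gw R gA * gw R gB * gw R gA * gw R ga := by
  have := gw_eq R h2F (by decide +kernel) (by decide +kernel) i_cA
  simpa [mul_assoc] using this

end idents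

end H42.Inv2TF4
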