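import Cfsg.Agent.Lib.H42.Inv2TF4

/-!
Characteristic two, type ²F₄: the classification.
-/

set_option autoImplicit false
set_option maxRecDepth 100000
set_option linter.unusedSectionVars false

namespace H42.Inv2TF4

open H22.RGD H22.Coord H22.RCPack H42.Inv2M H42.Inv2D H42.Inv2E H42.Inv2C H42.Inv2F H22.ChevRel
open H22.ChevUni H42.Inv2P H22.TwThm H22.RCComb H22.TwDat H22.TwF4 H22.ChevSys H42.InvW H42.Inv2G
open H22.TwChev H22.TwX H22.St H22.ChevMain H22.RCCheck H22.ChevTri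
open scoped commutatorElement

local notation "F4" => Cfsg.Lie.chevF4
local notation "X4" => H22.PoinF4.rcxF4
local notation "Z4" => H22.ChevLex.lexF4
local notation "W4'" => certF4'

section gen

variable {D : Cfsg.Lie.ChevalleyDatum} {F : Type*} [Field F] {R : Rel D F} {X : RCX D} {Z : H22.ChevUni.Lex X.rc}
  {W : H22.St.StCert D X.rc.half} {hmul : ∀ r < D.nroots, ∀ c d : F, c ≠ 0 → d ≠ 0 →
      D.hMat F r c * D.hMat F r d = D.hMat F r (c * d)}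
  {Ψ I' : Type*} {C' : RootComb Ψ I'} (TT : TwD (gsys R X Z W hmul) C')

theorem M_H_le' : (M TT.tw).H ≤ (chevSys R X).H := by
  rw [chevSys_H, ← map_H R X Z W hmul]
  apply Subgroup.map_mono
  exact inf_le_left

theorem M_n' (J : I') : (M TT.tw).n J = nsw R (TT.word J) := by
  show (D.group F).subtype ((gsys R X Z W hmul).nw (TT.word J)) = _
  have key : ∀ L : List (Fin D.rank), (D.group F).subtype ((gsys R X Z W hmul).nw L) = nsw R L := by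
    intro L
    induction L with
    | nil => simp [nsw]
    | cons i L ih =>
      rw [Sys.nw_cons, map_mul, ih, nsw_cons]
      have := (grp R X.rc hmul).θ_nb X.rc (X.rc.simple_lt i i.2) 1
      have e : (D.group F).subtype ((gsys R X Z W hmul).n i) = ns R i := this
      rw [e]
  exact key _

end gen

section main

variable {K : Type*} [Field K] [CharP K 2] [Fintype K]
  (θ ψ : K →+* K) (hθ : Function.Surjective θ) (hψ : Function.Surjective ψ) (h2 : ∀ t, ψ t = θ t ^ 2)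
  (i1 : ∀ t, θ (ψ t) = t) (i2 : ∀ t, ψ (θ t) = t)

theorem h2K : (2 : K) = 0 := by
  have := CharP.cast_eq_zero K 2
  exact_mod_cast this

/-- the system -/
noncomputable abbrev SS : Sys (GL (F4).Idx K) C16 :=
  SM (RR K) (H22.St.hmul_all _ memF4) θ ψ hθ hψ h2 i1 i2

theorem mem_of_X1 {c : Fin ttF4.n'} {g : ↥((F4).group K)}
    (h : g ∈ X1 ((St (RR K) (H22.St.hmul_all _ memF4)).stSys X4 Z4 W4')
      (A (RR K) (H22.St.hmul_all _ memF4) θ ψ hθ hψ h2).σ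
      (E (RR K) (H22.St.hmul_all _ memF4) θ ψ hθ hψ h2).clF c) :
    (g : GL (F4).Idx K) ∈ (SS θ ψ hθ hψ h2 i1 i2).Γ := by
  refine (le_of_eq (M_Γ _).symm : _ ≤ _) (Subgroup.mem_map_of_mem ((F4).group K).subtype ?_)
  exact (T (RR K) (H22.St.hmul_all _ memF4) θ ψ hθ hψ h2 i1 i2).tw.sys.X_le_Γ longest16 c h

theorem memA : gw (RR K) gA ∈ (SS θ ψ hθ hψ h2 i1 i2).Γ := by
  have h1 := mem_of_X1 θ ψ hθ hψ h2 i1 i2
    ((m0 (RR K) (H22.St.hmul_all _ memF4) θ ψ hθ hψ h2 i2).2 ⟨1, rfl⟩)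
  convert h1 using 1
  unfold xs
  rw [map_one]
  exact (mul_assoc _ _ _).symm.trans (mul_one _)

theorem mema : gw (RR K) ga ∈ (SS θ ψ hθ hψ h2 i1 i2).Γ := by
  have h1 := mem_of_X1 θ ψ hθ hψ h2 i1 i2
    ((H22.TwF4.n0 (RR K) (H22.St.hmul_all _ memF4) θ ψ hθ hψ h2 i2).2 ⟨1, rfl⟩)
  convert h1 using 1
  unfold xs
  rw [map_one]
  exact (mul_assoc _ _ _).symm.trans (mul_one _)

theorem memB : gw (RR K) gB ∈ (SS θ ψ hθ hψ h2 i1 i2).Γ := by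
  have h1 := mem_of_X1 θ ψ hθ hψ h2 i1 i2
    ((m1 (RR K) (H22.St.hmul_all _ memF4) θ ψ hθ hψ h2 i1 i2).2 ⟨1, 0, rfl⟩)
  convert h1 using 1
  unfold xw H22.TwB2c.W4
  rw [map_one, map_zero, mul_one, add_zero, (St (RR K) (H22.St.hmul_all _ memF4)).xb_zero (by decide),
    mul_one]
  have e : gw (RR K) gB = xg (RR K) 27 1 * (xg (RR K) 25 1 * (xg (RR K) 28 1 * 1)) := rfl
  rw [e, mul_one, ← mul_assoc]
  rfl

theorem memZ : gw (RR K) gZ ∈ (SS θ ψ hθ hψ h2 i1 i2).Γ := by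
  have h1 := mem_of_X1 θ ψ hθ hψ h2 i1 i2
    ((m1 (RR K) (H22.St.hmul_all _ memF4) θ ψ hθ hψ h2 i1 i2).2 ⟨0, 1, rfl⟩)
  convert h1 using 1
  unfold xw H22.TwB2c.W4
  rw [map_zero, map_one, mul_zero, zero_add, (St (RR K) (H22.St.hmul_all _ memF4)).xb_zero (by decide),
    (St (RR K) (H22.St.hmul_all _ memF4)).xb_zero (by decide), one_mul, one_mul]
  have e : gw (RR K) gZ = xg (RR K) 28 1 * (xg (RR K) 30 1 * 1) := rfl
  rw [e, mul_one]
  rfl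

theorem memb : gw (RR K) gb ∈ (SS θ ψ hθ hψ h2 i1 i2).Γ := by
  have h1 := mem_of_X1 θ ψ hθ hψ h2 i1 i2
    ((H22.TwF4.n1 (RR K) (H22.St.hmul_all _ memF4) θ ψ hθ hψ h2 i1 i2).2 ⟨1, 0, rfl⟩)
  convert h1 using 1
  unfold xw H22.TwB2c.W4
  rw [map_one, map_zero, mul_one, add_zero, (St (RR K) (H22.St.hmul_all _ memF4)).xb_zero (by decide),
    mul_one]
  have e : gw (RR K) gb = xg (RR K) 20 1 * (xg (RR K) 22 1 * (xg (RR K) 19 1 * 1)) := rfl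
  rw [e, mul_one, ← mul_assoc]
  rfl

theorem memz : gw (RR K) gz ∈ (SS θ ψ hθ hψ h2 i1 i2).Γ := by
  rw [← j_bb (RR K) h2K]
  exact mul_mem (memb θ ψ hθ hψ h2 i1 i2) (memb θ ψ hθ hψ h2 i1 i2)

theorem hH : (SS θ ψ hθ hψ h2 i1 i2).H ≤ (chevSys (RR K) X4).H := M_H_le' _

theorem hn (J : Fin 2) : (SS θ ψ hθ hψ h2 i1 i2).n J = gw (RR K) (nwd (([[0, 3], [1, 2, 1, 2]] : List (List ℕ)).getD J [])) := by
  have h1 : (SS θ ψ hθ hψ h2 i1 i2).n J = nsw (RR K) _ := M_n' _ J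
  rw [h1, nsw_gw _ h2K]
  congr 2
  rcases H22.TwF4.two J with rfl | rfl
  · rfl
  · rfl

theorem hn0 : (SS θ ψ hθ hψ h2 i1 i2).n (0 : Fin 2) = gw (RR K) n0 := by
  rw [hn]
  have : nwd (([[0, 3], [1, 2, 1, 2]] : List (List ℕ)).getD (0 : Fin 2) []) = n0 := by decide +kernel
  rw [this]

theorem hn1 : (SS θ ψ hθ hψ h2 i1 i2).n (1 : Fin 2) = gw (RR K) n1 := by
  rw [hn]
  have : nwd (([[0, 3], [1, 2, 1, 2]] : List (List ℕ)).getD (1 : Fin 2) []) = n1 := by decide +kernel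
  rw [this]

theorem hnl : (SS θ ψ hθ hψ h2 i1 i2).nw [0, 1, 0, 1, 0, 1, 0, 1] = gw (RR K) nl := by
  have e : gw (RR K) nl = gw (RR K) n0 * gw (RR K) n1 * gw (RR K) n0 * gw (RR K) n1 * gw (RR K) n0 *
      gw (RR K) n1 * gw (RR K) n0 * gw (RR K) n1 := by
    unfold nl
    simp only [gw_append]
  rw [e]
  simp only [Sys.nw_cons, Sys.nw_nil, hn0, hn1, mul_one, mul_assoc]

/-- conjugating an involution of the monomial group -/
theorem to_y {m n q y : GL (F4).Idx K} {w : Equiv.Perm (Fin 16)}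
    (hm : (SS θ ψ hθ hψ h2 i1 i2).Rep m w) (hn : (SS θ ψ hθ hψ h2 i1 i2).Rep n w) (hm2 : m * m = 1)
    (hq : q ∈ (SS θ ψ hθ hψ h2 i1 i2).Γ) (e : q * n = y * q) (hy : y * y = 1) :
    ∃ h ∈ (SS θ ψ hθ hψ h2 i1 i2).Γ, h * m * h⁻¹ = y := by
  have en : n = q⁻¹ * y * q := by rw [mul_assoc, ← e]; group
  have hn2 : n * n = 1 := by
    have : n * n = q⁻¹ * (y * y) * q := by rw [en]; group
    rw [this, hy]; group
  obtain ⟨k, hk, e1⟩ := sqrt_conj (RR K) X4 (SS θ ψ hθ hψ h2 i1 i2) h2K (hH θ ψ hθ hψ h2 i1 i2) hm hn hm2 hn2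
  refine ⟨q * k⁻¹, mul_mem hq (inv_mem ((SS θ ψ hθ hψ h2 i1 i2).B_le_Γ
    ((SS θ ψ hθ hψ h2 i1 i2).H_le_B hk))), ?_⟩
  have : q * k⁻¹ * m * (q * k⁻¹)⁻¹ = q * (k⁻¹ * m * k) * q⁻¹ := by group
  rw [this, e1, e]; group

/-- the classification -/
theorem cls {t : GL (F4).Idx K} (ht : t ∈ (SS θ ψ hθ hψ h2 i1 i2).Γ) (h2t : t * t = 1) (h1 : t ≠ 1) :
    ∃ h ∈ (SS θ ψ hθ hψ h2 i1 i2).Γ, h * t * h⁻¹ = gw (RR K) gA ∨ h * t * h⁻¹ = gw (RR K) gZ := by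
  obtain ⟨g, hg, hgN⟩ := conj_N' (SS θ ψ hθ hψ h2 i1 i2) hc1 hc2 longest16 ht h2t
  obtain ⟨w, hw⟩ := (SS θ ψ hθ hψ h2 i1 i2).exists_rep hgN
  have hm2 : (g * t * g⁻¹) * (g * t * g⁻¹) = 1 := by
    have : g * t * g⁻¹ * (g * t * g⁻¹) = g * (t * t) * g⁻¹ := by group
    rw [this, h2t]; simp
  have hw2 : w * w = 1 := by
    have h1 := hw.mul hw
    rw [hm2] at h1
    exact h1.unique ((SS θ ψ hθ hψ h2 i1 i2).rep_H (SS θ ψ hθ hψ h2 i1 i2).H.one_mem)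
  rcases inv_W hw.2.1 hw2 with rfl | rfl | ⟨V, J, hV⟩
  · exfalso
    have h3 := eq_one_of_rep_one (RR K) X4 (SS θ ψ hθ hψ h2 i1 i2) h2K (hH θ ψ hθ hψ h2 i1 i2) hw hm2
    apply h1
    have : t = g⁻¹ * (g * t * g⁻¹) * g := by group
    rw [this, h3]; group
  · obtain ⟨h, hh, e⟩ := to_y θ ψ hθ hψ h2 i1 i2 hw ((SS θ ψ hθ hψ h2 i1 i2).rep_nw _) hm2
      (q := gw (RR K) ga * gw (RR K) gB * gw (RR K) gA * gw (RR K) gB * gw (RR K) gA * gw (RR K) gz *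
        gw (RR K) ga * gw (RR K) gb * gw (RR K) gB * gw (RR K) gA * gw (RR K) gB * gw (RR K) ga)
      (by
        have hA := memA θ ψ hθ hψ h2 i1 i2
        have ha := mema θ ψ hθ hψ h2 i1 i2
        have hB := memB θ ψ hθ hψ h2 i1 i2
        have hb := memb θ ψ hθ hψ h2 i1 i2
        have hz := memz θ ψ hθ hψ h2 i1 i2
        exact mul_mem (mul_mem (mul_mem (mul_mem (mul_mem (mul_mem (mul_mem (mul_mem (mul_mem (mul_mem
          (mul_mem ha hB) hA) hB) hA) hz) ha) hb) hB) hA) hB) ha)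
      (by rw [hnl]; exact j_nl (RR K) h2K) (j_AA (RR K) h2K)
    exact ⟨h * g, mul_mem hh hg, Or.inl (by rw [← e]; group)⟩
  · have hw' := (((SS θ ψ hθ hψ h2 i1 i2).rep_nw V).mul hw).mul ((SS θ ψ hθ hψ h2 i1 i2).rep_nw V).inv
    rw [hV] at hw'
    have hm2' : ((SS θ ψ hθ hψ h2 i1 i2).nw V * (g * t * g⁻¹) * ((SS θ ψ hθ hψ h2 i1 i2).nw V)⁻¹) *
        ((SS θ ψ hθ hψ h2 i1 i2).nw V * (g * t * g⁻¹) * ((SS θ ψ hθ hψ h2 i1 i2).nw V)⁻¹) = 1 := by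
      have : ∀ x m : GL (F4).Idx K, m * m = 1 → x * m * x⁻¹ * (x * m * x⁻¹) = 1 := by
        intro x m hm
        have : x * m * x⁻¹ * (x * m * x⁻¹) = x * (m * m) * x⁻¹ := by group
        rw [this, hm]; simp
      exact this _ _ hm2
    have hV' : (SS θ ψ hθ hψ h2 i1 i2).nw V ∈ (SS θ ψ hθ hψ h2 i1 i2).Γ :=
      (SS θ ψ hθ hψ h2 i1 i2).N_le_Γ ((SS θ ψ hθ hψ h2 i1 i2).nw_mem_N V)
    rcases H22.TwF4.two J with rfl | rfl
    · obtain ⟨h, hh, e⟩ := to_y θ ψ hθ hψ h2 i1 i2 hw' ((SS θ ψ hθ hψ h2 i1 i2).rep_n 0) hm2'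
        (q := gw (RR K) ga) (mema θ ψ hθ hψ h2 i1 i2) (by rw [hn0]; exact j_n0 (RR K) h2K) (j_AA (RR K) h2K)
      exact ⟨h * ((SS θ ψ hθ hψ h2 i1 i2).nw V * g), mul_mem hh (mul_mem hV' hg), Or.inl (by rw [← e]; group)⟩
    · obtain ⟨h, hh, e⟩ := to_y θ ψ hθ hψ h2 i1 i2 hw' ((SS θ ψ hθ hψ h2 i1 i2).rep_n 1) hm2'
        (q := gw (RR K) gb * gw (RR K) gB) (mul_mem (memb θ ψ hθ hψ h2 i1 i2) (memB θ ψ hθ hψ h2 i1 i2))
        (by rw [hn1]; exact j_n1 (RR K) h2K) (j_ZZ (RR K) h2K)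
      exact ⟨h * ((SS θ ψ hθ hψ h2 i1 i2).nw V * g), mul_mem hh (mul_mem hV' hg), Or.inr (by rw [← e]; group)⟩

/-- the two representatives are not conjugate -/
theorem not_conj {F : Type*} [Field F] (R : Rel F4 F) (h2F : (2 : F) = 0) (h : GL (F4).Idx F) :
    h * gw R gA * h⁻¹ ≠ gw R gZ := by
  intro e
  have h1 := rk_full_conj (D := F4) (N := 52) (by decide) h (gw R gA)
  rw [e, gw_val, gw_val] at h1
  have h2 := rkA (F := F) h2F
  have h3 := rkZ (F := F) h2F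
  have e1 : wm F4 F gA = wm F4 F [33, 24] := rfl
  have e2 : wm F4 F gZ = wm F4 F [28, 30] := rfl
  rw [e1, e2, h2, h3] at h1
  exact absurd h1 (by decide)

theorem ne_one_A {F : Type*} [Field F] (R : Rel F4 F) (h2F : (2 : F) = 0) : gw R gA ≠ 1 := by
  intro e
  have h2 := rkA (F := F) h2F
  have e1 : wm F4 F gA = wm F4 F [33, 24] := rfl
  rw [← e1, ← gw_val R, e, Units.val_one, rkP_one] at h2
  exact absurd h2 (by decide)

theorem ne_one_Z {F : Type*} [Field F] (R : Rel F4 F) (h2F : (2 : F) = 0) : gw R gZ ≠ 1 := by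
  intro e
  have h2 := rkZ (F := F) h2F
  have e1 : wm F4 F gZ = wm F4 F [28, 30] := rfl
  rw [← e1, ← gw_val R, e, Units.val_one, rkP_one] at h2
  exact absurd h2 (by decide)

end main

section grp

variable {F : Type*} [Field F] (R : Rel F4 F) (h2F : (2 : F) = 0) {G1 : Subgroup (GL (F4).Idx F)}

/-- the classification for a subgroup -/
structure Cls (G1 : Subgroup (GL (F4).Idx F)) : Prop where
  hA : gw R gA ∈ G1
  ha : gw R ga ∈ G1
  hB : gw R gB ∈ G1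
  hb : gw R gb ∈ G1
  cls : ∀ t ∈ G1, t * t = 1 → t ≠ 1 → ∃ h ∈ G1, h * t * h⁻¹ = gw R gA ∨ h * t * h⁻¹ = gw R gZ

variable {R} (C : Cls R G1)

include h2F in
theorem Cls.hZ (C : Cls R G1) : gw R gZ ∈ G1 := by
  rw [← j_BB R h2F]; exact mul_mem C.hB C.hB

include h2F in
theorem Cls.hz (C : Cls R G1) : gw R gz ∈ G1 := by
  rw [← j_bb R h2F]; exact mul_mem C.hb C.hb

theorem order2 {G : Type*} [Group G] {x : G} (h : x * x = 1) (h1 : x ≠ 1) : orderOf x = 2 :=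
  orderOf_eq_prime (by rw [pow_two]; exact h) h1

theorem sub_order2 {G : Type*} [Group G] {H : Subgroup G} {x : G} (hx : x ∈ H) (h : x * x = 1) (h1 : x ≠ 1) :
    orderOf (⟨x, hx⟩ : ↥H) = 2 := order2 (Subtype.ext h) fun e => h1 (congrArg Subtype.val e)

include h2F in
theorem Cls.conj (C : Cls R G1) (g : ↥G1) (hg : orderOf g = 2) :
    IsConj g ⟨_, C.hA⟩ ∨ IsConj g ⟨_, C.hZ h2F⟩ := by
  have h1 : g * g = 1 := by rw [← pow_two, ← hg]; exact pow_orderOf_eq_one g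
  obtain ⟨h, hh, e⟩ := C.cls g g.2 (congrArg Subtype.val h1) (by
    intro h2
    have : g = 1 := Subtype.ext h2
    rw [this, orderOf_one] at hg
    exact absurd hg (by decide))
  rcases e with e | e
  · exact Or.inl (isConj_iff.2 ⟨⟨h, hh⟩, Subtype.ext e⟩)
  · exact Or.inr (isConj_iff.2 ⟨⟨h, hh⟩, Subtype.ext e⟩)

include h2F in
theorem Cls.nconj (C : Cls R G1) : ¬ IsConj (⟨_, C.hA⟩ : ↥G1) ⟨_, C.hZ h2F⟩ := by
  intro h
  obtain ⟨c, hc⟩ := isConj_iff.1 h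
  exact not_conj R h2F c (congrArg Subtype.val hc)

include h2F in
theorem Cls.card (C : Cls R G1) : (ConjClasses.mk '' {g : ↥G1 | orderOf g = 2}).ncard = 2 :=
  H42.Inv2Ab.ncard_two (sub_order2 C.hA (j_AA R h2F) (ne_one_A R h2F))
    (sub_order2 (C.hZ h2F) (j_ZZ R h2F) (ne_one_Z R h2F)) (C.conj h2F) (C.nconj h2F)

end grp

end H42.Inv2TF4
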