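import Cfsg.Agent.Lib.H42.Inv2TF4b

/-!
Characteristic two, type ²F₄: the Tits group.
-/

set_option autoImplicit false
set_option maxRecDepth 100000
set_option linter.unusedSectionVars false
set_option linter.style.haveILetI false
set_option linter.unusedSimpArgs false

namespace H42.Inv2TF4

open H22.RGD H22.Coord H22.RCPack H42.Inv2M H42.Inv2D H42.Inv2E H42.Inv2C H42.Inv2F H22.ChevRel
open H22.ChevUni H42.Inv2P H22.TwThm H22.RCComb H22.TwDat H22.TwF4 H22.ChevSys H42.InvW H42.Inv2G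
open H22.TwChev H22.TwX H22.St H22.ChevMain H22.RCCheck H22.ChevTri
open scoped commutatorElement

local notation "F4" => Cfsg.Lie.chevF4

section abs

variable {G : Type*} [Group G] {A a B b Z z : G} (hAA : A * A = 1) (haa : a * a = 1) (hZZ : Z * Z = 1)
  (hBB : B * B = Z) (hbb : b * b = z) (hBZ : B * Z = Z * B)
  (hs : (B * A * Z * b * a * z * A * a) * (A * Z * A * Z * A * Z * A * Z) = A * (B * A * Z * b * a * z * A * a))
  (hp : (z * a * z * a * z * a * z) * (B * A * a * b * B * Z * b * z * a * A * (A * b * B * A * B * Z * b * z)) =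
    Z * (z * a * z * a * z * a * z))
  (haAa : a * A * a = A * a * A) (hBb : B * z * B = b * B * z)
  (hcA : a * A * B * A * a * A = A * a * A * B * A * a)

include hAA hZZ hs in
theorem A_mem : A ∈ commutator G := by
  have hA' : A⁻¹ = A := inv_eq_of_mul_eq_one_left hAA
  have hZ' : Z⁻¹ = Z := inv_eq_of_mul_eq_one_left hZZ
  set q := B * A * Z * b * a * z * A * a
  have e : A = q * (⁅A, Z⁆ * ⁅A, Z⁆) * q⁻¹ := by
    rw [eq_mul_inv_iff_mul_eq, ← hs, commutatorElement_def, hA', hZ']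
    simp only [mul_assoc]
  rw [e]
  have hc : ⁅A, Z⁆ ∈ commutator G :=
    Subgroup.commutator_mem_commutator (Subgroup.mem_top _) (Subgroup.mem_top _)
  exact (inferInstance : (commutator G).Normal).conj_mem _ (mul_mem hc hc) _

include hBB hZZ in
theorem B_inv : B⁻¹ = B * Z := by
  apply inv_eq_of_mul_eq_one_right
  rw [← mul_assoc, hBB, hZZ]

include hBB hbb hZZ hBb in
theorem b_inv : b⁻¹ = b * z := by
  have e : b = (B * z) * B * (B * z)⁻¹ := by
    rw [eq_mul_inv_iff_mul_eq, hBb, mul_assoc]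
  have e2 : z = (B * z) * Z * (B * z)⁻¹ := by
    rw [← hBB]
    conv_lhs => rw [← hbb, e]
    group
  have hzz : z * z = 1 := by
    have : z * z = (B * z) * (Z * Z) * (B * z)⁻¹ := by
      conv_lhs => rw [e2]
      group
    rw [this, hZZ]; group
  apply inv_eq_of_mul_eq_one_right
  rw [← mul_assoc, hbb, hzz]

include hAA haa hZZ hBB hbb hBb hp in
theorem Z_mem : Z ∈ commutator G := by
  have hA' : A⁻¹ = A := inv_eq_of_mul_eq_one_left hAA
  have ha' : a⁻¹ = a := inv_eq_of_mul_eq_one_left haa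
  have hB' := B_inv hZZ hBB
  have hb' := b_inv hZZ hBB hbb hBb
  set q := z * a * z * a * z * a * z
  have e : Z = q * (⁅B, A * a * b⁆ * ⁅A, b * B⁆) * q⁻¹ := by
    rw [eq_mul_inv_iff_mul_eq, ← hp, commutatorElement_def, commutatorElement_def, mul_inv_rev,
      mul_inv_rev, mul_inv_rev, hA', ha', hB', hb']
    simp only [mul_assoc]
  rw [e]
  have hc : ∀ x y : G, ⁅x, y⁆ ∈ commutator G := fun x y =>
    Subgroup.commutator_mem_commutator (Subgroup.mem_top _) (Subgroup.mem_top _)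
  exact (inferInstance : (commutator G).Normal).conj_mem _ (mul_mem (hc _ _) (hc _ _)) _

include hAA haa hZZ hBB hbb hBZ hs hp haAa hBb hcA in
theorem tits_abs (hgen : Subgroup.closure ({A, a, B, b} : Set G) = ⊤) (hA1 : A ≠ 1) (hZ1 : Z ≠ 1)
    (hcls : ∀ g : G, orderOf g = 2 → IsConj g A ∨ IsConj g Z) (hne : ¬ IsConj A Z) :
    (ConjClasses.mk '' {g : ↥(commutator G) | orderOf g = 2}).ncard = 2 := by
  have hA' : A⁻¹ = A := inv_eq_of_mul_eq_one_left hAA
  have ha' : a⁻¹ = a := inv_eq_of_mul_eq_one_left haa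
  have hAN : A ∈ commutator G := A_mem hAA hZZ hs
  have hZN : Z ∈ commutator G := Z_mem hAA haa hZZ hBB hbb hp hBb
  have haN : a ∈ commutator G := by
    have e : a = (A * a) * A * (A * a)⁻¹ := by
      rw [mul_inv_rev, ha', hA']
      calc a = a * (A * A) := by rw [hAA, mul_one]
        _ = (a * A) * (a * a) * A := by rw [haa]; simp only [mul_assoc, one_mul]
        _ = (a * A * a) * a * A := by simp only [mul_assoc]
        _ = A * a * A * (a * A) := by rw [haAa]; simp only [mul_assoc]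
    rw [e]
    exact (inferInstance : (commutator G).Normal).conj_mem _ hAN _
  have hbN : B⁻¹ * b ∈ commutator G := by
    have e : b = (B * z) * B * (B * z)⁻¹ := by
      rw [eq_mul_inv_iff_mul_eq, hBb, mul_assoc]
    have : B⁻¹ * b = ⁅B⁻¹, B * z⁆ := by
      conv_lhs => rw [e]
      rw [commutatorElement_def]; group
    rw [this]
    exact Subgroup.commutator_mem_commutator (Subgroup.mem_top _) (Subgroup.mem_top _)
  have hB2 : B ^ 2 ∈ commutator G := by rw [pow_two, hBB]; exact hZN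
  refine H42.Inv2Ab.ncard_comm (B := B) (c := (a * A) * B * (a * A)⁻¹) (order2 hAA hA1) (order2 hZZ hZ1) hcls
    hne hAN hZN (H42.Inv2Ab.exists_pow hgen hB2 (by norm_num) ?_) hBZ ?_ ⟨_, rfl⟩
  · rintro s (rfl | rfl | rfl | rfl)
    · exact ⟨0, _, hAN, by simp⟩
    · exact ⟨0, _, haN, by simp⟩
    · exact ⟨1, 1, one_mem _, by simp⟩
    · exact ⟨1, _, hbN, by simp⟩
  · show (a * A) * B * (a * A)⁻¹ * A = A * ((a * A) * B * (a * A)⁻¹)
    rw [mul_inv_rev, ha', hA']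
    simpa only [mul_assoc] using hcA

end abs

section grp

variable {F : Type*} [Field F] {R : Rel F4 F} (h2F : (2 : F) = 0) {G1 : Subgroup (GL (F4).Idx F)}

include h2F in
theorem Cls.tits (C : Cls R G1)
    (hgen : G1 ≤ Subgroup.closure ({gw R gA, gw R ga, gw R gB, gw R gb} : Set (GL (F4).Idx F))) :
    (ConjClasses.mk '' {g : ↥(commutator ↥G1) | orderOf g = 2}).ncard = 2 := by
  refine tits_abs (A := (⟨_, C.hA⟩ : ↥G1)) (a := ⟨_, C.ha⟩) (B := ⟨_, C.hB⟩) (b := ⟨_, C.hb⟩)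
    (Z := ⟨_, C.hZ h2F⟩) (z := ⟨_, C.hz h2F⟩) (Subtype.ext (j_AA R h2F)) (Subtype.ext (j_aa R h2F))
    (Subtype.ext (j_ZZ R h2F)) (Subtype.ext (j_BB R h2F)) (Subtype.ext (j_bb R h2F))
    (Subtype.ext (j_BZ R h2F)) (Subtype.ext (j_s R h2F)) (Subtype.ext (j_p R h2F))
    (Subtype.ext (j_aAa R h2F)) (Subtype.ext (j_Bb R h2F)) (Subtype.ext (j_cA R h2F)) ?_
    (fun h => ne_one_A R h2F (congrArg Subtype.val h)) (fun h => ne_one_Z R h2F (congrArg Subtype.val h))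
    (C.conj h2F) (C.nconj h2F)
  rw [eq_top_iff]
  intro g _
  have h1 := hgen g.2
  have h2 : ({gw R gA, gw R ga, gw R gB, gw R gb} : Set (GL (F4).Idx F)) = G1.subtype ''
      ({⟨_, C.hA⟩, ⟨_, C.ha⟩, ⟨_, C.hB⟩, ⟨_, C.hb⟩} : Set ↥G1) := by
    simp [Set.image_insert_eq]
  rw [h2, ← MonoidHom.map_closure] at h1
  obtain ⟨x, hx, e⟩ := h1
  have : x = g := Subtype.ext e
  rw [← this]; exact hx

end grp

section fin

theorem cls_of {K : Type*} [Field K] [Fintype K] {m : ℕ} (hK : Fintype.card K = 2 ^ (2 * m + 1)) :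
    Cls (RR K) (Cfsg.Lie.twistedF4 K (2 ^ m)) := by
  haveI := char2 hK
  let θ : K →+* K := iterateFrobenius K 2 m
  let ψ : K →+* K := iterateFrobenius K 2 (m + 1)
  have hθt : ∀ t, θ t = t ^ 2 ^ m := fun t => iterateFrobenius_def 2 m t
  have hψt : ∀ t, ψ t = t ^ 2 ^ (m + 1) := fun t => iterateFrobenius_def 2 (m + 1) t
  have hθ : Function.Surjective θ := Finite.surjective_of_injective (RingHom.injective _)
  have hψ : Function.Surjective ψ := Finite.surjective_of_injective (RingHom.injective _)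
  have h2 : ∀ t, ψ t = θ t ^ 2 := by
    intro t; rw [hψt, hθt, ← pow_mul, pow_succ]
  have hfr : ∀ t : K, t ^ 2 ^ (2 * m + 1) = t := by
    intro t
    have := FiniteField.pow_card t
    rwa [hK] at this
  have i1 : ∀ t, θ (ψ t) = t := by
    intro t
    rw [hψt, hθt, ← pow_mul, ← pow_add, show m + 1 + m = 2 * m + 1 by ring, hfr]
  have i2 : ∀ t, ψ (θ t) = t := by
    intro t
    rw [hψt, hθt, ← pow_mul, ← pow_add, show m + (m + 1) = 2 * m + 1 by ring, hfr]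
  have hG := Γ_eq (RR K) (H22.St.hmul_all _ memF4) θ ψ hθ hψ h2 i1 i2 hθt
  rw [← hG]
  exact ⟨memA θ ψ hθ hψ h2 i1 i2, mema θ ψ hθ hψ h2 i1 i2, memB θ ψ hθ hψ h2 i1 i2,
    memb θ ψ hθ hψ h2 i1 i2, fun t ht h h' => cls θ ψ hθ hψ h2 i1 i2 ht h h'⟩

theorem two_eq {K : Type*} [Field K] [Fintype K] {m : ℕ} (hK : Fintype.card K = 2 ^ (2 * m + 1)) :
    (2 : K) = 0 := by
  haveI := char2 hK
  exact h2K

theorem main1 {K : Type*} [Field K] [Fintype K] {m : ℕ} (hK : Fintype.card K = 2 ^ (2 * m + 1)) :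
    (ConjClasses.mk '' {g : ↥(Cfsg.Lie.twistedF4 K (2 ^ m)) | orderOf g = 2}).ncard = 2 :=
  (cls_of hK).card (two_eq hK)

local notation "RZ" => RR (ZMod 2)

theorem h2Z : (2 : ZMod 2) = 0 := by decide

theorem gen : Cfsg.Lie.twistedF4 (ZMod 2) 1 ≤
    Subgroup.closure ({gw RZ gA, gw RZ ga, gw RZ gB, gw RZ gb} : Set (GL (F4).Idx (ZMod 2))) := by
  set H := Subgroup.closure ({gw RZ gA, gw RZ ga, gw RZ gB, gw RZ gb} : Set (GL (F4).Idx (ZMod 2)))
  have mA : gw RZ gA ∈ H := Subgroup.subset_closure (by simp)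
  have ma : gw RZ ga ∈ H := Subgroup.subset_closure (by simp)
  have mB : gw RZ gB ∈ H := Subgroup.subset_closure (by simp)
  have mb : gw RZ gb ∈ H := Subgroup.subset_closure (by simp)
  have mZ : gw RZ gZ ∈ H := by rw [← j_BB RZ h2Z]; exact mul_mem mB mB
  have mz : gw RZ gz ∈ H := by rw [← j_bb RZ h2Z]; exact mul_mem mb mb
  unfold Cfsg.Lie.twistedF4 Cfsg.Lie.ChevalleyDatum.genSubgroup
  rw [Subgroup.closure_le]
  rintro g ⟨w, hw, hg⟩
  have hgw : g = wg RZ w := by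
    apply Units.ext
    rw [hg, ← wg_val (R := RZ)]
  have hz : ∀ r, xg RZ r (0 : ZMod 2) = 1 := fun r => xg_zero RZ r
  have h01 : ∀ t : ZMod 2, t = 0 ∨ t = 1 := by decide
  rcases hw with ⟨t, rfl | rfl⟩ | ⟨t, u, rfl | rfl⟩
  · rcases h01 t with rfl | rfl
    · rw [hgw]
      have : wg RZ (Cfsg.Lie.f4PairWord 1 Cfsg.Lie.f4p1 Cfsg.Lie.f4p4 (0 : ZMod 2)) = 1 := by
        simp [wg, Cfsg.Lie.f4PairWord, hz]
      rw [this]; exact one_mem _
    · rw [hgw]
      have : wg RZ (Cfsg.Lie.f4PairWord 1 Cfsg.Lie.f4p1 Cfsg.Lie.f4p4 (1 : ZMod 2)) = gw RZ gA := by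
        simp [wg, Cfsg.Lie.f4PairWord, gw, gA, Cfsg.Lie.f4p1, Cfsg.Lie.f4p4]
      rw [this]; exact mA
  · rcases h01 t with rfl | rfl
    · rw [hgw]
      have : wg RZ (Cfsg.Lie.f4PairWord 1 Cfsg.Lie.f4m1 Cfsg.Lie.f4m4 (0 : ZMod 2)) = 1 := by
        simp [wg, Cfsg.Lie.f4PairWord, hz]
      rw [this]; exact one_mem _
    · rw [hgw]
      have : wg RZ (Cfsg.Lie.f4PairWord 1 Cfsg.Lie.f4m1 Cfsg.Lie.f4m4 (1 : ZMod 2)) = gw RZ ga := by
        simp [wg, Cfsg.Lie.f4PairWord, gw, ga, Cfsg.Lie.f4m1, Cfsg.Lie.f4m4]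
      rw [this]; exact ma
  · rcases h01 t with rfl | rfl <;> rcases h01 u with rfl | rfl <;> rw [hgw]
    · have : wg RZ (Cfsg.Lie.b2ClassWord 1 Cfsg.Lie.f4a Cfsg.Lie.f4b Cfsg.Lie.f4ab Cfsg.Lie.f4aab
          (0 : ZMod 2) 0) = 1 := by
        simp [wg, Cfsg.Lie.b2ClassWord, hz]
      rw [this]; exact one_mem _
    · have : wg RZ (Cfsg.Lie.b2ClassWord 1 Cfsg.Lie.f4a Cfsg.Lie.f4b Cfsg.Lie.f4ab Cfsg.Lie.f4aab
          (0 : ZMod 2) 1) = gw RZ gZ := by
        simp [wg, Cfsg.Lie.b2ClassWord, hz, gw, gZ, Cfsg.Lie.f4ab, Cfsg.Lie.f4aab]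
      rw [this]; exact mZ
    · have : wg RZ (Cfsg.Lie.b2ClassWord 1 Cfsg.Lie.f4a Cfsg.Lie.f4b Cfsg.Lie.f4ab Cfsg.Lie.f4aab
          (1 : ZMod 2) 0) = gw RZ gB := by
        simp [wg, Cfsg.Lie.b2ClassWord, hz, gw, gB, Cfsg.Lie.f4ab, Cfsg.Lie.f4a, Cfsg.Lie.f4b]
      rw [this]; exact mB
    · have : wg RZ (Cfsg.Lie.b2ClassWord 1 Cfsg.Lie.f4a Cfsg.Lie.f4b Cfsg.Lie.f4ab Cfsg.Lie.f4aab
          (1 : ZMod 2) 1) = gw RZ gB * gw RZ gZ := by
        have h1 : (1 : ZMod 2) + 1 = 0 := by decide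
        have h2 : ∀ y : GL (F4).Idx (ZMod 2), xg RZ 28 1 * (xg RZ 28 1 * y) = y := by
          intro y
          rw [← mul_assoc, xg_mul]
          have : (1 : ZMod 2) + 1 = 0 := by decide
          rw [this, hz, one_mul]
        simp only [wg, Cfsg.Lie.b2ClassWord, h1, hz, gw, gB, gZ, Cfsg.Lie.f4ab, Cfsg.Lie.f4a, Cfsg.Lie.f4b,
          Cfsg.Lie.f4aab, List.map_cons, List.map_nil, List.prod_cons, List.prod_nil, one_pow, mul_one,
          one_mul, mul_assoc, h2]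
      rw [this]; exact mul_mem mB mZ
  · rcases h01 t with rfl | rfl <;> rcases h01 u with rfl | rfl <;> rw [hgw]
    · have : wg RZ (Cfsg.Lie.b2ClassWord 1 Cfsg.Lie.f4ma Cfsg.Lie.f4mb Cfsg.Lie.f4mab Cfsg.Lie.f4maab
          (0 : ZMod 2) 0) = 1 := by
        simp [wg, Cfsg.Lie.b2ClassWord, hz]
      rw [this]; exact one_mem _
    · have : wg RZ (Cfsg.Lie.b2ClassWord 1 Cfsg.Lie.f4ma Cfsg.Lie.f4mb Cfsg.Lie.f4mab Cfsg.Lie.f4maab
          (0 : ZMod 2) 1) = gw RZ gz := by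
        simp [wg, Cfsg.Lie.b2ClassWord, hz, gw, gz, Cfsg.Lie.f4mab, Cfsg.Lie.f4maab]
      rw [this]; exact mz
    · have : wg RZ (Cfsg.Lie.b2ClassWord 1 Cfsg.Lie.f4ma Cfsg.Lie.f4mb Cfsg.Lie.f4mab Cfsg.Lie.f4maab
          (1 : ZMod 2) 0) = gw RZ gb := by
        simp [wg, Cfsg.Lie.b2ClassWord, hz, gw, gb, Cfsg.Lie.f4mab, Cfsg.Lie.f4ma, Cfsg.Lie.f4mb]
      rw [this]; exact mb
    · have : wg RZ (Cfsg.Lie.b2ClassWord 1 Cfsg.Lie.f4ma Cfsg.Lie.f4mb Cfsg.Lie.f4mab Cfsg.Lie.f4maab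
          (1 : ZMod 2) 1) = gw RZ gb * gw RZ gz := by
        have h1 : (1 : ZMod 2) + 1 = 0 := by decide
        have h2 : ∀ y : GL (F4).Idx (ZMod 2), xg RZ 19 1 * (xg RZ 19 1 * y) = y := by
          intro y
          rw [← mul_assoc, xg_mul]
          have : (1 : ZMod 2) + 1 = 0 := by decide
          rw [this, hz, one_mul]
        simp only [wg, Cfsg.Lie.b2ClassWord, h1, hz, gw, gb, gz, Cfsg.Lie.f4mab, Cfsg.Lie.f4ma, Cfsg.Lie.f4mb,
          Cfsg.Lie.f4maab, List.map_cons, List.map_nil, List.prod_cons, List.prod_nil, one_pow, mul_one,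
          one_mul, mul_assoc, h2]
      rw [this]; exact mul_mem mb mz

theorem main2 : (ConjClasses.mk '' {g : Cfsg.Lie.TitsGroup | orderOf g = 2}).ncard = 2 :=
  (cls_of (K := ZMod 2) (m := 0) (by decide)).tits h2Z gen

end fin

end H42.Inv2TF4
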