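import Cfsg.Agent.Lib.H42.Inv2T

/-!
Characteristic two: the driver for the classification of involutions of twisted groups.
-/

set_option autoImplicit false
set_option linter.unusedSectionVars false

namespace H42.Inv2T.TEnv

open H22.RGD H22.Coord H22.RCCheck H22.RCComb H22.ChevTri H22.ChevRel H22.ChevSys H22.ChevMain
open H22.RCPack H42.InvCK H42.InvW H42.Inv2F H42.Inv2E H42.Inv2M H42.Inv2C H42.Inv2D
open Cfsg.Lie (ChevalleyDatum)
open scoped MatrixGroups Matrix

variable {D D' : ChevalleyDatum} {F : Type*} [Field F] (V : TEnv D D' F)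

/-- lists of roots -/
def fl (L : List ℕ) : List (Fin D'.nroots) := L.map (fn V.h0')

theorem fl_append (L M : List ℕ) : V.fl (L ++ M) = V.fl L ++ V.fl M := List.map_append

theorem fl_length (L : List ℕ) : (V.fl L).length = L.length := by unfold fl; simp

theorem fl_val {L : List ℕ} (h : ckB D' L = true) : (V.fl L).map Fin.val = L := by
  unfold fl
  rw [List.map_map]
  conv_rhs => rw [← List.map_id L]
  apply List.map_congr_left
  intro k hk
  exact fn_val V.h0' (ckB_spec h k hk)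

theorem sup_spec {P : List ℕ} {m : ℕ} (hP : ckB D' P = true)
    (h : Env.ckSup V.T' V.A' V.d' D' D'.rank D'.nroots P m = true) {s : Fin D'.nroots}
    (hs : ∀ p ∈ V.fl P, ip V.Q' p s = 0) : Supp V.X' m s := by
  have h1 := allN_spec h s s.2
  have h2 : allL (fun p => zB (ipB V.T' V.A' V.d' D' D'.rank p s D'.rank)) P = true := by
    apply Env.allL_of
    intro a ha
    have := ip_eq' V.hco' V.hA' V.Q' V.hd' (fn V.h0' a) s
    rw [fn_val V.h0' (ckB_spec hP a ha)] at this
    rw [this, zB_iff]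
    exact hs _ (List.mem_map_of_mem ha)
  rw [h2, Bool.not_true, Bool.or_false] at h1
  exact (supB_iff V.hco' m s).1 h1

/-- one step -/
theorem step {P : List (Fin D'.nroots)} {m : ℕ} {Θ : List (Fin D'.nroots)}
    (hdom : ∀ r : Fin D'.nroots, Supp V.X' m r →
      (∀ i : Fin D'.rank, m.testBit i = true → 0 ≤ D'.cartan i r) → r ∈ Θ)
    (hP : ∀ p ∈ P, ∀ i : Fin D'.rank, m.testBit i = true → D'.cartan i p = 0)
    {r : Fin D'.nroots} {rest : List (Fin D'.nroots)} (ho : V.SOL (P ++ r :: rest))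
    (hs : ∀ s ∈ r :: rest, Supp V.X' m s) :
    ∃ θ ∈ Θ, ∃ rest' : List (Fin D'.nroots), rest'.length = rest.length ∧
      V.CjT (P ++ r :: rest) (P ++ θ :: rest') ∧ V.SOL (P ++ θ :: rest') := by
  obtain ⟨W, hW, hθ⟩ := reach V.X' hdom (hs r List.mem_cons_self)
  have hPm : P.map ((H22.RCComb.comb V.X').w W) = P := by
    conv_rhs => rw [← List.map_id P]
    apply List.map_congr_left
    intro p hp
    exact w_fix V.X' fun i hi => hP p hp i (hW i hi)
  have e : (P ++ r :: rest).map ((H22.RCComb.comb V.X').w W) =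
      P ++ (H22.RCComb.comb V.X').w W r :: rest.map ((H22.RCComb.comb V.X').w W) := by
    rw [List.map_append, List.map_cons, hPm]
  have ho' := V.sol_map W ho
  have hcj := V.cjT_map W ho
  rw [e] at ho' hcj
  exact ⟨_, hθ, rest.map ((H22.RCComb.comb V.X').w W), by simp, hcj, ho'⟩

theorem node {P : List ℕ} {m : ℕ} {Θ : List ℕ} (hck : Env.ckNode V.T' V.A' V.d' D' P m Θ = true)
    {G : List (Fin D'.nroots) → Prop} (htr : ∀ L M, V.CjT L M → G M → G L) {n : ℕ}
    (hnil : P.length = n → G (V.fl P))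
    (hcons : ∀ θ ∈ Θ, ∀ rest : List (Fin D'.nroots), P.length + 1 + rest.length = n →
      V.SOL (V.fl (P ++ [θ]) ++ rest) → G (V.fl (P ++ [θ]) ++ rest)) :
    ∀ rest : List (Fin D'.nroots), P.length + rest.length = n → V.SOL (V.fl P ++ rest) →
      G (V.fl P ++ rest) := by
  unfold Env.ckNode at hck
  simp only [Bool.and_eq_true] at hck
  obtain ⟨⟨⟨hB, hS⟩, hDm⟩, hF⟩ := hck
  intro rest hn ho
  rcases rest with _ | ⟨r, rest⟩
  · rw [List.append_nil]
    exact hnil (by simpa using hn)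
  · have ho' := List.pairwise_append.1 ho
    have hsup : ∀ s ∈ r :: rest, Supp V.X' m s := fun s hs =>
      V.sup_spec hB hS fun p hp => (ho'.2.2 p hp s hs).1
    have hP : ∀ p ∈ V.fl P, ∀ i : Fin D'.rank, m.testBit i = true → D'.cartan i p = 0 := by
      apply fix_spec V.hco' V.hA'
      rw [V.fl_val hB]; exact hF
    obtain ⟨θ, hθ, rest', hl, hcj, ho2⟩ := V.step (P := V.fl P) (m := m)
      (Θ := V.fl Θ) (fun r h1 h2 => by
        have := dom_spec V.hco' V.hA' hDm r h1 h2
        have h3 := List.mem_map_of_mem (f := fn V.h0') this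
        rw [fn_coe] at h3
        exact h3) hP ho hsup
    obtain ⟨k, hk, rfl⟩ := List.mem_map.1 hθ
    have e : V.fl P ++ fn V.h0' k :: rest' = V.fl (P ++ [k]) ++ rest' := by
      rw [fl_append, List.append_assoc]; rfl
    rw [e] at hcj ho2
    refine htr _ _ hcj (hcons k hk rest' ?_ ho2)
    rw [hl]; simp only [List.length_cons] at hn; omega

theorem move {u S T' : List ℕ} (hck : Env.ckMove D' u S T' = true) {rest : List (Fin D'.nroots)}
    (ho : V.SOL (V.fl S ++ rest)) : ∃ rest' : List (Fin D'.nroots), rest'.length = rest.length ∧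
      V.CjT (V.fl S ++ rest) (V.fl T' ++ rest') ∧ V.SOL (V.fl T' ++ rest') := by
  unfold Env.ckMove at hck
  simp only [Bool.and_eq_true] at hck
  obtain ⟨⟨⟨h1, h2⟩, h3⟩, h4⟩ := hck
  have hu : ∀ i ∈ u, i < D'.rank := fun i hi => Nat.le_of_ble_eq_true (allL_spec h3 i hi)
  set u' := u.attach.map fun i => (⟨i.1, hu i.1 i.2⟩ : Fin D'.rank) with hu'
  have e : u'.map Fin.val = u := by
    rw [hu', List.map_map]
    conv_rhs => rw [← List.attach_map_subtype_val u]
    rfl
  have h5 : ((V.fl S).map ((H22.RCComb.comb V.X').w u')).Perm (V.fl T') := by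
    rw [← List.map_perm_map_iff Fin.val_injective]
    have : ((V.fl S).map ((H22.RCComb.comb V.X').w u')).map Fin.val = S.map (wr D' u) := by
      rw [List.map_map]
      conv_rhs => rw [← V.fl_val h1]
      rw [List.map_map]
      apply List.map_congr_left
      intro s _
      show (((H22.RCComb.comb V.X').w u' s : Fin D'.nroots) : ℕ) = wr D' u s
      rw [wr_eq, e]
    rw [this, V.fl_val h2]
    exact List.isPerm_iff.1 h4
  have h6 : ((V.fl S ++ rest).map ((H22.RCComb.comb V.X').w u')).Perm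
      (V.fl T' ++ rest.map ((H22.RCComb.comb V.X').w u')) := by
    rw [List.map_append]; exact h5.append_right _
  have ho' := V.sol_map u' ho
  exact ⟨rest.map ((H22.RCComb.comb V.X').w u'), by simp,
    (V.cjT_map u' ho).trans (V.cjT_perm ho' h6), V.sol_perm ho' h6⟩

/-- the relation on codes -/
def soB (T : ℕ) (A : ℕ → ℕ → ℤ) (d : ℕ → ℤ) (D : ChevalleyDatum) (r s : ℕ) : Bool :=
  zB (ipB T A d D D.rank r s D.rank) &&
    !(decide (ipB T A d D D.rank r r D.rank = 2) && decide (ipB T A d D D.rank s s D.rank = 2))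

theorem soB_iff {r s : ℕ} (hr : r < D'.nroots) (hs : s < D'.nroots) :
    soB V.T' V.A' V.d' D' r s = true ↔ SO V.Q' (fn V.h0' r) (fn V.h0' s) := by
  unfold soB SO
  have e : ∀ {r s : ℕ}, r < D'.nroots → s < D'.nroots → ipB V.T' V.A' V.d' D' D'.rank r s D'.rank =
      ip V.Q' (fn V.h0' r) (fn V.h0' s) := by
    intro r s hr hs
    have := ip_eq' V.hco' V.hA' V.Q' V.hd' (fn V.h0' r) (fn V.h0' s)
    rw [fn_val V.h0' hr, fn_val V.h0' hs] at this
    exact this
  rw [e hr hs, e hr hr, e hs hs]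
  simp only [Bool.and_eq_true, zB_iff, Bool.not_eq_true', Bool.and_eq_false_iff, decide_eq_false_iff_not]
  tauto

/-- SO lists -/
def ckSOL (T : ℕ) (A : ℕ → ℕ → ℤ) (d : ℕ → ℤ) (D : ChevalleyDatum) (L : List ℕ) : Bool :=
  ckB D L && allIdx (fun i p => allIdx (fun j q => Nat.ble j i || soB T A d D p q) 0 L) 0 L

theorem sol_spec {L : List ℕ} (h : ckSOL V.T' V.A' V.d' D' L = true) : V.SOL (V.fl L) := by
  unfold ckSOL at h
  rw [Bool.and_eq_true] at h
  obtain ⟨h3, h6⟩ := h
  unfold SOL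
  rw [List.pairwise_iff_getElem]
  intro i j hi hj hij
  rw [fl_length] at hi hj
  have h8 := allIdx_spec (allIdx_spec h6 i hi) j hj
  have h9 : Nat.ble (0 + j) (0 + i) = false := by
    rw [Bool.eq_false_iff]; intro h
    have := Nat.le_of_ble_eq_true h
    omega
  rw [h9, Bool.false_or, V.soB_iff (ckB_spec h3 _ (List.getElem_mem hi))
    (ckB_spec h3 _ (List.getElem_mem hj))] at h8
  have e : ∀ (i : ℕ) (hi : i < L.length), (V.fl L)[i]'(by rw [fl_length]; exact hi) = fn V.h0' L[i] := by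
    intro i hi
    unfold fl
    rw [List.getElem_map]
  rw [e i hi, e j hj]
  exact h8

/-- impossible lists -/
def ckBad (T : ℕ) (A : ℕ → ℕ → ℤ) (d : ℕ → ℤ) (D : ChevalleyDatum) (L : List ℕ) : Bool :=
  ckB D L && !(allIdx (fun i p => allIdx (fun j q => Nat.ble j i || soB T A d D p q) 0 L) 0 L)

theorem allIdx_of {α : Type*} {p : ℕ → α → Bool} : ∀ {L : List α} {k : ℕ},
    (∀ i (h : i < L.length), p (k + i) L[i] = true) → allIdx p k L = true := by
  intro L
  induction L with
  | nil => intro k _; rfl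
  | cons a L ih =>
    intro k h
    simp only [allIdx, Bool.and_eq_true]
    refine ⟨h 0 (by simp), ih fun i hi => ?_⟩
    have := h (i + 1) (by simpa using hi)
    rw [List.getElem_cons_succ] at this
    rw [add_assoc, add_comm 1 i]
    exact this

theorem bad_spec {L : List ℕ} (h : ckBad V.T' V.A' V.d' D' L = true) {rest : List (Fin D'.nroots)}
    (hs : V.SOL (V.fl L ++ rest)) : False := by
  unfold ckBad at h
  rw [Bool.and_eq_true, Bool.not_eq_true'] at h
  obtain ⟨h1, h2⟩ := h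
  rw [Bool.eq_false_iff] at h2
  apply h2
  apply allIdx_of
  intro i hi
  apply allIdx_of
  intro j hj
  rw [Bool.or_eq_true, V.soB_iff (ckB_spec h1 _ (List.getElem_mem hi))
    (ckB_spec h1 _ (List.getElem_mem hj))]
  by_cases hij : j ≤ i
  · left; apply Nat.ble_eq_true_of_le; omega
  · right
    have h3 := (List.pairwise_append.1 hs).1
    rw [List.pairwise_iff_getElem] at h3
    have := h3 i j (by rw [fl_length]; exact hi) (by rw [fl_length]; exact hj) (by omega)
    have e : ∀ (i : ℕ) (hi : i < L.length), (V.fl L)[i]'(by rw [fl_length]; exact hi) = fn V.h0' L[i] := by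
      intro i hi
      unfold fl
      rw [List.getElem_map]
    rw [e i hi, e j hj] at this
    exact this

/-- the checks for a rule -/
def ckRw (T : ℕ) (A : ℕ → ℕ → ℤ) (d : ℕ → ℤ) (O : ℕ → List (ℕ × ℕ)) (tb : ℕ → List ℕ) (D D' : ChevalleyDatum)
    (g S T' : List ℕ) : Bool :=
  ckB D' g && ckB D' S && ckB D' T' &&
    eqW O (D.rank + D.nroots) (g.flatMap tb ++ S.flatMap tb) (T'.flatMap tb ++ g.flatMap tb) &&
    allN (fun s => !(allL (fun p => soB T A d D' p s) S) || allL (fun δ => soB T A d D' δ s) (g ++ T'))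
      D'.nroots &&
    ckSOL T A d D' T'

variable {tb : ℕ → List ℕ} (htb : ∀ c < D'.nroots, (V.bl (fn V.h0' c)).map Fin.val = tb c)

include htb in
theorem fb_val {L : List ℕ} (h : ckB D' L = true) : (V.fb (V.fl L)).map Fin.val = L.flatMap tb := by
  have h1 := ckB_spec h
  clear h
  induction L with
  | nil => rfl
  | cons c L ih =>
    have e : V.fl (c :: L) = fn V.h0' c :: V.fl L := rfl
    rw [e, fb_cons, List.map_append, List.flatMap_cons, htb c (h1 c List.mem_cons_self),
      ih fun k hk => h1 k (List.mem_cons_of_mem _ hk)]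

theorem el_commute {g rest : List (Fin D'.nroots)} (h : ∀ δ ∈ g, ∀ s ∈ rest, SO V.Q' δ s) :
    Commute (V.el g) (V.el rest) := by
  unfold el aL
  apply Commute.list_prod_right
  intro x hx
  obtain ⟨s, hs, rfl⟩ := List.mem_map.1 hx
  apply Commute.list_prod_left
  intro y hy
  obtain ⟨r, hr, rfl⟩ := List.mem_map.1 hy
  obtain ⟨c', hc', hs'⟩ := List.mem_flatMap.1 hs
  obtain ⟨c, hc, hr'⟩ := List.mem_flatMap.1 hr
  exact orth_commute V.E.R V.E.Q V.E.h2F V.E.hc (V.bl_so c c' (h c hc c' hc') r hr' s hs') 1 1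

include htb in
theorem rw' {O : ℕ → List (ℕ × ℕ)} {Rs : List ℕ}
    (hO' : ∀ r ∈ Rs, ckOps D r (O r) = true) {g S T' : List ℕ}
    (hsub : g.flatMap tb ++ S.flatMap tb ++ T'.flatMap tb ⊆ Rs)
    (hck : ckRw V.T' V.A' V.d' O tb D D' g S T' = true) {rest : List (Fin D'.nroots)}
    (ho : V.SOL (V.fl S ++ rest)) :
    V.CjT (V.fl S ++ rest) (V.fl T' ++ rest) ∧ V.SOL (V.fl T' ++ rest) := by
  unfold ckRw at hck
  simp only [Bool.and_eq_true] at hck
  obtain ⟨⟨⟨⟨⟨h1, h2⟩, h3⟩, h4⟩, h5⟩, h6⟩ := hck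
  have ho' := List.pairwise_append.1 ho
  have hso : ∀ s ∈ rest, ∀ δ ∈ g ++ T', SO V.Q' (fn V.h0' δ) s := by
    intro s hs δ hδ
    have h7 := allN_spec h5 s s.2
    have h8 : allL (fun p => soB V.T' V.A' V.d' D' p s) S = true := by
      apply Env.allL_of
      intro p hp
      rw [V.soB_iff (ckB_spec h2 p hp) s.2, fn_coe]
      exact ho'.2.2 _ (List.mem_map_of_mem hp) s hs
    rw [h8, Bool.not_true, Bool.false_or] at h7
    have h9 := allL_spec h7 δ hδ
    have hδ' : δ < D'.nroots := by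
      rw [List.mem_append] at hδ
      rcases hδ with hδ | hδ
      · exact ckB_spec h1 δ hδ
      · exact ckB_spec h3 δ hδ
    rw [V.soB_iff hδ' s.2, fn_coe] at h9
    exact h9
  have hw : V.el (V.fl g) * V.el (V.fl S) = V.el (V.fl T') * V.el (V.fl g) := by
    unfold el
    apply aL_rel V.E.R (O := O) V.E.h2F
    · intro r hr
      apply hO'
      apply hsub
      rw [← V.fb_val htb h1, ← V.fb_val htb h2, ← V.fb_val htb h3, ← List.map_append,
        ← List.map_append]
      exact List.mem_map_of_mem hr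
    · rw [V.fb_val htb h1, V.fb_val htb h2, V.fb_val htb h3]; exact h4
  have hcomm : Commute (V.el (V.fl g)) (V.el rest) := by
    apply V.el_commute
    intro δ hδ s hs
    obtain ⟨k, hk, rfl⟩ := List.mem_map.1 hδ
    exact hso s hs k (List.mem_append_left _ hk)
  refine ⟨⟨V.el (V.fl g), V.el_mem _, ?_⟩, List.pairwise_append.2 ⟨V.sol_spec h6, ho'.2.1, ?_⟩⟩
  · rw [el_append, el_append]
    calc V.el (V.fl g) * (V.el (V.fl S) * V.el rest) * (V.el (V.fl g))⁻¹ =
        (V.el (V.fl g) * V.el (V.fl S)) * V.el rest * (V.el (V.fl g))⁻¹ := by simp only [mul_assoc]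
      _ = V.el (V.fl T') * (V.el (V.fl g) * V.el rest) * (V.el (V.fl g))⁻¹ := by
        rw [hw]; simp only [mul_assoc]
      _ = V.el (V.fl T') * V.el rest := by
        rw [hcomm.eq]; simp only [mul_assoc, mul_inv_cancel, mul_one]
  · intro p hp s hs
    obtain ⟨k, hk, rfl⟩ := List.mem_map.1 hp
    exact hso s hs k (List.mem_append_right _ hk)

/-- the goal -/
def Goal (Ts : List (List ℕ)) (L : List (Fin D'.nroots)) : Prop := ∃ Y ∈ Ts, V.CjT L (V.fl Y)

variable {V} in
theorem Goal.tr {Ts : List (List ℕ)} {L M : List (Fin D'.nroots)} (h : V.CjT L M)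
    (h' : V.Goal Ts M) : V.Goal Ts L := by
  obtain ⟨Y, hY, h2⟩ := h'
  exact ⟨Y, hY, h.trans h2⟩

theorem goal_end {Ts : List (List ℕ)} {u S Y : List ℕ} (hS : ckSOL V.T' V.A' V.d' D' S = true)
    (hck : Env.ckMove D' u S Y = true) (hY : Y ∈ Ts) : V.Goal Ts (V.fl S) := by
  have h1 : V.SOL (V.fl S ++ []) := by rw [List.append_nil]; exact V.sol_spec hS
  obtain ⟨rest', hl, hcj, _⟩ := V.move hck h1
  have : rest' = [] := List.length_eq_zero_iff.1 (by simpa using hl)
  subst this
  rw [List.append_nil, List.append_nil] at hcj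
  exact ⟨Y, hY, hcj⟩

theorem goal_move {Ts : List (List ℕ)} {u S T' : List ℕ} (hck : Env.ckMove D' u S T' = true) {n : ℕ}
    (h : ∀ rest : List (Fin D'.nroots), T'.length + rest.length = n → V.SOL (V.fl T' ++ rest) →
      V.Goal Ts (V.fl T' ++ rest)) :
    ∀ rest : List (Fin D'.nroots), S.length + rest.length = n → V.SOL (V.fl S ++ rest) →
      V.Goal Ts (V.fl S ++ rest) := by
  intro rest hn ho
  obtain ⟨rest', hl, hcj, ho'⟩ := V.move hck ho
  exact Goal.tr hcj (h rest' (by rw [hl, ← Env.move_len hck]; exact hn) ho')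

include htb in
theorem goal_red {Ts : List (List ℕ)} {O : ℕ → List (ℕ × ℕ)} {Rs : List ℕ}
    (hO : ∀ r ∈ Rs, ckOps D r (O r) = true) {g S' T' : List ℕ}
    (hsub : g.flatMap tb ++ S'.flatMap tb ++ T'.flatMap tb ⊆ Rs)
    (hrw : ckRw V.T' V.A' V.d' O tb D D' g S' T' = true) (hlt : T'.length < S'.length) (hne : T' ≠ [])
    {u S ex : List ℕ} (hck : Env.ckMove D' u S (S' ++ ex) = true) {n : ℕ}
    (ih : ∀ m < n, ∀ L : List (Fin D'.nroots), L.length = m → V.SOL L → L ≠ [] → V.Goal Ts L) :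
    ∀ rest : List (Fin D'.nroots), S.length + rest.length = n → V.SOL (V.fl S ++ rest) →
      V.Goal Ts (V.fl S ++ rest) := by
  apply V.goal_move hck
  intro rest hn ho
  rw [fl_append, List.append_assoc] at ho ⊢
  obtain ⟨hcj, ho'⟩ := V.rw' htb hO hsub hrw ho
  refine Goal.tr hcj (ih (T'.length + ex.length + rest.length) ?_ _ ?_ ho' ?_)
  · rw [List.length_append] at hn; omega
  · rw [List.length_append, List.length_append, fl_length, fl_length]; omega
  · intro h
    have h2 := congrArg List.length h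
    rw [List.length_append, fl_length] at h2
    apply hne
    apply List.length_eq_zero_iff.1
    simp only [List.length_nil] at h2
    omega

/-- `el` as a matrix -/
theorem el_val {L : List ℕ} {tb : ℕ → List ℕ}
    (htb : ∀ c < D'.nroots, (V.bl (fn V.h0' c)).map Fin.val = tb c) (h : ckB D' L = true) :
    ((V.el (V.fl L) : GL D.Idx F) : Matrix D.Idx D.Idx F) = wm D F (L.flatMap tb) := by
  unfold el
  rw [aL_val, V.fb_val htb h]

section final

variable {Ts : List (List ℕ)}
  (hcls : ∀ L : List (Fin D'.nroots), V.SOL L → L ≠ [] → V.Goal Ts L)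
  (horth : ∀ Y ∈ Ts, V.SOL (V.fl Y))
  {ι : Type*} (inv : Matrix D.Idx D.Idx F → ι)
  (hinv : ∀ g ∈ V.M.Γ, ∀ M : GL D.Idx F,
    inv ((g * M * g⁻¹ : GL D.Idx F) : Matrix D.Idx D.Idx F) = inv (M : Matrix D.Idx D.Idx F))
  (hsep : ∀ Y ∈ Ts, ∀ Y' ∈ Ts, inv (wm D F (Y.flatMap tb)) = inv (wm D F (Y'.flatMap tb)) → Y = Y')
  (h1 : ∀ Y ∈ Ts, inv (wm D F (Y.flatMap tb)) ≠ inv 1) (hB : ∀ Y ∈ Ts, ckB D' Y = true)

include htb horth h1 hB in
theorem order_two : ∀ Y ∈ Ts, orderOf (V.el (V.fl Y)) = 2 := by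
  intro Y hY
  refine orderOf_eq_prime ?_ ?_
  · rw [pow_two]; exact V.E.aL_sq (V.fb_orth (horth Y hY))
  · intro h
    apply h1 Y hY
    rw [← V.el_val htb (hB Y hY), h]; rfl

include hcls in
theorem cls_of [Fintype F] {g : GL D.Idx F} (hg : g ∈ V.M.Γ) (h2 : orderOf g = 2) :
    ∃ Y ∈ Ts, ∃ h ∈ V.M.Γ, h * g * h⁻¹ = V.el (V.fl Y) := by
  have hsq : g * g = 1 := by rw [← pow_two, ← h2]; exact pow_orderOf_eq_one g
  obtain ⟨L, hL, k, hk, e⟩ := V.to_list hg hsq
  have hne : L ≠ [] := by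
    rintro rfl
    have e2 : V.el ([] : List (Fin D'.nroots)) = 1 := by simp [el, fb, aL]
    rw [e2, mul_inv_eq_one] at e
    have : g = 1 := by simpa using e
    rw [this] at h2
    simp at h2
  obtain ⟨Y, hY, k', hk', e'⟩ := hcls L hL hne
  exact ⟨Y, hY, k' * k, mul_mem hk' hk, by rw [← e', ← e]; group⟩

include htb hcls horth hinv hsep h1 hB in
theorem final_card [Fintype F] (hnd : Ts.Nodup) {G1 : Subgroup (GL D.Idx F)} (hG : V.M.Γ = G1) :
    (ConjClasses.mk '' {g : ↥G1 | orderOf g = 2}).ncard = Ts.length := by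
  classical
  subst hG
  set f : List ℕ → ConjClasses ↥V.M.Γ := fun Y => ConjClasses.mk ⟨V.el (V.fl Y), V.el_mem _⟩ with hf
  have e : ConjClasses.mk '' {g : ↥V.M.Γ | orderOf g = 2} = f '' {Y | Y ∈ Ts} := by
    apply Set.Subset.antisymm
    · rintro _ ⟨g, hg, rfl⟩
      have hg' : orderOf (g : GL D.Idx F) = 2 := by rw [Subgroup.orderOf_coe]; exact hg
      obtain ⟨Y, hY, h, hh, e⟩ := V.cls_of hcls g.2 hg'
      refine ⟨Y, hY, ?_⟩
      rw [hf]
      simp only
      rw [ConjClasses.mk_eq_mk_iff_isConj]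
      apply IsConj.symm
      rw [isConj_iff]
      exact ⟨⟨h, hh⟩, Subtype.ext e⟩
    · rintro _ ⟨Y, hY, rfl⟩
      refine ⟨⟨V.el (V.fl Y), V.el_mem _⟩, ?_, rfl⟩
      have := V.order_two htb horth inv h1 hB Y hY
      show orderOf (⟨V.el (V.fl Y), V.el_mem _⟩ : ↥V.M.Γ) = 2
      rw [← Subgroup.orderOf_coe]; exact this
  rw [e, Set.InjOn.ncard_image]
  · have : {Y | Y ∈ Ts} = (Ts.toFinset : Set (List ℕ)) := by ext Y; simp
    rw [this, Set.ncard_coe_finset, List.toFinset_card_of_nodup hnd]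
  · intro Y hY Y' hY' hYY
    rw [hf] at hYY
    simp only at hYY
    rw [ConjClasses.mk_eq_mk_iff_isConj, isConj_iff] at hYY
    obtain ⟨c, hc⟩ := hYY
    have hc' := congrArg Subtype.val hc
    have h3 : (c : GL D.Idx F) * V.el (V.fl Y) * (c : GL D.Idx F)⁻¹ = V.el (V.fl Y') := hc'
    have h4 := hinv c c.2 (V.el (V.fl Y))
    rw [h3, V.el_val htb (hB Y hY), V.el_val htb (hB Y' hY')] at h4
    exact (hsep Y' hY' Y hY h4).symm

end final

end H42.Inv2T.TEnv
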