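import Mathlib
import Cfsg.Agent.Lib.H1.Frat

set_option autoImplicit false

/-! Orders of nilpotent permutation groups: orbit bounds, the odd-order bound `|G|^2 * 3 ≤ 3^n`. -/

namespace H42.NilSym

open MulAction

universe u

section Orbits

variable (G Ω : Type u) [Group G] [MulAction G Ω]

theorem card_le_prod [Finite G] [Finite Ω] [FaithfulSMul G Ω] [Fintype (orbitRel.Quotient G Ω)] :
    Nat.card G ≤ ∏ x : orbitRel.Quotient G Ω, Nat.card (toPermHom G x.orbit).range := by
  rw [← Nat.card_pi]
  have : Finite (∀ x : orbitRel.Quotient G Ω, (toPermHom G x.orbit).range) := Pi.finite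
  apply Nat.card_le_card_of_injective
    (fun (g : G) (x : orbitRel.Quotient G Ω) => (⟨toPermHom G x.orbit g, ⟨g, rfl⟩⟩ : (toPermHom G x.orbit).range))
  intro g h hgh
  apply FaithfulSMul.eq_of_smul_eq_smul (α := Ω)
  intro a
  have h1 := congrFun hgh (Quotient.mk'' a : orbitRel.Quotient G Ω)
  have h2 := congrArg Subtype.val h1
  have ha : a ∈ orbitRel.Quotient.orbit (Quotient.mk'' a : orbitRel.Quotient G Ω) := by
    rw [orbitRel.Quotient.orbit_mk]; exact mem_orbit_self a
  have h3 := congrArg (fun f : Equiv.Perm _ => f ⟨a, ha⟩) h2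
  have h4 := congrArg Subtype.val h3
  exact h4

theorem card_eq_sum [Finite Ω] [Fintype (orbitRel.Quotient G Ω)] :
    Nat.card Ω = ∑ x : orbitRel.Quotient G Ω, Nat.card x.orbit := by
  rw [Nat.card_congr (selfEquivSigmaOrbits' G Ω), Nat.card_sigma]

instance pretrans_range (x : orbitRel.Quotient G Ω) : IsPretransitive (toPermHom G x.orbit).range x.orbit where
  exists_smul_eq a b := by
    obtain ⟨g, hg⟩ := exists_smul_eq G a b
    exact ⟨⟨toPermHom G x.orbit g, ⟨g, rfl⟩⟩, hg⟩

instance nonempty_orbit (x : orbitRel.Quotient G Ω) : Nonempty x.orbit := by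
  induction x using Quotient.inductionOn' with
  | h a => exact ⟨⟨a, by rw [orbitRel.Quotient.orbit_mk]; exact mem_orbit_self a⟩⟩

theorem nilpotent_range {H : Type*} [Group H] (h : Group.IsNilpotent G) (f : G →* H) : Group.IsNilpotent f.range :=
  Group.nilpotent_of_surjective f.rangeRestrict f.rangeRestrict_surjective

theorem card_range_dvd {H : Type*} [Group H] [Finite G] (f : G →* H) : Nat.card f.range ∣ Nat.card G := by
  rw [← Subgroup.index_ker]
  exact Subgroup.index_dvd_card _

end Orbits

theorem card_one_of_subsingleton {G Ω : Type*} [Group G] [MulAction G Ω] [FaithfulSMul G Ω] [Subsingleton Ω] :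
    Nat.card G = 1 := by
  have : Subsingleton G := ⟨fun g h => FaithfulSMul.eq_of_smul_eq_smul (α := Ω) (fun a => Subsingleton.elim _ _)⟩
  exact Nat.card_of_subsingleton (1 : G)

/-- recursion for transitive nilpotent groups -/
theorem rec_bound {G Ω : Type u} [Group G] [Finite G] [MulAction G Ω] [Finite Ω] [FaithfulSMul G Ω]
    [IsPretransitive G Ω] [Nontrivial Ω] (hG : Group.IsNilpotent G) :
    ∃ p m : ℕ, p.Prime ∧ p ∣ Nat.card G ∧ Nat.card Ω = m * p ∧
      ∀ c : ℕ, (∀ (R : Type u) [Group R] [Finite R] (Δ : Type u) [Finite Δ] [MulAction R Δ]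
        [FaithfulSMul R Δ] [IsPretransitive R Δ], Group.IsNilpotent R → Nat.card R ∣ Nat.card G →
        Nat.card Δ = m → Nat.card R ≤ c) → Nat.card G ≤ p * c ^ p := by
  classical
  obtain ⟨a⟩ : Nonempty Ω := inferInstance
  have hHne : stabilizer G a ≠ ⊤ := by
    intro h
    obtain ⟨b, hb⟩ := exists_ne a
    obtain ⟨g, hg⟩ := exists_smul_eq G a b
    have : g ∈ stabilizer G a := by rw [h]; trivial
    rw [mem_stabilizer_iff] at this
    exact hb (by rw [← hg, this])
  obtain ⟨M, hM, hHM⟩ := (eq_top_or_exists_le_coatom (stabilizer G a)).resolve_left hHne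
  have hMn : M.Normal := H1.Frat.normal_of_isCoatom hM
  have hMp : M.index.Prime := H1.Frat.prime_index_of_isCoatom hM
  -- all stabilizers are in M
  have hst : ∀ b : Ω, stabilizer G b ≤ M := by
    intro b g hg
    obtain ⟨t, rfl⟩ := exists_smul_eq G a b
    have h1 : t⁻¹ * g * t ∈ stabilizer G a := by
      rw [mem_stabilizer_iff] at hg ⊢
      rw [mul_smul, mul_smul, hg, inv_smul_smul]
    have h2 := hMn.conj_mem _ (hHM h1) t
    simpa [mul_assoc] using h2
  have horb : ∀ b : Ω, Nat.card (orbit M b) * M.index = Nat.card Ω := by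
    intro b
    have h1 : (stabilizer M b).index = Nat.card (orbit M b) := by
      rw [index_stabilizer, Nat.card_coe_set_eq]
    have h2 : (stabilizer M b).index = (stabilizer G b).relIndex M := by
      rw [Subgroup.relIndex]
      congr 1
    rw [← h1, h2, Subgroup.relIndex_mul_index (hst b), index_stabilizer_of_transitive]
  refine ⟨M.index, Nat.card (orbit M a), hMp, Subgroup.index_dvd_card M, (horb a).symm, ?_⟩
  intro c hc
  have : Fintype (orbitRel.Quotient M Ω) := Fintype.ofFinite _
  have horbq : ∀ x : orbitRel.Quotient M Ω, Nat.card x.orbit = Nat.card (orbit M a) := by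
    intro x
    induction x using Quotient.inductionOn' with
    | h b =>
      rw [orbitRel.Quotient.orbit_mk]
      have h1 := horb a
      have h2 := horb b
      exact Nat.eq_of_mul_eq_mul_right hMp.pos (h2.trans h1.symm)
  have hnum : Fintype.card (orbitRel.Quotient M Ω) = M.index := by
    have h1 := card_eq_sum M Ω
    rw [Finset.sum_congr rfl (fun x _ => horbq x), Finset.sum_const, Finset.card_univ, smul_eq_mul, ← horb a,
      mul_comm] at h1
    have : Nonempty (orbit M a) := ⟨⟨a, mem_orbit_self a⟩⟩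
    exact (Nat.eq_of_mul_eq_mul_right (Nat.card_pos (α := orbit M a)) h1).symm
  have hMle : Nat.card M ≤ c ^ M.index := by
    refine (card_le_prod M Ω).trans ?_
    calc ∏ x : orbitRel.Quotient M Ω, Nat.card (toPermHom M x.orbit).range
        ≤ ∏ _x : orbitRel.Quotient M Ω, c := by
          apply Finset.prod_le_prod'
          intro x _
          refine hc _ x.orbit ?_ ?_ (horbq x)
          · exact nilpotent_range M (Subgroup.isNilpotent M) _
          · exact (card_range_dvd M _).trans (Subgroup.card_subgroup_dvd_card M)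
      _ = c ^ M.index := by rw [Finset.prod_const, Finset.card_univ, hnum]
  calc Nat.card G = M.index * Nat.card M := by rw [mul_comm, M.card_mul_index]
    _ ≤ M.index * c ^ M.index := Nat.mul_le_mul_left _ hMle

theorem sq_le_pow {p : ℕ} (hp : 3 ≤ p) : p ^ 2 * 3 ≤ 3 ^ p := by
  induction p, hp using Nat.le_induction with
  | base => norm_num
  | succ p hp ih =>
    rw [pow_succ 3 p]
    nlinarith

/-- odd order nilpotent transitive groups -/
theorem odd_trans (n : ℕ) : ∀ (G Ω : Type u) [Group G] [Finite G] [MulAction G Ω] [Finite Ω] [FaithfulSMul G Ω]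
    [IsPretransitive G Ω] [Nonempty Ω], Group.IsNilpotent G → Odd (Nat.card G) → Nat.card Ω = n →
    Nat.card G ^ 2 * 3 ≤ 3 ^ n := by
  induction n using Nat.strong_induction_on with
  | _ n ih =>
    intro G Ω _ _ _ _ _ _ _ hG hodd hn
    rcases subsingleton_or_nontrivial Ω with hs | hs
    · rw [card_one_of_subsingleton (G := G) (Ω := Ω)]
      have : 1 ≤ n := by rw [← hn]; exact Nat.card_pos
      calc 1 ^ 2 * 3 = 3 ^ 1 := by norm_num
        _ ≤ 3 ^ n := Nat.pow_le_pow_right (by norm_num) this
    · obtain ⟨p, m, hp, hpd, hnm, hc⟩ := rec_bound (G := G) (Ω := Ω) hG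
      have hp2 : p ≠ 2 := by
        rintro rfl
        exact Nat.not_even_iff_odd.2 hodd (even_iff_two_dvd.2 hpd)
      have hp3 : 3 ≤ p := by have := hp.two_le; omega
      have hm : 0 < m := by
        rcases Nat.eq_zero_or_pos m with h | h
        · rw [h, zero_mul] at hnm
          exact absurd hnm Nat.card_pos.ne'
        · exact h
      have hlt : m < n := by rw [← hn, hnm]; nlinarith
      have hb := hc (Nat.sqrt (3 ^ (m - 1))) (by
        intro R _ _ Δ _ _ _ _ hR hRd hΔ
        rw [Nat.le_sqrt']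
        have : Nonempty Δ := by
          rw [← Nat.card_pos_iff.trans (and_iff_left inferInstance), hΔ]; exact hm
        have h1 := ih m hlt R Δ hR (Odd.of_dvd_nat hodd hRd) hΔ
        have h2 : 3 ^ m = 3 ^ (m - 1) * 3 := by rw [← pow_succ]; congr 1; omega
        rw [h2] at h1
        exact Nat.le_of_mul_le_mul_right h1 (by norm_num))
      have hsq : Nat.sqrt (3 ^ (m - 1)) ^ 2 ≤ 3 ^ (m - 1) := Nat.sqrt_le' _
      rw [← hn, hnm]
      calc Nat.card G ^ 2 * 3 ≤ (p * Nat.sqrt (3 ^ (m - 1)) ^ p) ^ 2 * 3 := by gcongr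
        _ = (Nat.sqrt (3 ^ (m - 1)) ^ 2) ^ p * (p ^ 2 * 3) := by ring
        _ ≤ (3 ^ (m - 1)) ^ p * 3 ^ p := by
          gcongr
          exact sq_le_pow hp3
        _ = 3 ^ (m * p) := by
          rw [← mul_pow, ← pow_succ, ← pow_mul]
          congr 2; omega

/-- nilpotent transitive groups of prime degree -/
theorem prime_trans {G Ω : Type u} [Group G] [Finite G] [MulAction G Ω] [Finite Ω] [FaithfulSMul G Ω]
    [IsPretransitive G Ω] (hG : Group.IsNilpotent G) (h : (Nat.card Ω).Prime) : Nat.card G ≤ Nat.card Ω := by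
  have : Nontrivial Ω := by
    rw [← Finite.one_lt_card_iff_nontrivial]; exact h.one_lt
  obtain ⟨p, m, hp, hpd, hnm, hc⟩ := rec_bound (G := G) (Ω := Ω) hG
  have h1 : p = Nat.card Ω := by
    rcases (Nat.dvd_prime h).1 (show p ∣ Nat.card Ω from ⟨m, by rw [hnm, mul_comm]⟩) with h1 | h1
    · exact absurd h1 hp.ne_one
    · exact h1
  have hm : m = 1 := by
    rw [← h1] at hnm
    exact (Nat.eq_of_mul_eq_mul_right hp.pos (by rw [one_mul]; exact hnm)).symm
  have := hc 1 (by
    intro R _ _ Δ _ _ _ _ hR hRd hΔ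
    rw [hm] at hΔ
    have : Subsingleton Δ := (Nat.card_eq_one_iff_unique.1 hΔ).1
    exact (card_one_of_subsingleton (G := R) (Ω := Δ)).le)
  rw [one_pow, mul_one, h1] at this
  exact this

/-- odd order nilpotent transitive groups of degree 15 -/
theorem fifteen_trans {G Ω : Type u} [Group G] [Finite G] [MulAction G Ω] [Finite Ω] [FaithfulSMul G Ω]
    [IsPretransitive G Ω] (hG : Group.IsNilpotent G) (h : Nat.card Ω = 15) : Nat.card G ≤ 1215 := by
  have : Nontrivial Ω := by
    rw [← Finite.one_lt_card_iff_nontrivial, h]; norm_num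
  obtain ⟨p, m, hp, hpd, hnm, hc⟩ := rec_bound (G := G) (Ω := Ω) hG
  rw [h] at hnm
  have hp15 : p ∈ Nat.divisors 15 := by
    rw [Nat.mem_divisors]; exact ⟨⟨m, by rw [hnm, mul_comm]⟩, by norm_num⟩
  have : p = 1 ∨ p = 3 ∨ p = 5 ∨ p = 15 := by
    have h15 : Nat.divisors 15 = {1, 3, 5, 15} := by decide
    rw [h15] at hp15
    simpa using hp15
  rcases this with rfl | rfl | rfl | rfl
  · exact absurd hp (by norm_num)
  · have hm : m = 5 := by omega
    have := hc 5 (by
      intro R _ _ Δ _ _ _ _ hR hRd hΔ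
      rw [hm] at hΔ
      have := prime_trans (G := R) (Ω := Δ) hR (by rw [hΔ]; norm_num)
      rwa [hΔ] at this)
    omega
  · have hm : m = 3 := by omega
    have := hc 3 (by
      intro R _ _ Δ _ _ _ _ hR hRd hΔ
      rw [hm] at hΔ
      have := prime_trans (G := R) (Ω := Δ) hR (by rw [hΔ]; norm_num)
      rwa [hΔ] at this)
    omega
  · exact absurd hp (by norm_num)

/-- odd order nilpotent groups, arbitrary action -/
theorem odd_bound {G Ω : Type u} [Group G] [Finite G] [MulAction G Ω] [Finite Ω] [FaithfulSMul G Ω]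
    (hG : Group.IsNilpotent G) (hodd : Odd (Nat.card G)) :
    Nat.card G ^ 2 * 3 ^ Nat.card (orbitRel.Quotient G Ω) ≤ 3 ^ Nat.card Ω := by
  classical
  have : Fintype (orbitRel.Quotient G Ω) := Fintype.ofFinite _
  rw [card_eq_sum G Ω, Nat.card_eq_fintype_card (α := orbitRel.Quotient G Ω)]
  calc Nat.card G ^ 2 * 3 ^ Fintype.card (orbitRel.Quotient G Ω)
      ≤ (∏ x : orbitRel.Quotient G Ω, Nat.card (toPermHom G x.orbit).range) ^ 2 * 3 ^ Fintype.card (orbitRel.Quotient G Ω) := by
        gcongr
        exact card_le_prod G Ω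
    _ = ∏ x : orbitRel.Quotient G Ω, (Nat.card (toPermHom G x.orbit).range ^ 2 * 3) := by
        rw [Finset.prod_mul_distrib, Finset.prod_pow, Finset.prod_const, Finset.card_univ]
    _ ≤ ∏ x : orbitRel.Quotient G Ω, 3 ^ Nat.card x.orbit := by
        apply Finset.prod_le_prod'
        intro x _
        exact odd_trans _ _ _ (nilpotent_range G hG _) (Odd.of_dvd_nat hodd (card_range_dvd G _)) rfl
    _ = 3 ^ ∑ x : orbitRel.Quotient G Ω, Nat.card x.orbit := by
        rw [Finset.prod_pow_eq_pow_sum]

/-- for odd order groups the number of orbits has the parity of the degree -/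
theorem orbits_parity {G Ω : Type u} [Group G] [Finite G] [MulAction G Ω] [Finite Ω]
    (hodd : Odd (Nat.card G)) : (Nat.card (orbitRel.Quotient G Ω)) % 2 = (Nat.card Ω) % 2 := by
  classical
  have : Fintype (orbitRel.Quotient G Ω) := Fintype.ofFinite _
  have hx : ∀ x : orbitRel.Quotient G Ω, Nat.card x.orbit % 2 = 1 := by
    intro x
    induction x using Quotient.inductionOn' with
    | h b =>
      rw [orbitRel.Quotient.orbit_mk, Nat.card_coe_set_eq, ← index_stabilizer, ← Nat.odd_iff]
      exact Odd.of_dvd_nat hodd (Subgroup.index_dvd_card _)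
  rw [card_eq_sum G Ω, Finset.sum_nat_mod, Finset.sum_congr rfl (fun x _ => hx x), Finset.sum_const,
    Finset.card_univ, smul_eq_mul, mul_one, Nat.card_eq_fintype_card]

end H42.NilSym
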