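import Mathlib
import Cfsg.Agent.Lib.H42.NilSym
import Cfsg.Agent.Lib.H73.Nilp

set_option autoImplicit false

/-! The maximal order of a nilpotent permutation group of degree `n`. -/

namespace H42.NilBound

open MulAction H42.NilSym

universe u

/-! ### the numerical function -/

/-- the 2-part of (4k)! -/
noncomputable def h (k : ℕ) : ℕ := 2 ^ padicValNat 2 (4 * k).factorial
/-- weights -/
def w (r : ℕ) : ℕ := if r = 3 then 3 else if r = 2 then 2 else 1
/-- the maximal order of a nilpotent permutation group of degree `n` -/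
noncomputable def f (n : ℕ) : ℕ := h (n / 4) * w (n % 4)

theorem val_succ (n : ℕ) : padicValNat 2 (n + 1).factorial = padicValNat 2 (n + 1) + padicValNat 2 n.factorial := by
  rw [Nat.factorial_succ, padicValNat.mul (by omega) (Nat.factorial_ne_zero n)]

theorem h_pos (k : ℕ) : 0 < h k := by unfold h; positivity

theorem h_mul_le (k l : ℕ) : h k * h l ≤ h (k + l) := by
  unfold h
  rw [← pow_add]
  apply Nat.pow_le_pow_right (by norm_num)
  rw [← padicValNat.mul (Nat.factorial_ne_zero _) (Nat.factorial_ne_zero _)]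
  have h1 : (4 * k).factorial * (4 * l).factorial ∣ (4 * (k + l)).factorial := by
    rw [mul_add]
    exact Nat.factorial_mul_factorial_dvd_factorial_add _ _
  exact (padicValNat_dvd_iff_le (Nat.factorial_ne_zero _)).1 (pow_padicValNat_dvd.trans h1)

theorem val_odd (k : ℕ) : padicValNat 2 (2 * k + 1) = 0 := padicValNat.eq_zero_of_not_dvd (by omega)

theorem val_four_two (k : ℕ) : padicValNat 2 (4 * k + 2) = 1 := by
  rw [show 4 * k + 2 = 2 * (2 * k + 1) by ring, padicValNat.mul (by norm_num) (by omega), val_odd]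
  simp

theorem val1 (k : ℕ) : padicValNat 2 (4 * k + 1).factorial = padicValNat 2 (4 * k).factorial := by
  rw [val_succ, show 4 * k + 1 = 2 * (2 * k) + 1 by ring, val_odd, zero_add]

theorem val2 (k : ℕ) : padicValNat 2 (4 * k + 2).factorial = padicValNat 2 (4 * k).factorial + 1 := by
  rw [val_succ, show 4 * k + 1 + 1 = 4 * k + 2 by ring, val_four_two, val1, add_comm]

theorem val3 (k : ℕ) : padicValNat 2 (4 * k + 3).factorial = padicValNat 2 (4 * k).factorial + 1 := by
  rw [val_succ, show 4 * k + 2 + 1 = 2 * (2 * k + 1) + 1 by ring, val_odd, zero_add, val2]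

theorem val4 (k : ℕ) : padicValNat 2 (4 * k).factorial + 3 ≤ padicValNat 2 (4 * (k + 1)).factorial := by
  rw [show 4 * (k + 1) = (4 * k + 3) + 1 by ring, val_succ, val3]
  have : 2 ≤ padicValNat 2 (4 * k + 3 + 1) := by
    rw [← padicValNat_dvd_iff_le (by omega)]
    exact ⟨k + 1, by ring⟩
  omega

theorem h_succ (k : ℕ) : 8 * h k ≤ h (k + 1) := by
  unfold h
  calc 8 * 2 ^ padicValNat 2 (4 * k).factorial = 2 ^ (padicValNat 2 (4 * k).factorial + 3) := by ring
    _ ≤ _ := Nat.pow_le_pow_right (by norm_num) (val4 k)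

theorem f_add (k r : ℕ) (hr : r < 4) : f (4 * k + r) = h k * w r := by
  unfold f
  rw [show (4 * k + r) / 4 = k by omega, show (4 * k + r) % 4 = r by omega]

theorem exists_rep (n : ℕ) : ∃ k r, r < 4 ∧ n = 4 * k + r := ⟨n / 4, n % 4, by omega, by omega⟩

theorem f_mul_le (m n : ℕ) : f m * f n ≤ f (m + n) := by
  obtain ⟨k, r, hr, rfl⟩ := exists_rep m
  obtain ⟨l, s, hs, rfl⟩ := exists_rep n
  rw [f_add k r hr, f_add l s hs]
  have h1 := h_mul_le k l
  have h2 := h_succ (k + l)
  by_cases hrs : r + s < 4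
  · rw [show 4 * k + r + (4 * l + s) = 4 * (k + l) + (r + s) by ring, f_add _ _ hrs]
    have hw : w r * w s ≤ w (r + s) := by
      interval_cases r <;> interval_cases s <;> first | decide | omega
    calc h k * w r * (h l * w s) = (h k * h l) * (w r * w s) := by ring
      _ ≤ h (k + l) * w (r + s) := Nat.mul_le_mul h1 hw
  · obtain ⟨t, ht⟩ : ∃ t, r + s = 4 + t := ⟨r + s - 4, by omega⟩
    rw [show 4 * k + r + (4 * l + s) = 4 * (k + l + 1) + t by omega, f_add _ _ (by omega)]
    have hw : w r * w s ≤ 8 * w t := by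
      obtain rfl : t = r + s - 4 := by omega
      interval_cases r <;> interval_cases s <;> first | (exfalso; omega) | decide
    calc h k * w r * (h l * w s) = (h k * h l) * (w r * w s) := by ring
      _ ≤ h (k + l) * (8 * w t) := Nat.mul_le_mul h1 hw
      _ = (8 * h (k + l)) * w t := by ring
      _ ≤ _ := Nat.mul_le_mul_right _ h2

theorem w_pos (r : ℕ) : 0 < w r := by unfold w; split_ifs <;> norm_num

theorem f_pos (n : ℕ) : 0 < f n := Nat.mul_pos (h_pos _) (w_pos _)

theorem f_mono {m n : ℕ} (hmn : m ≤ n) : f m ≤ f n := by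
  obtain ⟨k, rfl⟩ := Nat.exists_eq_add_of_le hmn
  calc f m = f m * 1 := (mul_one _).symm
    _ ≤ f m * f k := Nat.mul_le_mul_left _ (f_pos k)
    _ ≤ f (m + k) := f_mul_le m k

theorem f_mul_le' {m n k : ℕ} (hm : 1 ≤ m) (hn : 1 ≤ n) (hk : m * n ≤ k) : f m * f n ≤ f k := by
  have h1 : f 1 = 1 := by
    have := f_add 0 1 (by norm_num)
    rw [mul_zero, zero_add] at this
    rw [this]; simp [h, w]
  rcases Nat.eq_or_lt_of_le hm with h2 | h2
  · rw [← h2, h1, one_mul]; exact f_mono (by rw [← h2, one_mul] at hk; exact hk)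
  rcases Nat.eq_or_lt_of_le hn with h3 | h3
  · rw [← h3, h1, mul_one]; exact f_mono (by rw [← h3, mul_one] at hk; exact hk)
  · refine (f_mul_le m n).trans (f_mono ?_)
    nlinarith

theorem f_prod_le {ι : Type*} (s : Finset ι) (g : ι → ℕ) : ∏ i ∈ s, f (g i) ≤ f (∑ i ∈ s, g i) := by
  classical
  induction s using Finset.induction_on with
  | empty => simp; exact f_pos 0
  | insert a s ha ih =>
    rw [Finset.prod_insert ha, Finset.sum_insert ha]
    exact (Nat.mul_le_mul_left _ ih).trans (f_mul_le _ _)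

theorem f_eq {n : ℕ} (hn : n % 4 ≠ 3) : f n = 2 ^ padicValNat 2 n.factorial := by
  obtain ⟨k, r, hr, rfl⟩ := exists_rep n
  rw [f_add _ _ hr]
  interval_cases r
  · simp [h, w]
  · rw [val1]; simp [h, w]
  · rw [val2, pow_succ]; simp [h, w]
  · omega

theorem f_eq3 {n : ℕ} (hn : n % 4 = 3) : f n = 3 * 2 ^ padicValNat 2 (n - 3).factorial := by
  obtain ⟨k, r, hr, rfl⟩ := exists_rep n
  obtain rfl : r = 3 := by omega
  rw [f_add _ _ hr, show 4 * k + 3 - 3 = 4 * k by omega]
  simp [h, w, mul_comm]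

theorem two_pow_le_f (n : ℕ) : 2 ^ padicValNat 2 n.factorial ≤ f n := by
  by_cases hn : n % 4 = 3
  · rw [f_eq3 hn]
    obtain ⟨k, r, hr, rfl⟩ := exists_rep n
    obtain rfl : r = 3 := by omega
    rw [val3, show 4 * k + 3 - 3 = 4 * k by omega, pow_succ]
    have := Nat.pos_of_ne_zero (pow_ne_zero (padicValNat 2 (4 * k).factorial) (two_ne_zero (α := ℕ)))
    omega
  · rw [f_eq hn]

theorem h_val (k v : ℕ) (hv : 4 * k - (Nat.digits 2 (4 * k)).sum = v) : h k = 2 ^ v := by
  unfold h
  have := sub_one_mul_padicValNat_factorial (p := 2) (4 * k)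
  simp only [Nat.add_one_sub_one, one_mul] at this
  rw [this, hv]

theorem h0 : h 0 = 1 := h_val 0 0 (by norm_num)
theorem h1 : h 1 = 8 := h_val 1 3 (by norm_num)
theorem h2 : h 2 = 128 := h_val 2 7 (by norm_num)
theorem h3 : h 3 = 1024 := h_val 3 10 (by norm_num)
theorem h4 : h 4 = 32768 := h_val 4 15 (by norm_num)
theorem h5 : h 5 = 262144 := h_val 5 18 (by norm_num)

theorem fv (n k r : ℕ) (hr : r < 4) (hn : n = 4 * k + r) : f n = h k * w r := by rw [hn, f_add _ _ hr]

theorem f8 : f 8 = 128 := by rw [fv 8 2 0 (by norm_num) (by norm_num), h2]; rfl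

theorem step {c d n : ℕ} (hn : c * 3 ^ n ≤ d * f n ^ 2) : c * 3 ^ (n + 8) ≤ d * f (n + 8) ^ 2 := by
  have h1 := f_mul_le n 8
  rw [f8] at h1
  calc c * 3 ^ (n + 8) = (c * 3 ^ n) * 6561 := by ring
    _ ≤ (d * f n ^ 2) * 16384 := Nat.mul_le_mul hn (by norm_num)
    _ = d * (f n * 128) ^ 2 := by ring
    _ ≤ d * f (n + 8) ^ 2 := by gcongr

theorem P_bound : ∀ n : ℕ, 8 ≤ n → 1 * 3 ^ n ≤ 3 * f n ^ 2 := by
  intro n
  induction n using Nat.strong_induction_on with
  | _ n ih =>
    intro hn
    by_cases h16 : n < 16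
    · interval_cases n
      · rw [fv 8 2 0 (by norm_num) (by norm_num), h2]; decide
      · rw [fv 9 2 1 (by norm_num) (by norm_num), h2]; decide
      · rw [fv 10 2 2 (by norm_num) (by norm_num), h2]; decide
      · rw [fv 11 2 3 (by norm_num) (by norm_num), h2]; decide
      · rw [fv 12 3 0 (by norm_num) (by norm_num), h3]; decide
      · rw [fv 13 3 1 (by norm_num) (by norm_num), h3]; decide
      · rw [fv 14 3 2 (by norm_num) (by norm_num), h3]; decide
      · rw [fv 15 3 3 (by norm_num) (by norm_num), h3]; decide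
    · obtain ⟨m, rfl⟩ : ∃ m, n = m + 8 := ⟨n - 8, by omega⟩
      exact step (ih m (by omega) (by omega))

theorem P_all {n : ℕ} (hn : 1 ≤ n) (h5 : n ≠ 5) (h7 : n ≠ 7) : 3 ^ n ≤ 3 * f n ^ 2 := by
  by_cases h8 : 8 ≤ n
  · have := P_bound n h8; rwa [one_mul] at this
  · push Not at h8
    interval_cases n
    · rw [fv 1 0 1 (by norm_num) (by norm_num), h0]; decide
    · rw [fv 2 0 2 (by norm_num) (by norm_num), h0]; decide
    · rw [fv 3 0 3 (by norm_num) (by norm_num), h0]; decide
    · rw [fv 4 1 0 (by norm_num) (by norm_num), h1]; decide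
    · exact absurd rfl h5
    · rw [fv 6 1 2 (by norm_num) (by norm_num), h1]; decide
    · exact absurd rfl h7

theorem Q_odd : ∀ n : ℕ, 17 ≤ n → n % 2 = 1 → 4 * 3 ^ n ≤ 3 * f n ^ 2 := by
  intro n
  induction n using Nat.strong_induction_on with
  | _ n ih =>
    intro hn hn2
    by_cases h25 : n < 25
    · interval_cases n <;> try omega
      · rw [fv 17 4 1 (by norm_num) (by norm_num), h4]; simp [w]
      · rw [fv 19 4 3 (by norm_num) (by norm_num), h4]; simp [w]
      · rw [fv 21 5 1 (by norm_num) (by norm_num), h5]; simp [w]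
      · rw [fv 23 5 3 (by norm_num) (by norm_num), h5]; simp [w]
    · obtain ⟨m, rfl⟩ : ∃ m, n = m + 8 := ⟨n - 8, by omega⟩
      exact step (ih m (by omega) (by omega) (by omega))

theorem Q_even : ∀ n : ℕ, 4 ≤ n → n ≠ 6 → n % 2 = 0 → 4 * 3 ^ n ≤ 9 * f n ^ 2 := by
  intro n
  induction n using Nat.strong_induction_on with
  | _ n ih =>
    intro hn hn6 hn2
    by_cases h16 : n < 16
    · interval_cases n <;> try omega
      · rw [fv 4 1 0 (by norm_num) (by norm_num), h1]; simp [w]
      · rw [fv 8 2 0 (by norm_num) (by norm_num), h2]; simp [w]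
      · rw [fv 10 2 2 (by norm_num) (by norm_num), h2]; simp [w]
      · rw [fv 12 3 0 (by norm_num) (by norm_num), h3]; simp [w]
      · rw [fv 14 3 2 (by norm_num) (by norm_num), h3]; simp [w]
    · obtain ⟨m, rfl⟩ : ∃ m, n = m + 8 := ⟨n - 8, by omega⟩
      exact step (ih m (by omega) (by omega) (by omega) (by omega))

/-! ### coprime commuting groups -/

section Pair

variable {G Ω : Type u} [Group G] [MulAction G Ω]

theorem fix_of_mem_orbit {A B : Subgroup G} [Finite A] [Finite B] (hc : (Nat.card A).Coprime (Nat.card B))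
    (hcomm : ∀ a ∈ A, ∀ b ∈ B, a * b = b * a) {a : G} (ha : a ∈ A) {x : Ω} (hx : a • x ∈ orbit B x) : a • x = x := by
  obtain ⟨⟨b, hb⟩, hbx⟩ := hx
  replace hbx : b • x = a • x := hbx
  have key : ∀ k : ℕ, a ^ k • x = b ^ k • x := by
    intro k
    induction k with
    | zero => simp
    | succ k ih =>
      have hcb : a * b ^ k = b ^ k * a := (show Commute a b from hcomm a ha b hb).pow_right k
      rw [pow_succ', mul_smul, ih, ← mul_smul, hcb, mul_smul, ← hbx, ← mul_smul, ← pow_succ]
  have h1 : a ^ Nat.card B • x = x := by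
    rw [key, show b ^ Nat.card B = 1 from by
      have := pow_card_eq_one' (x := (⟨b, hb⟩ : B)); exact congrArg Subtype.val this, one_smul]
  have h2 : a ^ Nat.card A • x = x := by
    rw [show a ^ Nat.card A = 1 from by
      have := pow_card_eq_one' (x := (⟨a, ha⟩ : A)); exact congrArg Subtype.val this, one_smul]
  have h3 : a ^ Nat.card A ∈ stabilizer G x := h2
  have h4 : a ^ Nat.card B ∈ stabilizer G x := h1
  have h5 : a ∈ stabilizer G x := by
    have := Nat.gcd_eq_gcd_ab (Nat.card A) (Nat.card B)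
    rw [hc.gcd_eq_one] at this
    have e : a = (a ^ Nat.card A) ^ (Nat.gcdA (Nat.card A) (Nat.card B)) * (a ^ Nat.card B) ^ (Nat.gcdB (Nat.card A) (Nat.card B)) := by
      rw [← zpow_natCast, ← zpow_natCast, ← zpow_mul, ← zpow_mul, ← zpow_add, ← this]
      simp
    rw [e]
    exact mul_mem (Subgroup.zpow_mem _ h3 _) (Subgroup.zpow_mem _ h4 _)
  exact h5

/-- the action of `A` on the orbits of a commuting group `B` -/
@[reducible] def orbAct (A B : Subgroup G) (hcomm : ∀ a ∈ A, ∀ b ∈ B, a * b = b * a) :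
    MulAction A (orbitRel.Quotient B Ω) where
  smul a := Quotient.map' (fun x => (a : G) • x) (by
    intro x y hxy
    obtain ⟨⟨b, hb⟩, hb'⟩ := hxy
    refine ⟨⟨b, hb⟩, ?_⟩
    change b • (a : G) • y = (a : G) • x
    rw [← mul_smul, ← hcomm a a.2 b hb, mul_smul]
    congr 1)
  one_smul x := by
    induction x using Quotient.inductionOn' with
    | h x => change Quotient.mk'' ((1 : G) • x) = _; rw [one_smul]
  mul_smul a b x := by
    induction x using Quotient.inductionOn' with
    | h x => change Quotient.mk'' (((a * b : A) : G) • x) = Quotient.mk'' ((a : G) • (b : G) • x); rw [← mul_smul]; rfl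

theorem orbAct_faithful [FaithfulSMul G Ω] (A B : Subgroup G) [Finite A] [Finite B]
    (hc : (Nat.card A).Coprime (Nat.card B))
    (hcomm : ∀ a ∈ A, ∀ b ∈ B, a * b = b * a) :
    @FaithfulSMul A (orbitRel.Quotient B Ω) (orbAct A B hcomm).toSMul := by
  let _ := orbAct (Ω := Ω) A B hcomm
  refine ⟨fun {a a'} h => ?_⟩
  have h1 : ∀ x : Ω, (a'⁻¹ * a : A) • x = x := by
    intro x
    have h2 := h (Quotient.mk'' x)
    have h3 : (Quotient.mk'' (((a'⁻¹ * a : A) : G) • x) : orbitRel.Quotient B Ω) = Quotient.mk'' x := by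
      change (a'⁻¹ * a) • (Quotient.mk'' x : orbitRel.Quotient B Ω) = Quotient.mk'' x
      rw [mul_smul, h2, inv_smul_smul]
    have h4 : (((a'⁻¹ * a : A) : G) • x) ∈ orbit B x := by
      have := Quotient.exact' h3
      exact this
    exact fix_of_mem_orbit hc hcomm (a'⁻¹ * a).2 h4
  have h5 : ((a'⁻¹ * a : A) : G) = 1 := FaithfulSMul.eq_of_smul_eq_smul (α := Ω) (fun x => by
    rw [one_smul]; exact h1 x)
  have h6 : a'⁻¹ * a = 1 := Subtype.ext h5
  exact (inv_mul_eq_one.1 h6).symm

theorem card_dvd_factorial {A Δ : Type*} [Group A] [MulAction A Δ] [FaithfulSMul A Δ] [Finite Δ] :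
    Nat.card A ∣ (Nat.card Δ).factorial := by
  rw [← Nat.card_perm]
  exact Subgroup.card_dvd_of_injective (toPermHom A Δ) toPerm_injective

theorem two_group_le {A Δ : Type*} [Group A] [MulAction A Δ] [FaithfulSMul A Δ] [Finite Δ] [Finite A]
    (hA : IsPGroup 2 A) : Nat.card A ≤ 2 ^ padicValNat 2 (Nat.card Δ).factorial := by
  obtain ⟨k, hk⟩ := IsPGroup.iff_card.1 hA
  rw [hk]
  apply Nat.pow_le_pow_right (by norm_num)
  rw [← padicValNat_dvd_iff_le (Nat.factorial_ne_zero _), ← hk]
  exact card_dvd_factorial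

theorem odd_le_f {G Ω : Type u} [Group G] [Finite G] [MulAction G Ω] [Finite Ω] [FaithfulSMul G Ω]
    [IsPretransitive G Ω] [Nonempty Ω] (hG : Group.IsNilpotent G) (hodd : Odd (Nat.card G)) :
    Nat.card G ≤ f (Nat.card Ω) := by
  by_cases h5' : Nat.card Ω = 5
  · have := prime_trans (G := G) (Ω := Ω) hG (by rw [h5']; norm_num)
    rw [h5'] at this ⊢
    rw [fv 5 1 1 (by norm_num) (by norm_num), h1]
    simp [w]; omega
  by_cases h7' : Nat.card Ω = 7
  · have := prime_trans (G := G) (Ω := Ω) hG (by rw [h7']; norm_num)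
    rw [h7'] at this ⊢
    rw [fv 7 1 3 (by norm_num) (by norm_num), h1]
    simp [w]; omega
  have h1 := odd_trans _ G Ω hG hodd rfl
  have h2 := P_all (n := Nat.card Ω) Nat.card_pos h5' h7'
  have h3 : Nat.card G ^ 2 ≤ f (Nat.card Ω) ^ 2 := by omega
  exact (Nat.pow_le_pow_iff_left (by norm_num)).1 h3

end Pair

theorem trans_le_f {G Ω : Type u} [Group G] [Finite G] [MulAction G Ω] [Finite Ω] [FaithfulSMul G Ω]
    [IsPretransitive G Ω] [Nonempty Ω] (hG : Group.IsNilpotent G) :
    Nat.card G ≤ f (Nat.card Ω) := by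
  obtain ⟨P⟩ : Nonempty (Sylow 2 G) := inferInstance
  have hPn : (P : Subgroup G).Normal := H73.Nilp.sylow_normal P
  have hcop : (Nat.card (P : Subgroup G)).Coprime (P : Subgroup G).index := P.card_coprime_index
  obtain ⟨B, hB⟩ := Subgroup.exists_right_complement'_of_coprime hcop
  have hBcard : Nat.card B = (P : Subgroup G).index := by
    have h1 := hB.card_mul_card
    have h2 := (P : Subgroup G).card_mul_index
    exact Nat.eq_of_mul_eq_mul_left (Nat.card_pos (α := (P : Subgroup G))) (h1.trans h2.symm)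
  have hBodd : Odd (Nat.card B) := by
    rw [hBcard, ← Nat.not_even_iff_odd, even_iff_two_dvd]; exact P.not_dvd_index
  have hcop' : (Nat.card (P : Subgroup G)).Coprime (Nat.card B) := by rw [hBcard]; exact hcop
  have hcomm : ∀ a ∈ (P : Subgroup G), ∀ b ∈ B, a * b = b * a := by
    intro a ha b hb
    have h1 : (orderOf b).Coprime 2 := by
      have h2 : orderOf b ∣ Nat.card B := by rw [← Subgroup.orderOf_mk b hb]; exact orderOf_dvd_natCard _
      exact Nat.coprime_two_right.2 (Odd.of_dvd_nat hBodd h2)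
    have h2 : ∃ k, orderOf a = 2 ^ k := by
      have := IsPGroup.iff_orderOf.1 P.isPGroup' ⟨a, ha⟩
      simpa [Subgroup.orderOf_mk] using this
    exact H73.Nilp.commute_of_coprime h2 h1
  have hcomm' : ∀ b ∈ B, ∀ a ∈ (P : Subgroup G), b * a = a * b := fun b hb a ha => (hcomm a ha b hb).symm
  have hfac : ∀ g : G, ∃ a ∈ (P : Subgroup G), ∃ b ∈ B, g = a * b := by
    intro g
    obtain ⟨⟨a, b⟩, hab⟩ := hB.2 g
    exact ⟨a, a.2, b, b.2, hab.symm⟩
  -- A acts on the B-orbits
  let i1 : MulAction (P : Subgroup G) (orbitRel.Quotient B Ω) := orbAct (P : Subgroup G) B hcomm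
  have f1 : FaithfulSMul (P : Subgroup G) (orbitRel.Quotient B Ω) := orbAct_faithful (P : Subgroup G) B hcop' hcomm
  let i2 : MulAction B (orbitRel.Quotient (P : Subgroup G) Ω) := orbAct B (P : Subgroup G) hcomm'
  have f2 : FaithfulSMul B (orbitRel.Quotient (P : Subgroup G) Ω) := orbAct_faithful B (P : Subgroup G) hcop'.symm hcomm'
  have t2 : IsPretransitive B (orbitRel.Quotient (P : Subgroup G) Ω) := by
    refine ⟨fun x y => ?_⟩
    induction x using Quotient.inductionOn' with
    | h x =>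
      induction y using Quotient.inductionOn' with
      | h y =>
        obtain ⟨g, rfl⟩ := exists_smul_eq G x y
        obtain ⟨a, ha, b, hb, rfl⟩ := hfac g
        refine ⟨⟨b, hb⟩, ?_⟩
        change (Quotient.mk'' (b • x) : orbitRel.Quotient (P : Subgroup G) Ω) = _
        apply Quotient.sound'
        refine ⟨⟨a⁻¹, inv_mem ha⟩, ?_⟩
        change a⁻¹ • (a * b) • x = b • x
        rw [← mul_smul, inv_mul_cancel_left]
  have hne1 : Nonempty (orbitRel.Quotient B Ω) := ⟨Quotient.mk'' (Classical.arbitrary Ω)⟩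
  have hne2 : Nonempty (orbitRel.Quotient (P : Subgroup G) Ω) := ⟨Quotient.mk'' (Classical.arbitrary Ω)⟩
  have hle : Nat.card (orbitRel.Quotient B Ω) * Nat.card (orbitRel.Quotient (P : Subgroup G) Ω) ≤ Nat.card Ω := by
    rw [← Nat.card_prod]
    apply Nat.card_le_card_of_surjective (fun x : Ω => ((Quotient.mk'' x : orbitRel.Quotient B Ω), (Quotient.mk'' x : orbitRel.Quotient (P : Subgroup G) Ω)))
    rintro ⟨x, y⟩
    induction x using Quotient.inductionOn' with
    | h x =>
      induction y using Quotient.inductionOn' with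
      | h y =>
        obtain ⟨g, rfl⟩ := exists_smul_eq G x y
        obtain ⟨a, ha, b, hb, rfl⟩ := hfac g
        refine ⟨b • x, Prod.ext ?_ ?_⟩
        · exact Quotient.sound' ⟨⟨b, hb⟩, rfl⟩
        · apply Quotient.sound'
          refine ⟨⟨a⁻¹, inv_mem ha⟩, ?_⟩
          change a⁻¹ • (a * b) • x = b • x
          rw [← mul_smul, inv_mul_cancel_left]
  have hA : Nat.card (P : Subgroup G) ≤ f (Nat.card (orbitRel.Quotient B Ω)) :=
    (two_group_le P.isPGroup').trans (two_pow_le_f _)
  have hBf : Nat.card B ≤ f (Nat.card (orbitRel.Quotient (P : Subgroup G) Ω)) :=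
    odd_le_f (Subgroup.isNilpotent B) hBodd
  calc Nat.card G = Nat.card (P : Subgroup G) * Nat.card B := hB.card_mul_card.symm
    _ ≤ f (Nat.card (orbitRel.Quotient B Ω)) * f (Nat.card (orbitRel.Quotient (P : Subgroup G) Ω)) :=
      Nat.mul_le_mul hA hBf
    _ ≤ f (Nat.card Ω) := f_mul_le' Nat.card_pos Nat.card_pos hle

/-- the main bound for nilpotent permutation groups -/
theorem le_f {G Ω : Type u} [Group G] [Finite G] [MulAction G Ω] [Finite Ω] [FaithfulSMul G Ω]
    (hG : Group.IsNilpotent G) : Nat.card G ≤ f (Nat.card Ω) := by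
  classical
  have : Fintype (orbitRel.Quotient G Ω) := Fintype.ofFinite _
  refine (card_le_prod G Ω).trans ?_
  rw [card_eq_sum G Ω]
  refine le_trans ?_ (f_prod_le _ _)
  apply Finset.prod_le_prod'
  intro x _
  exact trans_le_f (nilpotent_range G hG _)

end H42.NilBound
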