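import Mathlib
import Cfsg.Agent.Lib.H42.NilBound

set_option autoImplicit false

/-! Nilpotent subgroups of alternating groups. -/

namespace H42.NilAlt

open MulAction H42.NilSym H42.NilBound Equiv

universe u

theorem exists_pair {G : Type*} [Group G] [Finite G] (N : Subgroup G) (hN : Group.IsNilpotent N) :
    ∃ A B : Subgroup G, A ≤ N ∧ B ≤ N ∧ IsPGroup 2 A ∧ Odd (Nat.card B) ∧ Group.IsNilpotent B ∧
      (∀ a ∈ A, ∀ b ∈ B, a * b = b * a) ∧ Nat.card A * Nat.card B = Nat.card N ∧
      ∀ g ∈ N, ∃ a ∈ A, ∃ b ∈ B, g = a * b := by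
  obtain ⟨P⟩ : Nonempty (Sylow 2 N) := inferInstance
  have hPn : (P : Subgroup N).Normal := H73.Nilp.sylow_normal P
  have hcop : (Nat.card (P : Subgroup N)).Coprime (P : Subgroup N).index := P.card_coprime_index
  obtain ⟨B, hB⟩ := Subgroup.exists_right_complement'_of_coprime hcop
  have hBcard : Nat.card B = (P : Subgroup N).index := by
    have h1 := hB.card_mul_card
    have h2 := (P : Subgroup N).card_mul_index
    exact Nat.eq_of_mul_eq_mul_left (Nat.card_pos (α := (P : Subgroup N))) (h1.trans h2.symm)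
  have hBodd : Odd (Nat.card B) := by
    rw [hBcard, ← Nat.not_even_iff_odd, even_iff_two_dvd]; exact P.not_dvd_index
  have hcomm : ∀ a ∈ (P : Subgroup N), ∀ b ∈ B, a * b = b * a := by
    intro a ha b hb
    have h1 : (orderOf b).Coprime 2 := by
      have h2 : orderOf b ∣ Nat.card B := by rw [← Subgroup.orderOf_mk b hb]; exact orderOf_dvd_natCard _
      exact Nat.coprime_two_right.2 (Odd.of_dvd_nat hBodd h2)
    have h2 : ∃ k, orderOf a = 2 ^ k := by
      have := IsPGroup.iff_orderOf.1 P.isPGroup' ⟨a, ha⟩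
      simpa [Subgroup.orderOf_mk] using this
    exact H73.Nilp.commute_of_coprime h2 h1
  have hAc : Nat.card ((P : Subgroup N).map N.subtype) = Nat.card (P : Subgroup N) :=
    Nat.card_congr ((P : Subgroup N).equivMapOfInjective N.subtype N.subtype_injective).symm.toEquiv
  have hBc : Nat.card (B.map N.subtype) = Nat.card B :=
    Nat.card_congr (B.equivMapOfInjective N.subtype N.subtype_injective).symm.toEquiv
  refine ⟨(P : Subgroup N).map N.subtype, B.map N.subtype, Subgroup.map_subtype_le _, Subgroup.map_subtype_le _,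
    P.isPGroup'.map _, by rw [hBc]; exact hBodd, ?_, ?_, ?_, ?_⟩
  · have : Group.IsNilpotent B := Subgroup.isNilpotent B
    exact Group.nilpotent_of_surjective (B.equivMapOfInjective N.subtype N.subtype_injective).toMonoidHom
      (B.equivMapOfInjective N.subtype N.subtype_injective).surjective
  · rintro _ ⟨a, ha, rfl⟩ _ ⟨b, hb, rfl⟩
    exact congrArg Subtype.val (hcomm a ha b hb)
  · rw [hAc, hBc, hB.card_mul_card]
  · intro g hg
    obtain ⟨⟨a, b⟩, hab⟩ := hB.2 ⟨g, hg⟩
    refine ⟨_, ⟨a, a.2, rfl⟩, _, ⟨b, b.2, rfl⟩, ?_⟩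
    exact (congrArg Subtype.val hab).symm

theorem pair_le_f {G Ω : Type u} [Group G] [Finite G] [MulAction G Ω] [Finite Ω] [FaithfulSMul G Ω]
    {A B : Subgroup G} (hA : IsPGroup 2 A) (hB : Odd (Nat.card B)) (hBn : Group.IsNilpotent B)
    (hcomm : ∀ a ∈ A, ∀ b ∈ B, a * b = b * a) : Nat.card A * Nat.card B ≤ f (Nat.card Ω) := by
  have hAn : Group.IsNilpotent A := hA.isNilpotent
  let φ : A × B →* G := A.subtype.noncommCoprod B.subtype (fun a b => hcomm a a.2 b b.2)
  have hφ : Function.Injective φ := by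
    rw [injective_iff_map_eq_one]
    rintro ⟨a, b⟩ hab
    have h1 : (a : G) * b = 1 := hab
    have h2 : (a : G) = (b : G)⁻¹ := eq_inv_of_mul_eq_one_left h1
    have h3 : (a : G) ∈ A ⊓ B := ⟨a.2, by rw [h2]; exact B.inv_mem b.2⟩
    have h4 : A ⊓ B = ⊥ := by
      apply Disjoint.eq_bot
      apply Subgroup.disjoint_of_coprime_natCard
      obtain ⟨k, hk⟩ := IsPGroup.iff_card.1 hA
      rw [hk]
      exact Nat.Coprime.pow_left _ (Nat.coprime_two_left.2 hB)
    rw [h4, Subgroup.mem_bot] at h3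
    rw [h3, one_mul] at h1
    exact Prod.ext (Subtype.ext h3) (Subtype.ext h1)
  have h1 : Nat.card φ.range = Nat.card A * Nat.card B := by
    rw [← Nat.card_prod]
    exact Nat.card_congr (MonoidHom.ofInjective hφ).symm.toEquiv
  rw [← h1]
  exact le_f (G := φ.range) (Ω := Ω) (Group.nilpotent_of_surjective φ.rangeRestrict φ.rangeRestrict_surjective)

section

variable {Ω : Type u} [Fintype Ω] [DecidableEq Ω]

/-- If `B` has odd order and its centralizer consists of even permutations, a 2-group centralizing `B` is trivial. -/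
theorem eq_one_of_even {A B : Subgroup (Perm Ω)} (hA : IsPGroup 2 A) (hB : Odd (Nat.card B))
    (hcomm : ∀ a ∈ A, ∀ b ∈ B, a * b = b * a)
    (hC : ∀ c : Perm Ω, (∀ b ∈ B, c * b = b * c) → Perm.sign c = 1) {a : Perm Ω} (ha : a ∈ A) : a = 1 := by
  classical
  have hcop : (Nat.card A).Coprime (Nat.card B) := by
    obtain ⟨k, hk⟩ := IsPGroup.iff_card.1 hA
    rw [hk]
    exact Nat.Coprime.pow_left _ (Nat.coprime_two_left.2 hB)
  ext x
  rw [Perm.one_apply]
  by_contra hx
  have hmem : ¬ (a • x ∈ orbit B x) := fun h => hx (fix_of_mem_orbit hcop hcomm ha h)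
  have hcomm' : ∀ b ∈ B, ∀ y, a (b y) = b (a y) := fun b hb y => congrArg (fun f : Perm Ω => f y) (hcomm a ha b hb)
  have hcommi : ∀ b ∈ B, ∀ y, a⁻¹ (b y) = b (a⁻¹ y) := by
    intro b hb y
    apply a.injective
    rw [hcomm' b hb]
    simp
  -- the two orbits
  have hO : ∀ y, y ∈ orbit B x ↔ ∃ b ∈ B, b x = y := by
    intro y
    constructor
    · rintro ⟨⟨b, hb⟩, hy⟩; exact ⟨b, hb, hy⟩
    · rintro ⟨b, hb, hy⟩; exact ⟨⟨b, hb⟩, hy⟩
  have hO' : ∀ y, y ∈ orbit B (a x) ↔ ∃ b ∈ B, b (a x) = y := by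
    intro y
    constructor
    · rintro ⟨⟨b, hb⟩, hy⟩; exact ⟨b, hb, hy⟩
    · rintro ⟨b, hb, hy⟩; exact ⟨⟨b, hb⟩, hy⟩
  have hdisj : ∀ y, y ∈ orbit B x → y ∉ orbit B (a x) := by
    intro y h1 h2
    apply hmem
    exact orbit_eq_iff.1 ((orbit_eq_iff.2 h2).symm.trans (orbit_eq_iff.2 h1))
  have h1 : ∀ y, y ∈ orbit B x → a y ∈ orbit B (a x) := by
    intro y hy
    obtain ⟨b, hb, rfl⟩ := (hO y).1 hy
    exact (hO' _).2 ⟨b, hb, (hcomm' b hb x).symm⟩
  have h2 : ∀ y, y ∈ orbit B (a x) → a⁻¹ y ∈ orbit B x := by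
    intro y hy
    obtain ⟨b, hb, rfl⟩ := (hO' y).1 hy
    exact (hO _).2 ⟨b, hb, by rw [hcommi b hb]; simp⟩
  let t : Ω → Ω := fun y => if y ∈ orbit B x then a y else if y ∈ orbit B (a x) then a⁻¹ y else y
  have t1 : ∀ y, y ∈ orbit B x → t y = a y := fun y hy => if_pos hy
  have t2 : ∀ y, y ∈ orbit B (a x) → t y = a⁻¹ y := by
    intro y hy
    have : y ∉ orbit B x := fun h => hdisj y h hy
    simp only [t]
    rw [if_neg this, if_pos hy]
  have t3 : ∀ y, y ∉ orbit B x → y ∉ orbit B (a x) → t y = y := by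
    intro y h1 h2
    simp only [t]
    rw [if_neg h1, if_neg h2]
  have tinv : Function.Involutive t := by
    intro y
    by_cases hy1 : y ∈ orbit B x
    · rw [t1 y hy1, t2 _ (h1 y hy1)]; simp
    · by_cases hy2 : y ∈ orbit B (a x)
      · rw [t2 y hy2, t1 _ (h2 y hy2)]; simp
      · rw [t3 y hy1 hy2, t3 y hy1 hy2]
  let τ : Perm Ω := tinv.toPerm
  have hτ : ∀ y, τ y = t y := fun y => rfl
  have hb1 : ∀ b ∈ B, ∀ y, y ∈ orbit B x → b y ∈ orbit B x := by
    intro b hb y hy
    obtain ⟨c, hc, rfl⟩ := (hO y).1 hy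
    exact (hO _).2 ⟨b * c, mul_mem hb hc, rfl⟩
  have hb2 : ∀ b ∈ B, ∀ y, y ∈ orbit B (a x) → b y ∈ orbit B (a x) := by
    intro b hb y hy
    obtain ⟨c, hc, rfl⟩ := (hO' y).1 hy
    exact (hO' _).2 ⟨b * c, mul_mem hb hc, rfl⟩
  have hτc : ∀ b ∈ B, τ * b = b * τ := by
    intro b hb
    ext y
    rw [Perm.mul_apply, Perm.mul_apply, hτ, hτ]
    by_cases hy1 : y ∈ orbit B x
    · rw [t1 y hy1, t1 _ (hb1 b hb y hy1), hcomm' b hb]
    · by_cases hy2 : y ∈ orbit B (a x)
      · rw [t2 y hy2, t2 _ (hb2 b hb y hy2), hcommi b hb]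
      · have hy1' : b y ∉ orbit B x := by
          intro h; apply hy1
          have := hb1 _ (inv_mem hb) _ h
          simpa using this
        have hy2' : b y ∉ orbit B (a x) := by
          intro h; apply hy2
          have := hb2 _ (inv_mem hb) _ h
          simpa using this
        rw [t3 y hy1 hy2, t3 _ hy1' hy2']
  have hsign := hC τ hτc
  -- support
  have hsupp : τ.support = (Finset.univ.filter (fun y => y ∈ orbit B x)) ∪ (Finset.univ.filter (fun y => y ∈ orbit B (a x))) := by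
    ext y
    rw [Perm.mem_support, hτ, Finset.mem_union, Finset.mem_filter, Finset.mem_filter]
    constructor
    · intro h
      by_contra h'
      push Not at h'
      exact h (t3 y (h'.1 (Finset.mem_univ _)) (h'.2 (Finset.mem_univ _)))
    · rintro (⟨-, h⟩ | ⟨-, h⟩)
      · rw [t1 y h]
        intro h3
        exact hdisj y h (by have := h1 y h; rwa [h3] at this)
      · rw [t2 y h]
        intro h3
        have := h2 y h
        rw [h3] at this
        exact hdisj y this h
  have hcardO : Odd (Finset.univ.filter (fun y => y ∈ orbit B x)).card := by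
    have e1 : (Finset.univ.filter (fun y => y ∈ orbit B x)).card = Nat.card (orbit B x) := by
      rw [Nat.card_eq_fintype_card, Fintype.card_subtype]
    rw [e1, Nat.card_coe_set_eq, ← index_stabilizer]
    exact Odd.of_dvd_nat hB (Subgroup.index_dvd_card _)
  have hcard2 : (Finset.univ.filter (fun y => y ∈ orbit B (a x))).card = (Finset.univ.filter (fun y => y ∈ orbit B x)).card := by
    apply Finset.card_nbij' (fun y => a⁻¹ y) (fun y => a y)
    · intro y hy
      simp only [Finset.coe_filter, Finset.mem_univ, true_and, Set.mem_ofPred_eq] at hy ⊢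
      exact h2 y hy
    · intro y hy
      simp only [Finset.coe_filter, Finset.mem_univ, true_and, Set.mem_ofPred_eq] at hy ⊢
      exact h1 y hy
    · intro y _; simp
    · intro y _; simp
  have hcards : τ.support.card = 2 * (Finset.univ.filter (fun y => y ∈ orbit B x)).card := by
    rw [hsupp, Finset.card_union_of_disjoint, hcard2, two_mul]
    rw [Finset.disjoint_left]
    intro y hy1 hy2
    rw [Finset.mem_filter] at hy1 hy2
    exact hdisj y hy1.2 hy2.2
  have hτ2 : orderOf τ = 2 := by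
    apply orderOf_eq_prime
    · ext y; rw [pow_two, Perm.mul_apply, hτ, hτ, tinv y]; rfl
    · intro h
      have : τ.support.card = 0 := by rw [h]; simp
      rw [hcards] at this
      obtain ⟨k, hk⟩ := hcardO
      omega
  obtain ⟨k, hk⟩ := Perm.cycleType_prime_order (σ := τ) (by rw [hτ2]; exact Nat.prime_two)
  have h5 := Perm.sum_cycleType τ
  rw [hk, hτ2, Multiset.sum_replicate, hcards, smul_eq_mul] at h5
  rw [Perm.sign_of_cycleType, hk, hτ2, Multiset.sum_replicate, Multiset.card_replicate, smul_eq_mul] at hsign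
  have h6 : k + 1 = (Finset.univ.filter (fun y => y ∈ orbit B x)).card := by omega
  have h7 : Odd ((k + 1) * 2 + (k + 1)) := by
    rw [h6]
    obtain ⟨j, hj⟩ := hcardO
    exact ⟨3 * j + 1, by rw [hj]; ring⟩
  rw [h7.neg_one_pow] at hsign
  exact absurd hsign (by decide)

/-- enlarging a 2-group to one containing odd permutations -/
theorem exists_enlarge {A B : Subgroup (Perm Ω)} (hA : IsPGroup 2 A)
    (hcomm : ∀ a ∈ A, ∀ b ∈ B, a * b = b * a) (hev : A ≤ alternatingGroup Ω)
    {c : Perm Ω} (hc : ∀ b ∈ B, c * b = b * c) (hcs : Perm.sign c ≠ 1) :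
    ∃ A' : Subgroup (Perm Ω), A ≤ A' ∧ IsPGroup 2 A' ∧ (∀ a ∈ A', ∀ b ∈ B, a * b = b * a) ∧
      2 * Nat.card A ≤ Nat.card A' := by
  classical
  let C := Subgroup.centralizer (B : Set (Perm Ω))
  have hAC : A ≤ C := by
    intro a ha
    rw [Subgroup.mem_centralizer_iff]
    intro b hb
    exact (hcomm a ha b hb).symm
  have hcC : c ∈ C := by
    rw [Subgroup.mem_centralizer_iff]
    intro b hb
    exact (hc b hb).symm
  have hA' : IsPGroup 2 (A.subgroupOf C) := hA.comap_of_injective _ C.subtype_injective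
  obtain ⟨Q, hQ⟩ := hA'.exists_le_sylow
  refine ⟨(Q : Subgroup C).map C.subtype, ?_, Q.isPGroup'.map _, ?_, ?_⟩
  · intro a ha
    exact ⟨⟨a, hAC ha⟩, hQ (by rw [Subgroup.mem_subgroupOf]; exact ha), rfl⟩
  · rintro _ ⟨a, ha, rfl⟩ b hb
    have := a.2
    rw [Subgroup.mem_centralizer_iff] at this
    exact (this b hb).symm
  · -- Q is not contained in the alternating group
    have hsub : A ≤ (Q : Subgroup C).map C.subtype ⊓ alternatingGroup Ω := by
      refine le_inf ?_ hev
      intro a ha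
      exact ⟨⟨a, hAC ha⟩, hQ (by rw [Subgroup.mem_subgroupOf]; exact ha), rfl⟩
    have hne : ¬ ((Q : Subgroup C).map C.subtype ≤ alternatingGroup Ω) := by
      intro hle
      have h1 : (Q : Subgroup C) ≤ (Perm.sign.comp C.subtype).ker := by
        intro q hq
        exact hle ⟨q, hq, rfl⟩
      have h2 : (Perm.sign.comp C.subtype).ker.index = 2 := by
        rw [Subgroup.index_ker]
        have : (Perm.sign.comp C.subtype).range = ⊤ := by
          rw [MonoidHom.range_eq_top]
          intro s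
          rcases Int.units_eq_one_or s with rfl | rfl
          · exact ⟨1, by simp⟩
          · exact ⟨⟨c, hcC⟩, (Int.units_eq_one_or (Perm.sign c)).resolve_left hcs⟩
        rw [this, Subgroup.card_top]
        simp
      have h3 := Subgroup.index_dvd_of_le h1
      rw [h2] at h3
      exact Q.not_dvd_index h3
    have hlt : (Q : Subgroup C).map C.subtype ⊓ alternatingGroup Ω < (Q : Subgroup C).map C.subtype :=
      lt_of_le_of_ne inf_le_left (fun h => hne (by rw [← h]; exact inf_le_right))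
    have h1 : A < (Q : Subgroup C).map C.subtype := lt_of_le_of_lt hsub hlt
    have h2 := Subgroup.card_mul_index (A.subgroupOf ((Q : Subgroup C).map C.subtype))
    have h3 : Nat.card (A.subgroupOf ((Q : Subgroup C).map C.subtype)) = Nat.card A :=
      Nat.card_congr (Subgroup.subgroupOfEquivOfLe h1.le).toEquiv
    rw [h3] at h2
    rw [← h2, mul_comm]
    apply Nat.mul_le_mul_left
    have h4 : (A.subgroupOf ((Q : Subgroup C).map C.subtype)).index ≠ 1 := by
      rw [Ne, Subgroup.index_eq_one, Subgroup.subgroupOf_eq_top]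
      exact not_le_of_gt h1
    have h5 : (A.subgroupOf ((Q : Subgroup C).map C.subtype)).index ≠ 0 := Subgroup.index_ne_zero_of_finite
    omega

end

/-- odd-order nilpotent groups satisfy the stronger bound -/
theorem odd_two_mul_le {G Ω : Type u} [Group G] [Finite G] [MulAction G Ω] [Finite Ω] [FaithfulSMul G Ω]
    (hG : Group.IsNilpotent G) (hodd : Odd (Nat.card G)) (h4' : 4 ≤ Nat.card Ω) (h5' : Nat.card Ω ≠ 5)
    (h6' : Nat.card Ω ≠ 6) (h9' : Nat.card Ω ≠ 9) : 2 * Nat.card G ≤ f (Nat.card Ω) := by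
  have hb := odd_bound (G := G) (Ω := Ω) hG hodd
  have hpar := orbits_parity (G := G) (Ω := Ω) hodd
  have hne : Nonempty Ω := by
    rw [← Nat.card_pos_iff.trans (and_iff_left inferInstance)]; omega
  have hj : 1 ≤ Nat.card (orbitRel.Quotient G Ω) := by
    have : Nonempty (orbitRel.Quotient G Ω) := ⟨Quotient.mk'' (Classical.arbitrary Ω)⟩
    exact Nat.card_pos
  have fin : (2 * Nat.card G) ^ 2 ≤ f (Nat.card Ω) ^ 2 → 2 * Nat.card G ≤ f (Nat.card Ω) := fun h =>
    (Nat.pow_le_pow_iff_left (by norm_num)).1 h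
  by_cases hev : Nat.card Ω % 2 = 0
  · have hq := Q_even (Nat.card Ω) h4' h6' hev
    apply fin
    have h1 : Nat.card G ^ 2 * 3 ^ 2 ≤ 3 ^ Nat.card Ω :=
      (Nat.mul_le_mul_left _ (Nat.pow_le_pow_right (by norm_num) (by omega))).trans hb
    have : (2 * Nat.card G) ^ 2 = 4 * Nat.card G ^ 2 := by ring
    omega
  by_cases h17 : 17 ≤ Nat.card Ω
  · have hq := Q_odd (Nat.card Ω) h17 (by omega)
    apply fin
    have h1 : Nat.card G ^ 2 * 3 ^ 1 ≤ 3 ^ Nat.card Ω :=
      (Nat.mul_le_mul_left _ (Nat.pow_le_pow_right (by norm_num) (by omega))).trans hb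
    have : (2 * Nat.card G) ^ 2 = 4 * Nat.card G ^ 2 := by ring
    omega
  -- remaining degrees 7, 11, 13, 15
  have hcases : Nat.card Ω = 7 ∨ Nat.card Ω = 11 ∨ Nat.card Ω = 13 ∨ Nat.card Ω = 15 := by omega
  by_cases hj1 : Nat.card (orbitRel.Quotient G Ω) = 1
  · have ht : IsPretransitive G Ω := by
      rw [pretransitive_iff_subsingleton_quotient]
      exact (Nat.card_eq_one_iff_unique.1 hj1).1
    rcases hcases with h | h | h | h
    · have := prime_trans (G := G) (Ω := Ω) hG (by rw [h]; norm_num)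
      rw [h] at this ⊢
      rw [fv 7 1 3 (by norm_num) (by norm_num), h1]; simp [w]; omega
    · have := prime_trans (G := G) (Ω := Ω) hG (by rw [h]; norm_num)
      rw [h] at this ⊢
      rw [fv 11 2 3 (by norm_num) (by norm_num), h2]; simp [w]; omega
    · have := prime_trans (G := G) (Ω := Ω) hG (by rw [h]; norm_num)
      rw [h] at this ⊢
      rw [fv 13 3 1 (by norm_num) (by norm_num), h3]; simp [w]; omega
    · have := fifteen_trans (G := G) (Ω := Ω) hG h
      rw [h]
      rw [fv 15 3 3 (by norm_num) (by norm_num), h3]; simp [w]; omega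
  · have h1' : Nat.card G ^ 2 * 3 ^ 3 ≤ 3 ^ Nat.card Ω :=
      (Nat.mul_le_mul_left _ (Nat.pow_le_pow_right (by norm_num) (by omega))).trans hb
    apply fin
    have e : (2 * Nat.card G) ^ 2 = 4 * Nat.card G ^ 2 := by ring
    rcases hcases with h | h | h | h
    · rw [h] at h1' ⊢
      rw [fv 7 1 3 (by norm_num) (by norm_num), h1]; simp [w]; omega
    · rw [h] at h1' ⊢
      rw [fv 11 2 3 (by norm_num) (by norm_num), h2]; simp [w]; omega
    · rw [h] at h1' ⊢
      rw [fv 13 3 1 (by norm_num) (by norm_num), h3]; simp [w]; omega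
    · rw [h] at h1' ⊢
      rw [fv 15 3 3 (by norm_num) (by norm_num), h3]; simp [w]; omega

/-- the bound for nilpotent groups of even permutations -/
theorem alt_bound {Ω : Type u} [Fintype Ω] [DecidableEq Ω] (N : Subgroup (Perm Ω)) (hN : Group.IsNilpotent N)
    (hev : N ≤ alternatingGroup Ω) (h4' : 4 ≤ Nat.card Ω) (h5' : Nat.card Ω ≠ 5)
    (h6' : Nat.card Ω ≠ 6) (h9' : Nat.card Ω ≠ 9) : 2 * Nat.card N ≤ f (Nat.card Ω) := by
  obtain ⟨A, B, hAN, hBN, hA, hB, hBn, hcomm, hcard, -⟩ := exists_pair N hN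
  by_cases hC : ∀ c : Perm Ω, (∀ b ∈ B, c * b = b * c) → Perm.sign c = 1
  · have hA1 : A = ⊥ := by
      rw [eq_bot_iff]
      intro a ha
      rw [Subgroup.mem_bot]
      exact eq_one_of_even hA hB hcomm hC ha
    rw [← hcard, hA1, Subgroup.card_bot, one_mul]
    exact odd_two_mul_le (G := B) (Ω := Ω) hBn hB h4' h5' h6' h9'
  · push Not at hC
    obtain ⟨c, hc, hcs⟩ := hC
    obtain ⟨A', hAA', hA', hcomm', h2A⟩ := exists_enlarge hA hcomm (hAN.trans hev) hc hcs
    have h3 := pair_le_f (G := Perm Ω) (Ω := Ω) hA' hB hBn hcomm'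
    rw [← hcard]
    calc 2 * (Nat.card A * Nat.card B) = (2 * Nat.card A) * Nat.card B := by ring
      _ ≤ Nat.card A' * Nat.card B := Nat.mul_le_mul_right _ h2A
      _ ≤ _ := h3

end H42.NilAlt
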