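import Mathlib
import Cfsg.Agent.Lib.H42.NilAlt

set_option autoImplicit false

/-! Extremal nilpotent permutation groups in degree `n ≡ 3 (mod 4)`. -/

namespace H42.NilEq

open MulAction H42.NilSym H42.NilBound H42.NilAlt Equiv

universe u

theorem val_lt {j k : ℕ} (hk : 1 ≤ k) (hj : j < 4 * k) :
    padicValNat 2 j.factorial < padicValNat 2 (4 * k).factorial := by
  have h1 : padicValNat 2 j.factorial ≤ padicValNat 2 (4 * k - 1).factorial := by
    rw [← padicValNat_dvd_iff_le (Nat.factorial_ne_zero _)]
    exact pow_padicValNat_dvd.trans (Nat.factorial_dvd_factorial (by omega))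
  have h2 := val_succ (4 * k - 1)
  rw [show 4 * k - 1 + 1 = 4 * k by omega] at h2
  have h3 : 1 ≤ padicValNat 2 (4 * k) := by
    rw [← padicValNat_dvd_iff_le (by omega)]
    exact ⟨2 * k, by ring⟩
  omega

section
variable {Ω : Type u} [Fintype Ω] [DecidableEq Ω]

/-- if a permutation of order 3 has at least 4 moved points then the group it generates has at most `n - 4` orbits -/
theorem orbits_le {z : Perm Ω} (hz : orderOf z = 3) (h : 3 < z.support.card) :
    Nat.card (orbitRel.Quotient (Subgroup.zpowers z) Ω) + 4 ≤ Nat.card Ω := by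
  classical
  have hz3 : ∀ x, z (z (z x)) = x := by
    intro x
    have := congrArg (fun f : Perm Ω => f x) (hz ▸ pow_orderOf_eq_one z)
    simpa [pow_succ] using this
  obtain ⟨x, hx⟩ : ∃ x, x ∈ z.support := by
    have : 0 < z.support.card := by omega
    exact Finset.card_pos.1 this
  obtain ⟨y, hy, hyx⟩ : ∃ y ∈ z.support, y ∉ ({x, z x, z (z x)} : Finset Ω) := by
    by_contra hc
    push Not at hc
    have := Finset.card_le_card (s := z.support) (t := {x, z x, z (z x)}) hc
    have h2 : ({x, z x, z (z x)} : Finset Ω).card ≤ 3 := Finset.card_le_three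
    omega
  rw [Perm.mem_support] at hx hy
  simp only [Finset.mem_insert, Finset.mem_singleton, not_or] at hyx
  obtain ⟨hyx, hyzx, hyzzx⟩ := hyx
  have inj := z.injective
  have nx2 : z (z x) ≠ x := fun e => hx (by have := hz3 x; rw [e] at this; exact this)
  have ny2 : z (z y) ≠ y := fun e => hy (by have := hz3 y; rw [e] at this; exact this)
  have a1 : z x ≠ z (z x) := fun e => hx (inj e).symm
  have a2 : z x ≠ z y := fun e => hyx (inj e).symm
  have a3 : z x ≠ z (z y) := fun e => by
    have e1 := inj e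
    apply hyzzx
    rw [e1, hz3]
  have a4 : z (z x) ≠ z y := fun e => hyzx (inj e).symm
  have a5 : z (z x) ≠ z (z y) := fun e => hyx (inj (inj e)).symm
  have a6 : z y ≠ z (z y) := fun e => hy (inj e).symm
  let S : Finset Ω := {z x, z (z x), z y, z (z y)}
  have hS : S.card = 4 := by
    simp only [S]
    rw [Finset.card_insert_of_notMem (by simp [a1, a2, a3]), Finset.card_insert_of_notMem (by simp [a4, a5]),
      Finset.card_insert_of_notMem (by simp [a6]), Finset.card_singleton]
  have hxS : x ∉ S := by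
    simp only [S, Finset.mem_insert, Finset.mem_singleton, not_or]
    refine ⟨hx.symm, nx2.symm, ?_, ?_⟩
    · intro e; apply hyzzx; rw [e, hz3]
    · intro e; apply hyzx; rw [e, hz3]
  have hyS : y ∉ S := by
    simp only [S, Finset.mem_insert, Finset.mem_singleton, not_or]
    exact ⟨hyzx, hyzzx, hy.symm, ny2.symm⟩
  have hsurj : Function.Surjective (fun t : {t : Ω // t ∉ S} =>
      (Quotient.mk'' (t : Ω) : orbitRel.Quotient (Subgroup.zpowers z) Ω)) := by
    intro q
    induction q using Quotient.inductionOn' with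
    | h t =>
      by_cases ht : t ∈ S
      · have hzm : ∀ s : Ω, (Quotient.mk'' (z s) : orbitRel.Quotient (Subgroup.zpowers z) Ω) = Quotient.mk'' s := by
          intro s
          exact Quotient.sound' ⟨⟨z, Subgroup.mem_zpowers z⟩, rfl⟩
        simp only [S, Finset.mem_insert, Finset.mem_singleton] at ht
        rcases ht with rfl | rfl | rfl | rfl
        · exact ⟨⟨x, hxS⟩, (hzm x).symm⟩
        · exact ⟨⟨x, hxS⟩, by rw [hzm, hzm]⟩
        · exact ⟨⟨y, hyS⟩, (hzm y).symm⟩
        · exact ⟨⟨y, hyS⟩, by rw [hzm, hzm]⟩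
      · exact ⟨⟨t, ht⟩, rfl⟩
  have h1 : Nat.card (orbitRel.Quotient (Subgroup.zpowers z) Ω) ≤ Nat.card {t : Ω // t ∉ S} :=
    Nat.card_le_card_of_surjective _ hsurj
  have h2 : Nat.card {t : Ω // t ∉ S} = Nat.card Ω - 4 := by
    rw [Nat.card_eq_fintype_card, Fintype.card_subtype_compl, Fintype.card_coe, hS, Nat.card_eq_fintype_card]
  have h3 : 4 ≤ Nat.card Ω := by
    rw [Nat.card_eq_fintype_card, ← hS]; exact Finset.card_le_univ S
  omega

theorem eq_of_three {z : Perm Ω} (hz : orderOf z = 3) (h : z.support.card ≤ 3) : z.IsThreeCycle := by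
  classical
  rw [← card_support_eq_three_iff]
  obtain ⟨k, hk⟩ := Perm.cycleType_prime_order (σ := z) (by rw [hz]; norm_num)
  have h5 := Perm.sum_cycleType z
  rw [hk, hz, Multiset.sum_replicate, smul_eq_mul] at h5
  omega

theorem support_eq {z : Perm Ω} (hz : z.IsThreeCycle) {x : Ω} (hx : x ∈ z.support) :
    z.support = {x, z x, z (z x)} := by
  classical
  have hz3 : ∀ x, z (z (z x)) = x := by
    intro x
    have := congrArg (fun f : Perm Ω => f x) (hz.orderOf ▸ pow_orderOf_eq_one z)
    simpa [pow_succ] using this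
  symm
  apply Finset.eq_of_subset_of_card_le
  · intro y hy
    simp only [Finset.mem_insert, Finset.mem_singleton] at hy
    rcases hy with rfl | rfl | rfl
    · exact hx
    · exact Perm.apply_mem_support.2 hx
    · exact Perm.apply_mem_support.2 (Perm.apply_mem_support.2 hx)
  · rw [hz.card_support]
    rw [Perm.mem_support] at hx
    have nx2 : z (z x) ≠ x := fun e => hx (by have := hz3 x; rw [e] at this; exact this)
    rw [Finset.card_insert_of_notMem (by simp [hx.symm, nx2.symm]),
      Finset.card_insert_of_notMem (by simp; exact fun e => hx e.symm), Finset.card_singleton]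

/-- the structure of an extremal pair -/
theorem extremal {A B : Subgroup (Perm Ω)} (hn : Nat.card Ω % 4 = 3) (hA : IsPGroup 2 A) (hB : Nat.card B = 3)
    (hcomm : ∀ a ∈ A, ∀ b ∈ B, a * b = b * a)
    (hcard : 2 ^ padicValNat 2 (Nat.card Ω - 3).factorial ≤ Nat.card A) :
    ∃ z : Perm Ω, B = Subgroup.zpowers z ∧ z.IsThreeCycle ∧ ∀ a ∈ A, ∀ x ∈ z.support, a x = x := by
  classical
  have hp3 : Fact (Nat.Prime 3) := ⟨Nat.prime_three⟩
  have hcyc : IsCyclic B := isCyclic_of_prime_card (p := 3) hB
  obtain ⟨⟨z, hzB⟩, hz⟩ := hcyc.exists_generator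
  have hBz : B = Subgroup.zpowers z := by
    apply le_antisymm
    · intro b hb
      obtain ⟨k, hk⟩ := Subgroup.mem_zpowers_iff.1 (hz ⟨b, hb⟩)
      exact Subgroup.mem_zpowers_iff.2 ⟨k, congrArg Subtype.val hk⟩
    · rw [Subgroup.zpowers_le]; exact hzB
  have hord : orderOf z = 3 := by rw [← Nat.card_zpowers, ← hBz, hB]
  have hcop : (Nat.card A).Coprime (Nat.card B) := by
    obtain ⟨k, hk⟩ := IsPGroup.iff_card.1 hA
    rw [hk, hB]
    exact Nat.Coprime.pow_left _ (by norm_num)
  -- A acts faithfully on the orbits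
  let i1 : MulAction A (orbitRel.Quotient B Ω) := orbAct A B hcomm
  have f1 : FaithfulSMul A (orbitRel.Quotient B Ω) := orbAct_faithful A B hcop hcomm
  have h1 := two_group_le (A := A) (Δ := orbitRel.Quotient B Ω) hA
  have h2 := (Nat.pow_le_pow_iff_right (by norm_num : 1 < 2)).1 (hcard.trans h1)
  have hz3 : z.IsThreeCycle := by
    apply eq_of_three hord
    by_contra hc
    push Not at hc
    have h3 := orbits_le hord hc
    rw [← hBz] at h3
    obtain ⟨k, r, hr, hnk⟩ := exists_rep (Nat.card Ω)
    obtain rfl : r = 3 := by omega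
    rw [hnk, show 4 * k + 3 - 3 = 4 * k by omega] at h2
    have h4 : Nat.card (orbitRel.Quotient B Ω) < 4 * k := by omega
    have h5 := val_lt (by omega) h4
    omega
  refine ⟨z, hBz, hz3, ?_⟩
  intro a ha x hx
  apply fix_of_mem_orbit hcop hcomm ha
  have hac : a * z = z * a := hcomm a ha z hzB
  have hax : a x ∈ z.support := by
    rw [Perm.mem_support]
    have := congrArg (fun f : Perm Ω => f x) hac
    simp only [Perm.mul_apply] at this
    rw [← this]
    intro e
    rw [Perm.mem_support] at hx
    exact hx (a.injective e)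
  rw [support_eq hz3 hx] at hax
  simp only [Finset.mem_insert, Finset.mem_singleton] at hax
  rcases hax with h | h | h
  · rw [Perm.smul_def, h]; exact mem_orbit_self x
  · rw [Perm.smul_def, h]; exact ⟨⟨z, hzB⟩, rfl⟩
  · rw [Perm.smul_def, h]; exact ⟨⟨z * z, mul_mem hzB hzB⟩, rfl⟩

end

end H42.NilEq
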