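import Mathlib
import Cfsg.Agent.Lib.H42.NilEq

set_option autoImplicit false

/-! Conjugacy and existence of extremal nilpotent permutation groups in degree `n ≡ 3 (mod 4)`. -/

namespace H42.NilEq2

open MulAction H42.NilSym H42.NilBound H42.NilAlt H42.NilEq Equiv

universe u

theorem sylow_conj {G : Type*} [Group G] [Finite G] {p : ℕ} [Fact p.Prime] (K A₁ A₂ : Subgroup G)
    (h₁ : A₁ ≤ K) (h₂ : A₂ ≤ K) (c₁ : Nat.card A₁ = p ^ (Nat.card K).factorization p)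
    (c₂ : Nat.card A₂ = p ^ (Nat.card K).factorization p) :
    ∃ k ∈ K, ∀ a ∈ A₁, k * a * k⁻¹ ∈ A₂ := by
  have d₁ : Nat.card (A₁.subgroupOf K) = p ^ (Nat.card K).factorization p := by
    rw [← c₁]; exact Nat.card_congr (Subgroup.subgroupOfEquivOfLe h₁).toEquiv
  have d₂ : Nat.card (A₂.subgroupOf K) = p ^ (Nat.card K).factorization p := by
    rw [← c₂]; exact Nat.card_congr (Subgroup.subgroupOfEquivOfLe h₂).toEquiv
  obtain ⟨k, hk⟩ := MulAction.exists_smul_eq K (Sylow.ofCard _ d₁) (Sylow.ofCard _ d₂)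
  refine ⟨k, k.2, fun a ha => ?_⟩
  have h2 : k * ⟨a, h₁ ha⟩ * k⁻¹ ∈ ((k • Sylow.ofCard _ d₁ : Sylow p K) : Subgroup K) := by
    rw [Sylow.coe_subgroup_smul]
    exact ⟨⟨a, h₁ ha⟩, by rw [SetLike.mem_coe]; exact Subgroup.mem_subgroupOf.2 ha, rfl⟩
  rw [hk] at h2
  exact Subgroup.mem_subgroupOf.1 h2

section
variable {Ω : Type u} [Fintype Ω] [DecidableEq Ω]

/-- pointwise stabilizer in `G` of the support of `z` -/
def fixer (G : Subgroup (Perm Ω)) (z : Perm Ω) : Subgroup (Perm Ω) where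
  carrier := {f | f ∈ G ∧ ∀ x ∈ z.support, f x = x}
  one_mem' := ⟨one_mem _, fun _ _ => rfl⟩
  mul_mem' := by
    rintro a b ⟨ha, ha'⟩ ⟨hb, hb'⟩
    exact ⟨mul_mem ha hb, fun x hx => by rw [Perm.mul_apply, hb' x hx, ha' x hx]⟩
  inv_mem' := by
    rintro a ⟨ha, ha'⟩
    refine ⟨inv_mem ha, fun x hx => ?_⟩
    have := ha' x hx
    rw [← Perm.eq_inv_iff_eq] at this
    exact this.symm

theorem card_fixer_top (z : Perm Ω) : Nat.card (fixer ⊤ z) = (Nat.card Ω - z.support.card).factorial := by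
  classical
  have e : fixer ⊤ z ≃ Perm {x // x ∉ z.support} :=
    (Equiv.subtypeEquivRight (by
      intro f
      change (f ∈ (⊤ : Subgroup (Perm Ω)) ∧ ∀ x ∈ z.support, f x = x) ↔ ∀ a, ¬ (a ∉ z.support) → f a = a
      simp only [Subgroup.mem_top, true_and, not_not])).trans (Perm.subtypeEquivSubtypePerm (fun x => x ∉ z.support)).symm
  rw [Nat.card_congr e, Nat.card_perm]
  congr 1
  rw [Nat.card_eq_fintype_card, Fintype.card_subtype_compl, Fintype.card_coe, Nat.card_eq_fintype_card]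

theorem card_fixer_alt (z : Perm Ω) (h : 2 ≤ Nat.card Ω - z.support.card) :
    2 * Nat.card (fixer (alternatingGroup Ω) z) = (Nat.card Ω - z.support.card).factorial := by
  classical
  rw [← card_fixer_top]
  have h1 : Nat.card (fixer (alternatingGroup Ω) z) = Nat.card (Perm.sign.comp (fixer ⊤ z).subtype).ker := by
    apply Nat.card_congr
    refine ⟨fun f => ⟨⟨f, trivial, f.2.2⟩, f.2.1⟩, fun f => ⟨f, f.2, f.1.2.2⟩, fun _ => rfl, fun _ => rfl⟩
  have h2 : (Perm.sign.comp (fixer ⊤ z).subtype).ker.index = 2 := by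
    rw [Subgroup.index_ker]
    have h3 : (Perm.sign.comp (fixer ⊤ z).subtype).range = ⊤ := by
      rw [MonoidHom.range_eq_top]
      intro s
      rcases Int.units_eq_one_or s with rfl | rfl
      · exact ⟨1, by simp⟩
      · have h4 : 1 < (z.supportᶜ).card := by
          rw [Finset.card_compl, ← Nat.card_eq_fintype_card]; omega
        obtain ⟨x, hx, y, hy, hxy⟩ := Finset.one_lt_card.1 h4
        rw [Finset.mem_compl] at hx hy
        refine ⟨⟨swap x y, trivial, fun t ht => swap_apply_of_ne_of_ne ?_ ?_⟩, ?_⟩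
        · rintro rfl; exact hx ht
        · rintro rfl; exact hy ht
        · exact Perm.sign_swap hxy
    rw [h3, Subgroup.card_top]
    simp
  rw [h1, ← Subgroup.card_mul_index (Perm.sign.comp (fixer ⊤ z).subtype).ker, h2, mul_comm]

theorem conj_main (G N₁ N₂ A₁ A₂ : Subgroup (Perm Ω)) (z₁ z₂ : Perm Ω)
    (hfac : ∀ g ∈ N₁, ∃ a ∈ A₁, ∃ b ∈ Subgroup.zpowers z₁, g = a * b)
    (hA₂ : A₂ ≤ N₂) (hz₂ : z₂ ∈ N₂)
    (hG₁ : A₁ ≤ G) (hG₂ : A₂ ≤ G)
    (hf₁ : ∀ a ∈ A₁, ∀ x ∈ z₁.support, a x = x) (hf₂ : ∀ a ∈ A₂, ∀ x ∈ z₂.support, a x = x)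
    (hc₁ : Nat.card A₁ = 2 ^ (Nat.card (fixer G z₂)).factorization 2)
    (hc₂ : Nat.card A₂ = 2 ^ (Nat.card (fixer G z₂)).factorization 2)
    (g : Perm Ω) (hg : g ∈ G) (hgz : g * z₁ * g⁻¹ = z₂) :
    ∃ h ∈ G, ∀ x ∈ N₁, h * x * h⁻¹ ∈ N₂ := by
  classical
  -- conjugate A₁
  let A₁' := A₁.map (MulAut.conj g).toMonoidHom
  have hA₁' : A₁' ≤ fixer G z₂ := by
    rintro _ ⟨a, ha, rfl⟩
    refine ⟨?_, ?_⟩
    · exact mul_mem (mul_mem hg (hG₁ ha)) (inv_mem hg)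
    · intro x hx
      change g (a (g⁻¹ x)) = x
      have h1 : g⁻¹ x ∈ z₁.support := by
        rw [Perm.mem_support] at hx ⊢
        intro h
        apply hx
        rw [← hgz]
        simp only [Perm.mul_apply]
        rw [h]; simp
      rw [hf₁ a ha _ h1]; simp
  have hA₂' : A₂ ≤ fixer G z₂ := fun a ha => ⟨hG₂ ha, hf₂ a ha⟩
  have hc₁' : Nat.card A₁' = 2 ^ (Nat.card (fixer G z₂)).factorization 2 := by
    rw [← hc₁]
    exact Nat.card_congr (A₁.equivMapOfInjective _ (MulAut.conj g).injective).symm.toEquiv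
  obtain ⟨k, hk, hkA⟩ := sylow_conj (fixer G z₂) A₁' A₂ hA₁' hA₂' hc₁' hc₂
  have hkz : k * z₂ * k⁻¹ = z₂ := by
    have h1 : Perm.Disjoint k z₂ := by
      intro x
      by_cases hx : x ∈ z₂.support
      · left; exact hk.2 x hx
      · right; rwa [Perm.notMem_support] at hx
    rw [h1.commute.eq, mul_inv_cancel_right]
  refine ⟨k * g, mul_mem hk.1 hg, ?_⟩
  intro x hx
  obtain ⟨a, ha, b, hb, rfl⟩ := hfac x hx
  have e : k * g * (a * b) * (k * g)⁻¹ = (k * (g * a * g⁻¹) * k⁻¹) * (k * (g * b * g⁻¹) * k⁻¹) := by group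
  rw [e]
  apply mul_mem
  · exact hA₂ (hkA _ ⟨a, ha, rfl⟩)
  · obtain ⟨m, rfl⟩ := Subgroup.mem_zpowers_iff.1 hb
    rw [← conj_zpow, hgz, ← conj_zpow, hkz]
    exact Subgroup.zpow_mem _ hz₂ _

end

theorem map_eq_of_forall {G : Type*} [Group G] [Finite G] {N₁ N₂ : Subgroup G} (hcard : Nat.card N₂ = Nat.card N₁)
    {h : G} (hh : ∀ x ∈ N₁, h * x * h⁻¹ ∈ N₂) : N₂ = N₁.map (MulAut.conj h).toMonoidHom := by
  symm
  apply Subgroup.eq_of_le_of_card_ge
  · rintro _ ⟨x, hx, rfl⟩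
    exact hh x hx
  · rw [hcard]
    exact (Nat.card_congr (N₁.equivMapOfInjective _ (MulAut.conj h).injective).toEquiv).le

/-- numeric: `2^k * b = 3 * 2^e` with `b` odd -/
theorem split_card {a b e : ℕ} (ha : ∃ k, a = 2 ^ k) (hb : Odd b) (h : a * b = 3 * 2 ^ e) : b = 3 ∧ a = 2 ^ e := by
  obtain ⟨k, rfl⟩ := ha
  have h1 : b ∣ 3 := by
    have : b ∣ 3 * 2 ^ e := ⟨2 ^ k, by rw [← h]; ring⟩
    exact Nat.Coprime.dvd_of_dvd_mul_right (Nat.Coprime.pow_right _ (Nat.coprime_two_right.2 hb)) this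
  have h2 : 3 ∣ b := by
    have : 3 ∣ 2 ^ k * b := ⟨2 ^ e, h⟩
    exact Nat.Coprime.dvd_of_dvd_mul_left (Nat.Coprime.pow_right _ (by norm_num)) this
  have h3 : b = 3 := Nat.dvd_antisymm h1 h2
  refine ⟨h3, ?_⟩
  rw [h3, mul_comm] at h
  exact Nat.eq_of_mul_eq_mul_left (by norm_num) h

/-- the embedding of `Perm (Fin m) × Perm (Fin 3)` in `Perm (Fin n)`, `n = m + 3` -/
noncomputable def emb {m n : ℕ} (h : m + 3 = n) : Perm (Fin m) × Perm (Fin 3) →* Perm (Fin n) :=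
  ((finSumFinEquiv.trans (finCongr h)).permCongrHom.toMonoidHom).comp (Perm.sumCongrHom (Fin m) (Fin 3))

theorem emb_injective {m n : ℕ} (h : m + 3 = n) : Function.Injective (emb h) := by
  unfold emb
  rw [MonoidHom.coe_comp]
  exact ((finSumFinEquiv.trans (finCongr h)).permCongrHom.injective).comp Perm.sumCongrHom_injective

theorem sign_emb {m n : ℕ} (h : m + 3 = n) (x : Perm (Fin m) × Perm (Fin 3)) :
    Perm.sign (emb h x) = Perm.sign x.1 * Perm.sign x.2 := by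
  rw [← Perm.sign_sumCongr]
  exact Perm.sign_permCongr _ _

end H42.NilEq2
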