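import Mathlib.GroupTheory.Sylow
import Mathlib.Tactic
import Cfsg.Prelude.Def_LocalEven

set_option autoImplicit false

/-! A criterion for a group not to involve Qd(p), p odd. -/

namespace H42.QdFree

open Cfsg Matrix

universe u v

/-- an explicit p-group argument -/
theorem not_both {G : Type*} [Group G] {p : ℕ} [Fact p.Prime] (hp : p ≠ 2) {U : Subgroup G} (hU : IsPGroup p U)
    {w : G} (hw : w ∈ U) (h4 : w ^ 4 = 1) : w = 1 := by
  obtain ⟨k, hk⟩ := (IsPGroup.iff_orderOf.mp hU) ⟨w, hw⟩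
  rw [Subgroup.orderOf_mk] at hk
  have h1 : orderOf w ∣ 4 := orderOf_dvd_of_pow_eq_one h4
  have h2 : Nat.Coprime (p ^ k) 4 := by
    apply Nat.Coprime.pow_left
    have : (4 : ℕ) = 2 ^ 2 := by norm_num
    rw [this]
    apply Nat.Coprime.pow_right
    exact (Nat.coprime_primes Fact.out Nat.prime_two).2 hp
  rw [hk] at h1
  have h3 := Nat.Coprime.eq_one_of_dvd h2 h1
  rw [h3] at hk
  exact orderOf_eq_one_iff.1 hk

/-- lifting p-elements along surjections of finite groups -/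
theorem exists_lift {G H : Type*} [Group G] [Finite G] [Group H] (f : G →* H) (hf : Function.Surjective f)
    {p : ℕ} [Fact p.Prime] (h : H) {k : ℕ} (hh : h ^ p ^ k = 1) : ∃ g : G, f g = h ∧ ∃ j, g ^ p ^ j = 1 := by
  obtain ⟨x, hx⟩ := hf h
  have hpp : p.Prime := Fact.out
  obtain ⟨e, m, hm, he⟩ := Nat.exists_eq_pow_mul_and_not_dvd (orderOf_pos x).ne' p hpp.ne_one
  -- choose c with c * m ≡ 1 mod p^k
  have hcop : Nat.Coprime m (p ^ k) := by
    apply Nat.Coprime.pow_right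
    exact ((Nat.Prime.coprime_iff_not_dvd hpp).2 hm).symm
  obtain ⟨z, hz0, hz1⟩ := Nat.chineseRemainder hcop 0 1
  refine ⟨x ^ z, ?_, e, ?_⟩
  · rw [map_pow, hx]
    have h1 : orderOf h ∣ p ^ k := orderOf_dvd_of_pow_eq_one hh
    have h2 : z ≡ 1 [MOD orderOf h] := Nat.ModEq.of_dvd h1 hz1
    have := (pow_eq_pow_iff_modEq (x := h)).2 h2
    rw [this, pow_one]
  · rw [← pow_mul]
    apply orderOf_dvd_iff_pow_eq_one.1
    rw [he]
    obtain ⟨c, hc⟩ := (Nat.modEq_zero_iff_dvd).1 hz0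
    exact ⟨c, by rw [hc]; ring⟩

/-- the last row of a matrix in `Qd(p)` is `(0,0,1)` -/
theorem qd_row {p : ℕ} (M : qd p) : ((M : Matrix.SpecialLinearGroup (Fin 3) (ZMod p)) : Matrix (Fin 3) (Fin 3) (ZMod p)) 2 0 = 0 ∧
    ((M : Matrix.SpecialLinearGroup (Fin 3) (ZMod p)) : Matrix (Fin 3) (Fin 3) (ZMod p)) 2 1 = 0 ∧
    ((M : Matrix.SpecialLinearGroup (Fin 3) (ZMod p)) : Matrix (Fin 3) (Fin 3) (ZMod p)) 2 2 = 1 := by
  obtain ⟨M, hM⟩ := M
  induction hM using Subgroup.closure_induction with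
  | mem x hx => exact hx
  | one => simp
  | mul x y _ _ hx hy =>
    simp only [Matrix.SpecialLinearGroup.coe_mul, Matrix.mul_apply, Fin.sum_univ_three] at hx hy ⊢
    rw [hx.1, hx.2.1, hx.2.2, hy.1, hy.2.1, hy.2.2]
    simp
  | inv x _ hx =>
    have h1 : ((x⁻¹ * x : Matrix.SpecialLinearGroup (Fin 3) (ZMod p)) : Matrix (Fin 3) (Fin 3) (ZMod p)) = 1 := by simp
    have h2 : ((x * x⁻¹ : Matrix.SpecialLinearGroup (Fin 3) (ZMod p)) : Matrix (Fin 3) (Fin 3) (ZMod p)) = 1 := by simp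
    have e0 := congrFun (congrFun h2 2) 0
    have e1 := congrFun (congrFun h2 2) 1
    have e2 := congrFun (congrFun h2 2) 2
    simp only [Matrix.SpecialLinearGroup.coe_mul, Matrix.mul_apply, Fin.sum_univ_three] at hx e0 e1 e2 ⊢
    rw [hx.1, hx.2.1, hx.2.2] at e0 e1 e2
    simp at e0 e1 e2
    exact ⟨e0, e1, e2⟩

theorem mem_qd {p : ℕ} {M : Matrix.SpecialLinearGroup (Fin 3) (ZMod p)}
    (h0 : (M : Matrix (Fin 3) (Fin 3) (ZMod p)) 2 0 = 0) (h1 : (M : Matrix (Fin 3) (Fin 3) (ZMod p)) 2 1 = 0)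
    (h2 : (M : Matrix (Fin 3) (Fin 3) (ZMod p)) 2 2 = 1) : M ∈ qd p :=
  Subgroup.subset_closure ⟨h0, h1, h2⟩

/-- the translation subgroup -/
def tr (p : ℕ) : Subgroup (qd p) where
  carrier := {M | ((M : Matrix.SpecialLinearGroup (Fin 3) (ZMod p)) : Matrix (Fin 3) (Fin 3) (ZMod p)) 0 0 = 1 ∧
    ((M : Matrix.SpecialLinearGroup (Fin 3) (ZMod p)) : Matrix (Fin 3) (Fin 3) (ZMod p)) 0 1 = 0 ∧
    ((M : Matrix.SpecialLinearGroup (Fin 3) (ZMod p)) : Matrix (Fin 3) (Fin 3) (ZMod p)) 1 0 = 0 ∧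
    ((M : Matrix.SpecialLinearGroup (Fin 3) (ZMod p)) : Matrix (Fin 3) (Fin 3) (ZMod p)) 1 1 = 1}
  one_mem' := by simp
  mul_mem' := by
    intro a b ha hb
    have ra := qd_row a
    have rb := qd_row b
    simp only [Set.mem_ofPred_eq, Subgroup.coe_mul, Matrix.SpecialLinearGroup.coe_mul, Matrix.mul_apply,
      Fin.sum_univ_three] at ha hb ⊢
    rw [ha.1, ha.2.1, ha.2.2.1, ha.2.2.2, hb.1, hb.2.1, hb.2.2.1, hb.2.2.2, rb.1, rb.2.1]
    simp
  inv_mem' := by
    intro x hx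
    have rx := qd_row x
    have rx' := qd_row x⁻¹
    have h2 : ((x * x⁻¹ : qd p) : Matrix.SpecialLinearGroup (Fin 3) (ZMod p)) = 1 := by simp
    have h3 : (((x * x⁻¹ : qd p) : Matrix.SpecialLinearGroup (Fin 3) (ZMod p)) : Matrix (Fin 3) (Fin 3) (ZMod p)) = 1 := by
      rw [h2]; simp
    have e00 := congrFun (congrFun h3 0) 0
    have e01 := congrFun (congrFun h3 0) 1
    have e10 := congrFun (congrFun h3 1) 0
    have e11 := congrFun (congrFun h3 1) 1
    simp only [Set.mem_ofPred_eq] at hx ⊢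
    simp only [Subgroup.coe_mul, Matrix.SpecialLinearGroup.coe_mul, Matrix.mul_apply,
      Fin.sum_univ_three] at e00 e01 e10 e11
    rw [hx.1, hx.2.1, rx'.1] at e00
    rw [hx.1, hx.2.1, rx'.2.1] at e01
    rw [hx.2.2.1, hx.2.2.2, rx'.1] at e10
    rw [hx.2.2.1, hx.2.2.2, rx'.2.1] at e11
    simp at e00 e01 e10 e11
    exact ⟨e00, e01, e10, e11⟩

theorem mem_tr {p : ℕ} {M : qd p} : M ∈ tr p ↔ ((M : Matrix.SpecialLinearGroup (Fin 3) (ZMod p)) : Matrix (Fin 3) (Fin 3) (ZMod p)) 0 0 = 1 ∧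
    ((M : Matrix.SpecialLinearGroup (Fin 3) (ZMod p)) : Matrix (Fin 3) (Fin 3) (ZMod p)) 0 1 = 0 ∧
    ((M : Matrix.SpecialLinearGroup (Fin 3) (ZMod p)) : Matrix (Fin 3) (Fin 3) (ZMod p)) 1 0 = 0 ∧
    ((M : Matrix.SpecialLinearGroup (Fin 3) (ZMod p)) : Matrix (Fin 3) (Fin 3) (ZMod p)) 1 1 = 1 := Iff.rfl

theorem tr_normal (p : ℕ) : (tr p).Normal := by
  refine ⟨fun v hv g => ?_⟩
  rw [mem_tr] at hv ⊢
  have rv := qd_row v
  have rg := qd_row g
  have rg' := qd_row g⁻¹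
  have h2 : ((g * g⁻¹ : qd p) : Matrix.SpecialLinearGroup (Fin 3) (ZMod p)) = 1 := by simp
  have h3 : (((g * g⁻¹ : qd p) : Matrix.SpecialLinearGroup (Fin 3) (ZMod p)) : Matrix (Fin 3) (Fin 3) (ZMod p)) = 1 := by
    rw [h2]; simp
  have e00 := congrFun (congrFun h3 0) 0
  have e01 := congrFun (congrFun h3 0) 1
  have e10 := congrFun (congrFun h3 1) 0
  have e11 := congrFun (congrFun h3 1) 1
  simp only [Subgroup.coe_mul, Matrix.SpecialLinearGroup.coe_mul, Matrix.mul_apply,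
    Fin.sum_univ_three] at e00 e01 e10 e11 ⊢
  rw [hv.1, hv.2.1, hv.2.2.1, hv.2.2.2, rv.1, rv.2.1, rg'.1, rg'.2.1]
  rw [rg'.1] at e00 e10
  rw [rg'.2.1] at e01 e11
  simp only [mul_zero, add_zero, mul_one, zero_add] at e00 e01 e10 e11 ⊢
  refine ⟨?_, ?_, ?_, ?_⟩
  · rw [e00]; simp
  · rw [e01]; simp
  · rw [e10]; simp
  · rw [e11]; simp

/-- unipotent of nilpotency index two has order dividing `p` -/
theorem pow_p_eq_one {p : ℕ} [Fact p.Prime] {M : Matrix.SpecialLinearGroup (Fin 3) (ZMod p)}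
    (h : ((M : Matrix (Fin 3) (Fin 3) (ZMod p)) - 1) * ((M : Matrix (Fin 3) (Fin 3) (ZMod p)) - 1) = 0) : M ^ p = 1 := by
  have hp : p.Prime := Fact.out
  apply Subtype.ext
  rw [Matrix.SpecialLinearGroup.coe_pow, Matrix.SpecialLinearGroup.coe_one]
  have h1 : (M : Matrix (Fin 3) (Fin 3) (ZMod p)) = ((M : Matrix (Fin 3) (Fin 3) (ZMod p)) - 1) + 1 := by simp
  rw [h1, add_pow_char_of_commute _ (Commute.one_right _), one_pow]
  have h2 : ((M : Matrix (Fin 3) (Fin 3) (ZMod p)) - 1) ^ p = 0 := by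
    apply pow_eq_zero_of_le hp.two_le
    rw [pow_two, h]
  rw [h2, zero_add]

theorem tr_isPGroup (p : ℕ) [Fact p.Prime] : IsPGroup p (tr p) := by
  rw [isPGroup_iff_pow_pow_eq_one]
  rintro ⟨v, hv⟩
  refine ⟨1, ?_⟩
  rw [mem_tr] at hv
  have rv := qd_row v
  have h1 : (v : Matrix.SpecialLinearGroup (Fin 3) (ZMod p)) ^ p = 1 := by
    apply pow_p_eq_one
    ext i j
    rw [Matrix.mul_apply, Fin.sum_univ_three]
    fin_cases i <;> fin_cases j <;> simp [hv.1, hv.2.1, hv.2.2.1, hv.2.2.2, rv.1, rv.2.1, rv.2.2]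
  apply Subtype.ext
  apply Subtype.ext
  rw [pow_one]
  simpa using h1

/-- the transvection in the translation part -/
def tv (p : ℕ) : Matrix.SpecialLinearGroup (Fin 3) (ZMod p) :=
  ⟨!![1, 0, 1; 0, 1, 0; 0, 0, 1], by simp [Matrix.det_fin_three]⟩

def ea (p : ℕ) : Matrix.SpecialLinearGroup (Fin 3) (ZMod p) :=
  ⟨!![1, 1, 0; 0, 1, 0; 0, 0, 1], by simp [Matrix.det_fin_three]⟩

def eb (p : ℕ) : Matrix.SpecialLinearGroup (Fin 3) (ZMod p) :=
  ⟨!![1, 0, 0; -1, 1, 0; 0, 0, 1], by simp [Matrix.det_fin_three]⟩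

theorem tr_ne_bot (p : ℕ) [Fact p.Prime] : tr p ≠ ⊥ := by
  intro h
  have h1 : (⟨tv p, mem_qd (by simp [tv]) (by simp [tv]) (by simp [tv])⟩ : qd p) ∈ tr p := by
    rw [mem_tr]; simp [tv]
  rw [h, Subgroup.mem_bot] at h1
  have h2 := congrArg (fun M : qd p => ((M : Matrix.SpecialLinearGroup (Fin 3) (ZMod p)) : Matrix (Fin 3) (Fin 3) (ZMod p)) 0 2) h1
  simp [tv] at h2

theorem exists_ab (p : ℕ) [Fact p.Prime] : ∃ a b : qd p, a ^ p = 1 ∧ b ^ p = 1 ∧ (a * b * a) ^ 4 = 1 ∧ a * b * a ≠ 1 := by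
  refine ⟨⟨ea p, mem_qd (by simp [ea]) (by simp [ea]) (by simp [ea])⟩,
    ⟨eb p, mem_qd (by simp [eb]) (by simp [eb]) (by simp [eb])⟩, ?_, ?_, ?_, ?_⟩
  · apply Subtype.ext
    change ea p ^ p = 1
    apply pow_p_eq_one
    ext i j
    rw [Matrix.mul_apply, Fin.sum_univ_three]
    fin_cases i <;> fin_cases j <;> simp [ea]
  · apply Subtype.ext
    change eb p ^ p = 1
    apply pow_p_eq_one
    ext i j
    rw [Matrix.mul_apply, Fin.sum_univ_three]
    fin_cases i <;> fin_cases j <;> simp [eb]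
  · apply Subtype.ext
    change (ea p * eb p * ea p) ^ 4 = 1
    have h1 : ((ea p * eb p * ea p : Matrix.SpecialLinearGroup (Fin 3) (ZMod p)) : Matrix (Fin 3) (Fin 3) (ZMod p)) =
        !![0, 1, 0; -1, 0, 0; 0, 0, 1] := by
      rw [Matrix.SpecialLinearGroup.coe_mul, Matrix.SpecialLinearGroup.coe_mul]
      ext i j
      rw [Matrix.mul_apply, Fin.sum_univ_three, Matrix.mul_apply, Matrix.mul_apply, Matrix.mul_apply,
        Fin.sum_univ_three, Fin.sum_univ_three, Fin.sum_univ_three]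
      fin_cases i <;> fin_cases j <;> simp [ea, eb]
    have h2 : ((ea p * eb p * ea p : Matrix.SpecialLinearGroup (Fin 3) (ZMod p)) : Matrix (Fin 3) (Fin 3) (ZMod p)) *
        ((ea p * eb p * ea p : Matrix.SpecialLinearGroup (Fin 3) (ZMod p)) : Matrix (Fin 3) (Fin 3) (ZMod p)) =
        !![-1, 0, 0; 0, -1, 0; 0, 0, 1] := by
      rw [h1]
      ext i j
      rw [Matrix.mul_apply, Fin.sum_univ_three]
      fin_cases i <;> fin_cases j <;> simp
    apply Subtype.ext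
    rw [Matrix.SpecialLinearGroup.coe_pow, Matrix.SpecialLinearGroup.coe_one]
    have : ((ea p * eb p * ea p : Matrix.SpecialLinearGroup (Fin 3) (ZMod p)) : Matrix (Fin 3) (Fin 3) (ZMod p)) ^ 4 =
      (((ea p * eb p * ea p : Matrix.SpecialLinearGroup (Fin 3) (ZMod p)) : Matrix (Fin 3) (Fin 3) (ZMod p)) *
        ((ea p * eb p * ea p : Matrix.SpecialLinearGroup (Fin 3) (ZMod p)) : Matrix (Fin 3) (Fin 3) (ZMod p))) ^ 2 := by
      rw [← pow_two, ← pow_mul]
    rw [this, h2, pow_two]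
    ext i j
    rw [Matrix.mul_apply, Fin.sum_univ_three]
    fin_cases i <;> fin_cases j <;> simp
  · intro h
    have h2 := congrArg (fun M : qd p => ((M : Matrix.SpecialLinearGroup (Fin 3) (ZMod p)) : Matrix (Fin 3) (Fin 3) (ZMod p)) 0 0) h
    simp only [Subgroup.coe_mul, Matrix.SpecialLinearGroup.coe_mul, Matrix.mul_apply, Fin.sum_univ_three] at h2
    simp [ea, eb] at h2

/-- criterion -/
theorem not_involves {G : Type u} [Group G] [Finite G] {p : ℕ} [Fact p.Prime] (hp : p ≠ 2)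
    (hB : ∀ Q : Subgroup G, IsPGroup p Q → Q ≠ ⊥ → ∃ U : Subgroup G, IsPGroup p U ∧
      ∀ x ∈ Subgroup.normalizer (Q : Set G), (∃ k, x ^ p ^ k = 1) → x ∈ U) : ¬ Involves (qd p) G := by
  rintro ⟨K, R, hn, ⟨e⟩⟩
  let f : K →* qd p := e.toMonoidHom.comp (QuotientGroup.mk' (R.subgroupOf K))
  have hf : Function.Surjective f := e.surjective.comp (QuotientGroup.mk'_surjective _)
  -- preimage of translations
  let M : Subgroup K := (tr p).comap f
  have hMn : M.Normal := (tr_normal p).comap f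
  obtain ⟨Q⟩ : Nonempty (Sylow p M) := inferInstance
  have hfr : Subgroup.normalizer ((Q : Subgroup M).map M.subtype : Set K) ⊔ M = ⊤ := Sylow.normalizer_sup_eq_top Q
  set QK : Subgroup K := (Q : Subgroup M).map M.subtype with hQK
  -- image of Q is the translation group
  have hfQ : tr p ≤ QK.map f := by
    let g : M →* tr p := (f.comp M.subtype).codRestrict (tr p) (fun x => x.2)
    have hg : Function.Surjective g := by
      rintro ⟨y, hy⟩
      obtain ⟨x, hx⟩ := hf y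
      exact ⟨⟨x, by change f x ∈ tr p; rw [hx]; exact hy⟩, Subtype.ext hx⟩
    have h1 : ((Q.mapSurjective hg : Sylow p (tr p)) : Subgroup (tr p)) = ⊤ := by
      have h2 : IsPGroup p (⊤ : Subgroup (tr p)) := (tr_isPGroup p).to_subgroup ⊤
      exact ((Q.mapSurjective hg).is_maximal' h2 le_top).symm
    intro y hy
    have h2 : (⟨y, hy⟩ : tr p) ∈ ((Q.mapSurjective hg : Sylow p (tr p)) : Subgroup (tr p)) := by rw [h1]; trivial
    rw [Sylow.coe_mapSurjective] at h2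
    obtain ⟨x, hx, hxy⟩ := h2
    refine ⟨(x : K), ⟨x, hx, rfl⟩, ?_⟩
    exact congrArg Subtype.val hxy
  -- elements of D lift to the normalizer of QK
  have hlift : ∀ d : qd p, ∃ x : K, x ∈ Subgroup.normalizer (QK : Set K) ∧ f x = d := by
    intro d
    obtain ⟨y, hy⟩ := hf d
    have hy2 : y ∈ Subgroup.normalizer (QK : Set K) ⊔ M := by rw [hfr]; trivial
    obtain ⟨n, hn, m, hm, hnm⟩ := Subgroup.mem_sup_of_normal_right.1 hy2
    obtain ⟨q, hq, hqm⟩ := hfQ (show f m ∈ tr p from hm)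
    refine ⟨n * q, mul_mem hn (Subgroup.le_normalizer hq), ?_⟩
    rw [map_mul, hqm, ← map_mul, hnm, hy]
  let N : Subgroup K := Subgroup.normalizer (QK : Set K)
  let fN : N →* qd p := f.comp N.subtype
  have hfN : Function.Surjective fN := by
    intro d
    obtain ⟨x, hx, h⟩ := hlift d
    exact ⟨⟨x, hx⟩, h⟩
  -- the subgroup of G
  let QG : Subgroup G := QK.map K.subtype
  have hQGp : IsPGroup p QG := (Q.isPGroup'.map _).map _
  have hQGne : QG ≠ ⊥ := by
    intro h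
    apply tr_ne_bot p
    rw [eq_bot_iff]
    intro y hy
    obtain ⟨x, hx, hxy⟩ := hfQ hy
    have : (x : G) ∈ QG := ⟨x, hx, rfl⟩
    rw [h, Subgroup.mem_bot] at this
    have hx1 : x = 1 := Subtype.ext this
    rw [hx1, map_one] at hxy
    rw [← hxy]
    exact one_mem _
  obtain ⟨U, hU, hUx⟩ := hB QG hQGp hQGne
  have hNG : ∀ x : N, ((x : K) : G) ∈ Subgroup.normalizer (QG : Set G) := by
    intro x
    rw [Subgroup.mem_normalizer_iff]
    intro y
    constructor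
    · rintro ⟨z, hz, rfl⟩
      exact ⟨x * z * (x : K)⁻¹, (Subgroup.mem_normalizer_iff.1 x.2 z).1 hz, rfl⟩
    · rintro ⟨z, hz, hzy⟩
      refine ⟨(x : K)⁻¹ * z * x, ?_, ?_⟩
      · have := (Subgroup.mem_normalizer_iff.1 (inv_mem x.2) z).1 hz
        simpa using this
      · change ((x : K) : G)⁻¹ * (z : G) * x = y
        have h1 : (z : G) = ((x : K) : G) * y * ((x : K) : G)⁻¹ := hzy
        rw [h1]; group
  obtain ⟨a, b, ha, hb, hw4, hw1⟩ := exists_ab p
  obtain ⟨a', ha', ja, hja⟩ := exists_lift fN hfN a (k := 1) (by rwa [pow_one])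
  obtain ⟨b', hb', jb, hjb⟩ := exists_lift fN hfN b (k := 1) (by rwa [pow_one])
  have haU : ((a' : K) : G) ∈ U := hUx _ (hNG a') ⟨ja, by
    have := congrArg (fun z : N => ((z : K) : G)) hja
    simpa using this⟩
  have hbU : ((b' : K) : G) ∈ U := hUx _ (hNG b') ⟨jb, by
    have := congrArg (fun z : N => ((z : K) : G)) hjb
    simpa using this⟩
  -- w' = a' b' a'
  have hwU : (((a' * b' * a' : N) : K) : G) ∈ U := mul_mem (mul_mem haU hbU) haU
  obtain ⟨k, hk⟩ := (isPGroup_iff_pow_pow_eq_one.1 hU) ⟨_, hwU⟩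
  have hk' : (a' * b' * a' : N) ^ p ^ k = 1 := by
    apply Subtype.ext
    apply Subtype.ext
    have := congrArg Subtype.val hk
    simpa using this
  have h5 : (a * b * a) ^ p ^ k = 1 := by
    have := congrArg fN hk'
    rw [map_pow, map_mul, map_mul, ha', hb', map_one] at this
    exact this
  -- coprime
  apply hw1
  have h6 : orderOf (a * b * a) ∣ p ^ k := orderOf_dvd_of_pow_eq_one h5
  have h7 : orderOf (a * b * a) ∣ 4 := orderOf_dvd_of_pow_eq_one hw4
  have h8 : Nat.Coprime (p ^ k) 4 := by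
    apply Nat.Coprime.pow_left
    have : (4 : ℕ) = 2 ^ 2 := by norm_num
    rw [this]
    apply Nat.Coprime.pow_right
    exact (Nat.coprime_primes Fact.out Nat.prime_two).2 hp
  exact orderOf_eq_one_iff.1 (Nat.eq_one_of_dvd_coprimes h8 h6 h7)

/-- sections of a quotient are sections of the group -/
theorem involves_of_quotient {H : Type u} [Group H] {G : Type v} [Group G] (Z : Subgroup G) [Z.Normal]
    (h : Involves H (G ⧸ Z)) : Involves H G := by
  obtain ⟨K, R, hn, ⟨e⟩⟩ := h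
  let π := QuotientGroup.mk' Z
  let K' := K.comap π
  let g : K' →* K := (π.comp K'.subtype).codRestrict K (fun x => x.2)
  have hg : Function.Surjective g := by
    rintro ⟨y, hy⟩
    obtain ⟨x, hx⟩ := QuotientGroup.mk'_surjective Z y
    exact ⟨⟨x, by change π x ∈ K; rw [hx]; exact hy⟩, Subtype.ext hx⟩
  let f : K' →* H := (e.toMonoidHom.comp (QuotientGroup.mk' (R.subgroupOf K))).comp g
  have hf : Function.Surjective f := (e.surjective.comp (QuotientGroup.mk'_surjective _)).comp hg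
  have this : (f.ker.map K'.subtype).subgroupOf K' = f.ker := by
    ext x
    rw [Subgroup.mem_subgroupOf]
    constructor
    · rintro ⟨y, hy, hyx⟩
      rwa [← Subtype.ext (a1 := y) (a2 := x) hyx]
    · intro hx; exact ⟨x, hx, rfl⟩
  have hnn : ((f.ker.map K'.subtype).subgroupOf K').Normal := by rw [this]; infer_instance
  exact ⟨K', f.ker.map K'.subtype, hnn,
    ⟨(QuotientGroup.quotientMulEquivOfEq this).trans (QuotientGroup.quotientKerEquivOfSurjective f hf)⟩⟩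

end H42.QdFree
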