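import Cfsg.Agent.Lib.H47.ChevLong

/-!
Overgroups of subfield subgroups, part A: the filtration of `U`, leading coefficients, rational cosets.
-/

set_option autoImplicit false
set_option linter.unusedVariables false
set_option linter.unusedSectionVars false

namespace H42.Subf

open H22.RGD H22.Coord H22.RCCheck H22.RCComb H22.ChevTri H22.ChevRel H22.ChevSys H22.ChevMain
open H22.ChevStd H22.ChevUni H47.ChevSub
open Cfsg.Lie (ChevalleyDatum)
open scoped MatrixGroups Matrix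

variable {D : ChevalleyDatum} {k : Type*} [Field k] (R : Rel D k) {X : RCX D} (Z : Lex X.rc)

theorem cv_eq (Q : RC D) (c : ℕ → ℤ) {l r s a b : ℕ}
    (h : ∀ j < D.rank, Q.co l j = a * Q.co r j + b * Q.co s j) :
    fr Q c l = a * fr Q c r + b * fr Q c s := by
  unfold fr
  rw [Finset.mul_sum, Finset.mul_sum, ← Finset.sum_add_distrib]
  refine Finset.sum_congr rfl fun j hj => ?_
  rw [h j (Finset.mem_range.1 hj)]; ring

include Z in
/-- a positive combination is larger -/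
theorem lt_of_comb {l r s a b : ℕ} (hl : l < D.nroots) (hr : r < D.nroots) (hs : s < D.nroots)
    (hr' : X.rc.half ≤ r) (hs' : X.rc.half ≤ s) (ha : 1 ≤ a) (hb : 1 ≤ b)
    (h : ∀ j < D.rank, X.rc.co l j = a * X.rc.co r j + b * X.rc.co s j) : s < l := by
  have h1 := cv_eq X.rc Z.c h
  have h2 := Z.pos hr hr'
  have h3 := Z.pos hs hs'
  refine (Z.lt_iff hs hl).1 ?_
  rw [h1]
  have h4 : 0 < (a : ℤ) * fr X.rc Z.c r := mul_pos (by exact_mod_cast ha) h2
  have h5 : (1 : ℤ) * fr X.rc Z.c s ≤ b * fr X.rc Z.c s :=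
    mul_le_mul_of_nonneg_right (by exact_mod_cast hb) h3.le
  linarith

include Z in
theorem lt_of_comb' {m l r s q a b : ℕ} (hl : l < D.nroots) (hm : m < D.nroots) (hr : r < D.nroots)
    (hs : s < D.nroots) (hq : q < D.nroots)
    (hr' : X.rc.half ≤ r) (hs' : X.rc.half ≤ s) (hq' : X.rc.half ≤ q) (hqs : q < s)
    (ha : 1 ≤ a) (hb : 1 ≤ b) (hmc : ∀ j < D.rank, X.rc.co m j = X.rc.co r j + X.rc.co q j)
    (h : ∀ j < D.rank, X.rc.co l j = a * X.rc.co r j + b * X.rc.co s j) : m < l := by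
  have h1 := cv_eq X.rc Z.c h
  have h0 := cv_eq (a := 1) (b := 1) X.rc Z.c (l := m) (r := r) (s := q)
    (fun j hj => by rw [hmc j hj]; simp)
  have h2 := Z.pos hr hr'
  have h3 := Z.pos hs hs'
  have h6 := (Z.lt_iff hq hs).2 hqs
  refine (Z.lt_iff hm hl).1 ?_
  rw [h1, h0]
  have h4 : (1 : ℤ) * fr X.rc Z.c r ≤ a * fr X.rc Z.c r :=
    mul_le_mul_of_nonneg_right (by exact_mod_cast ha) h2.le
  have h5 : (1 : ℤ) * fr X.rc Z.c s ≤ b * fr X.rc Z.c s :=
    mul_le_mul_of_nonneg_right (by exact_mod_cast hb) h3.le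
  push_cast
  linarith

theorem Vk_anti {a b : ℕ} (h : a ≤ b) : Vk R b ≤ Vk R a := by
  unfold Vk
  rw [Subgroup.closure_le]
  rintro g ⟨r, t, h1, h2, rfl⟩
  exact xg_mem_Vk R (h.trans h1) h2 t

theorem conj_eq {r s : ℕ} (hr : r < D.nroots) (hs : s < D.nroots) (h1 : s ≠ r) (h2 : s ≠ D.neg r)
    (t u : k) : xg R r t * xg R s u * (xg R r t)⁻¹ = xg R s u * wg R (D.commWord k r s (-t) u) := by
  have h3 := comm_g R hr hs h1 h2 (-t) u
  rw [xg_inv, mul_assoc, h3, ← xg_inv]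
  simp [mul_assoc]

theorem ne_neg_of_pos (Q : RC D) {r s : ℕ} (hr : r < D.nroots) (hs : s < D.nroots) (hr' : Q.half ≤ r)
    (hs' : Q.half ≤ s) : s ≠ D.neg r := by
  rw [Q.neg_eq r hr]; have := Q.nroots_eq; omega

include Z in
/-- the commutator word lies high -/
theorem wg_mem_Vk {r s m : ℕ} (hr : r < D.nroots) (hs : s < D.nroots)
    (h : ∀ l < D.nroots, ∀ a b : ℕ, 1 ≤ a → 1 ≤ b →
      (∀ j < D.rank, X.rc.co l j = a * X.rc.co r j + b * X.rc.co s j) → m ≤ l) (t u : k) :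
    wg R (D.commWord k r s t u) ∈ Vk R m := by
  refine wg_mem R _ ?_
  intro p hp
  unfold ChevalleyDatum.commWord at hp
  simp only [List.mem_map] at hp
  obtain ⟨c, hc, rfl⟩ := hp
  obtain ⟨g1, g2, g3, g4⟩ := commTerms_co X.rc hr hs hc
  exact xg_mem_Vk R (h _ g1 _ _ g2 g3 g4) g1 _

include Z in
/-- conjugates of a root element in the filtration -/
theorem conj_xg {r s : ℕ} (hr : r < D.nroots) (hs : s < D.nroots) (hr' : X.rc.half ≤ r)
    (hs' : X.rc.half ≤ s) (t u : k) :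
    ∃ v ∈ Vk R (s + 1), xg R r t * xg R s u * (xg R r t)⁻¹ = xg R s u * v := by
  by_cases h : s = r
  · subst h
    refine ⟨1, (Vk R (s + 1)).one_mem, ?_⟩
    rw [xg_comm R s t u]; simp
  · refine ⟨_, ?_, conj_eq R hr hs h (ne_neg_of_pos X.rc hr hs hr' hs') t u⟩
    refine wg_mem_Vk R Z hr hs ?_ _ _
    intro l hl a b ha hb hco
    have := lt_of_comb Z hl hr hs hr' hs' ha hb hco
    omega

include Z in
theorem stab_Vk {m : ℕ} (hm : X.rc.half ≤ m) : Vk R X.rc.half ≤ stabSub (Vk R m) := by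
  have key : ∀ r < D.nroots, X.rc.half ≤ r → ∀ t : k, ∀ x ∈ Vk R m,
      xg R r t * x * (xg R r t)⁻¹ ∈ Vk R m := by
    intro r hr hr' t x hx
    unfold Vk at hx
    induction hx using Subgroup.closure_induction with
    | mem x hx =>
      obtain ⟨s, u, h1, h2, rfl⟩ := hx
      obtain ⟨v, hv, e⟩ := conj_xg R Z hr h2 hr' (hm.trans h1) t u
      rw [e]
      exact (Vk R m).mul_mem (xg_mem_Vk R h1 h2 u) (Vk_anti R (by omega) hv)
    | one => simp [(Vk R m).one_mem]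
    | mul x y _ _ hx hy =>
      have : xg R r t * (x * y) * (xg R r t)⁻¹ = (xg R r t * x * (xg R r t)⁻¹) *
        (xg R r t * y * (xg R r t)⁻¹) := by simp [mul_assoc]
      rw [this]; exact (Vk R m).mul_mem hx hy
    | inv x _ hx =>
      have : xg R r t * x⁻¹ * (xg R r t)⁻¹ = (xg R r t * x * (xg R r t)⁻¹)⁻¹ := by simp [mul_assoc]
      rw [this]; exact (Vk R m).inv_mem hx
  have key2 : ∀ r < D.nroots, X.rc.half ≤ r → D.rootSubgroup k r ≤ stabSub (Vk R m) := by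
    intro r hr hr'
    apply le_stabSub_of_conj
    intro a ha x hx
    obtain ⟨t, rfl⟩ := (mem_rootSubgroup R).1 ha
    exact key r hr hr' t x hx
  unfold Vk
  rw [Subgroup.closure_le]
  rintro _ ⟨r, t, h1, h2, rfl⟩
  exact key2 r h2 h1 (xg_mem R r t)

include Z in
theorem conj_Vk {m : ℕ} (hm : X.rc.half ≤ m) {u x : GL D.Idx k} (hu : u ∈ Vk R X.rc.half)
    (hx : x ∈ Vk R m) : u * x * u⁻¹ ∈ Vk R m :=
  conj_mem_of_stabSub (stab_Vk R Z hm hu) hx

theorem U_eq_Vk : (chevSys R X).U = Vk R X.rc.half := by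
  rw [chevSys_U, posUnipotent_eq_Vk R X.rc]

include Z in
/-- commutators with deep elements -/
theorem comm_Vk {r q m : ℕ} (hr : r < D.nroots) (hm : m < D.nroots) (hr' : X.rc.half ≤ r)
    (hq : q < D.nroots) (hq' : X.rc.half ≤ q) (hm' : X.rc.half ≤ m)
    (hmc : ∀ j < D.rank, X.rc.co m j = X.rc.co r j + X.rc.co q j) (a : k) :
    ∀ v ∈ Vk R (q + 1), xg R r a * v * (xg R r a)⁻¹ * v⁻¹ ∈ Vk R (m + 1) := by
  have hU : ∀ {x}, x ∈ Vk R (q + 1) → x ∈ Vk R X.rc.half := fun h => Vk_anti R (by omega) h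
  intro v hv
  have hv0 := hv
  unfold Vk at hv
  induction hv using Subgroup.closure_induction with
  | mem x hx =>
    obtain ⟨s, u, h1, h2, rfl⟩ := hx
    by_cases h : s = r
    · subst h
      rw [xg_comm R s a u]; simp [(Vk R (m + 1)).one_mem]
    · rw [conj_eq R hr h2 h (ne_neg_of_pos X.rc hr h2 hr' (by omega)) a u]
      refine conj_Vk R Z (by omega) (hU hv0) (wg_mem_Vk R Z hr h2 ?_ _ _)
      intro l hl a b ha hb hco
      exact lt_of_comb' Z hl hm hr h2 hq hr' (by omega) hq' (by omega) ha hb hmc hco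
  | one => simp [(Vk R (m + 1)).one_mem]
  | mul x y hx0 hy0 hx hy =>
    have e : xg R r a * (x * y) * (xg R r a)⁻¹ * (x * y)⁻¹ =
      (xg R r a * x * (xg R r a)⁻¹ * x⁻¹) * (x * (xg R r a * y * (xg R r a)⁻¹ * y⁻¹) * x⁻¹) := by
      simp [mul_assoc]
    rw [e]
    exact (Vk R (m + 1)).mul_mem (hx hx0) (conj_Vk R Z (by omega) (hU hx0) (hy hy0))
  | inv x hx0 hx =>
    have e2 : xg R r a * x⁻¹ * (xg R r a)⁻¹ * x⁻¹⁻¹ =
      x⁻¹ * (xg R r a * x * (xg R r a)⁻¹ * x⁻¹)⁻¹ * (x⁻¹)⁻¹ := by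
      simp [mul_assoc]
    rw [e2]
    exact conj_Vk R Z (by omega) ((Vk R X.rc.half).inv_mem (hU hx0)) ((Vk R (m + 1)).inv_mem (hx hx0))

/-- `m` is the sum of `r` and `s` with structure constant `N`, and the other terms are higher -/
def Lead (D : ChevalleyDatum) (r s m : ℕ) (N : ℤ) : Prop :=
  ∃ rest, D.commTerms r s = (m, N, 1, 1) :: rest

include Z in
/-- leading coefficient of a commutator -/
theorem comm_lead {r q m : ℕ} {N : ℤ} (hr : r < D.nroots) (hr' : X.rc.half ≤ r)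
    (hq : q < D.nroots) (hq' : X.rc.half ≤ q) (hL : Lead D r q m N)
    (hcount : ∀ rest, D.commTerms r q = (m, N, 1, 1) :: rest → ∀ c ∈ rest, m < c.1)
    (hqr : q ≠ r) (a t : k) {v : GL D.Idx k} (hv : v ∈ Vk R (q + 1)) :
    ∃ w ∈ Vk R (m + 1), xg R r a * (xg R q t * v) * (xg R r a)⁻¹ * (xg R q t * v)⁻¹ =
      xg R m ((N : k) * a * t) * w := by
  obtain ⟨rest, hrs⟩ := hL
  have hmem : (m, N, 1, 1) ∈ D.commTerms r q := by rw [hrs]; simp
  obtain ⟨hm, _, _, hmc⟩ := commTerms_co X.rc hr hq hmem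
  have hmc' : ∀ j < D.rank, X.rc.co m j = X.rc.co r j + X.rc.co q j := by
    intro j hj; rw [hmc j hj]; simp
  have hqm : q < m := lt_of_comb (a := 1) (b := 1) Z hm hr hq hr' hq' le_rfl le_rfl hmc
  have h1 := comm_Vk R Z hr hm hr' hq hq' (by omega) hmc' a v hv
  have h2 := conj_eq R hr hq hqr (ne_neg_of_pos X.rc hr hq hr' hq') a t
  have h3 : ∃ ρ ∈ Vk R (m + 1), wg R (D.commWord k r q (-a) t) = xg R m ((N : k) * a * t) * ρ := by
    refine ⟨wg R (rest.map fun c => (c.1, (c.2.1 : k) * (-(-a)) ^ c.2.2.1 * t ^ c.2.2.2)), ?_, ?_⟩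
    · refine wg_mem R _ ?_
      intro p hp
      simp only [List.mem_map] at hp
      obtain ⟨c, hc, rfl⟩ := hp
      have hc' : c ∈ D.commTerms r q := by rw [hrs]; simp [hc]
      exact xg_mem_Vk R (hcount rest hrs c hc) (commTerms_co X.rc hr hq hc').1 _
    · unfold ChevalleyDatum.commWord
      rw [hrs, List.map_cons]
      unfold wg
      rw [List.map_cons, List.prod_cons]
      congr 2
      simp
  obtain ⟨ρ, hρ, e3⟩ := h3
  rw [e3] at h2
  have hqU : xg R q t ∈ Vk R X.rc.half := xg_mem_Vk R hq' hq t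
  obtain ⟨τ, hτ, e4⟩ := conj_xg R Z hq hm hq' (by omega : X.rc.half ≤ m) t ((N : k) * a * t)
  refine ⟨τ * (xg R q t * (ρ * (xg R r a * v * (xg R r a)⁻¹ * v⁻¹)) * (xg R q t)⁻¹), ?_, ?_⟩
  · exact (Vk R (m + 1)).mul_mem hτ (conj_Vk R Z (by omega) hqU ((Vk R (m + 1)).mul_mem hρ h1))
  · calc xg R r a * (xg R q t * v) * (xg R r a)⁻¹ * (xg R q t * v)⁻¹
        = (xg R r a * xg R q t * (xg R r a)⁻¹) * (xg R r a * v * (xg R r a)⁻¹ * v⁻¹) *
            (xg R q t)⁻¹ := by simp [mul_assoc]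
      _ = (xg R q t * xg R m ((N : k) * a * t) * (xg R q t)⁻¹) *
          (xg R q t * (ρ * (xg R r a * v * (xg R r a)⁻¹ * v⁻¹)) * (xg R q t)⁻¹) := by
            rw [h2]; simp [mul_assoc]
      _ = _ := by rw [e4]; simp [mul_assoc]

/-! ### rational points of cosets -/

variable (σ : k →+* k)

theorem Fr_Vk {m : ℕ} {x : GL D.Idx k} (hx : x ∈ Vk R m) : Fr (D := D) σ x ∈ Vk R m := by
  unfold Vk at hx
  induction hx using Subgroup.closure_induction with
  | mem x hx =>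
    obtain ⟨s, t, h1, h2, rfl⟩ := hx
    rw [Fr_xg]; exact xg_mem_Vk R h1 h2 _
  | one => rw [map_one]; exact (Vk R m).one_mem
  | mul x y _ _ hx hy => rw [map_mul]; exact (Vk R m).mul_mem hx hy
  | inv x _ hx => rw [map_inv]; exact (Vk R m).inv_mem hx

include Z in
/-- a rational coset `uC` of a subgroup `C` compatible with the filtration contains a rational
element -/
theorem lang {C : Subgroup (GL D.Idx k)} (hC : ∀ q < D.nroots, X.rc.half ≤ q →
    (∀ t : k, xg R q t ∈ C) ∨ ∀ u ∈ Vk R q, u ∈ C → u ∈ Vk R (q + 1)) :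
    ∀ n q, q + n = D.nroots → X.rc.half ≤ q → ∀ u ∈ Vk R q, u⁻¹ * Fr (D := D) σ u ∈ C →
      ∃ u0 ∈ Vk R q, Fr (D := D) σ u0 = u0 ∧ u0⁻¹ * u ∈ C := by
  intro n
  induction n with
  | zero =>
    intro q hq _ u hu _
    rw [show q = D.nroots by omega, Vk_nroots, Subgroup.mem_bot] at hu
    subst hu
    exact ⟨1, (Vk R q).one_mem, map_one _, by simp [C.one_mem]⟩
  | succ n ih =>
    intro q hq hq' u hu hc
    have hqn : q < D.nroots := by omega
    obtain ⟨t, v, hv, rfl⟩ := (Vk_step R Z hq' hqn).1 hu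
    rcases hC q hqn hq' with h1 | h1
    · -- the root group is in C
      have hx := h1 t
      have hv' : xg R q t * v * (xg R q t)⁻¹ ∈ Vk R (q + 1) :=
        conj_Vk R Z (by omega) (xg_mem_Vk R hq' hqn t) hv
      obtain ⟨u0, h2, h3, h4⟩ := ih (q + 1) (by omega) (by omega) _ hv' (by
        have : (xg R q t * v * (xg R q t)⁻¹)⁻¹ * Fr (D := D) σ (xg R q t * v * (xg R q t)⁻¹) =
            xg R q t * ((xg R q t * v)⁻¹ * Fr (D := D) σ (xg R q t * v)) *
              (Fr (D := D) σ (xg R q t))⁻¹ := by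
          simp only [map_mul, map_inv]; simp [mul_assoc]
        rw [this, Fr_xg]
        exact C.mul_mem (C.mul_mem hx hc) (C.inv_mem (h1 _)))
      refine ⟨u0, Vk_anti R (by omega) h2, h3, ?_⟩
      have : u0⁻¹ * (xg R q t * v) = u0⁻¹ * (xg R q t * v * (xg R q t)⁻¹) * xg R q t := by
        simp [mul_assoc]
      rw [this]
      exact C.mul_mem h4 hx
    · have h2 := h1 _ ((Vk R q).mul_mem ((Vk R q).inv_mem hu) (Fr_Vk R σ hu)) hc
      have h3 : xg R q (σ t - t) ∈ Vk R (q + 1) := by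
        have e : xg R q (σ t - t) = v * ((xg R q t * v)⁻¹ * Fr (D := D) σ (xg R q t * v)) *
            (Fr (D := D) σ v)⁻¹ := by
          rw [map_mul, Fr_xg]
          have : xg R q (σ t - t) = (xg R q t)⁻¹ * xg R q (σ t) := by
            rw [xg_inv, xg_mul]; congr 1; ring
          rw [this]; simp [mul_assoc]
        rw [e]
        exact (Vk R (q + 1)).mul_mem ((Vk R (q + 1)).mul_mem hv h2)
          ((Vk R (q + 1)).inv_mem (Fr_Vk R σ hv))
      have h4 : σ t = t := sub_eq_zero.1 (Vk_disj R Z hq' hqn h3)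
      obtain ⟨u0, h5, h6, h7⟩ := ih (q + 1) (by omega) (by omega) v hv (by
        have : v⁻¹ * Fr (D := D) σ v = (xg R q t * v)⁻¹ * Fr (D := D) σ (xg R q t * v) := by
          rw [map_mul, Fr_xg, h4]; simp [mul_assoc]
        rw [this]; exact hc)
      refine ⟨xg R q t * u0, (Vk R q).mul_mem (xg_mem_Vk R le_rfl hqn t)
        (Vk_anti R (by omega) h5), by rw [map_mul, Fr_xg, h4, h6], ?_⟩
      simpa [mul_assoc] using h7

end H42.Subf
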