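import Cfsg.Agent.Lib.H42.SubfA

/-!
Overgroups of subfield subgroups, part B: stabilisers of the lines spanned by root vectors.
-/

set_option autoImplicit false
set_option linter.unusedVariables false
set_option linter.unusedSectionVars false

namespace H42.Subf

open H22.RGD H22.Coord H22.RCCheck H22.RCComb H22.ChevTri H22.ChevRel H22.ChevSys H22.ChevMain
open H22.ChevStd H22.ChevUni H47.ChevSub
open Cfsg.Lie (ChevalleyDatum)
open scoped MatrixGroups Matrix

variable {D : ChevalleyDatum} {k : Type*} [Field k] (R : Rel D k) {X : RCX D} (Z : Lex X.rc)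

/-- the root vectors -/
def ev (D : ChevalleyDatum) (k : Type*) [Field k] (s : Fin D.nroots) : D.Idx → k :=
  Pi.single (Sum.inr s) 1

theorem ev_same (s : Fin D.nroots) : ev D k s (Sum.inr s) = 1 := by unfold ev; simp

theorem ev_of_ne {s : Fin D.nroots} {a : D.Idx} (h : a ≠ Sum.inr s) : ev D k s a = 0 := by
  unfold ev; rw [Pi.single_eq_of_ne h]

theorem mv_ev (M : Matrix D.Idx D.Idx k) (s : Fin D.nroots) (a : D.Idx) :
    (M *ᵥ ev D k s) a = M a (Sum.inr s) := by
  unfold ev; rw [Matrix.mulVec_single_one, Matrix.col_apply]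

theorem one_ev (s : Fin D.nroots) : (1 : Matrix D.Idx D.Idx k) *ᵥ ev D k s = ev D k s :=
  Matrix.one_mulVec _

theorem ns_ev (i : Fin D.rank) (s : Fin D.nroots) : ∃ ε : k, (ε = 1 ∨ ε = -1) ∧
    ((ns R i : GL D.Idx k) : Matrix D.Idx D.Idx k) *ᵥ ev D k s = ε • ev D k ((comb X).refl i s) := by
  obtain ⟨η, h1, _, _, _, h2⟩ := R.mono i i.2
  refine ⟨((η s : ℤ) : k), ?_, ?_⟩
  · rcases h1 s s.2 with h | h
    · left; rw [h]; simp
    · right; rw [h]; simp
  · have e : ((ns R i : GL D.Idx k) : Matrix D.Idx D.Idx k) = D.nMat k (D.simple i) 1 := ng_val R _ _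
    rw [e, h2]
    funext a
    rw [mv_ev]
    rcases a with a | a
    · rw [Pi.smul_apply, ev_of_ne (by simp)]; simp
    · simp only [Matrix.of_apply, Sum.elim_inr, Pi.smul_apply, smul_eq_mul]
      by_cases h : (a : ℕ) = D.reflectRoot i s
      · have : a = (comb X).refl i s := Fin.ext h
        rw [if_pos h, this, ev_same, mul_one]
      · have : a ≠ (comb X).refl i s := fun h' => h (congrArg Fin.val h')
        rw [if_neg h, ev_of_ne (by simpa using this), mul_zero]

theorem nw_ev (l : List (Fin D.rank)) (s : Fin D.nroots) : ∃ ε : k, (ε = 1 ∨ ε = -1) ∧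
    (((chevSys R X).nw l : GL D.Idx k) : Matrix D.Idx D.Idx k) *ᵥ ev D k s =
      ε • ev D k ((comb X).w l s) := by
  rw [← nsw_eq_nw R X]
  induction l with
  | nil => exact ⟨1, Or.inl rfl, by simp [nsw]⟩
  | cons i l ih =>
    obtain ⟨ε, h1, h2⟩ := ih
    obtain ⟨ε', h3, h4⟩ := ns_ev R (X := X) i ((comb X).w l s)
    refine ⟨ε' * ε, ?_, ?_⟩
    · rcases h1 with rfl | rfl <;> rcases h3 with rfl | rfl <;> simp
    · rw [nsw_cons, Units.val_mul, ← Matrix.mulVec_mulVec, h2, Matrix.mulVec_smul, h4, smul_smul,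
        RootComb.w_cons, Equiv.Perm.mul_apply, mul_comm]

theorem Hs_ev (Q : RC D) {h : GL D.Idx k} (hh : h ∈ Hs R) (s : Fin D.nroots) : ∃ c : k, c ≠ 0 ∧
    (h : Matrix D.Idx D.Idx k) *ᵥ ev D k s = c • ev D k s := by
  obtain ⟨χ, h1, _, h3⟩ := exists_char R Q hh
  refine ⟨χ s, h1 s, ?_⟩
  rw [h3]
  funext a
  rw [Matrix.mulVec_diagonal, Pi.smul_apply]
  by_cases h : a = Sum.inr s
  · subst h; simp
  · rw [ev_of_ne h]; simp

theorem rep_ev {n : GL D.Idx k} {w : Equiv.Perm (Fin D.nroots)} (hn : (chevSys R X).Rep n w)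
    (s : Fin D.nroots) : ∃ c : k, c ≠ 0 ∧ (n : Matrix D.Idx D.Idx k) *ᵥ ev D k s = c • ev D k (w s) := by
  obtain ⟨L, h, hh, rfl⟩ := (chevSys R X).exists_word hn.1
  have e : w = (comb X).w L := by
    have := ((chevSys R X).rep_nw L).mul ((chevSys R X).rep_H hh)
    rw [mul_one] at this
    exact hn.unique this
  subst e
  have hh' : h ∈ Hs R := by rw [← diagonalSubgroup_eq R X]; exact hh
  obtain ⟨c, hc, e1⟩ := Hs_ev R X.rc hh' s
  obtain ⟨ε, hε, e2⟩ := nw_ev R (X := X) L s
  refine ⟨c * ε, mul_ne_zero hc ?_, ?_⟩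
  · rcases hε with rfl | rfl <;> simp
  · rw [Units.val_mul, ← Matrix.mulVec_mulVec, e1, Matrix.mulVec_smul, e2, smul_smul]

/-- the stabiliser of a line -/
def Pl (k : Type*) [Field k] (s : Fin D.nroots) : Subgroup (GL D.Idx k) where
  carrier := {g | ∃ c : k, c ≠ 0 ∧ (g : Matrix D.Idx D.Idx k) *ᵥ ev D k s = c • ev D k s}
  one_mem' := ⟨1, one_ne_zero, by rw [Units.val_one, one_ev, one_smul]⟩
  mul_mem' := by
    rintro a b ⟨c, hc, e⟩ ⟨d, hd, e'⟩
    refine ⟨d * c, mul_ne_zero hd hc, ?_⟩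
    rw [Units.val_mul, ← Matrix.mulVec_mulVec, e', Matrix.mulVec_smul, e, smul_smul]
  inv_mem' := by
    rintro a ⟨c, hc, e⟩
    refine ⟨c⁻¹, inv_ne_zero hc, ?_⟩
    have h : ((a⁻¹ : GL D.Idx k) : Matrix D.Idx D.Idx k) *ᵥ ((a : Matrix D.Idx D.Idx k) *ᵥ ev D k s) =
        ev D k s := by
      rw [Matrix.mulVec_mulVec, ← Units.val_mul, inv_mul_cancel, Units.val_one, Matrix.one_mulVec]
    rw [e, Matrix.mulVec_smul] at h
    rw [← h, smul_smul, inv_mul_cancel₀ hc, one_smul, h]

theorem mem_Pl {s : Fin D.nroots} {g : GL D.Idx k} : g ∈ Pl k s ↔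
    ∃ c : k, c ≠ 0 ∧ (g : Matrix D.Idx D.Idx k) *ᵥ ev D k s = c • ev D k s := Iff.rfl

theorem ev_ne (s : Fin D.nroots) : ev D k s ≠ 0 := by
  intro h
  have := congrFun h (Sum.inr s)
  rw [ev_same] at this
  exact one_ne_zero this

theorem ev_inj {s t : Fin D.nroots} {c : k} (hc : c ≠ 0) (h : ev D k s = c • ev D k t) : s = t := by
  by_contra hne
  have := congrFun h (Sum.inr s)
  rw [Pi.smul_apply, ev_same, ev_of_ne (by simpa using hne)] at this
  simp at this

theorem rep_mem_Pl_iff {n : GL D.Idx k} {w : Equiv.Perm (Fin D.nroots)}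
    (hn : (chevSys R X).Rep n w) (s : Fin D.nroots) : n ∈ Pl k s ↔ w s = s := by
  obtain ⟨c, hc, e⟩ := rep_ev R hn s
  constructor
  · rintro ⟨d, hd, e'⟩
    rw [e] at e'
    have h : ev D k (w s) = (c⁻¹ * d) • ev D k s := by
      rw [← smul_smul, ← e', smul_smul, inv_mul_cancel₀ hc, one_smul]
    exact ev_inj (mul_ne_zero (inv_ne_zero hc) hd) h
  · intro h
    rw [h] at e
    exact ⟨c, hc, e⟩

theorem conj_Pl {n g : GL D.Idx k} {w : Equiv.Perm (Fin D.nroots)}
    (hn : (chevSys R X).Rep n w) (s : Fin D.nroots) (hg : g ∈ Pl k s) : n * g * n⁻¹ ∈ Pl k (w s) := by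
  obtain ⟨c, hc, e⟩ := hg
  obtain ⟨d, hd, e'⟩ := rep_ev R hn s
  refine ⟨c, hc, ?_⟩
  have h : ((n⁻¹ : GL D.Idx k) : Matrix D.Idx D.Idx k) *ᵥ ev D k (w s) = d⁻¹ • ev D k s := by
    have h1 : ev D k (w s) = d⁻¹ • ((n : Matrix D.Idx D.Idx k) *ᵥ ev D k s) := by
      rw [e', smul_smul, inv_mul_cancel₀ hd, one_smul]
    rw [h1, Matrix.mulVec_smul, Matrix.mulVec_mulVec, ← Units.val_mul, inv_mul_cancel, Units.val_one,
      Matrix.one_mulVec]
  rw [Units.val_mul, Units.val_mul, ← Matrix.mulVec_mulVec, ← Matrix.mulVec_mulVec, h,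
    Matrix.mulVec_smul, e, Matrix.mulVec_smul, Matrix.mulVec_smul, e', smul_smul, smul_smul]
  congr 1
  field_simp

/-- the highest root -/
def top (Q : RC D) : Fin D.nroots := ⟨D.nroots - 1, H47.ChevLong.top_lt Q⟩

theorem top_val (Q : RC D) : ((top Q : Fin D.nroots) : ℕ) = D.nroots - 1 := rfl

include Z in
theorem Vk_le_Pl_top : Vk R X.rc.half ≤ Pl k (top X.rc) := by
  unfold Vk
  rw [Subgroup.closure_le]
  rintro g ⟨r, t, h1, h2, rfl⟩
  refine ⟨1, one_ne_zero, ?_⟩
  rw [one_smul, xg_val]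
  funext a
  rw [mv_ev]
  by_cases h : a = Sum.inr (top X.rc)
  · subst h
    rw [x_diag k X.rc h2, ev_same]
  · rw [ev_of_ne h]
    by_contra hne
    obtain ⟨i, hi, e⟩ := fn_entry X.rc Z.c h2 t hne h
    have h3 := Z.pos h2 h1
    have h4 : (1 : ℤ) * fr X.rc Z.c r ≤ i * fr X.rc Z.c r :=
      mul_le_mul_of_nonneg_right (by exact_mod_cast hi) h3.le
    have h5 := Z.pos (top X.rc).2 (H47.ChevLong.top_pos X.rc)
    rcases a with a | a
    · rw [fn_inl, fn_inr] at e
      linarith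
    · rw [fn_inr, fn_inr] at e
      have h6 : fr X.rc Z.c (top X.rc : Fin D.nroots) < fr X.rc Z.c a := by linarith
      have h7 := (Z.lt_iff (top X.rc).2 a.2).1 h6
      have := a.2
      rw [top_val] at h7
      omega

theorem H_le_Pl (s : Fin D.nroots) : (chevSys R X).H ≤ Pl k s := by
  intro h hh
  have hh' : h ∈ Hs R := by rw [← diagonalSubgroup_eq R X]; exact hh
  exact Hs_ev R X.rc hh' s

include Z in
theorem B_le_Pl_top : (chevSys R X).B ≤ Pl k (top X.rc) := by
  refine sup_le ?_ (H_le_Pl R _)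
  have := Vk_le_Pl_top R Z
  rwa [← U_eq_Vk R] at this

include Z in
theorem mem_Pl_top {b n u : GL D.Idx k} {w : Equiv.Perm (Fin D.nroots)} (hb : b ∈ (chevSys R X).B)
    (hn : (chevSys R X).Rep n w) (hu : u ∈ (chevSys R X).B) :
    b * n * u ∈ Pl k (top X.rc) ↔ w (top X.rc) = top X.rc := by
  have hb' := B_le_Pl_top R Z hb
  have hu' := B_le_Pl_top R Z hu
  rw [← rep_mem_Pl_iff R hn (top X.rc)]
  rw [Subgroup.mul_mem_cancel_right _ hu', Subgroup.mul_mem_cancel_left _ hb']

include Z in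
/-- an element conjugating a root element for the highest root to one is in the line stabiliser -/
theorem mem_Pl_of_conj_top {g : GL D.Idx k} (hg : g ∈ D.group k) {s : k} (hs : s ≠ 0)
    (h : g * xg R (D.nroots - 1) s * g⁻¹ ∈ D.rootSubgroup k (D.nroots - 1)) :
    g ∈ Pl k (top X.rc) := by
  have hgΓ : g ∈ (chevSys R X).Γ := by rw [chevSys_Γ]; exact hg
  obtain ⟨b, hb, n, w, hn, u, hu, rfl⟩ := (chevSys R X).normal_form hgΓ
  set S := chevSys R X with hS
  have huU := S.Um_le_U w hu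
  rw [mem_Pl_top R Z hb hn (S.U_le_B huU)]
  have hcu := H47.ChevLong.U_comm R Z huU s
  have hX : xg R (D.nroots - 1) s ∈ S.X (top X.rc) := xg_mem R _ _
  have h1 : b * n * u * xg R (D.nroots - 1) s * (b * n * u)⁻¹ =
      b * (n * xg R (D.nroots - 1) s * n⁻¹) * b⁻¹ := by
    have : u * xg R (D.nroots - 1) s * u⁻¹ = xg R (D.nroots - 1) s := by rw [hcu.eq]; simp
    calc _ = b * (n * (u * xg R (D.nroots - 1) s * u⁻¹) * n⁻¹) * b⁻¹ := by simp [mul_assoc]
      _ = _ := by rw [this]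
  have hnX : n * xg R (D.nroots - 1) s * n⁻¹ ∈ S.X (w (top X.rc)) := by
    rw [← hn.2.2]; exact conj_mem_cj hX
  -- b normalises the top root group
  have hbstab : b ∈ stabSub (S.X (top X.rc)) := by
    have hU : S.U ≤ stabSub (S.X (top X.rc)) := by
      apply le_stabSub_of_conj
      intro a ha x hx
      obtain ⟨t, rfl⟩ := (mem_rootSubgroup R).1 hx
      have h9 := (H47.ChevLong.U_comm R Z ha t).eq
      have h10 : a * xg R (top X.rc : Fin D.nroots) t = xg R (top X.rc : Fin D.nroots) t * a := h9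
      rw [h10, mul_assoc, mul_inv_cancel, mul_one]; exact hx
    exact (sup_le hU (S.H_le _)) hb
  rw [h1] at h
  have h2 : n * xg R (D.nroots - 1) s * n⁻¹ ∈ S.X (top X.rc) := by
    have := inv_conj_mem_of_stabSub hbstab h
    simpa [mul_assoc] using this
  by_contra hne
  have h3 := H47.ChevLong.root_inter R Z (w (top X.rc)).2 (fun h => hne (Fin.ext h)) hnX h2
  have h4 : xg R (D.nroots - 1) s = 1 := by
    have := congrArg (fun x => n⁻¹ * x * n) h3
    simpa [mul_assoc] using this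
  rw [← xg_zero R (D.nroots - 1)] at h4
  exact hs (xg_inj R X.rc (top X.rc).2 h4)

include Z in
/-- the same for every root conjugate to the highest root -/
theorem mem_Pl_of_conj {g : GL D.Idx k} (hg : g ∈ D.group k) {w : Equiv.Perm (Fin D.nroots)}
    (hw : w ∈ (comb X).W) {s : k} (hs : s ≠ 0)
    (h : g * xg R (w (top X.rc)) s * g⁻¹ ∈ D.rootSubgroup k (w (top X.rc) : Fin D.nroots)) :
    g ∈ Pl k (w (top X.rc)) := by
  obtain ⟨n, hn⟩ := (chevSys R X).exists_rep' hw
  have hnΓ : n ∈ D.group k := by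
    rw [← chevSys_Γ R X]; exact (chevSys R X).N_le_Γ hn.1
  have h1 : cj n⁻¹ ((chevSys R X).X (w (top X.rc))) = (chevSys R X).X (top X.rc) := by
    rw [hn.inv.2.2]; simp
  obtain ⟨s', e⟩ := (mem_rootSubgroup R).1 (show n⁻¹ * xg R (w (top X.rc)) s * n⁻¹⁻¹ ∈
    D.rootSubgroup k (D.nroots - 1) by
      have : n⁻¹ * xg R (w (top X.rc)) s * n⁻¹⁻¹ ∈ cj n⁻¹ ((chevSys R X).X (w (top X.rc))) :=
        conj_mem_cj (xg_mem R _ _)
      rw [h1] at this; exact this)
  have hs' : s' ≠ 0 := by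
    rintro rfl
    rw [xg_zero] at e
    have : xg R (w (top X.rc) : Fin D.nroots) s = 1 := by
      have := congrArg (fun x => n * x * n⁻¹) e
      simpa [mul_assoc] using this
    rw [← xg_zero R (w (top X.rc) : Fin D.nroots)] at this
    exact hs (xg_inj R X.rc (w (top X.rc)).2 this)
  have h2 : n⁻¹ * g * n ∈ Pl k (top X.rc) := by
    refine mem_Pl_of_conj_top R Z ((D.group k).mul_mem ((D.group k).mul_mem
      ((D.group k).inv_mem hnΓ) hg) hnΓ) hs' ?_
    have h3 : n⁻¹ * g * n * xg R (D.nroots - 1) s' * (n⁻¹ * g * n)⁻¹ =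
        n⁻¹ * (g * xg R (w (top X.rc) : Fin D.nroots) s * g⁻¹) * n⁻¹⁻¹ := by
      rw [← e]; simp [mul_assoc]
    rw [h3]
    have : n⁻¹ * (g * xg R (w (top X.rc) : Fin D.nroots) s * g⁻¹) * n⁻¹⁻¹ ∈
        cj n⁻¹ ((chevSys R X).X (w (top X.rc))) := conj_mem_cj h
    rw [h1] at this; exact this
  have h4 := conj_Pl R hn (top X.rc) h2
  simpa [mul_assoc] using h4

/-- a root element fixing the root vector -/
theorem xg_mem_Pl {r : ℕ} (hr : r < D.nroots) {s : Fin D.nroots} (h1 : (s : ℕ) ≠ D.neg r)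
    (h2 : ∀ u : ℕ, D.chainCoeff r s u = []) (t : k) : xg R r t ∈ Pl k s := by
  refine ⟨1, one_ne_zero, ?_⟩
  rw [one_smul, xg_val]
  funext a
  rw [mv_ev]
  unfold ChevalleyDatum.x
  rw [dif_pos hr]
  unfold ChevalleyDatum.xMat
  simp only [Matrix.of_apply]
  by_cases h3 : s = ⟨r, hr⟩
  · rw [if_pos h3]
    rcases a with a | a
    · rw [ev_of_ne (by simp)]
    · by_cases h4 : a = s
      · subst h4; rw [ev_same]; simp [h3]
      · rw [ev_of_ne (by simpa using h4)]
        simp only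
        rw [if_neg]
        rintro rfl; exact h4 h3.symm
  · have h1' : ¬ (s : ℕ) = D.negIdx.getD r 0 := h1
    rw [if_neg h3, if_neg h1']
    rcases a with a | a
    · rw [ev_of_ne (by simp)]
    · simp only [h2, List.map_nil, List.sum_nil, add_zero]
      by_cases h4 : a = s
      · subst h4; rw [ev_same]; simp
      · rw [if_neg h4, ev_of_ne (by simpa using h4)]

include Z in
/-- the leading coefficient of an element stabilising a line vanishes -/
theorem lead_Pl {q : ℕ} (hq : q < D.nroots) (hq' : X.rc.half ≤ q) {s : Fin D.nroots}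
    (h : (s : ℕ) = D.neg q ∨ ∃ m : Fin D.nroots, (∀ j < D.rank, X.rc.co m j = X.rc.co q j + X.rc.co s j) ∧
      ∃ N : ℤ, (N : k) ≠ 0 ∧ D.chainCoeff q s m = [(1, N)] ∧ (s : ℕ) ≠ D.neg q ∧ (s : ℕ) ≠ q)
    {u : GL D.Idx k} (hu : u ∈ Vk R q) (hup : u ∈ Pl k s) : u ∈ Vk R (q + 1) := by
  obtain ⟨t, v, hv, rfl⟩ := (Vk_step R Z hq' hq).1 hu
  suffices ht : t = 0 by rw [ht, xg_zero, one_mul]; exact hv
  obtain ⟨c, hc, e⟩ := hup
  -- generic entry computation
  have key : ∀ a : D.Idx, a ≠ Sum.inr s → fn X.rc Z.c a = fn X.rc Z.c (Sum.inr s) + fr X.rc Z.c q →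
      D.x k q t a (Sum.inr s) = 0 := by
    intro a ha hfa
    have h1 := congrFun e a
    rw [mv_ev, Pi.smul_apply, ev_of_ne ha,
      smul_zero, Units.val_mul, Matrix.mul_apply, Finset.sum_eq_single (Sum.inr s)] at h1
    · have h2 : (v : Matrix D.Idx D.Idx k) (Sum.inr s) (Sum.inr s) = 1 := by
        have h3 : v ∈ (chevSys R X).U := by rw [U_eq_Vk R]; exact Vk_anti R (by omega) hv
        have h4 := (posUnipotent_le_tri R X.rc) (by rw [chevSys_U] at h3; exact h3)
        rw [h4.1 _ _ le_rfl, if_pos rfl]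
      rw [h2, mul_one] at h1
      exact h1
    · intro b _ hb
      by_cases hv0 : (v : Matrix D.Idx D.Idx k) b (Sum.inr s) = 0
      · rw [hv0, mul_zero]
      · by_cases hq1 : q + 1 < D.nroots
        · have h2 := Vk_le_Uk R Z (by omega : X.rc.half ≤ q + 1) hq1 hv
          have h3 : ¬ (fn X.rc Z.c b < fn X.rc Z.c (Sum.inr s) + (fr X.rc Z.c (q + 1)).toNat) := by
            intro hlt
            have := h2.1 b (Sum.inr s) hlt
            rw [Matrix.sub_apply, Matrix.one_apply_ne hb, sub_zero] at this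
            exact hv0 this
          have h4 := (Z.lt_iff hq hq1).2 (Nat.lt_succ_self q)
          have h5 := Z.pos hq1 (by omega)
          by_cases hx : ((xg R q t : GL D.Idx k) : Matrix D.Idx D.Idx k) a b = 0
          · rw [hx, zero_mul]
          · exfalso
            by_cases hab : a = b
            · subst hab
              rw [hfa] at h3
              have : ((fr X.rc Z.c (q + 1)).toNat : ℤ) = fr X.rc Z.c (q + 1) := Int.toNat_of_nonneg h5.le
              omega
            · obtain ⟨i, hi, e3⟩ := fn_entry X.rc Z.c hq t hx hab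
              have h6 := Z.pos hq hq'
              have h7 : 0 < (i : ℤ) * fr X.rc Z.c q := mul_pos (by exact_mod_cast hi) h6
              have : ((fr X.rc Z.c (q + 1)).toNat : ℤ) = fr X.rc Z.c (q + 1) := Int.toNat_of_nonneg h5.le
              rw [e3] at hfa
              omega
        · have h6 : q + 1 = D.nroots := by omega
          rw [h6, Vk_nroots, Subgroup.mem_bot] at hv
          subst hv
          rw [Units.val_one, Matrix.one_apply_ne hb] at hv0
          exact absurd rfl hv0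
    · intro h; exact absurd (Finset.mem_univ _) h
  rcases h with h | ⟨m, hm, N, hN, hch, hsn, hsq⟩
  · obtain ⟨j, hj, hj0⟩ := Z.exists_coroot k hq
    have h1 := key (Sum.inl ⟨j, hj⟩) (by simp) (by
      rw [fn_inl, fn_inr, h, fr_neg X.rc _ hq]; ring)
    have hne : s ≠ ⟨q, hq⟩ := by
      intro h'
      have h2 := congrArg Fin.val h'
      simp only [h] at h2
      rw [X.rc.neg_eq q hq] at h2
      have := X.rc.nroots_eq
      omega
    have h5 : D.x k q t (Sum.inl ⟨j, hj⟩) (Sum.inr s) =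
        (((D.coroot.getD q #[]).getD j 0 : ℤ) : k) * t := by
      unfold ChevalleyDatum.x
      rw [dif_pos hq]
      unfold ChevalleyDatum.xMat
      simp only [Matrix.of_apply]
      have h' : (s : ℕ) = D.negIdx.getD q 0 := h
      rw [if_neg hne, if_pos h']
    rw [h5] at h1
    exact (mul_eq_zero.1 h1).resolve_left hj0
  · have hms : m ≠ s := by
      intro h
      obtain ⟨j, hj⟩ := (coord X).ne_zero ⟨q, hq⟩
      apply hj
      have := hm j j.2
      rw [h] at this
      have e1 : (coord X).co ⟨q, hq⟩ j = X.rc.co q j := rfl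
      rw [e1]; omega
    have hne : s ≠ ⟨q, hq⟩ := fun h => hsq (congrArg Fin.val h)
    have h1 := key (Sum.inr m) (by simpa using hms) (by
      rw [fn_inr, fn_inr]
      have := cv_eq (a := 1) (b := 1) X.rc Z.c (l := m) (r := q) (s := s)
        (fun j hj => by rw [hm j hj]; simp)
      rw [this]; push_cast; ring)
    have h5 : D.x k q t (Sum.inr m) (Sum.inr s) = (N : k) * t := by
      unfold ChevalleyDatum.x
      rw [dif_pos hq]
      unfold ChevalleyDatum.xMat
      simp only [Matrix.of_apply]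
      have hsn' : ¬ (s : ℕ) = D.negIdx.getD q 0 := hsn
      rw [if_neg hne, if_neg hsn', if_neg hms]
      simp [hch]
    rw [h5] at h1
    exact (mul_eq_zero.1 h1).resolve_left hN

end H42.Subf
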