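import Cfsg.Agent.Lib.H42.SubfB

/-!
Overgroups of subfield subgroups, part C: elements of Borel and parabolic subgroups are rational.
-/

set_option autoImplicit false
set_option linter.unusedVariables false
set_option linter.unusedSectionVars false

namespace H42.Subf

open H22.RGD H22.Coord H22.RCCheck H22.RCComb H22.ChevTri H22.ChevRel H22.ChevSys H22.ChevMain
open H22.ChevStd H22.ChevUni H47.ChevSub
open Cfsg.Lie (ChevalleyDatum)
open scoped MatrixGroups Matrix

variable {D : ChevalleyDatum} {k : Type*} [Field k] (R : Rel D k) {X : RCX D} (Z : Lex X.rc)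
variable (σ : k →+* k)

/-- the situation -/
structure Ctx (R : Rel D k) (X : RCX D) (σ : k →+* k) (H : Subgroup (GL D.Idx k)) : Prop where
  hG : H ≤ D.group k
  hL : L R σ ≤ H
  hU : ∀ u ∈ Vk R X.rc.half, u ∈ H → Fr (D := D) σ u = u

/-- torus characters with inverses -/
theorem Hs_char2 (Q : RC D) {g : GL D.Idx k} (hg : g ∈ Hs R) : ∃ χ : ℕ → k, (∀ s, χ s ≠ 0) ∧
    (∀ s < D.nroots, ∀ t : k, g * xg R s t * g⁻¹ = xg R s (χ s * t)) ∧
    (∀ s < D.nroots, χ s * χ (D.neg s) = 1) ∧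
    (g : Matrix D.Idx D.Idx k) =
      Matrix.diagonal (Sum.elim (fun _ => (1 : k)) (fun s : Fin D.nroots => χ s)) := by
  unfold Hs at hg
  induction hg using Subgroup.closure_induction with
  | mem x hx =>
    obtain ⟨i, hi, c, hc, rfl⟩ := hx
    exact ⟨fun s => c ^ D.cartan i s, fun s => zpow_ne_zero _ hc,
      fun s hs' t => hs_conj R hi hc hs' Q t, fun s hs => by
        simp only
        rw [cartan_neg Q hi hs, zpow_neg, mul_inv_cancel₀ (zpow_ne_zero _ hc)], hs_val R hi hc⟩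
  | one =>
    refine ⟨fun _ => 1, fun _ => one_ne_zero, fun s _ t => by simp, fun s _ => by simp, ?_⟩
    rw [Units.val_one, ← Matrix.diagonal_one]
    congr 1
    funext x
    rcases x with x | x <;> simp
  | mul x y _ _ hx hy =>
    obtain ⟨χ, h1, h2, h3, h4⟩ := hx
    obtain ⟨ψ, k1, k2, k3, k4⟩ := hy
    refine ⟨fun s => χ s * ψ s, fun s => mul_ne_zero (h1 s) (k1 s), fun s hs' t => ?_,
      fun s hs => ?_, ?_⟩
    · calc x * y * xg R s t * (x * y)⁻¹ = x * (y * xg R s t * y⁻¹) * x⁻¹ := by simp [mul_assoc]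
        _ = xg R s (χ s * (ψ s * t)) := by rw [k2 s hs', h2 s hs']
        _ = _ := by rw [mul_assoc]
    · have := h3 s hs; have := k3 s hs
      calc χ s * ψ s * (χ (D.neg s) * ψ (D.neg s)) = (χ s * χ (D.neg s)) * (ψ s * ψ (D.neg s)) := by
            ring
        _ = 1 := by rw [h3 s hs, k3 s hs, mul_one]
    · rw [Units.val_mul, h4, k4, Matrix.diagonal_mul_diagonal]
      congr 1
      funext x
      rcases x with x | x <;> simp
  | inv x _ hx =>
    obtain ⟨χ, h1, h2, h3, h4⟩ := hx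
    refine ⟨fun s => (χ s)⁻¹, fun s => inv_ne_zero (h1 s), fun s hs' t => ?_, fun s hs => ?_, ?_⟩
    · have h4 := h2 s hs' ((χ s)⁻¹ * t)
      rw [← mul_assoc, mul_inv_cancel₀ (h1 s), one_mul] at h4
      rw [← h4]; simp [mul_assoc]
    · rw [← mul_inv, h3 s hs, inv_one]
    · have e1 : (x : Matrix D.Idx D.Idx k) * Matrix.diagonal
          (Sum.elim (fun _ => (1 : k)) (fun s : Fin D.nroots => (χ s)⁻¹)) = 1 := by
        rw [h4, Matrix.diagonal_mul_diagonal, ← Matrix.diagonal_one]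
        congr 1
        funext y
        rcases y with y | y
        · simp
        · simp [mul_inv_cancel₀ (h1 y)]
      have e2 : ((x⁻¹ : GL D.Idx k) : Matrix D.Idx D.Idx k) * (x : Matrix D.Idx D.Idx k) = 1 :=
        x.inv_mul
      calc ((x⁻¹ : GL D.Idx k) : Matrix D.Idx D.Idx k) =
            ((x⁻¹ : GL D.Idx k) : Matrix D.Idx D.Idx k) * ((x : Matrix D.Idx D.Idx k) *
              Matrix.diagonal (Sum.elim (fun _ => (1 : k)) (fun s : Fin D.nroots => (χ s)⁻¹))) := by
              rw [e1, mul_one]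
        _ = _ := by rw [← mul_assoc, e2, one_mul]

/-- a torus element centralising `U` is trivial -/
theorem torus_one (Q : RC D) {g : GL D.Idx k} (hg : g ∈ Hs R)
    (h : ∀ s < D.nroots, Q.half ≤ s → g * xg R s 1 * g⁻¹ = xg R s 1) : g = 1 := by
  obtain ⟨χ, h1, h2, h3, h4⟩ := Hs_char2 R Q hg
  have hp : ∀ s < D.nroots, Q.half ≤ s → χ s = 1 := by
    intro s hs hs'
    have h5 := h s hs hs'
    rw [h2 s hs, mul_one] at h5
    exact xg_inj R Q hs h5
  apply Units.ext
  rw [h4, Units.val_one, ← Matrix.diagonal_one]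
  congr 1
  funext y
  rcases y with y | y
  · simp
  · simp only [Sum.elim_inr]
    by_cases hy : Q.half ≤ (y : ℕ)
    · exact hp y y.2 hy
    · have h5 : Q.half ≤ D.neg y := by
        rw [Q.neg_eq y y.2]; have := Q.nroots_eq; have := y.2; omega
      have h6 := h3 y y.2
      rw [hp _ (neg_lt Q y.2) h5, mul_one] at h6
      exact h6

/-! ### subgroups generated by root groups -/

/-- the group generated by the root groups of the roots satisfying `P` -/
def XP (P : ℕ → Prop) : Subgroup (GL D.Idx k) :=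
  Subgroup.closure {g | ∃ (r : ℕ) (t : k), P r ∧ r < D.nroots ∧ g = xg R r t}

theorem xg_mem_XP {P : ℕ → Prop} {r : ℕ} (h : P r) (hr : r < D.nroots) (t : k) :
    xg R r t ∈ XP R P := Subgroup.subset_closure ⟨r, t, h, hr, rfl⟩

theorem XP_le {P : ℕ → Prop} {K : Subgroup (GL D.Idx k)}
    (h : ∀ r < D.nroots, P r → ∀ t, xg R r t ∈ K) : XP R P ≤ K := by
  unfold XP
  rw [Subgroup.closure_le]
  rintro g ⟨r, t, h1, h2, rfl⟩
  exact h r h2 h1 t

/-- closed under adding positive roots -/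
def Cl (Q : RC D) (P : ℕ → Prop) : Prop := (∀ r, P r → Q.half ≤ r) ∧
  ∀ r < D.nroots, P r → ∀ s < D.nroots, Q.half ≤ s → ∀ l < D.nroots, ∀ a b : ℕ, 1 ≤ a → 1 ≤ b →
    (∀ j < D.rank, Q.co l j = a * Q.co s j + b * Q.co r j) → P l

/-- closure under conjugation from root elements -/
theorem stab_XP_of {P : ℕ → Prop} {r : ℕ}
    (h : ∀ (t : k) (s : ℕ), P s → s < D.nroots → ∀ u, xg R r t * xg R s u * (xg R r t)⁻¹ ∈ XP R P) :
    D.rootSubgroup k r ≤ stabSub (XP R P) := by
  apply le_stabSub_of_conj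
  intro a ha x hx
  obtain ⟨t, rfl⟩ := (mem_rootSubgroup R).1 ha
  unfold XP at hx
  induction hx using Subgroup.closure_induction with
  | mem x hx =>
    obtain ⟨s, u, h1, h2, rfl⟩ := hx
    exact h t s h1 h2 u
  | one => simp [(XP R P).one_mem]
  | mul x y _ _ hx hy =>
    have : xg R r t * (x * y) * (xg R r t)⁻¹ = (xg R r t * x * (xg R r t)⁻¹) *
      (xg R r t * y * (xg R r t)⁻¹) := by simp [mul_assoc]
    rw [this]; exact (XP R P).mul_mem hx hy
  | inv x _ hx =>
    have : xg R r t * x⁻¹ * (xg R r t)⁻¹ = (xg R r t * x * (xg R r t)⁻¹)⁻¹ := by simp [mul_assoc]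
    rw [this]; exact (XP R P).inv_mem hx

theorem stab_XP {P : ℕ → Prop} (hP : Cl X.rc P) : Vk R X.rc.half ≤ stabSub (XP R P) := by
  unfold Vk
  rw [Subgroup.closure_le]
  rintro _ ⟨r, t, h1, h2, rfl⟩
  refine stab_XP_of R ?_ (xg_mem R r t)
  intro t s hs hsn u
  by_cases h : s = r
  · subst h
    rw [xg_comm R s t u]; simpa using xg_mem_XP R hs hsn u
  · exact conj_mem_of_closed R X.rc h2 hsn h (ne_neg_of_pos X.rc h2 hsn h1 (hP.1 s hs))
      (fun u => xg_mem_XP R hs hsn u)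
      (fun l hl a b ha hb hco v => xg_mem_XP R (hP.2 s hsn hs r h2 h1 l hl a b ha hb hco) hl v) t u

include X in
theorem H_stab_XP (P : ℕ → Prop) {h : GL D.Idx k} (hh : h ∈ (chevSys R X).H) :
    h ∈ stabSub (XP R P) := by
  have key : (chevSys R X).H ≤ stabSub (XP R P) := by
    apply le_stabSub_of_conj
    intro a ha x hx
    have ha' : a ∈ Hs R := by rw [← diagonalSubgroup_eq R X]; exact ha
    obtain ⟨χ, h1, h2, _⟩ := Hs_char2 R X.rc ha'
    unfold XP at hx
    induction hx using Subgroup.closure_induction with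
    | mem x hx =>
      obtain ⟨s, u, h3, h4, rfl⟩ := hx
      rw [h2 s h4]; exact xg_mem_XP R h3 h4 _
    | one => simp [(XP R P).one_mem]
    | mul x y _ _ hx hy =>
      have : a * (x * y) * a⁻¹ = (a * x * a⁻¹) * (a * y * a⁻¹) := by simp [mul_assoc]
      rw [this]; exact (XP R P).mul_mem hx hy
    | inv x _ hx =>
      have : a * x⁻¹ * a⁻¹ = (a * x * a⁻¹)⁻¹ := by simp [mul_assoc]
      rw [this]; exact (XP R P).inv_mem hx
  exact key hh

theorem rep_XP {P P' : ℕ → Prop} {n : GL D.Idx k} {w : Equiv.Perm (Fin D.nroots)}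
    (hn : (chevSys R X).Rep n w) (h : ∀ r : Fin D.nroots, P r → P' (w r)) {x : GL D.Idx k}
    (hx : x ∈ XP R P) : n * x * n⁻¹ ∈ XP R P' := by
  unfold XP at hx
  induction hx using Subgroup.closure_induction with
  | mem x hx =>
    obtain ⟨s, u, h3, h4, rfl⟩ := hx
    have h5 : n * xg R s u * n⁻¹ ∈ (chevSys R X).X (w ⟨s, h4⟩) := by
      rw [← hn.2.2]; exact conj_mem_cj (xg_mem R s u)
    obtain ⟨t, e⟩ := (mem_rootSubgroup R).1 h5
    rw [e]
    exact xg_mem_XP R (h ⟨s, h4⟩ h3) (w ⟨s, h4⟩).2 t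
  | one => simp [(XP R P').one_mem]
  | mul x y _ _ hx hy =>
    have : n * (x * y) * n⁻¹ = (n * x * n⁻¹) * (n * y * n⁻¹) := by simp [mul_assoc]
    rw [this]; exact (XP R P').mul_mem hx hy
  | inv x _ hx =>
    have : n * x⁻¹ * n⁻¹ = (n * x * n⁻¹)⁻¹ := by simp [mul_assoc]
    rw [this]; exact (XP R P').inv_mem hx

/-- conjugates of a root element modulo a closed set containing the higher combinations -/
theorem conj_mod {P : ℕ → Prop} (hP : Cl X.rc P) {r : ℕ} (hr : r < D.nroots) (hr' : X.rc.half ≤ r)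
    (h : ∀ s < D.nroots, X.rc.half ≤ s → ∀ l < D.nroots, ∀ a b : ℕ, 1 ≤ a → 1 ≤ b →
      (∀ j < D.rank, X.rc.co l j = a * X.rc.co s j + b * X.rc.co r j) → P l)
    {u : GL D.Idx k} (hu : u ∈ Vk R X.rc.half) (t : k) :
    (xg R r t)⁻¹ * (u * xg R r t * u⁻¹) ∈ XP R P := by
  have hst := stab_XP R (X := X) hP
  have hxst : ∀ t : k, xg R r t ∈ stabSub (XP R P) := fun t => hst (xg_mem_Vk R hr' hr t)
  -- the elements with the property form a subgroup
  have key : ∀ u ∈ Vk R X.rc.half, ∀ t : k, (xg R r t)⁻¹ * (u * xg R r t * u⁻¹) ∈ XP R P := by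
    intro u hu
    unfold Vk at hu
    induction hu using Subgroup.closure_induction with
    | mem x hx =>
      obtain ⟨s, a, h1, h2, rfl⟩ := hx
      intro t
      by_cases hsr : r = s
      · subst hsr
        rw [xg_comm R r a t]; simp [(XP R P).one_mem]
      · rw [conj_eq R h2 hr hsr (ne_neg_of_pos X.rc h2 hr h1 hr') a t, inv_mul_cancel_left]
        refine wg_mem R _ ?_
        intro p hp
        unfold ChevalleyDatum.commWord at hp
        simp only [List.mem_map] at hp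
        obtain ⟨c, hc, rfl⟩ := hp
        obtain ⟨g1, g2, g3, g4⟩ := commTerms_co X.rc h2 hr hc
        exact xg_mem_XP R (h s h2 h1 _ g1 _ _ g2 g3 g4) g1 _
    | one => intro t; simp [(XP R P).one_mem]
    | mul x y hx0 hy0 hx hy =>
      intro t
      have e : (xg R r t)⁻¹ * (x * y * xg R r t * (x * y)⁻¹) =
        ((xg R r t)⁻¹ * (x * xg R r t * x⁻¹)) * (x * ((xg R r t)⁻¹ * (y * xg R r t * y⁻¹)) * x⁻¹) := by
        simp [mul_assoc]
      rw [e]
      exact (XP R P).mul_mem (hx t) (conj_mem_of_stabSub (hst hx0) (hy t))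
    | inv x hx0 hx =>
      intro t
      have e : (xg R r t)⁻¹ * (x⁻¹ * xg R r t * x⁻¹⁻¹) =
        (x⁻¹ * ((xg R r t)⁻¹ * (x * xg R r t * x⁻¹)) * (x⁻¹)⁻¹)⁻¹ := by
        simp [mul_assoc]
      rw [e]
      exact (XP R P).inv_mem (conj_mem_of_stabSub ((stabSub (XP R P)).inv_mem (hst hx0)) (hx t))
  exact key u hu t

/-! ### elements commuting with a unipotent radical -/

section par

variable (m : Fin D.rank)

/-- the roots of the unipotent radical -/
abbrev Ps (X : RCX D) (m : Fin D.rank) : ℕ → Prop := fun r => 1 ≤ X.rc.co r m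

theorem Ps_pos {r : ℕ} (hr : r < D.nroots) (h : Ps X m r) : X.rc.half ≤ r :=
  half_le_of_pos X.rc hr m.2 (by have : (1 : ℤ) ≤ X.rc.co r m := h; omega)

theorem co_comb {l r s a b : ℕ} (h : ∀ j < D.rank, X.rc.co l j = a * X.rc.co r j + b * X.rc.co s j) :
    X.rc.co l m = a * X.rc.co r m + b * X.rc.co s m := h m m.2

include Z in
theorem Cl_Ps (q : ℕ) : Cl X.rc (fun r => r < D.nroots ∧ Ps X m r ∧ q < r) := by
  refine ⟨fun r h => Ps_pos m h.1 h.2.1, ?_⟩
  intro r hr hP s hs hs' l hl a b ha hb hco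
  refine ⟨hl, ?_, ?_⟩
  · have h1 := co_comb m hco
    have h2 : 0 ≤ X.rc.co s m := X.rc.co_nonneg s hs hs' m m.2
    have h3 : (1 : ℤ) ≤ X.rc.co r m := hP.2.1
    show (1 : ℤ) ≤ X.rc.co l m
    rw [h1]
    have h4 : 0 ≤ (a : ℤ) * X.rc.co s m := mul_nonneg (by positivity) h2
    have h5 : (1 : ℤ) * 1 ≤ b * X.rc.co r m :=
      mul_le_mul (by exact_mod_cast hb) h3 (by norm_num) (by positivity)
    linarith
  · exact hP.2.2.trans (lt_of_comb Z hl hs hr hs' (Ps_pos m hr hP.2.1) ha hb hco)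

/-- the roots form a permuted set and nothing moves in it -/
theorem fix_of_comm {b n u : GL D.Idx k} {w : Equiv.Perm (Fin D.nroots)}
    (hb : b ∈ (chevSys R X).B) (hn : (chevSys R X).Rep n w) (hu : u ∈ Vk R X.rc.half)
    (Z : Lex X.rc)
    (hw : ∀ r : Fin D.nroots, X.rc.co (w r) m = X.rc.co r m)
    (hc : ∀ r < D.nroots, Ps X m r → b * n * u * xg R r 1 * (b * n * u)⁻¹ = xg R r 1) :
    ∀ N : ℕ, ∀ r : Fin D.nroots, D.nroots - r ≤ N → Ps X m r → w r = r := by
  intro N
  induction N with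
  | zero => intro r h _; have := r.2; omega
  | succ N ih =>
    intro r hrN hP
    have hfix : ∀ s : Fin D.nroots, Ps X m s → (r : ℕ) < s → w s = s := by
      intro s hs hlt
      exact ih s (by have := s.2; omega) hs
    have hPw : Ps X m (w r) := by
      show (1 : ℤ) ≤ X.rc.co (w r) m
      rw [hw r]; exact hP
    rcases lt_trichotomy (w r) r with hlt | heq | hgt
    · exfalso
      have hr' := Ps_pos m r.2 hP
      have hwr' := Ps_pos m (w r).2 hPw
      set P : ℕ → Prop := fun s => s < D.nroots ∧ Ps X m s ∧ (r : ℕ) < s with hPdef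
      have hCl := Cl_Ps Z m (r : ℕ)
      have h1 := conj_mod R (P := P) hCl r.2 hr' (by
        intro s hs hs' l hl a b ha hb hco
        have h2 : 0 ≤ X.rc.co s m := X.rc.co_nonneg s hs hs' m m.2
        refine ⟨hl, ?_, lt_of_comb Z hl hs r.2 hs' hr' ha hb hco⟩
        show (1 : ℤ) ≤ X.rc.co l m
        rw [co_comb m hco]
        have h3 : (1 : ℤ) ≤ X.rc.co r m := hP
        have h4 : 0 ≤ (a : ℤ) * X.rc.co s m := mul_nonneg (by positivity) h2
        have h5 : (1 : ℤ) * 1 ≤ b * X.rc.co r m :=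
          mul_le_mul (by exact_mod_cast hb) h3 (by norm_num) (by positivity)
        linarith) hu 1
      set q := (xg R r (1 : k))⁻¹ * (u * xg R r 1 * u⁻¹) with hq
      have h2 : n * q * n⁻¹ ∈ XP R P := by
        refine rep_XP R hn (P := P) (P' := P) ?_ h1
        intro s hs
        have : w s = s := hfix s hs.2.1 hs.2.2
        rw [this]; exact hs
      have hXPVk : XP R P ≤ Vk R (r : ℕ) := by
        refine XP_le R fun s hs hs' t => xg_mem_Vk R hs'.2.2.le hs t
      have h3 : (n * xg R r (1 : k) * n⁻¹) * (n * q * n⁻¹) = b⁻¹ * xg R r 1 * b := by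
        have h4 := hc r r.2 hP
        have h5 : b * ((n * xg R r (1 : k) * n⁻¹) * (n * q * n⁻¹)) * b⁻¹ =
            b * n * u * xg R r 1 * (b * n * u)⁻¹ := by
          rw [hq]; simp [mul_assoc]
        have h5' := h5.trans h4
        calc (n * xg R r (1 : k) * n⁻¹) * (n * q * n⁻¹)
            = b⁻¹ * (b * ((n * xg R r (1 : k) * n⁻¹) * (n * q * n⁻¹)) * b⁻¹) * b := by
              simp [mul_assoc]
          _ = _ := by rw [h5']
      have hbst : b ∈ stabSub (Vk R (r : ℕ)) := by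
        have hUs : (chevSys R X).U ≤ stabSub (Vk R (r : ℕ)) := by
          rw [U_eq_Vk R]; exact stab_Vk R Z hr'
        have hHs : (chevSys R X).H ≤ stabSub (Vk R (r : ℕ)) := by
          have e : Vk R (r : ℕ) = XP R (fun s => (r : ℕ) ≤ s) := by
            unfold Vk XP
            congr 1
          intro h hh
          rw [e]; exact H_stab_XP R _ hh
        exact (sup_le hUs hHs) hb
      have h6 : b⁻¹ * xg R r 1 * b ∈ Vk R (r : ℕ) :=
        inv_conj_mem_of_stabSub hbst (xg_mem_Vk R le_rfl r.2 1)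
      have h7 : n * xg R r (1 : k) * n⁻¹ ∈ Vk R (r : ℕ) := by
        have : n * xg R r (1 : k) * n⁻¹ = (b⁻¹ * xg R r 1 * b) * (n * q * n⁻¹)⁻¹ :=
          eq_mul_inv_of_mul_eq h3
        rw [this]
        exact (Vk R (r : ℕ)).mul_mem h6 ((Vk R (r : ℕ)).inv_mem (hXPVk h2))
      have h8 : n * xg R r (1 : k) * n⁻¹ ∈ (chevSys R X).X (w r) := by
        rw [← hn.2.2]; exact conj_mem_cj (xg_mem R _ _)
      obtain ⟨t, e⟩ := (mem_rootSubgroup R).1 h8
      rw [e] at h7
      have h9 : t = 0 := Vk_disj R Z hwr' (w r).2 (Vk_anti R (by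
        have : ((w r : Fin D.nroots) : ℕ) < (r : ℕ) := hlt
        omega) h7)
      rw [h9, xg_zero] at e
      have h10 : xg R (r : ℕ) (1 : k) = 1 := by
        have := congrArg (fun x => n⁻¹ * x * n) e
        simpa [mul_assoc] using this
      exact xg_one_ne R X.rc r.2 h10
    · exact heq
    · have h1 := hfix (w r) hPw hgt
      exact w.injective h1

/-- additivity of Weyl group elements -/
theorem co_w_add {w : Equiv.Perm (Fin D.nroots)} (hw : w ∈ (comb X).W) {a b c : Fin D.nroots}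
    (h : ∀ j < D.rank, X.rc.co a j = X.rc.co b j + X.rc.co c j) (j : Fin D.rank) :
    X.rc.co (w a) j = X.rc.co (w b) j + X.rc.co (w c) j := by
  have h1 := (coord X).co_of_mem hw a j
  have h2 := (coord X).co_of_mem hw b j
  have h3 := (coord X).co_of_mem hw c j
  have e : ∀ (r : Fin D.nroots) (i : Fin D.rank), (coord X).co r i = X.rc.co r i := fun _ _ => rfl
  simp only [e] at h1 h2 h3
  rw [h1, h2, h3, ← Finset.sum_add_distrib]
  refine Finset.sum_congr rfl fun i _ => ?_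
  rw [h i i.2]; ring

/-- every simple root is a difference of roots in the radical -/
def Dif (X : RCX D) (m : Fin D.rank) : Prop := ∀ i : Fin D.rank, i ≠ m → ∃ a b : Fin D.nroots,
  Ps X m a ∧ Ps X m b ∧ ∀ j < D.rank, X.rc.co a j = X.rc.co b j + X.rc.co (D.simple i) j

theorem eq_one_of_fix (hD : Dif X m) {w : Equiv.Perm (Fin D.nroots)} (hw : w ∈ (comb X).W)
    (h : ∀ r : Fin D.nroots, Ps X m r → w r = r) : w = 1 := by
  apply (coord X).ext_of_simple hw (comb X).W.one_mem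
  intro i
  rw [Equiv.Perm.one_apply]
  by_cases hi : i = m
  · subst hi
    apply h
    show (1 : ℤ) ≤ X.rc.co (D.simple i) i
    rw [X.rc.co_simple i i.2 i i.2]; simp
  · obtain ⟨a, b, ha, hb, hab⟩ := hD i hi
    apply (coord X).co_inj
    funext j
    have h1 := co_w_add (c := (comb X).simple i) hw hab j
    rw [h a ha, h b hb] at h1
    have h2 := hab j j.2
    have e1 : (coord X).co (w ((comb X).simple i)) j = X.rc.co (w ((comb X).simple i)) j := rfl
    have e2 : (coord X).co ((comb X).simple i) j = X.rc.co (D.simple i) j := rfl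
    rw [e1, e2]; omega

variable {m} in
include Z in
/-- parabolic subgroups: reduction to the Borel subgroup -/
theorem par_red {H : Subgroup (GL D.Idx k)} (C : Ctx R X σ H) (hD : Dif X m)
    {τ : Fin D.nroots} (hUτ : Vk R X.rc.half ≤ Pl k τ)
    (hst : ∀ w ∈ (comb X).W, w τ = τ → ∀ r : Fin D.nroots, X.rc.co (w r) m = X.rc.co r m)
    (hB : ∀ b ∈ (chevSys R X).B, b ∈ H → Fr (D := D) σ b = b)
    {z : GL D.Idx k} (hz : z ∈ H) (hzτ : z ∈ Pl k τ) : Fr (D := D) σ z = z := by
  set S := chevSys R X with hS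
  have hBτ : S.B ≤ Pl k τ := by
    refine sup_le ?_ (H_le_Pl R _)
    have := hUτ
    rwa [← U_eq_Vk R] at this
  have hw_of : ∀ {b n u : GL D.Idx k} {w : Equiv.Perm (Fin D.nroots)}, b ∈ S.B → S.Rep n w →
      u ∈ S.B → b * n * u ∈ Pl k τ → ∀ r : Fin D.nroots, X.rc.co (w r) m = X.rc.co r m := by
    intro b n u w hb hn hu h
    refine hst w hn.2.1 ((rep_mem_Pl_iff R hn τ).1 ?_)
    rwa [Subgroup.mul_mem_cancel_right _ (hBτ hu), Subgroup.mul_mem_cancel_left _ (hBτ hb)] at h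
  -- z acts on the unipotent radical
  have hzi : z⁻¹ ∈ D.group k := (D.group k).inv_mem (C.hG hz)
  have hzΓ : z⁻¹ ∈ S.Γ := by rw [hS, chevSys_Γ]; exact hzi
  obtain ⟨b, hb, n, w, hn, u, hu, ez⟩ := S.normal_form hzΓ
  have huU := S.Um_le_U w hu
  set P : ℕ → Prop := fun s => s < D.nroots ∧ Ps X m s ∧ 0 < s with hPdef
  have hCl := Cl_Ps Z m 0
  have hst' := stab_XP R (X := X) hCl
  have hBst : S.B ≤ stabSub (XP R P) := by
    refine sup_le ?_ fun h hh => H_stab_XP R _ hh
    rw [U_eq_Vk R]; exact hst'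
  have hwz := hw_of hb hn (S.U_le_B huU) (by rw [← ez]; exact (Pl k τ).inv_mem hzτ)
  have hhalf := X.rc.half_pos
  have hnst : n ∈ stabSub (XP R P) := by
    have h1 : ∀ {n : GL D.Idx k} {w : Equiv.Perm (Fin D.nroots)}, S.Rep n w →
        (∀ r : Fin D.nroots, X.rc.co (w r) m = X.rc.co r m) → ∀ x ∈ XP R P, n * x * n⁻¹ ∈ XP R P := by
      intro n w hn hw x hx
      refine rep_XP R hn ?_ hx
      intro r hr
      have h2 : Ps X m (w r) := by
        show (1 : ℤ) ≤ X.rc.co (w r) m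
        rw [hw r]; exact hr.2.1
      exact ⟨(w r).2, h2, by have := Ps_pos m (w r).2 h2; omega⟩
    apply le_antisymm
    · rintro _ ⟨x, hx, rfl⟩
      exact h1 hn hwz x hx
    · intro x hx
      rw [mem_cj]
      have hwi : ∀ r : Fin D.nroots, X.rc.co (w⁻¹ r) m = X.rc.co r m := by
        intro r
        have := hwz (w⁻¹ r)
        have e : w (w⁻¹ r) = r := w.apply_symm_apply r
        rw [e] at this
        exact this.symm
      have := h1 hn.inv hwi x hx
      simpa using this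
  have hzst : z⁻¹ ∈ stabSub (XP R P) := by
    rw [ez]
    exact (stabSub (XP R P)).mul_mem ((stabSub (XP R P)).mul_mem (hBst hb) hnst)
      (hBst (S.U_le_B huU))
  have hzst' : z ∈ stabSub (XP R P) := by simpa using (stabSub (XP R P)).inv_mem hzst
  have hXPU : XP R P ≤ Vk R X.rc.half :=
    XP_le R fun r hr h t => xg_mem_Vk R (Ps_pos m h.1 h.2.1) hr t
  -- the element c
  set c := z⁻¹ * Fr (D := D) σ z with hc
  have hcomm : ∀ r < D.nroots, Ps X m r → c * xg R r 1 * c⁻¹ = xg R r 1 := by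
    intro r hr hP
    have h0 : xg R r (1 : k) ∈ XP R P :=
      xg_mem_XP R (show P r from ⟨hr, hP, by have := Ps_pos m hr hP; omega⟩) hr 1
    have h1 : z * xg R r 1 * z⁻¹ ∈ XP R P := conj_mem_of_stabSub hzst' h0
    have h2 := C.hU _ (hXPU h1) (H.mul_mem (H.mul_mem hz (C.hL (xg_mem_L R σ (map_one σ))))
      (H.inv_mem hz))
    rw [map_mul, map_mul, map_inv, Fr_xg, map_one] at h2
    calc c * xg R r 1 * c⁻¹ = z⁻¹ * (Fr (D := D) σ z * xg R r 1 * (Fr (D := D) σ z)⁻¹) * z := by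
          rw [hc]; simp [mul_assoc]
      _ = _ := by rw [h2]; simp [mul_assoc]
  -- normal form of z⁻¹ with a rational representative
  obtain ⟨l, rfl⟩ := (comb X).exists_word hn.2.1
  have hl := S.rep_nw l
  obtain ⟨h0, hh0, rfl⟩ : ∃ h0 ∈ S.H, n = h0 * S.nw l := by
    refine ⟨n * (S.nw l)⁻¹, ?_, by simp⟩
    have := hn.mul hl.inv
    rw [mul_inv_cancel] at this
    exact S.mem_H_of_rep_one this
  have hnL : S.nw l ∈ L R σ := nw_mem_L R X σ l
  have hnf : Fr (D := D) σ (S.nw l) = S.nw l := Fr_L R σ hnL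
  have hb' : b * h0 ∈ S.B := S.B.mul_mem hb (S.H_le_B hh0)
  have hσz : Fr (D := D) σ z⁻¹ = Fr (D := D) σ (b * h0) * S.nw l * Fr (D := D) σ u := by
    rw [ez]
    simp only [map_mul, hnf, mul_assoc]
  have hFu : Fr (D := D) σ u ∈ S.Um ((comb X).w l) := Fr_Um R X σ _ hu
  -- c is in the line stabiliser, so its Weyl group element is trivial
  have hσzτ : Fr (D := D) σ z⁻¹ ∈ Pl k τ := by
    rw [hσz]
    have h1 : (b * h0) * S.nw l * u ∈ Pl k τ := by
      have : (b * h0) * S.nw l * u = z⁻¹ := by rw [ez]; simp [mul_assoc]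
      rw [this]; exact (Pl k τ).inv_mem hzτ
    have h2 : S.nw l ∈ Pl k τ := by
      rwa [Subgroup.mul_mem_cancel_right _ (hBτ (S.U_le_B huU)),
        Subgroup.mul_mem_cancel_left _ (hBτ hb')] at h1
    exact (Pl k τ).mul_mem ((Pl k τ).mul_mem (hBτ (Fr_B R X σ hb')) h2)
      (hBτ (S.U_le_B (S.Um_le_U _ hFu)))
  have hcτ : c ∈ Pl k τ := by
    rw [hc]
    refine (Pl k τ).mul_mem ((Pl k τ).inv_mem hzτ) ?_
    have := (Pl k τ).inv_mem hσzτ
    rwa [map_inv, inv_inv] at this
  have hcG : c ∈ S.Γ := by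
    rw [hS, chevSys_Γ]
    exact (D.group k).mul_mem hzi (Fr_group σ (C.hG hz))
  have hcB : c ∈ S.B := by
    obtain ⟨b1, hb1, n1, w1, hn1, u1, hu1, ec⟩ := S.normal_form hcG
    have hu1U := S.Um_le_U w1 hu1
    rw [ec] at hcτ
    have hw1 := hw_of hb1 hn1 (S.U_le_B hu1U) hcτ
    have h1 : w1 = 1 := by
      refine eq_one_of_fix m hD hn1.2.1 fun r hr => ?_
      refine fix_of_comm R m hb1 hn1 (by rw [← U_eq_Vk R]; exact hu1U) Z hw1 ?_ _ r le_rfl hr
      intro r hr hP
      rw [← ec]; exact hcomm r hr hP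
    subst h1
    rw [ec]
    exact S.B.mul_mem (S.B.mul_mem hb1 (S.H_le_B (S.mem_H_of_rep_one hn1))) (S.U_le_B hu1U)
  -- uniqueness
  have e1 : c⁻¹ * (b * h0) * S.nw l * u = Fr (D := D) σ (b * h0) * S.nw l * Fr (D := D) σ u := by
    rw [← hσz, map_inv]
    have e2 : (Fr (D := D) σ z)⁻¹ = c⁻¹ * z⁻¹ := by rw [hc]; simp
    rw [e2, ez]; simp [mul_assoc]
  obtain ⟨_, e3⟩ := S.normal_form_unique hl (S.B.mul_mem (S.B.inv_mem hcB) hb') (Fr_B R X σ hb')
    hu hFu e1
  have huL : u ∈ L R σ := mem_L_of_U R σ Z huU e3.symm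
  have hbH : b * h0 ∈ H := by
    have : b * h0 = z⁻¹ * u⁻¹ * (S.nw l)⁻¹ := by rw [ez]; simp [mul_assoc]
    rw [this]
    exact H.mul_mem (H.mul_mem (H.inv_mem hz) (H.inv_mem (C.hL huL))) (H.inv_mem (C.hL hnL))
  have hbf := hB _ hb' hbH
  have h1 : Fr (D := D) σ z⁻¹ = z⁻¹ := by
    rw [hσz, hbf, ← e3, ez]; simp [mul_assoc]
  rw [map_inv] at h1
  exact inv_injective h1

end par

end H42.Subf
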