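import Cfsg.Agent.Lib.H42.SubfC

/-!
Overgroups of subfield subgroups, part D: elements of the Borel subgroup are rational.
-/

set_option autoImplicit false
set_option linter.unusedVariables false
set_option linter.unusedSectionVars false

namespace H42.Subf

open H22.RGD H22.Coord H22.RCCheck H22.RCComb H22.ChevTri H22.ChevRel H22.ChevSys H22.ChevMain
open H22.ChevStd H22.ChevUni H47.ChevSub
open Cfsg.Lie (ChevalleyDatum)
open scoped MatrixGroups Matrix

variable {D : ChevalleyDatum} {k : Type*} [Field k] (R : Rel D k) {X : RCX D} (Z : Lex X.rc)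
variable (σ : k →+* k)

/-- data on the central root groups -/
structure BH (R : Rel D k) (X : RCX D) (zl : List ℕ) : Prop where
  pos : ∀ q ∈ zl, X.rc.half ≤ q ∧ q < D.nroots
  cen : ∀ q ∈ zl, ∀ s < D.nroots, X.rc.half ≤ s → ∀ a t : k,
    xg R s a * xg R q t = xg R q t * xg R s a
  up : ∀ q < D.nroots, X.rc.half ≤ q → q ∉ zl → ∃ (s m : ℕ) (N : ℤ), s < D.nroots ∧
    X.rc.half ≤ s ∧ q ≠ s ∧ Lead D s q m N ∧
    (∀ rest, D.commTerms s q = (m, N, 1, 1) :: rest → ∀ c ∈ rest, m < c.1) ∧ (N : k) ≠ 0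
  dn : ∀ q ∈ zl, ∃ ν < D.nroots, q ≠ ν ∧ q ≠ D.neg ν ∧
    (∀ q' ∈ zl, q < q' → ∀ a t : k, xg R ν a * xg R q' t = xg R q' t * xg R ν a) ∧
    (∀ c ∈ D.commTerms ν q, X.rc.half ≤ c.1) ∧
    (∀ χ s s' : k, χ ≠ 0 → wg R (D.commWord k ν q χ s) = wg R (D.commWord k ν q χ s') → s = s')

/-- the elements commuting with the `x_s(1)`, `s` positive -/
def C1 (R : Rel D k) (X : RCX D) : Subgroup (GL D.Idx k) :=
  Subgroup.centralizer {g | ∃ s, X.rc.half ≤ s ∧ s < D.nroots ∧ g = xg R s 1}

theorem mem_C1 {g : GL D.Idx k} : g ∈ C1 R X ↔ ∀ s < D.nroots, X.rc.half ≤ s →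
    xg R s 1 * g = g * xg R s 1 := by
  unfold C1
  rw [Subgroup.mem_centralizer_iff]
  constructor
  · intro h s hs hs'; exact h _ ⟨s, hs', hs, rfl⟩
  · rintro h _ ⟨s, hs', hs, rfl⟩; exact h s hs hs'

variable {zl : List ℕ}

theorem cen_C1 (B : BH R X zl) {q : ℕ} (hq : q ∈ zl) (t : k) : xg R q t ∈ C1 R X := by
  rw [mem_C1]
  intro s hs hs'
  exact B.cen q hq s hs hs' 1 t

include Z in
theorem lead_C1 (B : BH R X zl) {q : ℕ} (hq : q < D.nroots) (hq' : X.rc.half ≤ q) (hz : q ∉ zl)
    {u : GL D.Idx k} (hu : u ∈ Vk R q) (hc : u ∈ C1 R X) : u ∈ Vk R (q + 1) := by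
  obtain ⟨t, v, hv, rfl⟩ := (Vk_step R Z hq' hq).1 hu
  suffices ht : t = 0 by rw [ht, xg_zero, one_mul]; exact hv
  obtain ⟨s, m, N, hs, hs', hqs, hL, hcount, hN⟩ := B.up q hq hq' hz
  obtain ⟨w, hw, e⟩ := comm_lead R Z hs hs' hq hq' hL hcount hqs 1 t hv
  have h1 := (mem_C1 R).1 hc s hs hs'
  have h2 : xg R s 1 * (xg R q t * v) * (xg R s 1)⁻¹ * (xg R q t * v)⁻¹ = 1 := by
    rw [h1]; simp [mul_assoc]
  rw [h2] at e
  obtain ⟨rest, hrs⟩ := hL
  have hmem : (m, N, 1, 1) ∈ D.commTerms s q := by rw [hrs]; simp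
  obtain ⟨hm, _, _, hmc⟩ := commTerms_co X.rc hs hq hmem
  have hqm : q < m := lt_of_comb (a := 1) (b := 1) Z hm hs hq hs' hq' le_rfl le_rfl hmc
  have h3 : xg R m ((N : k) * 1 * t) ∈ Vk R (m + 1) := by
    have : xg R m ((N : k) * 1 * t) = w⁻¹ := eq_inv_of_mul_eq_one_left e.symm
    rw [this]; exact (Vk R (m + 1)).inv_mem hw
  have h4 := Vk_disj R Z (by omega : X.rc.half ≤ m) hm h3
  rw [mul_one] at h4
  exact (mul_eq_zero.1 h4).resolve_left hN

include Z in
theorem form_C1 (B : BH R X zl) : ∀ n q, q + n = D.nroots → X.rc.half ≤ q → ∀ u ∈ Vk R q,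
    u ∈ C1 R X → ∃ f : ℕ → k, (∀ r, r ∉ zl → f r = 0) ∧ u = pr R f q n := by
  intro n
  induction n with
  | zero =>
    intro q hq _ u hu _
    rw [show q = D.nroots by omega, Vk_nroots, Subgroup.mem_bot] at hu
    exact ⟨fun _ => 0, fun _ _ => rfl, by rw [hu]; simp [pr]⟩
  | succ n ih =>
    intro q hq hq' u hu hc
    have hqn : q < D.nroots := by omega
    by_cases hz : q ∈ zl
    · obtain ⟨t, v, hv, rfl⟩ := (Vk_step R Z hq' hqn).1 hu
      have hv1 : v ∈ C1 R X := by
        have := (C1 R X).mul_mem ((C1 R X).inv_mem (cen_C1 R B hz t)) hc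
        simpa using this
      obtain ⟨f, hf, rfl⟩ := ih (q + 1) (by omega) (by omega) v hv hv1
      refine ⟨Function.update f q t, ?_, ?_⟩
      · intro r hr
        rw [Function.update_of_ne (by rintro rfl; exact hr hz)]
        exact hf r hr
      · rw [pr_succ, Function.update_self]
        congr 1
        refine pr_congr R fun r h1 _ => ?_
        rw [Function.update_of_ne (by omega)]
    · have h1 := lead_C1 R Z B hqn hq' hz hu hc
      obtain ⟨f, hf, rfl⟩ := ih (q + 1) (by omega) (by omega) u h1 hc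
      refine ⟨f, hf, ?_⟩
      rw [pr_succ, hf q hz, xg_zero, one_mul]

include Z in
/-- the last step -/
theorem cen_rat (B : BH R X zl) {H : Subgroup (GL D.Idx k)} (C : Ctx R X σ H)
    {t : GL D.Idx k} (ht : t ∈ Hs R) (hft : Fr (D := D) σ t = t) :
    ∀ n q, q + n = D.nroots → X.rc.half ≤ q → ∀ f : ℕ → k, (∀ r, r ∉ zl → f r = 0) →
      pr R f q n * t ∈ H → ∀ r, q ≤ r → r < D.nroots → σ (f r) = f r := by
  intro n
  induction n with
  | zero => intro q hq _ f _ _ r h1 h2; omega
  | succ n ih =>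
    intro q hq hq' f hf hH r h1 h2
    have hqn : q < D.nroots := by omega
    rw [pr_succ] at hH
    have main : σ (f q) = f q := by
      by_cases hz : q ∈ zl
      · obtain ⟨ν, hν, hν1, hν2, hν3, hν4, hν5⟩ := B.dn q hz
        obtain ⟨χ, h3, h4, _⟩ := exists_char R X.rc ht
        set e := pr R f (q + 1) n with he
        have hec : ∀ a : k, Commute (xg R ν a) e := by
          intro a
          rw [he]
          unfold pr
          have : ∀ l : List ℕ, (∀ r ∈ l, q < r) →
              Commute (xg R ν a) ((l.map fun r => xg R r (f r)).prod) := by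
            intro l
            induction l with
            | nil => intro _; simp
            | cons r l ihl =>
              intro h
              rw [List.map_cons, List.prod_cons]
              refine Commute.mul_right ?_ (ihl fun r hr => h r (by simp [hr]))
              by_cases hr : r ∈ zl
              · exact hν3 r hr (h r (by simp)) a (f r)
              · rw [hf r hr, xg_zero]; exact Commute.one_right _
          apply this
          intro r hr
          rw [List.mem_range'_1] at hr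
          omega
        set s := f q with hs
        -- the parameter χ ν is rational
        have hχ : σ (χ ν) = χ ν := by
          have h5 := h4 ν hν 1
          rw [mul_one] at h5
          have h6 := congrArg (Fr (D := D) σ) h5
          rw [map_mul, map_mul, map_inv, hft, Fr_xg, Fr_xg, map_one, h5] at h6
          exact (xg_inj R X.rc hν h6).symm
        have hχ0 := h3 ν
        -- the commutator lies in H
        have hy : (xg R ν (χ ν))⁻¹ * (xg R q s * xg R ν (χ ν) * (xg R q s)⁻¹) ∈ H := by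
          have h5 : (xg R q s * e * t) * xg R ν 1 * (xg R q s * e * t)⁻¹ =
              xg R q s * xg R ν (χ ν) * (xg R q s)⁻¹ := by
            have h6 : (xg R q s * e * t) * xg R ν 1 * (xg R q s * e * t)⁻¹ =
                xg R q s * (e * (t * xg R ν 1 * t⁻¹) * e⁻¹) * (xg R q s)⁻¹ := by simp [mul_assoc]
            rw [h6, h4 ν hν 1, mul_one, ← (hec _).eq]
            simp [mul_assoc]
          rw [← h5]
          refine H.mul_mem (H.inv_mem (C.hL (xg_mem_L R σ hχ))) ?_
          exact H.mul_mem (H.mul_mem hH (C.hL (xg_mem_L R σ (map_one σ)))) (H.inv_mem hH)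
        have hcom := comm_g R hν hqn hν1 hν2 (χ ν) s
        have hWU : ∀ a b : k, wg R (D.commWord k ν q a b) ∈ Vk R X.rc.half := by
          intro a b
          refine wg_mem R _ ?_
          intro p hp
          unfold ChevalleyDatum.commWord at hp
          simp only [List.mem_map] at hp
          obtain ⟨c, hc, rfl⟩ := hp
          exact xg_mem_Vk R (hν4 c hc) (commTerms_co X.rc hν hqn hc).1 _
        have hcenU : ∀ x ∈ Vk R X.rc.half, Commute (xg R q s) x := by
          have : Vk R X.rc.half ≤ Subgroup.centralizer {xg R q s} := by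
            unfold Vk
            rw [Subgroup.closure_le]
            rintro _ ⟨r, a, h7, h8, rfl⟩
            rw [SetLike.mem_coe, Subgroup.mem_centralizer_singleton_iff]
            exact (B.cen q hz r h8 h7 a s)
          intro x hx
          exact (Subgroup.mem_centralizer_singleton_iff.1 (this hx)).symm
        have hy2 : (xg R ν (χ ν))⁻¹ * (xg R q s * xg R ν (χ ν) * (xg R q s)⁻¹) =
            wg R (D.commWord k ν q (χ ν) s) := by
          rw [hcom]
          have h9 := (hcenU _ (hWU (χ ν) s)).eq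
          calc (xg R ν (χ ν))⁻¹ * (xg R ν (χ ν) * xg R q s * wg R (D.commWord k ν q (χ ν) s) *
                (xg R q s)⁻¹) = (xg R q s * wg R (D.commWord k ν q (χ ν) s)) * (xg R q s)⁻¹ := by
                  simp [mul_assoc]
            _ = _ := by rw [h9]; simp [mul_assoc]
        rw [hy2] at hy
        have hfix := C.hU _ (hWU _ _) hy
        have hFw : ∀ w : List (ℕ × k), Fr (D := D) σ (wg R w) = wg R (w.map fun p => (p.1, σ p.2)) := by
          intro w
          induction w with
          | nil => simp [wg]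
          | cons p w ihw =>
            have e1 : wg R (p :: w) = xg R p.1 p.2 * wg R w := by simp [wg]
            have e2 : wg R ((p :: w).map fun p => (p.1, σ p.2)) =
              xg R p.1 (σ p.2) * wg R (w.map fun p => (p.1, σ p.2)) := by simp [wg]
            rw [e1, e2, map_mul, Fr_xg, ihw]
        rw [hFw] at hfix
        have e3 : (D.commWord k ν q (χ ν) s).map (fun p => (p.1, σ p.2)) =
            D.commWord k ν q (χ ν) (σ s) := by
          unfold ChevalleyDatum.commWord
          rw [List.map_map]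
          apply List.map_congr_left
          intro c _
          simp [hχ]
        rw [e3] at hfix
        exact (hν5 _ _ _ hχ0 hfix)
      · rw [hf q hz, map_zero]
    rcases h1.lt_or_eq with h | h
    · refine ih (q + 1) (by omega) (by omega) f hf ?_ r h h2
      have := H.mul_mem (H.inv_mem (C.hL (xg_mem_L R σ (s := q) main))) hH
      simpa [mul_assoc] using this
    · rw [← h]; exact main

include Z in
/-- elements of the Borel subgroup are rational -/
theorem borel_rat (B : BH R X zl) {H : Subgroup (GL D.Idx k)} (C : Ctx R X σ H) :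
    ∀ b ∈ (chevSys R X).B, b ∈ H → Fr (D := D) σ b = b := by
  intro b hb hbH
  set S := chevSys R X with hS
  obtain ⟨v, hv, t, ht, rfl⟩ := S.mem_B.1 hb
  have ht' : t ∈ Hs R := by rw [← diagonalSubgroup_eq R X]; exact ht
  have hv' : v ∈ Vk R X.rc.half := by rw [← U_eq_Vk R]; exact hv
  set c := (v * t)⁻¹ * Fr (D := D) σ (v * t) with hc
  have hconj : ∀ b ∈ S.B, ∀ x ∈ Vk R X.rc.half, b * x * b⁻¹ ∈ Vk R X.rc.half := by
    intro b hb x hx
    have h1 : S.B ≤ stabSub S.U := by
      refine sup_le ?_ S.H_le_stab_U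
      intro u hu; exact cj_eq_self_of_mem hu
    rw [← U_eq_Vk R] at hx ⊢
    exact conj_mem_of_stabSub (h1 hb) hx
  have hcomm : ∀ s < D.nroots, X.rc.half ≤ s → c * xg R s 1 * c⁻¹ = xg R s 1 := by
    intro s hs hs'
    have h1 := hconj _ hb _ (xg_mem_Vk R hs' hs (1 : k))
    have h2 := C.hU _ h1 (H.mul_mem (H.mul_mem hbH (C.hL (xg_mem_L R σ (map_one σ))))
      (H.inv_mem hbH))
    have h3 : Fr (D := D) σ (v * t * xg R s 1 * (v * t)⁻¹) =
        Fr (D := D) σ (v * t) * xg R s 1 * (Fr (D := D) σ (v * t))⁻¹ := by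
      rw [map_mul, map_mul (Fr (D := D) σ) (v * t), map_inv, Fr_xg, map_one]
    rw [h3] at h2
    calc c * xg R s 1 * c⁻¹ = (v * t)⁻¹ * (Fr (D := D) σ (v * t) * xg R s 1 *
          (Fr (D := D) σ (v * t))⁻¹) * (v * t) := by rw [hc]; simp [mul_assoc]
      _ = _ := by rw [h2]; simp [mul_assoc]
  have hcB : c ∈ S.B := S.B.mul_mem (S.B.inv_mem hb) (Fr_B R X σ hb)
  obtain ⟨v1, hv1, t1, ht1, ec⟩ := S.mem_B.1 hcB
  have ht1' : t1 ∈ Hs R := by rw [← diagonalSubgroup_eq R X]; exact ht1
  have hv1' : v1 ∈ Vk R X.rc.half := by rw [← U_eq_Vk R]; exact hv1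
  have ht1one : t1 = 1 := by
    apply torus_one R X.rc ht1'
    intro s hs hs'
    obtain ⟨χ, h1, h2, _⟩ := exists_char R X.rc ht1'
    have h3 := hcomm s hs hs'
    rw [ec] at h3
    have h4 : v1 * t1 * xg R s 1 * (v1 * t1)⁻¹ = v1 * (t1 * xg R s 1 * t1⁻¹) * v1⁻¹ := by
      simp [mul_assoc]
    rw [h4, h2 s hs, mul_one] at h3
    -- modulo the next term
    have hCl : Cl X.rc (fun r => r < D.nroots ∧ s < r) := by
      refine ⟨fun r h => by omega, ?_⟩
      intro r hr hP s' hs1 hs2 l hl a b ha hb hco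
      exact ⟨hl, hP.2.trans (lt_of_comb Z hl hs1 hr hs2 (by omega) ha hb hco)⟩
    have h5 := conj_mod R (P := fun r => r < D.nroots ∧ s < r) hCl hs hs'
      (fun s' hs1 hs2 l hl a b ha hb hco => ⟨hl, lt_of_comb Z hl hs1 hs hs2 hs' ha hb hco⟩)
      hv1' (χ s)
    rw [h3, xg_inv, xg_mul] at h5
    have h6 : XP R (fun r => r < D.nroots ∧ s < r) ≤ Vk R (s + 1) :=
      XP_le R fun r hr h t => xg_mem_Vk R (by omega) hr t
    have h7 := Vk_disj R Z hs' hs (h6 h5)
    have h8 : χ s = 1 := by linear_combination -h7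
    rw [h2 s hs, h8, one_mul]
  rw [ht1one, mul_one] at ec
  have hcC1 : c ∈ C1 R X := by
    rw [mem_C1]
    intro s hs hs'
    have := hcomm s hs hs'
    exact (mul_inv_eq_iff_eq_mul.1 this).symm
  -- the equation σ(v) σ(t) = v t c
  have e1 : Fr (D := D) σ v * Fr (D := D) σ t = v * (t * c * t⁻¹) * t := by
    rw [hc, ← map_mul]; simp [mul_assoc]
  have hFv : Fr (D := D) σ v ∈ S.U := Fr_U R X σ hv
  have hFt : Fr (D := D) σ t ∈ S.H := Fr_H R X σ ht
  have hcU : c ∈ S.U := by rw [ec]; exact hv1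
  have htc : t * c * t⁻¹ ∈ S.U := conj_mem_of_stabSub (S.H_le_stab_U ht) hcU
  have e2 : (v * (t * c * t⁻¹))⁻¹ * Fr (D := D) σ v = 1 := by
    apply S.eq_one_of_mem_U_H
    · exact S.U.mul_mem (S.U.inv_mem (S.U.mul_mem hv htc)) hFv
    · have : (v * (t * c * t⁻¹))⁻¹ * Fr (D := D) σ v = t * (Fr (D := D) σ t)⁻¹ := by
        rw [inv_mul_eq_iff_eq_mul, ← mul_assoc, ← e1]; simp
      rw [this]
      exact S.H.mul_mem ht (S.H.inv_mem hFt)
  have e3 : Fr (D := D) σ v = v * (t * c * t⁻¹) := (inv_mul_eq_one.1 e2).symm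
  have e4 : Fr (D := D) σ t = t := by
    rw [e3] at e1; exact mul_left_cancel e1
  -- t c t⁻¹ ∈ C1
  have htcC1 : t * c * t⁻¹ ∈ C1 R X := by
    rw [mem_C1]
    intro s hs hs'
    obtain ⟨χ, h1, h2, _⟩ := exists_char R X.rc ht'
    obtain ⟨f, hf, ef⟩ := form_C1 R Z B X.rc.half X.rc.half (by have := X.rc.nroots_eq; omega) le_rfl
      c (by rw [← U_eq_Vk R]; exact hcU) hcC1
    have h3 : t * c * t⁻¹ ∈ C1 R X := by
      rw [ef]
      unfold pr
      have : ∀ l : List ℕ, t * (l.map fun r => xg R r (f r)).prod * t⁻¹ ∈ C1 R X := by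
        intro l
        induction l with
        | nil => simp [(C1 R X).one_mem]
        | cons r l ihl =>
          rw [List.map_cons, List.prod_cons]
          have : t * (xg R r (f r) * (l.map fun r => xg R r (f r)).prod) * t⁻¹ =
            (t * xg R r (f r) * t⁻¹) * (t * (l.map fun r => xg R r (f r)).prod * t⁻¹) := by
            simp [mul_assoc]
          rw [this]
          refine (C1 R X).mul_mem ?_ ihl
          by_cases hr : r ∈ zl
          · rw [h2 r (B.pos r hr).2]; exact cen_C1 R B hr _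
          · rw [hf r hr, xg_zero]; simp [(C1 R X).one_mem]
      exact this _
    exact (mem_C1 R).1 h3 s hs hs'
  -- Lang
  have hn : X.rc.half + X.rc.half = D.nroots := by have := X.rc.nroots_eq; omega
  obtain ⟨u0, hu0, hfu0, hu0c⟩ := lang R Z σ (C := C1 R X) (by
    intro q hq hq'
    by_cases hz : q ∈ zl
    · exact Or.inl fun t => cen_C1 R B hz t
    · exact Or.inr fun u hu hc => lead_C1 R Z B hq hq' hz hu hc) X.rc.half X.rc.half hn le_rfl v hv' (by
    rw [e3]; simpa using htcC1)
  have hu0L : u0 ∈ L R σ := mem_L_of_U R σ Z (by rw [U_eq_Vk R]; exact hu0) hfu0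
  have heV : u0⁻¹ * v ∈ Vk R X.rc.half := (Vk R X.rc.half).mul_mem ((Vk R X.rc.half).inv_mem hu0) hv'
  obtain ⟨f, hf, ef⟩ := form_C1 R Z B X.rc.half X.rc.half hn le_rfl _ heV hu0c
  have hmem : pr R f X.rc.half X.rc.half * t ∈ H := by
    rw [← ef]
    have := H.mul_mem (H.inv_mem (C.hL hu0L)) hbH
    simpa [mul_assoc] using this
  have hrat := cen_rat R Z σ B C ht' e4 X.rc.half X.rc.half hn le_rfl f hf hmem
  have hFe : Fr (D := D) σ (u0⁻¹ * v) = u0⁻¹ * v := by
    rw [ef]
    unfold pr
    rw [map_list_prod, List.map_map]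
    congr 1
    apply List.map_congr_left
    intro r hr
    rw [List.mem_range'_1] at hr
    show Fr (D := D) σ (xg R r (f r)) = _
    rw [Fr_xg, hrat r hr.1 (by omega)]
  have hFv2 : Fr (D := D) σ v = v := by
    have : v = u0 * (u0⁻¹ * v) := by simp
    rw [this, map_mul, hfu0, hFe]
  rw [map_mul, hFv2, e4]

end H42.Subf
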