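import Cfsg.Agent.Lib.H42.SubfD

/-!
Overgroups of subfield subgroups, part E: elements not opposite are rational.
-/

set_option autoImplicit false
set_option linter.unusedVariables false
set_option linter.unusedSectionVars false

namespace H42.Subf

open H22.RGD H22.Coord H22.RCCheck H22.RCComb H22.ChevTri H22.ChevRel H22.ChevSys H22.ChevMain
open H22.ChevStd H22.ChevUni H47.ChevSub
open Cfsg.Lie (ChevalleyDatum)
open scoped MatrixGroups Matrix

variable {D : ChevalleyDatum} {k : Type*} [Field k] (R : Rel D k) {X : RCX D} (Z : Lex X.rc)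
variable (σ : k →+* k)

/-- data on the long roots -/
structure LH (R : Rel D k) (X : RCX D) (m : Fin D.rank) (lng : ℕ → Bool) : Prop where
  top : lng (D.nroots - 1) = true
  refl : ∀ i < D.rank, ∀ r < D.nroots, lng r = true → lng (D.reflectRoot i r) = true
  dom : ∀ r < D.nroots, lng r = true → r ≠ D.nroots - 1 → ∃ i < D.rank, D.cartan i r < 0
  st : ∀ w ∈ (comb X).W, w (H42.Subf.top X.rc) = H42.Subf.top X.rc →
    ∀ r : Fin D.nroots, X.rc.co (w r) m = X.rc.co r m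
  dif : Dif X m
  pl : ∀ δ : Fin D.nroots, lng δ = true → ∀ q < D.nroots, X.rc.half ≤ q →
    (∀ t : k, xg R q t ∈ Pl k δ) ∨ ((δ : ℕ) = D.neg q ∨
      ∃ m : Fin D.nroots, (∀ j < D.rank, X.rc.co m j = X.rc.co q j + X.rc.co δ j) ∧
      ∃ N : ℤ, (N : k) ≠ 0 ∧ D.chainCoeff q δ m = [(1, N)] ∧ (δ : ℕ) ≠ D.neg q ∧ (δ : ℕ) ≠ q)
  pr : ∀ β : Fin D.nroots, lng β = true → (β : ℕ) ≠ D.neg (D.nroots - 1) →
    (∀ t : k, xg R β t ∈ Pl k (H42.Subf.top X.rc)) ∨
    ∃ δ : Fin D.nroots, lng δ = true ∧ ∃ N : ℤ, (N : k) ≠ 0 ∧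
      D.commTerms (D.nroots - 1) β = [((δ : ℕ), N, 1, 1)] ∧ (β : ℕ) ≠ D.nroots - 1 ∧
      (∀ t : k, xg R δ t ∈ Pl k (H42.Subf.top X.rc)) ∧ (∀ t : k, xg R β t ∈ Pl k δ)

variable {m : Fin D.rank} {lng : ℕ → Bool}

/-- long roots are conjugate to the highest root -/
theorem LH.orb (E : LH R X m lng) (Z : Lex X.rc) : ∀ N : ℕ, ∀ r : Fin D.nroots, D.nroots - r ≤ N →
    lng r = true → ∃ w ∈ (comb X).W, w (H42.Subf.top X.rc) = r := by
  intro N
  induction N with
  | zero => intro r h _; have := r.2; omega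
  | succ N ih =>
    intro r hr hl
    by_cases ht : (r : ℕ) = D.nroots - 1
    · exact ⟨1, (comb X).W.one_mem, Fin.ext (by rw [Equiv.Perm.one_apply, ht]; rfl)⟩
    · obtain ⟨i, hi, hneg⟩ := E.dom r r.2 hl ht
      set s : Fin D.nroots := (comb X).refl ⟨i, hi⟩ r with hs
      have hsv : (s : ℕ) = D.reflectRoot i r := rfl
      have hls : lng s = true := by rw [hsv]; exact E.refl i hi r r.2 hl
      have hlt : (r : ℕ) < s := by
        refine (Z.lt_iff r.2 s.2).1 ?_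
        have h1 : fr X.rc Z.c s = fr X.rc Z.c r - D.cartan i r * Z.c i := by
          unfold fr
          have h2 : ∀ j ∈ Finset.range D.rank, Z.c j * X.rc.co s j =
              Z.c j * X.rc.co r j - (if j = i then D.cartan i r * Z.c i else 0) := by
            intro j hj
            rw [hsv, X.rc.co_refl i hi r r.2 j (Finset.mem_range.1 hj)]
            by_cases hji : j = i
            · rw [if_pos hji, if_pos hji, hji]; ring
            · rw [if_neg hji, if_neg hji]; ring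
          rw [Finset.sum_congr rfl h2, Finset.sum_sub_distrib]
          congr 1
          rw [Finset.sum_ite_eq' (Finset.range D.rank) i, if_pos (Finset.mem_range.2 hi)]
        have h3 : 0 < Z.c i := by
          have h4 := Z.pos (X.rc.simple_lt i hi) (by
            have := (comb X).simple_pos ⟨i, hi⟩
            exact this)
          have h5 : fr X.rc Z.c (D.simple i) = Z.c i := by
            unfold fr
            have h6 : ∀ j ∈ Finset.range D.rank, Z.c j * X.rc.co (D.simple i) j =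
                if j = i then Z.c i else 0 := by
              intro j hj
              rw [X.rc.co_simple i hi j (Finset.mem_range.1 hj)]
              by_cases hji : j = i
              · rw [if_pos hji, if_pos hji, hji]; ring
              · rw [if_neg hji, if_neg hji]; ring
            rw [Finset.sum_congr rfl h6, Finset.sum_ite_eq' (Finset.range D.rank) i,
              if_pos (Finset.mem_range.2 hi)]
          rw [← h5]; exact h4
        rw [h1]
        have : 0 < - D.cartan i r * Z.c i := mul_pos (by omega) h3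
        linarith
      obtain ⟨w, hw, e⟩ := ih s (by omega) hls
      refine ⟨(comb X).refl ⟨i, hi⟩ * w, (comb X).W.mul_mem (Subgroup.subset_closure ⟨_, rfl⟩) hw, ?_⟩
      rw [Equiv.Perm.mul_apply, e, hs, ← Equiv.Perm.mul_apply, (comb X).refl_mul_self]
      rfl

theorem LH.orb' (E : LH R X m lng) (Z : Lex X.rc) {r : Fin D.nroots} (h : lng r = true) :
    ∃ w ∈ (comb X).W, w (H42.Subf.top X.rc) = r := E.orb R Z _ r le_rfl h

theorem LH.lng_of (E : LH R X m lng) {w : Equiv.Perm (Fin D.nroots)} (hw : w ∈ (comb X).W) :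
    lng (w (H42.Subf.top X.rc)) = true := by
  obtain ⟨l, rfl⟩ := (comb X).exists_word hw
  clear hw
  induction l with
  | nil => exact E.top
  | cons i l ih =>
    rw [RootComb.w_cons, Equiv.Perm.mul_apply]
    exact E.refl i i.2 _ ((comb X).w l _).2 ih

theorem LH.hC (E : LH R X m lng) (Z : Lex X.rc) {δ : Fin D.nroots} (hδ : lng δ = true) :
    ∀ q < D.nroots, X.rc.half ≤ q →
    (∀ t : k, xg R q t ∈ Pl k δ) ∨ ∀ u ∈ Vk R q, u ∈ Pl k δ → u ∈ Vk R (q + 1) := by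
  intro q hq hq'
  rcases E.pl δ hδ q hq hq' with h | h
  · exact Or.inl h
  · exact Or.inr fun u hu hup => lead_Pl R Z hq hq' h hu hup

theorem hn_half (X : RCX D) : X.rc.half + X.rc.half = D.nroots := by
  have := X.rc.nroots_eq; omega

/-- rational representatives -/
theorem LH.lang (E : LH R X m lng) (Z : Lex X.rc) {δ : Fin D.nroots} (hδ : lng δ = true)
    {v : GL D.Idx k} (hv : v ∈ Vk R X.rc.half) (h : v⁻¹ * Fr (D := D) σ v ∈ Pl k δ) :
    ∃ u0 ∈ Vk R X.rc.half, Fr (D := D) σ u0 = u0 ∧ u0 ∈ L R σ ∧ u0⁻¹ * v ∈ Pl k δ := by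
  obtain ⟨u0, h1, h2, h3⟩ := H42.Subf.lang R Z σ (C := Pl k δ) (E.hC R Z hδ) _ _ (hn_half X) le_rfl
    v hv h
  exact ⟨u0, h1, h2, mem_L_of_U R σ Z (by rw [U_eq_Vk R]; exact h1) h2, h3⟩

variable {zl : List ℕ} {H : Subgroup (GL D.Idx k)}

/-- elements stabilising the top line -/
theorem LH.rat_top (E : LH R X m lng) (Z : Lex X.rc) (B : BH R X zl) (C : Ctx R X σ H)
    {z : GL D.Idx k} (hz : z ∈ H) (h : z ∈ Pl k (H42.Subf.top X.rc)) : Fr (D := D) σ z = z :=
  par_red R Z σ C E.dif (Vk_le_Pl_top R Z) E.st (borel_rat R Z σ B C) hz h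

/-- elements stabilising a long line -/
theorem LH.rat_line (E : LH R X m lng) (Z : Lex X.rc) (B : BH R X zl) (C : Ctx R X σ H)
    {δ : Fin D.nroots} (hδ : lng δ = true)
    {z : GL D.Idx k} (hz : z ∈ H) (h : z ∈ Pl k δ) : Fr (D := D) σ z = z := by
  obtain ⟨w, hw, rfl⟩ := E.orb' R Z hδ
  obtain ⟨l, rfl⟩ := (comb X).exists_word hw
  set n := (chevSys R X).nw l with hn
  have hnL : n ∈ L R σ := nw_mem_L R X σ l
  have hrep := ((chevSys R X).rep_nw l).inv
  have h1 : n⁻¹ * z * n⁻¹⁻¹ ∈ Pl k (H42.Subf.top X.rc) := by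
    have := conj_Pl R hrep _ h
    simpa using this
  have h2 := E.rat_top R σ Z B C (H.mul_mem (H.mul_mem (H.inv_mem (C.hL hnL)) hz)
    (H.inv_mem (H.inv_mem (C.hL hnL)))) h1
  simp only [map_mul, map_inv, Fr_L R σ hnL] at h2
  have h3 := congrArg (fun x => n * x * n⁻¹) h2
  simpa [mul_assoc] using h3

/-- root elements not opposite to the highest root -/
theorem LH.rat_y (E : LH R X m lng) (Z : Lex X.rc) (B : BH R X zl) (C : Ctx R X σ H)
    {β : Fin D.nroots} (hβ : lng β = true) (hne : (β : ℕ) ≠ D.neg (D.nroots - 1)) {c : k}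
    (hc : c ≠ 0) {v : GL D.Idx k} (hv : v ∈ Vk R X.rc.half) (hy : v * xg R β c * v⁻¹ ∈ H) :
    Fr (D := D) σ (v * xg R β c * v⁻¹) = v * xg R β c * v⁻¹ := by
  have hvt := Vk_le_Pl_top R Z hv
  rcases E.pr β hβ hne with h | ⟨δ, hδ, N, hN, hct, hβt, h1, h2⟩
  · exact E.rat_top R σ Z B C hy ((Pl k _).mul_mem ((Pl k _).mul_mem hvt (h c)) ((Pl k _).inv_mem hvt))
  · set y := v * xg R β c * v⁻¹ with hy0
    have hθ : D.nroots - 1 < D.nroots := H47.ChevLong.top_lt X.rc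
    have hvU : v ∈ (chevSys R X).U := by rw [U_eq_Vk R]; exact hv
    have hcv := H47.ChevLong.U_comm R Z hvU 1
    -- the commutator with the highest root
    have hw : wg R (D.commWord k (D.nroots - 1) β 1 c) = xg R δ ((N : k) * (-1) * c) := by
      unfold ChevalleyDatum.commWord
      rw [hct]
      simp [wg]
    have hcom := comm_g R hθ β.2 hβt hne 1 c
    rw [hw] at hcom
    set c2 : k := (N : k) * (-1) * c with hc2
    have hc20 : c2 ≠ 0 := mul_ne_zero (mul_ne_zero hN (by simp)) hc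
    have hxθ : xg R (D.nroots - 1) (1 : k) ∈ H := C.hL (xg_mem_L R σ (map_one σ))
    have hy1 : y⁻¹ * ((xg R (D.nroots - 1) 1)⁻¹ * y * xg R (D.nroots - 1) 1) =
        v * xg R δ c2 * v⁻¹ := by
      have e1 : (xg R (D.nroots - 1) (1 : k))⁻¹ * v = v * (xg R (D.nroots - 1) 1)⁻¹ :=
        (hcv.inv_right).eq.symm
      have e2 : v⁻¹ * xg R (D.nroots - 1) (1 : k) = xg R (D.nroots - 1) 1 * v⁻¹ :=
        (hcv.inv_left).eq
      calc y⁻¹ * ((xg R (D.nroots - 1) 1)⁻¹ * y * xg R (D.nroots - 1) 1)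
          = v * (xg R β c)⁻¹ * v⁻¹ * (((xg R (D.nroots - 1) 1)⁻¹ * v) * xg R β c *
              (v⁻¹ * xg R (D.nroots - 1) 1)) := by rw [hy0]; simp [mul_assoc]
        _ = v * (xg R β c)⁻¹ * ((xg R (D.nroots - 1) 1)⁻¹ * (xg R β c *
              xg R (D.nroots - 1) 1)) * v⁻¹ := by rw [e1, e2]; simp [mul_assoc]
        _ = _ := by rw [hcom]; simp [mul_assoc]
    have hy1H : v * xg R δ c2 * v⁻¹ ∈ H := by
      rw [← hy1]
      exact H.mul_mem (H.inv_mem hy) (H.mul_mem (H.mul_mem (H.inv_mem hxθ) hy) hxθ)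
    have hr := E.rat_top R σ Z B C hy1H
      ((Pl k _).mul_mem ((Pl k _).mul_mem hvt (h1 c2)) ((Pl k _).inv_mem hvt))
    rw [map_mul, map_mul, map_inv, Fr_xg] at hr
    obtain ⟨w, hw', hwδ⟩ := E.orb' R Z hδ
    have hg : v⁻¹ * Fr (D := D) σ v ∈ Pl k δ := by
      have hvG : v ∈ D.group k := by
        rw [← chevSys_Γ R X]; exact (chevSys R X).B_le_Γ ((chevSys R X).U_le_B hvU)
      have h3 : (v⁻¹ * Fr (D := D) σ v) * xg R δ (σ c2) * (v⁻¹ * Fr (D := D) σ v)⁻¹ = xg R δ c2 := by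
        have : (v⁻¹ * Fr (D := D) σ v) * xg R δ (σ c2) * (v⁻¹ * Fr (D := D) σ v)⁻¹ =
          v⁻¹ * (Fr (D := D) σ v * xg R δ (σ c2) * (Fr (D := D) σ v)⁻¹) * v := by simp [mul_assoc]
        rw [this, hr]; simp [mul_assoc]
      have h4 := mem_Pl_of_conj R Z (g := v⁻¹ * Fr (D := D) σ v)
        ((D.group k).mul_mem ((D.group k).inv_mem hvG) (Fr_group σ hvG)) hw' (s := σ c2)
        ((map_ne_zero σ).2 hc20)
      rw [hwδ] at h4
      exact h4 (by rw [h3]; exact xg_mem R _ _)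
    obtain ⟨u0, hu0, hfu0, hu0L, hv2⟩ := E.lang R σ Z hδ hv hg
    have hy' : u0⁻¹ * y * u0 ∈ H := H.mul_mem (H.mul_mem (H.inv_mem (C.hL hu0L)) hy) (C.hL hu0L)
    have hy'δ : u0⁻¹ * y * u0 ∈ Pl k δ := by
      have : u0⁻¹ * y * u0 = (u0⁻¹ * v) * xg R β c * (u0⁻¹ * v)⁻¹ := by rw [hy0]; simp [mul_assoc]
      rw [this]
      exact (Pl k δ).mul_mem ((Pl k δ).mul_mem hv2 (h2 c)) ((Pl k δ).inv_mem hv2)
    have h5 := E.rat_line R σ Z B C hδ hy' hy'δ
    rw [map_mul, map_mul, map_inv, hfu0] at h5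
    have h6 := congrArg (fun x => u0 * x * u0⁻¹) h5
    simpa [mul_assoc] using h6

/-- an element whose conjugate of the root element is rational is rational -/
theorem LH.rat_x (E : LH R X m lng) (Z : Lex X.rc) (B : BH R X zl) (C : Ctx R X σ H)
    {x : GL D.Idx k} (hx : x ∈ H)
    (hy : Fr (D := D) σ (x * xg R (D.nroots - 1) 1 * x⁻¹) = x * xg R (D.nroots - 1) 1 * x⁻¹) :
    Fr (D := D) σ x = x := by
  have hxG := C.hG hx
  set c := x⁻¹ * Fr (D := D) σ x with hc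
  have hcG : c ∈ D.group k := (D.group k).mul_mem ((D.group k).inv_mem hxG) (Fr_group σ hxG)
  rw [map_mul, map_mul, map_inv, Fr_xg, map_one] at hy
  have hcθ : c ∈ Pl k (H42.Subf.top X.rc) := by
    refine mem_Pl_of_conj_top R Z hcG (s := 1) one_ne_zero ?_
    have : c * xg R (D.nroots - 1) 1 * c⁻¹ = x⁻¹ * (Fr (D := D) σ x * xg R (D.nroots - 1) 1 *
      (Fr (D := D) σ x)⁻¹) * x := by rw [hc]; simp [mul_assoc]
    rw [this, hy]
    have e : x⁻¹ * (x * xg R (D.nroots - 1) 1 * x⁻¹) * x = xg R (D.nroots - 1) (1 : k) := by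
      simp [mul_assoc]
    rw [e]; exact xg_mem R _ _
  have hxΓ : x ∈ (chevSys R X).Γ := by rw [chevSys_Γ]; exact hxG
  set S := chevSys R X with hS
  obtain ⟨b, hb, n, w, hn, u, hu, ex⟩ := S.normal_form hxΓ
  obtain ⟨l, rfl⟩ := (comb X).exists_word hn.2.1
  have hl := S.rep_nw l
  obtain ⟨h0, hh0, rfl⟩ : ∃ h0 ∈ S.H, n = h0 * S.nw l := by
    refine ⟨n * (S.nw l)⁻¹, ?_, by simp⟩
    have := hn.mul hl.inv
    rw [mul_inv_cancel] at this
    exact S.mem_H_of_rep_one this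
  have hb' : b * h0 ∈ S.B := S.B.mul_mem hb (S.H_le_B hh0)
  obtain ⟨v, hv, t, ht, ev⟩ := S.mem_B.1 hb'
  have hnL : S.nw l ∈ L R σ := nw_mem_L R X σ l
  have hnf : Fr (D := D) σ (S.nw l) = S.nw l := Fr_L R σ hnL
  set p := (S.nw l)⁻¹ * t * S.nw l * u with hp
  have hpB : p ∈ S.B := S.B.mul_mem (S.H_le_B (S.N_inv_conj_H (S.nw_mem_N l) ht))
    (S.U_le_B (S.Um_le_U _ hu))
  have ex2 : x = v * S.nw l * p := by
    have : x = (b * h0) * S.nw l * u := by rw [ex]; simp only [mul_assoc]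
    rw [this, ev, hp]; simp [mul_assoc]
  have hpθ := B_le_Pl_top R Z hpB
  have hFpθ := B_le_Pl_top R Z (Fr_B R X σ hpB)
  have hv' : v ∈ Vk R X.rc.half := by rw [← U_eq_Vk R]; exact hv
  set δ := (comb X).w l (H42.Subf.top X.rc) with hδ0
  have hδ : lng δ = true := E.lng_of R ((comb X).w_mem l)
  have hg : v⁻¹ * Fr (D := D) σ v ∈ Pl k δ := by
    have h1 : c = p⁻¹ * ((S.nw l)⁻¹ * (v⁻¹ * Fr (D := D) σ v) * S.nw l) * Fr (D := D) σ p := by
      rw [hc, ex2]; simp only [map_mul, hnf]; simp [mul_assoc]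
    rw [h1, Subgroup.mul_mem_cancel_right _ hFpθ, Subgroup.mul_mem_cancel_left _
      ((Pl k _).inv_mem hpθ)] at hcθ
    have h2 := conj_Pl R hl _ hcθ
    have h3 : S.nw l * ((S.nw l)⁻¹ * (v⁻¹ * Fr (D := D) σ v) * S.nw l) * (S.nw l)⁻¹ =
      v⁻¹ * Fr (D := D) σ v := by simp [mul_assoc]
    rwa [h3] at h2
  obtain ⟨u0, hu0, hfu0, hu0L, hv2⟩ := E.lang R σ Z hδ hv' hg
  have h4 : (u0 * S.nw l)⁻¹ * x ∈ Pl k (H42.Subf.top X.rc) := by
    have h5 : (u0 * S.nw l)⁻¹ * x = ((S.nw l)⁻¹ * (u0⁻¹ * v) * S.nw l) * p := by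
      rw [ex2]; simp [mul_assoc]
    rw [h5]
    refine (Pl k _).mul_mem ?_ hpθ
    have h6 := conj_Pl R hl.inv _ hv2
    have h7 : ((comb X).w l)⁻¹ δ = H42.Subf.top X.rc := ((comb X).w l).symm_apply_apply _
    rw [h7, inv_inv] at h6
    exact h6
  have hunH : u0 * S.nw l ∈ H := H.mul_mem (C.hL hu0L) (C.hL hnL)
  have h5 := E.rat_top R σ Z B C (H.mul_mem (H.inv_mem hunH) hx) h4
  rw [map_mul, map_inv, map_mul, hfu0, hnf] at h5
  exact mul_left_cancel h5

/-- decomposition of the conjugate -/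
theorem conj_form (Z : Lex X.rc) {b n u : GL D.Idx k} {w : Equiv.Perm (Fin D.nroots)}
    (hb : b ∈ (chevSys R X).B) (hn : (chevSys R X).Rep n w) (hu : u ∈ (chevSys R X).U) :
    ∃ v ∈ Vk R X.rc.half, ∃ c : k, c ≠ 0 ∧ (b * n * u) * xg R (D.nroots - 1) 1 * (b * n * u)⁻¹ =
      v * xg R (w (H42.Subf.top X.rc)) c * v⁻¹ := by
  set S := chevSys R X with hS
  obtain ⟨v, hv, t, ht, rfl⟩ := S.mem_B.1 hb
  have hcu := H47.ChevLong.U_comm R Z hu 1
  have hX : xg R (D.nroots - 1) (1 : k) ∈ S.X (H42.Subf.top X.rc) := xg_mem R _ _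
  have h1 : (t * n) * xg R (D.nroots - 1) 1 * (t * n)⁻¹ ∈ S.X (w (H42.Subf.top X.rc)) := by
    have := (S.rep_H ht).mul hn
    rw [one_mul] at this
    rw [← this.2.2]; exact conj_mem_cj hX
  obtain ⟨c, hc⟩ := (mem_rootSubgroup R).1 h1
  refine ⟨v, by rw [← U_eq_Vk R]; exact hv, c, ?_, ?_⟩
  · rintro rfl
    rw [xg_zero] at hc
    have : xg R (D.nroots - 1) (1 : k) = 1 := by
      have := congrArg (fun x => (t * n)⁻¹ * x * (t * n)) hc
      simpa [mul_assoc] using this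
    exact xg_one_ne R X.rc (H47.ChevLong.top_lt X.rc) this
  · have e : u * xg R (D.nroots - 1) 1 * u⁻¹ = xg R (D.nroots - 1) (1 : k) := by rw [hcu.eq]; simp
    calc (v * t * n * u) * xg R (D.nroots - 1) 1 * (v * t * n * u)⁻¹
        = v * ((t * n) * (u * xg R (D.nroots - 1) 1 * u⁻¹) * (t * n)⁻¹) * v⁻¹ := by
          simp [mul_assoc]
      _ = _ := by rw [e, hc]

/-- elements not mapping the highest line to an opposite one are rational -/
theorem LH.rat_ne (E : LH R X m lng) (Z : Lex X.rc) (B : BH R X zl) (C : Ctx R X σ H)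
    {x : GL D.Idx k} (hx : x ∈ H) {b n u : GL D.Idx k} {w : Equiv.Perm (Fin D.nroots)}
    (hb : b ∈ (chevSys R X).B) (hn : (chevSys R X).Rep n w) (hu : u ∈ (chevSys R X).U)
    (ex : x = b * n * u) (hne : ((w (H42.Subf.top X.rc) : Fin D.nroots) : ℕ) ≠ D.neg (D.nroots - 1)) :
    Fr (D := D) σ x = x := by
  apply E.rat_x R σ Z B C hx
  obtain ⟨v, hv, c, hc, e⟩ := conj_form R Z hb hn hu
  rw [ex, e]
  refine E.rat_y R σ Z B C (E.lng_of R hn.2.1) hne hc hv ?_
  rw [← e, ← ex]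
  exact H.mul_mem (H.mul_mem hx (C.hL (xg_mem_L R σ (map_one σ)))) (H.inv_mem hx)

end H42.Subf
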