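import Cfsg.Agent.Lib.H51.SL2Pair2
import Cfsg.Agent.Lib.H23.SL2Hom

/-!
Overgroups of subfield subgroups, part F: `-1` lies in the group generated by two opposite
transvections (odd characteristic).
-/

set_option autoImplicit false
set_option linter.style.haveILetI false
set_option linter.unusedSectionVars false
set_option linter.unusedSimpArgs false

namespace H42.SubfSL

open Matrix H23.SL2Hom H51.SL2Pair H51.SL2Pair2
open scoped MatrixGroups Polynomial

variable {k : Type*} [Field k] {p : ℕ} [hp : Fact p.Prime] [CharP k p]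

theorem cayley (M : Matrix (Fin 2) (Fin 2) k) (hM : M.det = 1) : M * M = M.trace • M - 1 := by
  rw [Matrix.det_fin_two] at hM
  ext i j
  rw [Matrix.mul_apply, Fin.sum_univ_two, Matrix.sub_apply, Matrix.smul_apply, Matrix.trace_fin_two,
    smul_eq_mul]
  fin_cases i <;> fin_cases j <;> simp
  · linear_combination -hM
  · ring
  · ring
  · linear_combination -hM

theorem pow_form [Algebra (ZMod p) k] (M : Matrix (Fin 2) (Fin 2) k) (hM : M.det = 1) :
    ∀ j : ℕ, ∃ f g : (ZMod p)[X], f.Monic ∧ f.natDegree = j ∧ g.degree < ((j + 1 : ℕ) : WithBot ℕ) ∧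
      M ^ (j + 1) = Polynomial.aeval M.trace f • M + Polynomial.aeval M.trace g • (1 : Matrix (Fin 2) (Fin 2) k) := by
  intro j
  induction j with
  | zero => exact ⟨1, 0, Polynomial.monic_one, by simp, by simp, by simp⟩
  | succ j ih =>
    obtain ⟨f, g, h1, h2, h3, h4⟩ := ih
    have hXf : (Polynomial.X * f).Monic := Polynomial.monic_X.mul h1
    have hdeg : (Polynomial.X * f).degree = ((j + 1 : ℕ) : WithBot ℕ) := by
      rw [Polynomial.degree_eq_natDegree hXf.ne_zero, Polynomial.natDegree_X_mul h1.ne_zero, h2]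
    refine ⟨Polynomial.X * f + g, -f, hXf.add_of_left (by rw [hdeg]; exact h3), ?_, ?_, ?_⟩
    · have := Polynomial.degree_add_eq_left_of_degree_lt (p := Polynomial.X * f) (q := g)
        (by rw [hdeg]; exact h3)
      rw [hdeg] at this
      exact Polynomial.natDegree_eq_of_degree_eq_some this
    · rw [Polynomial.degree_neg, Polynomial.degree_eq_natDegree h1.ne_zero, h2]
      exact_mod_cast (by omega : j < j + 1 + 1)
    · rw [pow_succ, h4, add_mul, smul_mul_assoc, smul_mul_assoc, one_mul, cayley M hM]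
      simp only [map_add, map_mul, Polynomial.aeval_X, map_neg]
      rw [smul_sub, smul_smul, add_smul, neg_smul, mul_comm M.trace]
      abel

theorem isIntegral_trace [Algebra (ZMod p) k] (M : Matrix (Fin 2) (Fin 2) k) (hM : M.det = 1)
    {i j : Fin 2} (hij : i ≠ j) (h0 : M i j ≠ 0) {N : ℕ} (hN : 1 ≤ N) (h : M ^ N = 1) :
    IsIntegral (ZMod p) M.trace := by
  obtain ⟨n, rfl⟩ := Nat.exists_eq_add_of_le' hN
  obtain ⟨f, g, h1, h2, h3, h4⟩ := pow_form M hM n
  rw [h] at h4
  have h5 := congrFun (congrFun h4 i) j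
  rw [Matrix.add_apply, Matrix.smul_apply, Matrix.smul_apply, Matrix.one_apply_ne hij, smul_zero,
    add_zero, smul_eq_mul] at h5
  refine ⟨f, h1, ?_⟩
  have h6 : Polynomial.aeval M.trace f = 0 := (mul_eq_zero.1 h5.symm).resolve_right h0
  rwa [Polynomial.aeval_def] at h6

/-- the main lemma -/
theorem neg_one_mem (hp2 : p ≠ 2) {c : k} (hc : c ≠ 0) {N : ℕ} (hN : 1 ≤ N)
    (h : (xm 1 * ym c : SL(2, k)) ^ N = 1) {K : Subgroup SL(2, k)} (h1 : xm 1 ∈ K) (h2 : ym c ∈ K) :
    -1 ∈ K := by
  letI : Algebra (ZMod p) k := ZMod.algebra k p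
  have htr : ((xm 1 * ym c : SL(2, k)) : Matrix (Fin 2) (Fin 2) k).trace = 2 + c := by
    rw [Matrix.trace_fin_two, mul_e, mul_e]
    simp [xm00, xm01, xm10, xm11, ym00, ym01, ym10, ym11]; ring
  have hint : IsIntegral (ZMod p) (2 + c) := by
    rw [← htr]
    refine isIntegral_trace _ (xm 1 * ym c : SL(2, k)).2 (i := 0) (j := 1) (by simp) ?_ hN ?_
    · have : ((xm 1 * ym c : SL(2, k)) : Matrix (Fin 2) (Fin 2) k) 0 1 = 1 := by
        rw [mul_e]; simp [xm00, xm01, ym01, ym11]
      rw [this]; exact one_ne_zero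
    · have key : ∀ (A : SL(2, k)) (n : ℕ), (A ^ n).1 = A.1 ^ n := by
        intro A n
        induction n with
        | zero => rfl
        | succ n ih => rw [pow_succ, pow_succ, ← ih]; rfl
      have := congrArg Subtype.val h
      rw [key] at this
      exact this
  have hint2 : IsIntegral (ZMod p) c := by
    have h2 : IsIntegral (ZMod p) (2 : k) := by
      have : (2 : k) = algebraMap (ZMod p) k 2 := by rw [map_ofNat]
      rw [this]; exact isIntegral_algebraMap
    have := hint.sub h2
    rwa [add_sub_cancel_left] at this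
  set E := IntermediateField.adjoin (ZMod p) {c} with hE
  haveI : FiniteDimensional (ZMod p) E := IntermediateField.adjoin.finiteDimensional hint2
  haveI : Finite E := Module.finite_of_finite (ZMod p)
  haveI : CharP E p := (algebraMap E k).charP (algebraMap E k).injective p
  set c0 : E := ⟨c, IntermediateField.mem_adjoin_simple_self (ZMod p) c⟩ with hc0
  set ι : SL(2, E) →* SL(2, k) := SpecialLinearGroup.map (algebraMap E k) with hι
  have hι' : ∀ (A : SL(2, E)) (i j : Fin 2), ι A i j = algebraMap E k (A i j) := fun _ _ _ => rfl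
  have hone : ((1 : SL(2, E)) 0 0 = 1 ∧ (1 : SL(2, E)) 0 1 = 0 ∧
      (1 : SL(2, E)) 1 0 = 0 ∧ (1 : SL(2, E)) 1 1 = 1) := by
    refine ⟨?_, ?_, ?_, ?_⟩
    · show (1 : Matrix (Fin 2) (Fin 2) E) 0 0 = 1; simp
    · show (1 : Matrix (Fin 2) (Fin 2) E) 0 1 = 0; simp
    · show (1 : Matrix (Fin 2) (Fin 2) E) 1 0 = 0; simp
    · show (1 : Matrix (Fin 2) (Fin 2) E) 1 1 = 1; simp
  have hx : ι (xm 1) = xm 1 := by
    ext i j
    rw [hι']
    fin_cases i <;> fin_cases j <;> simp [xm00, xm01, xm10, xm11]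
  have hy : ι (ym c0) = ym c := by
    ext i j
    rw [hι']
    fin_cases i <;> fin_cases j <;> simp [ym00, ym01, ym10, ym11, hc0]
  have hpE : ((p : ℕ) : E) = 0 := CharP.cast_eq_zero E p
  have hxp : (xm 1 : SL(2, E)) ^ p = 1 := by
    have key : ∀ n : ℕ, (xm 1 : SL(2, E)) ^ n = xm (n : E) := by
      intro n
      induction n with
      | zero =>
        rw [pow_zero]
        ext i j
        fin_cases i <;> fin_cases j <;> simp [xm00, xm01, xm10, xm11, hone]
      | succ n ih =>
        rw [pow_succ, ih]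
        ext i j
        rw [mul_e]
        fin_cases i <;> fin_cases j <;> simp [xm00, xm01, xm10, xm11]
        ring
    rw [key, hpE]
    ext i j
    fin_cases i <;> fin_cases j <;> simp [xm00, xm01, xm10, xm11, hone]
  have hyp : (ym c0 : SL(2, E)) ^ p = 1 := by
    have key : ∀ n : ℕ, (ym c0 : SL(2, E)) ^ n = ym ((n : E) * c0) := by
      intro n
      induction n with
      | zero =>
        rw [pow_zero]
        ext i j
        fin_cases i <;> fin_cases j <;> simp [ym00, ym01, ym10, ym11, hone]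
      | succ n ih =>
        rw [pow_succ, ih]
        ext i j
        rw [mul_e]
        fin_cases i <;> fin_cases j <;> simp [ym00, ym01, ym10, ym11]
        ring
    rw [key, hpE, zero_mul]
    ext i j
    fin_cases i <;> fin_cases j <;> simp [ym00, ym01, ym10, ym11, hone]
  have hc0' : c0 ≠ 0 := by
    intro h
    exact hc (congrArg Subtype.val h)
  have hnc : (xm 1 * ym c0 : SL(2, E)) ≠ ym c0 * xm 1 := by
    intro h
    have := congrArg (fun A : SL(2, E) => (A : Matrix (Fin 2) (Fin 2) E) 0 0) h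
    simp only [mul_e, xm00, xm01, xm10, xm11, ym00, ym01, ym10, ym11] at this
    apply hc0'
    linear_combination this
  have hgood : Good p (K.comap ι) := dickson hp2 (x := xm 1) (y := ym c0)
    (by rw [Subgroup.mem_comap, hx]; exact h1) (by rw [Subgroup.mem_comap, hy]; exact h2) hxp hyp hnc
  obtain ⟨φ, hinj, hran, g, hφ⟩ := exists_hom hgood
  have h3 : φ (-1) ∈ K.comap ι := hran ⟨-1, rfl⟩
  have h4 : φ (-1) = -1 := by
    rw [hφ]
    have e1 : SpecialLinearGroup.map (ZMod.castHom (dvd_refl p) E) (-1 : SL(2, ZMod p)) = -1 := by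
      ext i j
      fin_cases i <;> fin_cases j <;> simp
    rw [e1]
    apply Subtype.ext
    show (g⁻¹ : GL (Fin 2) E).1 * (-1 : SL(2, E)).1 * g.1 = (-1 : SL(2, E)).1
    have e2 : ((-1 : SL(2, E)) : Matrix (Fin 2) (Fin 2) E) = -1 := by simp
    have e3 : (-1 : SL(2, E)).1 = -1 := e2
    rw [e3, mul_neg, mul_one, neg_mul, ← Units.val_mul, inv_mul_cancel, Units.val_one]
  rw [h4, Subgroup.mem_comap] at h3
  have h5 : ι (-1) = -1 := by
    ext i j
    fin_cases i <;> fin_cases j <;> simp [hι]
  rwa [h5] at h3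

end H42.SubfSL
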