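import Cfsg.Agent.Lib.H42.SubfE
import Cfsg.Agent.Lib.H42.SubfF
import Cfsg.Agent.Lib.H42.InvSL
import Cfsg.Agent.Lib.H23.ChevH2

/-!
Overgroups of subfield subgroups, part G: odd characteristic.
-/

set_option autoImplicit false
set_option linter.unusedVariables false
set_option linter.unusedSectionVars false
set_option linter.unusedSimpArgs false
set_option linter.style.haveILetI false

namespace H42.Subf

open H22.RGD H22.Coord H22.RCCheck H22.RCComb H22.ChevTri H22.ChevRel H22.ChevSys H22.ChevMain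
open H22.ChevStd H22.ChevUni H47.ChevSub
open H23.SL2Hom (xm ym)
open Cfsg.Lie (ChevalleyDatum)
open scoped MatrixGroups Matrix

variable {D : ChevalleyDatum} {k : Type*} [Field k] (R : Rel D k) {X : RCX D} (Z : Lex X.rc)
variable (σ : k →+* k)

/-- the lowest root -/
def bot (Q : RC D) : Fin D.nroots := ⟨D.neg (D.nroots - 1), neg_lt Q (H47.ChevLong.top_lt Q)⟩

include Z in
/-- the last row of an element of `U` -/
theorem row_bot {u : GL D.Idx k} (hu : u ∈ Vk R X.rc.half) (v : D.Idx → k) :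
    ((u : Matrix D.Idx D.Idx k) *ᵥ v) (Sum.inr (bot X.rc)) = v (Sum.inr (bot X.rc)) := by
  unfold Vk at hu
  induction hu using Subgroup.closure_induction generalizing v with
  | mem x hx =>
    obtain ⟨r, t, h1, h2, rfl⟩ := hx
    rw [xg_val]
    show ∑ j, D.x k r t (Sum.inr (bot X.rc)) j * v j = _
    rw [Finset.sum_eq_single (Sum.inr (bot X.rc))]
    · rw [x_diag k X.rc h2, one_mul]
    · intro b _ hb
      by_cases h0 : D.x k r t (Sum.inr (bot X.rc)) b = 0
      · rw [h0, zero_mul]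
      · exfalso
        obtain ⟨i, hi, e⟩ := fn_entry X.rc Z.c h2 t h0 (Ne.symm hb)
        have h3 := Z.pos h2 h1
        have h4 : 0 < (i : ℤ) * fr X.rc Z.c r := mul_pos (by exact_mod_cast hi) h3
        have hθ := H47.ChevLong.top_lt X.rc
        have h5 : fn X.rc Z.c (Sum.inr (bot X.rc)) = - fr X.rc Z.c (D.nroots - 1) := by
          rw [fn_inr]; exact fr_neg X.rc _ hθ
        rw [h5] at e
        have h6 := Z.pos hθ (H47.ChevLong.top_pos X.rc)
        rcases b with b | b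
        · rw [fn_inl] at e; linarith
        · rw [fn_inr] at e
          have h7 := fr_neg X.rc Z.c b.2
          have h8 : fr X.rc Z.c (D.nroots - 1) < fr X.rc Z.c (D.neg b) := by rw [h7]; linarith
          have h9 := (Z.lt_iff hθ (neg_lt X.rc b.2)).1 h8
          have := neg_lt X.rc b.2
          omega
    · intro h; exact absurd (Finset.mem_univ _) h
  | one => simp
  | mul x y _ _ hx hy => rw [Units.val_mul, ← Matrix.mulVec_mulVec, hx, hy]
  | inv x _ hx =>
    have := hx (((x⁻¹ : GL D.Idx k) : Matrix D.Idx D.Idx k) *ᵥ v)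
    rw [Matrix.mulVec_mulVec, ← Units.val_mul, mul_inv_cancel, Units.val_one, Matrix.one_mulVec] at this
    exact this.symm

theorem sl2 (C : H23.ChevCore.Core D) {r : ℕ} (hr : r < D.nroots) :
    ∃ φ : Matrix.SpecialLinearGroup (Fin 2) k →* GL D.Idx k,
      (∀ t, φ (xm t) = xg R r t) ∧ ∀ t, φ (ym t) = xg R (D.neg r) t := by
  obtain ⟨φ, _, h⟩ := H23.ChevH2.sl2_hom (F := k) C hr
  exact ⟨φ, fun t => xg_eq R ((h (xm t) t).1 rfl), fun t => xg_eq R ((h (ym t) t).2 rfl)⟩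

include Z in
/-- `h_θ(-1)` lies in the group generated by opposite root elements -/
theorem hg_mem (C : H23.ChevCore.Core D) {p : ℕ} [Fact p.Prime] [CharP k p] (hp2 : p ≠ 2) {c : k}
    (hc : c ≠ 0) {K : Subgroup (GL D.Idx k)} [Finite K] (h1 : xg R (D.nroots - 1) 1 ∈ K)
    (h2 : xg R (D.neg (D.nroots - 1)) c ∈ K) : hg R (D.nroots - 1) (-1) ∈ K := by
  have hθ := H47.ChevLong.top_lt X.rc
  obtain ⟨φ, hx, hy⟩ := sl2 R C hθ
  have hN : ∀ e : k, φ (H23.SL2Hom.N xm ym e) = ng R (D.nroots - 1) e := by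
    intro e
    unfold H23.SL2Hom.N
    rw [map_mul, map_mul, hx, hy, ng_def]
  have hH : ∀ e : k, φ (H23.SL2Hom.H xm ym e) = hg R (D.nroots - 1) e := by
    intro e
    unfold H23.SL2Hom.H
    rw [map_mul, hN, hN, hg_def]
  have hxU : ∀ t : k, xg R (D.nroots - 1) t ∈ Vk R X.rc.half := fun t =>
    xg_mem_Vk R (H47.ChevLong.top_pos X.rc) hθ t
  set M : SL(2, k) := xm 1 * ym c with hM
  -- the order
  have hφM : φ M ∈ K := by rw [hM, map_mul, hx, hy]; exact K.mul_mem h1 h2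
  obtain ⟨n, hn, hpow⟩ : ∃ n, 1 ≤ n ∧ (φ M) ^ n = 1 := by
    refine ⟨Nat.card K, Nat.card_pos, ?_⟩
    have := pow_card_eq_one' (x := (⟨φ M, hφM⟩ : K))
    exact congrArg Subtype.val this
  have hker : φ (M ^ n) = 1 := by rw [map_pow]; exact hpow
  set B := M ^ n with hB
  have h10 : B 1 0 = 0 := by
    by_contra hne
    have e1 : B = xm (B 0 0 / B 1 0) * H23.SL2Hom.N xm ym (-(B 1 0)⁻¹) * xm (B 1 1 / B 1 0) := by
      have := H23.SL2Hom.Phi_self B
      unfold H23.SL2Hom.Phi at this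
      rw [if_neg hne] at this
      exact this.symm
    have e2 := congrArg φ e1
    rw [hker, map_mul, map_mul, hx, hx, hN, ng_def] at e2
    have e3 := congrArg (fun g : GL D.Idx k =>
      ((g : Matrix D.Idx D.Idx k) *ᵥ ev D k (top X.rc)) (Sum.inr (bot X.rc))) e2
    have htop : ∀ t : k, ((xg R (D.nroots - 1) t : GL D.Idx k) : Matrix D.Idx D.Idx k) *ᵥ
        ev D k (top X.rc) = ev D k (top X.rc) := by
      intro t
      obtain ⟨c', hc', e'⟩ := Vk_le_Pl_top R Z (hxU t)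
      have h3 := congrFun e' (Sum.inr (top X.rc))
      rw [mv_ev, Pi.smul_apply, ev_same, xg_val, x_diag k X.rc hθ] at h3
      have : c' = 1 := by simpa using h3.symm
      rw [e', this, one_smul]
    simp only [Units.val_mul, Units.val_one, ← Matrix.mulVec_mulVec, htop, Matrix.one_mulVec] at e3
    rw [row_bot R Z (hxU _), row_bot R Z (hxU _), mv_ev, xg_val] at e3
    have hne' : (Sum.inr (bot X.rc) : D.Idx) ≠ Sum.inr (top X.rc) := by
      intro h
      have := congrArg Fin.val (Sum.inr_injective h)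
      simp only [bot, top] at this
      rw [X.rc.neg_eq _ hθ] at this
      have := X.rc.nroots_eq
      have := X.rc.half_pos
      omega
    rw [ev_of_ne hne'] at e3
    have h4 := x_neg_entry (F := k) X.rc (neg_lt X.rc hθ) (-(-(B 1 0)⁻¹)⁻¹)
    have h5 : (⟨D.neg (D.neg (D.nroots - 1)), neg_lt X.rc (neg_lt X.rc hθ)⟩ : Fin D.nroots) =
        top X.rc := Fin.ext (by simp only [top]; exact neg_neg X.rc hθ)
    rw [h5] at h4
    have h6 : D.x k (D.neg (D.nroots - 1)) (-(-(B 1 0)⁻¹)⁻¹) (Sum.inr (bot X.rc))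
        (Sum.inr (top X.rc)) = -(-(-(B 1 0)⁻¹)⁻¹) ^ 2 := h4
    rw [h6] at e3
    have h7 : (-(-(B 1 0)⁻¹)⁻¹) ^ 2 = 0 := by
      have := e3.symm; rwa [neg_eq_zero] at this
    have h8 := pow_eq_zero_iff (two_ne_zero) |>.1 h7
    rw [neg_eq_zero, inv_eq_zero, neg_eq_zero, inv_eq_zero] at h8
    exact hne h8
  have hdet : B 0 0 * B 1 1 - B 0 1 * B 1 0 = 1 := by
    have := B.2; rwa [Matrix.det_fin_two] at this
  rw [h10, mul_zero, sub_zero] at hdet
  have h00 : B 0 0 ≠ 0 := by intro h; rw [h, zero_mul] at hdet; exact zero_ne_one hdet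
  have h01 : B 0 1 = 0 := by
    have e1 : B = xm (B 0 0 * B 0 1) * H23.SL2Hom.H xm ym (B 0 0) := by
      have := H23.SL2Hom.Phi_self B
      unfold H23.SL2Hom.Phi at this
      rw [if_pos h10] at this
      exact this.symm
    have e2 := congrArg φ e1
    rw [hker, map_mul, hx, hH] at e2
    have hHs : hg R (D.nroots - 1) (B 0 0) ∈ (chevSys R X).H := by
      rw [chevSys_H, diagonalSubgroup_eq R X]
      exact hg_mem_Hs R X ⟨D.nroots - 1, hθ⟩ h00
    have e3 : xg R (D.nroots - 1) (B 0 0 * B 0 1) = 1 := by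
      apply (chevSys R X).eq_one_of_mem_U_H
      · rw [U_eq_Vk R]; exact hxU _
      · have : xg R (D.nroots - 1) (B 0 0 * B 0 1) = (hg R (D.nroots - 1) (B 0 0))⁻¹ :=
          eq_inv_of_mul_eq_one_left e2.symm
        rw [this]; exact (chevSys R X).H.inv_mem hHs
    rw [← xg_zero R (D.nroots - 1)] at e3
    have := xg_inj R X.rc hθ e3
    exact (mul_eq_zero.1 this).resolve_left h00
  -- the square is trivial
  have hcomm : B * M = M * B := by rw [hB]; exact (Commute.refl M).pow_left n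
  have hM01 : M 0 1 = 1 := by
    rw [hM, H23.SL2Hom.mul_e]
    simp [H23.SL2Hom.xm00, H23.SL2Hom.xm01, H23.SL2Hom.ym01, H23.SL2Hom.ym11]
  have h0011 : B 0 0 = B 1 1 := by
    have := congrArg (fun A : SL(2, k) => A 0 1) hcomm
    simp only [H23.SL2Hom.mul_e, h01, hM01] at this
    linear_combination this
  have hB2 : M ^ (2 * n) = 1 := by
    rw [mul_comm, pow_mul, ← hB, pow_two]
    have hs : B 1 1 * B 1 1 = 1 := by rw [h0011] at hdet; exact hdet
    ext i j
    rw [H23.SL2Hom.mul_e]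
    fin_cases i <;> fin_cases j
    · show B 0 0 * B 0 0 + B 0 1 * B 1 0 = (1 : Matrix (Fin 2) (Fin 2) k) 0 0
      rw [h01, h0011, hs]; simp
    · show B 0 0 * B 0 1 + B 0 1 * B 1 1 = (1 : Matrix (Fin 2) (Fin 2) k) 0 1
      rw [h01]; simp
    · show B 1 0 * B 0 0 + B 1 1 * B 1 0 = (1 : Matrix (Fin 2) (Fin 2) k) 1 0
      rw [h10]; simp
    · show B 1 0 * B 0 1 + B 1 1 * B 1 1 = (1 : Matrix (Fin 2) (Fin 2) k) 1 1
      rw [h01, hs]; simp
  have hm : (-1 : SL(2, k)) ∈ K.comap φ := by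
    refine H42.SubfSL.neg_one_mem hp2 hc (N := 2 * n) (by omega) hB2 ?_ ?_
    · rw [Subgroup.mem_comap, hx]; exact h1
    · rw [Subgroup.mem_comap, hy]; exact h2
  rw [Subgroup.mem_comap] at hm
  have e : (-1 : SL(2, k)) = H23.SL2Hom.H xm ym (-1) := by
    have h3 := H23.SL2Hom.Phi_self (-1 : SL(2, k))
    have h4 : (-1 : SL(2, k)) 1 0 = 0 := by
      show (-(1 : Matrix (Fin 2) (Fin 2) k)) 1 0 = 0
      simp
    have h5 : (-1 : SL(2, k)) 0 1 = 0 := by
      show (-(1 : Matrix (Fin 2) (Fin 2) k)) 0 1 = 0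
      simp
    have h6 : (-1 : SL(2, k)) 0 0 = -1 := by
      show (-(1 : Matrix (Fin 2) (Fin 2) k)) 0 0 = -1
      simp
    unfold H23.SL2Hom.Phi at h3
    rw [if_pos h4, h5, h6, mul_zero] at h3
    have h7 : (xm 0 : SL(2, k)) = 1 := by
      ext i j
      fin_cases i <;> fin_cases j
      · show (1 : k) = (1 : Matrix (Fin 2) (Fin 2) k) 0 0; simp
      · show (0 : k) = (1 : Matrix (Fin 2) (Fin 2) k) 0 1; simp
      · show (0 : k) = (1 : Matrix (Fin 2) (Fin 2) k) 1 0; simp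
      · show (1 : k) = (1 : Matrix (Fin 2) (Fin 2) k) 1 1; simp
    rw [h7, one_mul] at h3
    exact h3.symm
  rw [e, hH] at hm
  exact hm

/-- data for odd characteristic -/
structure OD (R : Rel D k) (X : RCX D) : Prop where
  par : ∀ q < D.nroots, X.rc.half ≤ q → q ≠ D.nroots - 1 →
    (∀ t : k, hg R (D.nroots - 1) (-1) * xg R q t * (hg R (D.nroots - 1) (-1))⁻¹ = xg R q (-t)) ∨
    ((∀ t : k, hg R (D.nroots - 1) (-1) * xg R q t * (hg R (D.nroots - 1) (-1))⁻¹ = xg R q t) ∧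
      ∀ a t : k, Commute (xg R q a) (xg R (D.neg (D.nroots - 1)) t))
  last : ∃ (γ i α γ' : ℕ) (A0 B0 B1 : ℤ), X.rc.half ≤ α ∧ α < γ' ∧ γ' < D.nroots ∧
    (A0 : k) ≠ 0 ∧ (B1 : k) ≠ 0 ∧ ∀ s c : k, ∃ w ∈ Vk R (γ' + 1),
      ns R i * ((xg R (D.nroots - 1) s * xg R (D.neg (D.nroots - 1)) c * (xg R (D.nroots - 1) s)⁻¹) *
        xg R γ 1 * (xg R (D.nroots - 1) s * xg R (D.neg (D.nroots - 1)) c *
          (xg R (D.nroots - 1) s)⁻¹)⁻¹) * (ns R i)⁻¹ =
        xg R α ((A0 : k) * c) * xg R γ' ((B0 : k) + (B1 : k) * s * c) * w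

theorem hg_mem_L (r : ℕ) : hg R r (-1 : k) ∈ L R σ := by
  have h : ∀ t : k, σ t = t → ng R r t ∈ L R σ := by
    intro t ht
    rw [ng_def]
    exact (L R σ).mul_mem ((L R σ).mul_mem (xg_mem_L R σ ht) (xg_mem_L R σ (by
      rw [map_neg, map_inv₀, ht]))) (xg_mem_L R σ ht)
  rw [hg_def]
  exact (L R σ).mul_mem (h _ (by simp)) (h _ (by simp))

variable {m : Fin D.rank} {lng : ℕ → Bool} {zl : List ℕ} {H : Subgroup (GL D.Idx k)}

theorem LH.rat_odd (E : LH R X m lng) (Z : Lex X.rc) (B : BH R X zl) (C : Ctx R X σ H)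
    (Co : H23.ChevCore.Core D) {p : ℕ} [Fact p.Prime] [CharP k p] (hp2 : p ≠ 2) [Finite H]
    (O : OD R X) {x : GL D.Idx k} (hx : x ∈ H) : Fr (D := D) σ x = x := by
  have h2k : (2 : k) ≠ 0 := by
    intro h
    have h1 : ((2 : ℕ) : k) = 0 := by exact_mod_cast h
    rw [CharP.cast_eq_zero_iff k p] at h1
    have := (Nat.prime_dvd_prime_iff_eq Fact.out Nat.prime_two).1 h1
    exact hp2 this
  have hθ := H47.ChevLong.top_lt X.rc
  have hθp := H47.ChevLong.top_pos X.rc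
  apply E.rat_x R σ Z B C hx
  have hxΓ : x ∈ (chevSys R X).Γ := by rw [chevSys_Γ]; exact C.hG hx
  obtain ⟨b, hb, n, w, hn, u, hu, ex⟩ := (chevSys R X).normal_form hxΓ
  have huU := (chevSys R X).Um_le_U w hu
  obtain ⟨v, hv, c, hc, e⟩ := conj_form R Z hb hn huU
  rw [← ex] at e
  have hyH : x * xg R (D.nroots - 1) 1 * x⁻¹ ∈ H :=
    H.mul_mem (H.mul_mem hx (C.hL (xg_mem_L R σ (map_one σ)))) (H.inv_mem hx)
  rw [e] at hyH ⊢
  by_cases hβ : ((w (H42.Subf.top X.rc) : Fin D.nroots) : ℕ) = D.neg (D.nroots - 1)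
  swap
  · exact E.rat_y R σ Z B C (E.lng_of R hn.2.1) hβ hc hv hyH
  rw [hβ] at hyH ⊢
  set y := v * xg R (D.neg (D.nroots - 1)) c * v⁻¹ with hy
  set z0 := hg R (D.nroots - 1) (-1 : k) with hz0
  have hvU : v ∈ (chevSys R X).U := by rw [U_eq_Vk R]; exact hv
  -- z0
  have hz : v * z0 * v⁻¹ ∈ H := by
    set K : Subgroup (GL D.Idx k) := H.map (MulAut.conj v⁻¹).toMonoidHom with hK
    have hKm : ∀ g, g ∈ K ↔ v * g * v⁻¹ ∈ H := by
      intro g
      rw [hK, Subgroup.mem_map]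
      constructor
      · rintro ⟨a, ha, rfl⟩
        have : v * ((MulAut.conj v⁻¹).toMonoidHom a) * v⁻¹ = a := by
          simp [MulAut.conj_apply, mul_assoc]
        rw [this]; exact ha
      · intro h
        refine ⟨_, h, ?_⟩
        simp [MulAut.conj_apply, mul_assoc]
    haveI : Finite K := by
      rw [hK]
      exact Set.Finite.subset (Set.Finite.image _ (Set.toFinite (H : Set (GL D.Idx k))))
        (by rintro _ ⟨a, ha, rfl⟩; exact ⟨a, ha, rfl⟩) |>.to_subtype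
    have h1 : xg R (D.nroots - 1) 1 ∈ K := by
      rw [hKm, (H47.ChevLong.U_comm R Z hvU 1).eq]
      simpa using C.hL (xg_mem_L R σ (s := D.nroots - 1) (map_one σ))
    have h2 : xg R (D.neg (D.nroots - 1)) c ∈ K := by rw [hKm]; exact hyH
    exact (hKm _).1 (hg_mem R Z Co hp2 hc h1 h2)
  have hz0Hs : z0 ∈ Hs R := hg_mem_Hs R X ⟨D.nroots - 1, hθ⟩ (by simp : (-1 : k) ≠ 0)
  have hz0H : z0 ∈ (chevSys R X).H := by rw [chevSys_H, diagonalSubgroup_eq R X]; exact hz0Hs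
  have hvt := Vk_le_Pl_top R Z hv
  have hzr := E.rat_top R σ Z B C hz ((Pl k _).mul_mem ((Pl k _).mul_mem hvt (H_le_Pl R _ hz0H))
    ((Pl k _).inv_mem hvt))
  have hz0f : Fr (D := D) σ z0 = z0 := Fr_L R σ (hg_mem_L R σ _)
  rw [map_mul, map_mul, map_inv, hz0f] at hzr
  set C0 : Subgroup (GL D.Idx k) := Subgroup.centralizer {z0} with hC0
  have hC0m : ∀ g, g ∈ C0 ↔ z0 * g * z0⁻¹ = g := by
    intro g
    rw [hC0, Subgroup.mem_centralizer_singleton_iff]
    constructor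
    · intro h; rw [← h]; simp
    · intro h; exact (mul_inv_eq_iff_eq_mul.1 h).symm
  have hlead : ∀ q < D.nroots, X.rc.half ≤ q →
      (∀ t : k, z0 * xg R q t * z0⁻¹ = xg R q (-t)) → ∀ u ∈ Vk R q, u ∈ C0 → u ∈ Vk R (q + 1) := by
    intro q hq hq' h u hu huC
    obtain ⟨t, v', hv', rfl⟩ := (Vk_step R Z hq' hq).1 hu
    have h1 := (hC0m _).1 huC
    have h3 : z0 * v' * z0⁻¹ ∈ Vk R (q + 1) := by
      have e' : Vk R (q + 1) = XP R (fun s => q + 1 ≤ s) := by
        unfold Vk XP; congr 1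
      rw [e'] at hv' ⊢
      exact conj_mem_of_stabSub (H_stab_XP R _ hz0H) hv'
    have h4 : xg R q (-t) * (z0 * v' * z0⁻¹) = xg R q t * v' := by
      rw [← h t, ← h1]; simp [mul_assoc]
    have h5 : xg R q (2 * t) ∈ Vk R (q + 1) := by
      have : xg R q (2 * t) = (z0 * v' * z0⁻¹) * v'⁻¹ := by
        have h6 : z0 * v' * z0⁻¹ = (xg R q (-t))⁻¹ * (xg R q t * v') := by rw [← h4]; simp
        rw [h6, xg_inv, _root_.neg_neg, ← mul_assoc, xg_mul, mul_assoc, mul_inv_cancel, mul_one]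
        congr 1; ring
      rw [this]; exact (Vk R (q + 1)).mul_mem h3 ((Vk R (q + 1)).inv_mem hv')
    have h6 := Vk_disj R Z hq' hq h5
    have h7 : t = 0 := (mul_eq_zero.1 h6).resolve_left h2k
    rw [h7, xg_zero, one_mul]; exact hv'
  have hθC : ∀ t : k, xg R (D.nroots - 1) t ∈ C0 := by
    intro t
    rw [hC0m]
    have h1 : D.hMat k (D.nroots - 1) (-1) * D.x k (D.nroots - 1) t =
        D.x k (D.nroots - 1) ((-1) ^ (H23.ChevCore.pr D (D.nroots - 1) (D.nroots - 1)) * t) *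
          D.hMat k (D.nroots - 1) (-1) := H23.ChevH2.h_x Co hθ hθ (by simp) t
    have h3 : z0 * xg R (D.nroots - 1) t * z0⁻¹ =
        xg R (D.nroots - 1) ((-1) ^ (H23.ChevCore.pr D (D.nroots - 1) (D.nroots - 1)) * t) := by
      rw [mul_inv_eq_iff_eq_mul]
      apply Units.ext
      rw [Units.val_mul, Units.val_mul, hz0, hg_val, xg_val, xg_val]
      exact h1
    rcases Int.even_or_odd (H23.ChevCore.pr D (D.nroots - 1) (D.nroots - 1)) with h4 | h4
    · rw [h3, h4.neg_one_zpow, one_mul]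
    · -- impossible: n_r^2
      exfalso
      have := Co.pr_self _ hθ
      rw [this] at h4
      exact absurd h4 (by decide)
  have hg : v⁻¹ * Fr (D := D) σ v ∈ C0 := by
    rw [hC0m]
    have h1 : z0 = v⁻¹ * (Fr (D := D) σ v * z0 * (Fr (D := D) σ v)⁻¹) * v := by
      rw [hzr]; simp [mul_assoc]
    have h3 : (v⁻¹ * Fr (D := D) σ v) * z0 * (v⁻¹ * Fr (D := D) σ v)⁻¹ = z0 := by
      calc _ = v⁻¹ * (Fr (D := D) σ v * z0 * (Fr (D := D) σ v)⁻¹) * v := by simp [mul_assoc]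
        _ = z0 := h1.symm
    have h4 := mul_inv_eq_iff_eq_mul.1 h3
    rw [← h4]; simp
  obtain ⟨u0, hu0, hfu0, hu0C⟩ := H42.Subf.lang R Z σ (C := C0) (by
    intro q hq hq'
    by_cases hqθ : q = D.nroots - 1
    · subst hqθ; exact Or.inl hθC
    · rcases O.par q hq hq' hqθ with h | h
      · exact Or.inr (hlead q hq hq' h)
      · exact Or.inl fun t => (hC0m _).2 (h.1 t)) _ _ (hn_half X) le_rfl v hv hg
  have hu0L : u0 ∈ L R σ := mem_L_of_U R σ Z (by rw [U_eq_Vk R]; exact hu0) hfu0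
  have hv2 : u0⁻¹ * v ∈ Vk R X.rc.half := (Vk R X.rc.half).mul_mem ((Vk R X.rc.half).inv_mem hu0) hv
  -- shape of v2
  have hstrip : ∀ n q, q + n = D.nroots → X.rc.half ≤ q → ∀ u ∈ Vk R q, u ∈ C0 →
      ∃ (s : k) (a : GL D.Idx k), Commute a (xg R (D.neg (D.nroots - 1)) c) ∧
        u = a * xg R (D.nroots - 1) s := by
    intro n
    induction n with
    | zero =>
      intro q hq _ u hu _
      rw [show q = D.nroots by omega, Vk_nroots, Subgroup.mem_bot] at hu
      exact ⟨0, 1, Commute.one_left _, by rw [hu, xg_zero, one_mul]⟩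
    | succ n ih =>
      intro q hq hq' u hu huC
      have hqn : q < D.nroots := by omega
      by_cases hqθ : q = D.nroots - 1
      · obtain ⟨t, v', hv', rfl⟩ := (Vk_step R Z hq' hqn).1 hu
        rw [show q + 1 = D.nroots by omega, Vk_nroots, Subgroup.mem_bot] at hv'
        exact ⟨t, 1, Commute.one_left _, by rw [hv', mul_one, one_mul, hqθ]⟩
      · rcases O.par q hqn hq' hqθ with h | h
        · exact ih (q + 1) (by omega) (by omega) u (hlead q hqn hq' h u hu huC) huC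
        · obtain ⟨t, v', hv', rfl⟩ := (Vk_step R Z hq' hqn).1 hu
          have h1 : xg R q t ∈ C0 := (hC0m _).2 (h.1 t)
          have h3 : v' ∈ C0 := by
            have := C0.mul_mem (C0.inv_mem h1) huC
            simpa using this
          obtain ⟨s, a, ha, rfl⟩ := ih (q + 1) (by omega) (by omega) v' hv' h3
          exact ⟨s, xg R q t * a, (h.2 t c).mul_left ha, by rw [mul_assoc]⟩
  obtain ⟨s, a, ha, ev2⟩ := hstrip _ _ (hn_half X) le_rfl _ hv2 hu0C
  have haU : a ∈ (chevSys R X).U := by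
    rw [U_eq_Vk R]
    have : a = u0⁻¹ * v * (xg R (D.nroots - 1) s)⁻¹ := by rw [ev2]; simp
    rw [this]
    exact (Vk R X.rc.half).mul_mem hv2 ((Vk R X.rc.half).inv_mem (xg_mem_Vk R hθp hθ s))
  have haθ := H47.ChevLong.U_comm R Z haU s
  set y' := xg R (D.nroots - 1) s * xg R (D.neg (D.nroots - 1)) c * (xg R (D.nroots - 1) s)⁻¹ with hy'
  have ey' : u0⁻¹ * y * u0 = y' := by
    have h1 : u0⁻¹ * y * u0 = (u0⁻¹ * v) * xg R (D.neg (D.nroots - 1)) c * (u0⁻¹ * v)⁻¹ := by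
      rw [hy]; simp [mul_assoc]
    rw [h1, ev2, haθ.eq]
    calc _ = xg R (D.nroots - 1) s * (a * xg R (D.neg (D.nroots - 1)) c * a⁻¹) *
          (xg R (D.nroots - 1) s)⁻¹ := by simp [mul_assoc]
      _ = _ := by rw [ha.eq, mul_inv_cancel_right]
  have hy'H : y' ∈ H := by
    rw [← ey']
    exact H.mul_mem (H.mul_mem (H.inv_mem (C.hL hu0L)) hyH) (C.hL hu0L)
  -- rationality of the parameters
  obtain ⟨γ, i, α, γ', A0, B0, B1, hα, hαγ, hγ', hA0, hB1, hlast⟩ := O.last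
  obtain ⟨w1, hw1, e1⟩ := hlast s c
  have hnL : ns R i ∈ H := C.hL (ns_mem_L R σ i)
  have hg1 : xg R γ (1 : k) ∈ H := C.hL (xg_mem_L R σ (map_one σ))
  have h3 := H.mul_mem (H.mul_mem hnL (H.mul_mem (H.mul_mem hy'H hg1) (H.inv_mem hy'H)))
    (H.inv_mem hnL)
  rw [← hy'] at e1
  rw [e1] at h3
  have hαn : α < D.nroots := by omega
  have h4 := C.hU _ ((Vk R X.rc.half).mul_mem ((Vk R X.rc.half).mul_mem
    (xg_mem_Vk R hα hαn _) (xg_mem_Vk R (by omega) hγ' _)) (Vk_anti R (by omega) hw1)) h3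
  rw [map_mul, map_mul, Fr_xg, Fr_xg] at h4
  set A := (A0 : k) * c with hA
  set Bq := (B0 : k) + (B1 : k) * s * c with hBq
  have hFw : Fr (D := D) σ w1 ∈ Vk R (γ' + 1) := Fr_Vk R σ hw1
  have h5 : σ A = A := by
    have h6 : xg R α (σ A - A) ∈ Vk R (α + 1) := by
      have h7 : xg R α (σ A - A) = (xg R γ' Bq * w1) * (xg R γ' (σ Bq) * Fr (D := D) σ w1)⁻¹ := by
        have h8 : xg R α (σ A) * (xg R γ' (σ Bq) * Fr (D := D) σ w1) = xg R α A * (xg R γ' Bq * w1) := by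
          rw [← mul_assoc, ← mul_assoc, h4]
        have h9 : xg R α (σ A - A) = (xg R α A)⁻¹ * xg R α (σ A) := by
          rw [xg_inv, xg_mul]; congr 1; ring
        rw [h9, eq_mul_inv_iff_mul_eq, mul_assoc, h8]; simp
      rw [h7]
      exact (Vk R (α + 1)).mul_mem ((Vk R (α + 1)).mul_mem (xg_mem_Vk R (by omega) hγ' _)
        (Vk_anti R (by omega) hw1)) ((Vk R (α + 1)).inv_mem ((Vk R (α + 1)).mul_mem
        (xg_mem_Vk R (by omega) hγ' _) (Vk_anti R (by omega) hFw)))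
    exact sub_eq_zero.1 (Vk_disj R Z hα hαn h6)
  rw [h5, mul_assoc, mul_assoc] at h4
  have h4' := mul_left_cancel h4
  have h6 : σ Bq = Bq := by
    have h7 : xg R γ' (σ Bq - Bq) ∈ Vk R (γ' + 1) := by
      have h8 : xg R γ' (σ Bq - Bq) = w1 * (Fr (D := D) σ w1)⁻¹ := by
        have h9 : xg R γ' (σ Bq - Bq) = (xg R γ' Bq)⁻¹ * xg R γ' (σ Bq) := by
          rw [xg_inv, xg_mul]; congr 1; ring
        rw [h9, eq_mul_inv_iff_mul_eq, mul_assoc, h4']; simp
      rw [h8]; exact (Vk R (γ' + 1)).mul_mem hw1 ((Vk R (γ' + 1)).inv_mem hFw)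
    exact sub_eq_zero.1 (Vk_disj R Z (by omega) hγ' h7)
  have hcσ : σ c = c := by
    rw [hA, map_mul, map_intCast] at h5
    exact mul_left_cancel₀ hA0 h5
  have hsσ : σ s = s := by
    rw [hBq, map_add, map_mul, map_mul, map_intCast, map_intCast, hcσ] at h6
    have h7 := add_left_cancel h6
    have h8 := mul_right_cancel₀ hc h7
    exact mul_left_cancel₀ hB1 h8
  have hy'f : Fr (D := D) σ y' = y' := by
    rw [hy', map_mul, map_mul, map_inv, Fr_xg, Fr_xg, hcσ, hsσ]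
  have : y = u0 * y' * u0⁻¹ := by rw [← ey']; simp [mul_assoc]
  rw [this, map_mul, map_mul, map_inv, hfu0, hy'f]

end H42.Subf
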