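import Cfsg.Agent.Lib.H42.SubfG

/-!
Overgroups of subfield subgroups, part H: characteristic two, the dihedral argument.
-/

set_option autoImplicit false
set_option linter.unusedVariables false
set_option linter.unusedSectionVars false

namespace H42.Subf

open H22.RGD H22.Coord H22.RCCheck H22.RCComb H22.ChevTri H22.ChevRel H22.ChevSys H22.ChevMain
open H22.ChevStd H22.ChevUni H47.ChevSub
open Cfsg.Lie (ChevalleyDatum)
open scoped MatrixGroups Matrix

variable {D : ChevalleyDatum} {k : Type*} [Field k] (R : Rel D k) {X : RCX D} (Z : Lex X.rc)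
variable (σ : k →+* k)

/-- an invariant subspace with vanishing lowest coordinate -/
structure Idl (Q : RC D) (I : Submodule k (D.Idx → k)) : Prop where
  bot : ∀ v ∈ I, v (Sum.inr (H42.Subf.bot Q)) = 0
  st : ∀ g ∈ D.group k, ∀ v ∈ I, (g : Matrix D.Idx D.Idx k) *ᵥ v ∈ I

theorem idl_bot (Q : RC D) : Idl (k := k) Q ⊥ where
  bot := by
    intro v hv
    rw [Submodule.mem_bot] at hv
    rw [hv]; rfl
  st := by
    intro g _ v hv
    rw [Submodule.mem_bot] at hv ⊢
    rw [hv, Matrix.mulVec_zero]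

/-- the element moves some vector to one differing from it by a rational long root vector -/
def Good (X : RCX D) (I : Submodule k (D.Idx → k)) (i : GL D.Idx k) : Prop :=
  ∃ f : D.Idx → k, ∃ g ∈ L R σ, ∃ e ∈ I, (i : Matrix D.Idx D.Idx k) *ᵥ f =
    f + ((g : Matrix D.Idx D.Idx k) *ᵥ ev D k (top X.rc) + e)

theorem L_le (R : Rel D k) : L R σ ≤ D.group k := by
  unfold L
  rw [Subgroup.closure_le]
  rintro _ ⟨s, t, _, rfl⟩
  by_cases hs : s < D.nroots
  · exact xg_mem_group R hs t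
  · have : xg R s t = 1 := by
      apply Units.ext
      rw [xg_val]
      unfold ChevalleyDatum.x
      rw [dif_neg hs]; rfl
    rw [this]; exact one_mem _

variable {I : Submodule k (D.Idx → k)}

theorem Good.conj (hI : Idl X.rc I) {i x : GL D.Idx k} (hi : Good R σ X I i) (hx : x ∈ L R σ) :
    Good R σ X I (x * i * x⁻¹) := by
  obtain ⟨f, g, hg, e, he, h⟩ := hi
  refine ⟨(x : Matrix D.Idx D.Idx k) *ᵥ f, x * g, (L R σ).mul_mem hx hg,
    (x : Matrix D.Idx D.Idx k) *ᵥ e, hI.st x (L_le σ R hx) e he, ?_⟩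
  rw [Matrix.mulVec_mulVec, ← Units.val_mul, inv_mul_cancel_right, Units.val_mul,
    ← Matrix.mulVec_mulVec, h, Matrix.mulVec_add, Matrix.mulVec_add, Units.val_mul,
    ← Matrix.mulVec_mulVec]

variable {m : Fin D.rank} {lng : ℕ → Bool} {zl : List ℕ} {H : Subgroup (GL D.Idx k)}

/-- elements whose top column has vanishing lowest entry are rational -/
theorem LH.rat_of_zero (E : LH R X m lng) (Z : Lex X.rc) (B : BH R X zl) (C : Ctx R X σ H)
    {x : GL D.Idx k} (hx : x ∈ H)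
    (h : ((x : Matrix D.Idx D.Idx k) *ᵥ ev D k (H42.Subf.top X.rc)) (Sum.inr (bot X.rc)) = 0) :
    Fr (D := D) σ x = x := by
  have hxΓ : x ∈ (chevSys R X).Γ := by rw [chevSys_Γ]; exact C.hG hx
  obtain ⟨b, hb, n, w, hn, u, hu, ex⟩ := (chevSys R X).normal_form hxΓ
  have huU := (chevSys R X).Um_le_U w hu
  refine E.rat_ne R σ Z B C hx hb hn huU ex ?_
  intro hw
  have hw' : w (H42.Subf.top X.rc) = bot X.rc := Fin.ext hw
  obtain ⟨v, hv, t, ht, rfl⟩ := (chevSys R X).mem_B.1 hb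
  obtain ⟨c1, hc1, e1⟩ := Vk_le_Pl_top R Z (show u ∈ Vk R X.rc.half by rw [← U_eq_Vk R]; exact huU)
  obtain ⟨c2, hc2, e2⟩ := rep_ev R hn (H42.Subf.top X.rc)
  obtain ⟨c3, hc3, e3⟩ := H_le_Pl R (X := X) (bot X.rc) ht
  rw [ex] at h
  simp only [Units.val_mul, ← Matrix.mulVec_mulVec] at h
  rw [e1, Matrix.mulVec_smul, e2, hw'] at h
  simp only [Matrix.mulVec_smul] at h
  rw [e3] at h
  simp only [Matrix.mulVec_smul, Pi.smul_apply] at h
  rw [row_bot R Z (show v ∈ Vk R X.rc.half by rw [← U_eq_Vk R]; exact hv), ev_same] at h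
  simp only [smul_eq_mul, mul_one] at h
  exact mul_ne_zero hc1 (mul_ne_zero hc2 hc3) h

/-- centralisers of good unipotent elements -/
theorem LH.cent_good (E : LH R X m lng) (Z : Lex X.rc) (B : BH R X zl) (C : Ctx R X σ H)
    (hI : Idl X.rc I) {i : GL D.Idx k} (hi : i ∈ Vk R X.rc.half) (hg : Good R σ X I i)
    {c : GL D.Idx k} (hc : c ∈ H) (hci : c * i = i * c) : Fr (D := D) σ c = c := by
  obtain ⟨f, g, hgL, e, he, h⟩ := hg
  have hx : c * g ∈ H := H.mul_mem hc (C.hL hgL)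
  have h1 : Fr (D := D) σ (c * g) = c * g := by
    refine E.rat_of_zero R σ Z B C hx ?_
    have h2 : ((c : Matrix D.Idx D.Idx k) *ᵥ ((i : Matrix D.Idx D.Idx k) *ᵥ f)) (Sum.inr (bot X.rc)) =
        ((c : Matrix D.Idx D.Idx k) *ᵥ f) (Sum.inr (bot X.rc)) := by
      rw [Matrix.mulVec_mulVec, ← Units.val_mul, hci, Units.val_mul, ← Matrix.mulVec_mulVec,
        row_bot R Z hi]
    rw [h, Matrix.mulVec_add, Matrix.mulVec_add, Matrix.mulVec_mulVec, ← Units.val_mul,
      Pi.add_apply, Pi.add_apply, hI.bot _ (hI.st c (C.hG hc) e he), add_zero] at h2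
    simpa using h2
  rw [map_mul, Fr_L R σ hgL] at h1
  exact mul_right_cancel h1

/-- the hypothesis on rational involutions -/
def InvH (R : Rel D k) (X : RCX D) (σ : k →+* k) (I : Submodule k (D.Idx → k)) : Prop :=
  ∀ i ∈ D.group k, Fr (D := D) σ i = i → i * i = 1 → i ≠ 1 →
    ∃ x ∈ L R σ, x * i * x⁻¹ = xg R (D.nroots - 1) 1 ∨
      (x * i * x⁻¹ ∈ Vk R X.rc.half ∧ Good R σ X I (x * i * x⁻¹))

theorem LH.cent_inv (E : LH R X m lng) (Z : Lex X.rc) (B : BH R X zl) (C : Ctx R X σ H)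
    (hI : Idl X.rc I) (hT : InvH R X σ I) {i : GL D.Idx k} (hi : i ∈ H)
    (hf : Fr (D := D) σ i = i) (h2 : i * i = 1) (h1 : i ≠ 1) {c : GL D.Idx k} (hc : c ∈ H)
    (hci : c * i = i * c) : Fr (D := D) σ c = c := by
  obtain ⟨x, hx, h⟩ := hT i (C.hG hi) hf h2 h1
  have hcH : x * c * x⁻¹ ∈ H := H.mul_mem (H.mul_mem (C.hL hx) hc) (H.inv_mem (C.hL hx))
  have hcc : (x * c * x⁻¹) * (x * i * x⁻¹) = (x * i * x⁻¹) * (x * c * x⁻¹) := by
    calc (x * c * x⁻¹) * (x * i * x⁻¹) = x * (c * i) * x⁻¹ := by simp [mul_assoc]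
      _ = _ := by rw [hci]; simp [mul_assoc]
  have key : Fr (D := D) σ (x * c * x⁻¹) = x * c * x⁻¹ := by
    rcases h with h | ⟨h, h'⟩
    · refine E.rat_x R σ Z B C hcH ?_
      have : (x * c * x⁻¹) * xg R (D.nroots - 1) 1 * (x * c * x⁻¹)⁻¹ = xg R (D.nroots - 1) 1 := by
        rw [← h, hcc, mul_inv_cancel_right]
      rw [this, Fr_xg, map_one]
    · exact E.cent_good R σ Z B C hI h h' hcH hcc
  have h5 := key
  rw [map_mul, map_mul, map_inv, Fr_L R σ hx] at h5
  have h6 := congrArg (fun y => x⁻¹ * y * x) h5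
  simpa [mul_assoc] using h6

/-- the main result in characteristic two -/
theorem LH.rat_two (E : LH R X m lng) (Z : Lex X.rc) (B : BH R X zl) (C : Ctx R X σ H) [Finite H]
    [CharP k 2] (hI : Idl X.rc I) (hT : InvH R X σ I) {i2 : GL D.Idx k} (hi2 : i2 ∈ L R σ)
    (h22 : i2 * i2 = 1) (h21 : i2 ≠ 1)
    (hn : ∀ h ∈ D.group k, h * xg R (D.nroots - 1) 1 * h⁻¹ ≠ i2)
    {x : GL D.Idx k} (hx : x ∈ H) : Fr (D := D) σ x = x := by
  set z := x * xg R (D.nroots - 1) 1 * x⁻¹ with hz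
  have hθ1 : xg R (D.nroots - 1) (1 : k) ≠ 1 := xg_one_ne R X.rc (H47.ChevLong.top_lt X.rc)
  have hxx : xg R (D.nroots - 1) (1 : k) * xg R (D.nroots - 1) 1 = 1 := by
    rw [xg_mul, CharTwo.add_self_eq_zero, xg_zero]
  have hxH : xg R (D.nroots - 1) (1 : k) ∈ H := C.hL (xg_mem_L R σ (map_one σ))
  have hzH : z ∈ H := H.mul_mem (H.mul_mem hx hxH) (H.inv_mem hx)
  have hz2 : z * z = 1 := by
    have : z * z = x * (xg R (D.nroots - 1) 1 * xg R (D.nroots - 1) 1) * x⁻¹ := by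
      rw [hz]; simp [mul_assoc]
    rw [this, hxx]; simp
  have hz1 : z ≠ 1 := by
    intro h
    apply hθ1
    have := congrArg (fun y => x⁻¹ * y * x) h
    simpa [hz, mul_assoc] using this
  by_contra hne
  have hzn : Fr (D := D) σ z ≠ z := fun h => hne (E.rat_x R σ Z B C hx h)
  have hi2H := C.hL hi2
  -- order of the product
  set w := i2 * z with hw
  have hwH : w ∈ H := H.mul_mem hi2H hzH
  have hi2i : i2⁻¹ = i2 := inv_eq_of_mul_eq_one_left h22
  have hzi : z⁻¹ = z := inv_eq_of_mul_eq_one_left hz2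
  have hwinv : w⁻¹ = z * i2 := by rw [hw, mul_inv_rev, hi2i, hzi]
  have hconj1 : i2 * w * i2⁻¹ = w⁻¹ := by
    rw [hwinv, hw, hi2i]
    calc i2 * (i2 * z) * i2 = (i2 * i2) * z * i2 := by simp only [mul_assoc]
      _ = _ := by rw [h22, one_mul]
  have hconj2 : z * w * z⁻¹ = w⁻¹ := by
    rw [hwinv, hw, hzi]
    calc z * (i2 * z) * z = z * i2 * (z * z) := by simp only [mul_assoc]
      _ = _ := by rw [hz2, mul_one]
  have hfin : IsOfFinOrder w := by
    have h1 : IsOfFinOrder (⟨w, hwH⟩ : H) := isOfFinOrder_of_finite _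
    exact Submonoid.isOfFinOrder_coe.2 h1
  have hpos : 0 < orderOf w := hfin.orderOf_pos
  rcases Nat.even_or_odd (orderOf w) with ⟨n, hn'⟩ | ⟨n, hn'⟩
  · -- even order: a common centralised involution
    have hn0 : 0 < n := by omega
    set u := w ^ n with hu
    have hu1 : u ≠ 1 := by
      intro h
      have := orderOf_dvd_of_pow_eq_one h
      have := Nat.le_of_dvd hn0 this
      omega
    have hu2 : u * u = 1 := by rw [hu, ← pow_add, ← hn']; exact pow_orderOf_eq_one w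
    have hui : u⁻¹ = u := inv_eq_of_mul_eq_one_left hu2
    have huH : u ∈ H := H.pow_mem hwH n
    have c1 : i2 * u * i2⁻¹ = u := by
      rw [hu, ← conj_pow, hconj1, inv_pow, ← hu, hui]
    have c2 : z * u * z⁻¹ = u := by
      rw [hu, ← conj_pow, hconj2, inv_pow, ← hu, hui]
    have hur : Fr (D := D) σ u = u := by
      refine E.cent_inv R σ Z B C hI hT hi2H (Fr_L R σ hi2) h22 h21 huH ?_
      have := mul_inv_eq_iff_eq_mul.1 c1
      exact this.symm
    apply hzn
    refine E.cent_inv R σ Z B C hI hT huH hur hu2 hu1 hzH ?_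
    exact mul_inv_eq_iff_eq_mul.1 c2
  · -- odd order: conjugate
    have hodd : w ^ (2 * n + 1) = 1 := by rw [← hn']; exact pow_orderOf_eq_one w
    -- i2 = w^(-n)... : conjugating z by w^(n+1) gives i2
    have hzw : ∀ j : ℕ, z * w ^ j = (w⁻¹) ^ j * z := by
      intro j
      have : z * w ^ j * z⁻¹ = (w⁻¹) ^ j := by rw [← conj_pow, hconj2]
      exact mul_inv_eq_iff_eq_mul.1 this
    have h1 : w ^ (n + 1) * z * (w ^ (n + 1))⁻¹ = i2 := by
      have e1 : z * (w ^ (n + 1))⁻¹ = w ^ (n + 1) * z := by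
        have := hzw (n + 1)
        rw [inv_pow] at this
        have h3 := congrArg (fun y => w ^ (n + 1) * y * (w ^ (n + 1))⁻¹) this
        simp only [mul_inv_cancel_left, mul_assoc, mul_inv_cancel, mul_one] at h3
        exact h3.symm
      have e2 : w ^ (n + 1) * w ^ (n + 1) = w := by
        rw [← pow_add]
        have : n + 1 + (n + 1) = (2 * n + 1) + 1 := by ring
        rw [this, pow_succ, hodd, one_mul]
      rw [mul_assoc, e1, ← mul_assoc, e2, hw, mul_assoc, hz2, mul_one]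
    refine hn (w ^ (n + 1) * x) ((D.group k).mul_mem ((D.group k).pow_mem (C.hG hwH) _) (C.hG hx)) ?_
    rw [← h1, hz]; simp [mul_assoc]

end H42.Subf
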