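import Cfsg.Agent.Lib.H42.SubfH
import Cfsg.Agent.Lib.H42.Inv2E
import Cfsg.Agent.Lib.H47.FixPt
import Cfsg.Agent.Lib.H47.CjRoot

/-!
Overgroups of subfield subgroups, part I: characteristic two, rational involutions.
-/

set_option autoImplicit false
set_option linter.unusedVariables false
set_option linter.unusedSectionVars false

namespace H42.Subf

open H22.RGD H22.Coord H22.RCCheck H22.RCComb H22.ChevTri H22.ChevRel H22.ChevSys H22.ChevMain
open H22.ChevStd H22.ChevUni H47.ChevSub H42.Inv2F H42.Inv2E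
open H47.SemiTor (sg sg_apply)
open Cfsg.Lie (ChevalleyDatum)
open scoped MatrixGroups Matrix

variable {D : ChevalleyDatum} {k : Type*} [Field k] (R : Rel D k) {X : RCX D} (Z : Lex X.rc)

/-- rational torus elements are periodic -/
theorem torus_pow {p : ℕ} [Fact p.Prime] [CharP k p] {n : ℕ} (Q : RC D) {h : GL D.Idx k}
    (hh : h ∈ Hs R) (hf : Fr (D := D) (sg k p n) h = h) : h ^ p ^ n = h := by
  obtain ⟨χ, h1, h2, h3, h4⟩ := Hs_char2 R Q hh
  apply Units.ext
  rw [Units.val_pow_eq_pow_val, h4, Matrix.diagonal_pow]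
  congr 1
  funext y
  rcases y with y | y
  · simp
  · have h5 := (Fr_eq_iff (D := D) (σ := sg k p n)).1 hf (Sum.inr y) (Sum.inr y)
    rw [h4, Matrix.diagonal_apply_eq, sg_apply] at h5
    simpa using h5

include Z in
/-- rational involutions lie in the subgroup generated by the rational root elements -/
theorem inv_mem_L [CharP k 2] {n : ℕ} (hn : n ≠ 0) {i : GL D.Idx k} (hi : i ∈ D.group k)
    (hf : Fr (D := D) (sg k 2 n) i = i) (h2 : i * i = 1) : i ∈ L R (sg k 2 n) := by
  obtain ⟨l, hl, h, hh, hfh, e⟩ := fixed_decomp R (sg k 2 n) Z hi hf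
  have h3 := torus_pow (p := 2) R X.rc hh hfh
  have h4 : h * h ∈ L R (sg k 2 n) := by
    have h5 : l * (h * l * h⁻¹) * (h * h) = 1 := by
      rw [e] at h2
      rw [← h2]; simp [mul_assoc]
    have h6 := Hs_normalizes_L R (sg k 2 n) X.rc hh hfh hl
    have h7 : h * h = (l * (h * l * h⁻¹))⁻¹ := eq_inv_of_mul_eq_one_right h5
    rw [h7]
    exact inv_mem (mul_mem hl h6)
  have h5 : h = (h * h) ^ (2 ^ (n - 1)) := by
    have : 2 ^ n = 2 * 2 ^ (n - 1) := by
      obtain ⟨m, rfl⟩ := Nat.exists_eq_succ_of_ne_zero hn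
      simp [pow_succ, mul_comm]
    rw [← pow_two, ← pow_mul, ← this, h3]
  rw [e]
  refine mul_mem hl ?_
  rw [h5]
  exact pow_mem h4 _

section

variable {F : Type*} [Field F] [Fintype F] [Algebra F k] (RF : Rel D F)

theorem map_xg (r : ℕ) (u : F) : Matrix.GeneralLinearGroup.map (algebraMap F k) (xg RF r u) =
    xg R r (algebraMap F k u) := Units.ext (H22.ChevField.x_map (algebraMap F k) r u)

theorem map_aL (W : List (Fin D.nroots)) :
    Matrix.GeneralLinearGroup.map (algebraMap F k) (aL RF W) = aL R W := by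
  unfold aL
  rw [map_list_prod, List.map_map]
  congr 1
  apply List.map_congr_left
  intro r _
  rw [Function.comp_apply, map_xg R RF, map_one]

theorem map_Vk {m : ℕ} {g : GL D.Idx F} (hg : g ∈ Vk RF m) :
    Matrix.GeneralLinearGroup.map (algebraMap F k) g ∈ Vk R m := by
  unfold Vk at hg
  induction hg using Subgroup.closure_induction with
  | mem x hx =>
    obtain ⟨r, t, h1, h2, rfl⟩ := hx
    rw [map_xg R RF]
    exact Subgroup.subset_closure ⟨r, _, h1, h2, rfl⟩
  | one => rw [map_one]; exact one_mem _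
  | mul x y _ _ hx hy => rw [map_mul]; exact mul_mem hx hy
  | inv x _ hx => rw [map_inv]; exact inv_mem hx

variable {I : Submodule k (D.Idx → k)}

include RF Z in
/-- rational involutions from lists of orthogonal roots -/
theorem invH_of [CharP k 2] {n : ℕ} (hn : n ≠ 0) (hq : Fintype.card F = 2 ^ n)
    (hI : Idl X.rc I) (Q : Frm (H22.RCComb.coord X)) (hc : HC D) (K : H23.ChevCore.Core D)
    (hW : ∀ W : List (Fin D.nroots), Orth Q W → W ≠ [] →
      (∃ x ∈ L R (sg k 2 n), x * aL R W * x⁻¹ = xg R (D.nroots - 1) 1) ∨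
      Good R (sg k 2 n) X I (aL R W)) : InvH R X (sg k 2 n) I := by
  intro i hi hf h2 h1
  have hiL := inv_mem_L R Z hn hi hf h2
  have : CharP F 2 := (algebraMap F k).charP (algebraMap F k).injective 2
  have h2F : (2 : F) = 0 := CharTwo.two_eq_zero
  have : Fact (Nat.Prime 2) := ⟨Nat.prime_two⟩
  have hmap := H47.FixPt.L_eq_map (D := D) (F := F) (K := k) 2 RF R hq
  have hinj : Function.Injective (Matrix.GeneralLinearGroup.map (algebraMap F k) :
      GL D.Idx F →* GL D.Idx k) := by
    intro g h hgh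
    apply Units.ext
    ext a b
    apply (algebraMap F k).injective
    exact congrFun (congrFun (congrArg (fun g : GL D.Idx k => (g : Matrix D.Idx D.Idx k)) hgh) a) b
  rw [hmap] at hiL
  obtain ⟨j, hj, rfl⟩ := hiL
  have hj2 : j * j = 1 := by
    apply hinj; rw [map_mul, map_one]; exact h2
  obtain ⟨W, hWo, g, hg, e⟩ := to_list RF Q h2F hc K hj hj2
  have hWn : W ≠ [] := by
    rintro rfl
    apply h1
    have : j = 1 := by
      have e2 : g * j * g⁻¹ = 1 := by rw [e]; simp [aL]
      have := congrArg (fun y => g⁻¹ * y * g) e2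
      simpa [mul_assoc] using this
    rw [this, map_one]
  have hιL : ∀ {y : GL D.Idx F}, y ∈ D.group F →
      Matrix.GeneralLinearGroup.map (algebraMap F k) y ∈ L R (sg k 2 n) := by
    intro y hy; rw [hmap]; exact ⟨y, hy, rfl⟩
  set ι : GL D.Idx F →* GL D.Idx k := Matrix.GeneralLinearGroup.map (algebraMap F k) with hι
  have e3 : ι g * ι j * (ι g)⁻¹ = aL R W := by
    rw [← map_inv, ← map_mul, ← map_mul, e, hι, map_aL R RF]
  rcases hW W hWo hWn with ⟨x, hx, hxe⟩ | hgood
  · refine ⟨x * ι g, mul_mem hx (hιL hg), Or.inl ?_⟩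
    rw [← hxe, ← e3]; simp [mul_assoc]
  · obtain ⟨g', hg', y, hy, e4⟩ := H47.CjRoot.cj_U (D := D) (X := X) RF 2 hj (k := 1)
      (by simpa [pow_two] using hj2)
    refine ⟨ι y, hιL hy, Or.inr ?_⟩
    have e5 : ι y * ι j * (ι y)⁻¹ = ι g' := by rw [← map_inv, ← map_mul, ← map_mul, e4]
    refine ⟨?_, ?_⟩
    · rw [e5]
      apply map_Vk R RF
      rw [← posUnipotent_eq_Vk RF X.rc]; exact hg'
    · have h6 := Good.conj R (sg k 2 n) hI hgood (mul_mem (hιL hy) (inv_mem (hιL hg)))
      have h7 : ι y * (ι g)⁻¹ * aL R W * (ι y * (ι g)⁻¹)⁻¹ = ι y * ι j * (ι y)⁻¹ := by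
        rw [← e3]; simp [mul_assoc]
      rw [h7] at h6
      exact h6

end

end H42.Subf
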