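import Cfsg.Agent.Lib.H42.SubfI

/-!
Overgroups of subfield subgroups, part J: characteristic two, products of root elements for
orthogonal roots are good.
-/

set_option autoImplicit false
set_option linter.unusedVariables false
set_option linter.unusedSectionVars false

namespace H42.Subf

open H22.RGD H22.Coord H22.RCCheck H22.RCComb H22.ChevTri H22.ChevRel H22.ChevSys H22.ChevMain
open H22.ChevStd H22.ChevUni H47.ChevSub H42.Inv2F H42.Inv2E
open H47.SemiTor (sg sg_apply)
open Cfsg.Lie (ChevalleyDatum)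
open scoped MatrixGroups Matrix

variable {D : ChevalleyDatum} {k : Type*} [Field k] (R : Rel D k) {X : RCX D} (Z : Lex X.rc)

/-- no chain without roots -/
theorem chain_nil (Q : RC D) {r s : ℕ} (hr : r < D.nroots)
    (h : ∀ u < D.nroots, ∀ j : ℕ, 1 ≤ j → ¬ ∀ l < D.rank, Q.co u l = j * Q.co r l + Q.co s l)
    {u : ℕ} (hu : u < D.nroots) : D.chainCoeff r s u = [] := by
  apply List.eq_nil_iff_forall_not_mem.2
  intro km hkm
  unfold ChevalleyDatum.chainCoeff at hkm
  simp only [List.mem_flatMap, List.mem_map, List.mem_filter, decide_eq_true_eq] at hkm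
  obtain ⟨e, ⟨he, hes⟩, q, ⟨hq, hqu⟩, rfl⟩ := hkm
  obtain ⟨q1, q2⟩ := q
  rw [List.mk_mem_zipIdx_iff_getElem?] at hq
  obtain ⟨hq2, hq3⟩ := List.getElem?_eq_some_iff.1 hq
  refine h u hu (q2 + 1) (by omega) fun j hj => ?_
  have := Q.chain_co r hr e he q2 hq2 j hj
  rw [hq3, hes] at this
  simp only at hqu
  rw [hqu] at this
  exact this

/-- a root element fixing the root vector -/
theorem xg_fix {r : ℕ} (hr : r < D.nroots) {s : Fin D.nroots} (h1 : (s : ℕ) ≠ D.neg r)
    (h2 : ∀ u : Fin D.nroots, D.chainCoeff r s u = []) (t : k) :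
    ((xg R r t : GL D.Idx k) : Matrix D.Idx D.Idx k) *ᵥ ev D k s = ev D k s := by
  rw [xg_val]
  funext a
  rw [mv_ev]
  unfold ChevalleyDatum.x
  rw [dif_pos hr]
  unfold ChevalleyDatum.xMat
  simp only [Matrix.of_apply]
  by_cases h3 : s = ⟨r, hr⟩
  · rw [if_pos h3]
    rcases a with a | a
    · rw [ev_of_ne (by simp)]
    · by_cases h4 : a = s
      · subst h4; rw [ev_same]; simp [h3]
      · rw [ev_of_ne (by simpa using h4)]
        simp only
        rw [if_neg]
        rintro rfl; exact h4 h3.symm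
  · have h1' : ¬ (s : ℕ) = D.negIdx.getD r 0 := h1
    rw [if_neg h3, if_neg h1']
    rcases a with a | a
    · rw [ev_of_ne (by simp)]
    · simp only [h2, List.map_nil, List.sum_nil, add_zero]
      by_cases h4 : a = s
      · subst h4; rw [ev_same]; simp
      · rw [if_neg h4, ev_of_ne (by simpa using h4)]

variable (Q : Frm (H22.RCComb.coord X))

include Q in
/-- by norms -/
theorem xg_fix_of {r s : Fin D.nroots} (hmax : ∀ u : Fin D.nroots, ip Q u u ≤ ip Q s s)
    (hrr : 0 < ip Q r r) (h : 0 ≤ ip Q r s) (t : k) :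
    ((xg R r t : GL D.Idx k) : Matrix D.Idx D.Idx k) *ᵥ ev D k s = ev D k s := by
  apply xg_fix R r.2
  · intro e
    have e' : s = (comb X).neg r := Fin.ext e
    rw [e', ip_neg_right] at h
    omega
  · intro u
    apply chain_nil X.rc r.2 _ u.2
    intro u' hu' j hj hco
    set v : Fin D.nroots := ⟨u', hu'⟩ with hv
    have hlin : ∀ y : Fin D.nroots, ip Q v y = ip Q s y + j * ip Q r y := by
      intro y
      have := ip_lin_left Q (x := v) (y := s) (z := r) (c := -(j : ℤ)) (by
        intro l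
        have := hco l l.2
        have e1 : (coord X).co v l = X.rc.co u' l := rfl
        have e2 : (coord X).co r l = X.rc.co r l := rfl
        have e3 : (coord X).co s l = X.rc.co s l := rfl
        rw [e1, e2, e3, this]; ring) y
      rw [this]; ring
    have h1 := hmax v
    rw [hlin v, ip_comm Q s v, ip_comm Q r v, hlin, hlin, ip_comm Q s r] at h1
    have hj' : (1 : ℤ) ≤ j := by exact_mod_cast hj
    have h2 : 0 ≤ (j : ℤ) * ip Q r s := mul_nonneg (by omega) h
    have h3 : 0 < (j : ℤ) * (ip Q r s + j * ip Q r r) :=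
      mul_pos (by omega) (by have := mul_pos (show (0 : ℤ) < j by omega) hrr; linarith)
    linarith

/-- the column of a root element -/
theorem xg_ev (K : H23.ChevCore.Core D) {r : ℕ} (hr : r < D.nroots) {s : Fin D.nroots}
    (h0 : (s : ℕ) ≠ r) (h1 : (s : ℕ) ≠ D.neg r) (t : k) (a : D.Idx) :
    (((xg R r t : GL D.Idx k) : Matrix D.Idx D.Idx k) *ᵥ ev D k s) a =
      Sum.elim (fun _ => 0) (fun u : Fin D.nroots => (if u = s then 1 else 0) +
        (t * (((if ((D.chainEntry r s)[0]?).map Prod.fst = some (u : ℕ) then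
          (((D.chainEntry r s)[0]?).map Prod.snd).getD 0 else 0 : ℤ) : k)) +
        t ^ 2 * (((if ((D.chainEntry r s)[1]?).map Prod.fst = some (u : ℕ) then
          (((D.chainEntry r s)[1]?).map Prod.snd).getD 0 else 0 : ℤ) : k)) +
        t ^ 3 * (((if ((D.chainEntry r s)[2]?).map Prod.fst = some (u : ℕ) then
          (((D.chainEntry r s)[2]?).map Prod.snd).getD 0 else 0 : ℤ) : k)))) a := by
  rw [xg_val, mv_ev]
  unfold ChevalleyDatum.x
  rw [dif_pos hr]
  unfold ChevalleyDatum.xMat
  simp only [Matrix.of_apply]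
  have h3 : s ≠ ⟨r, hr⟩ := fun h => h0 (congrArg Fin.val h)
  have h1' : ¬ (s : ℕ) = D.negIdx.getD r 0 := h1
  rw [if_neg h3, if_neg h1']
  rcases a with a | a
  · rfl
  · simp only [Sum.elim_inr]
    rw [H23.ChevOp.chainCoeff_eq K.rows hr, H23.ChevOp.sum_entry _ (K.rows.len r s hr)]

/-- shape of the chain entries -/
def ckE (D : ChevalleyDatum) (P : ℕ → Bool) (i s δ : ℕ) : Bool :=
  match D.chainEntry (D.simple i) s with
  | [a] => Nat.beq a.1 δ && a.2 % 2 == 1
  | [a, b] => (!(P a.1) || a.2 % 2 == 0) && (Nat.beq b.1 δ && b.2 % 2 == 1)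
  | _ => false

theorem odd_cast [CharP k 2] {z : ℤ} (h : z % 2 = 1) : (z : k) = 1 := by
  have h2 : ((2 : ℤ) : k) = 0 := by exact_mod_cast CharTwo.two_eq_zero (R := k)
  have : z = 2 * (z / 2) + 1 := by omega
  rw [this]; push_cast; push_cast at h2; rw [h2]; ring

theorem even_cast [CharP k 2] {z : ℤ} (h : z % 2 = 0) : (z : k) = 0 := by
  have h2 : ((2 : ℤ) : k) = 0 := by exact_mod_cast CharTwo.two_eq_zero (R := k)
  have : z = 2 * (z / 2) := by omega
  rw [this]; push_cast; push_cast at h2; rw [h2]; ring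

variable {P : ℕ → Bool} {I : Submodule k (D.Idx → k)}

theorem mov_of [CharP k 2] (K : H23.ChevCore.Core D)
    (hP : ∀ v : D.Idx → k, (∀ i, v (Sum.inl i) = 0) →
      (∀ u : Fin D.nroots, P u = true → v (Sum.inr u) = 0) → v ∈ I)
    {i : Fin D.rank} {s δ : Fin D.nroots} (h0 : (s : ℕ) ≠ D.simple i)
    (h1 : (s : ℕ) ≠ D.neg (D.simple i)) (h : ckE D P i s δ = true) :
    ∃ e ∈ I, ((xg R (D.simple i) (1 : k) : GL D.Idx k) : Matrix D.Idx D.Idx k) *ᵥ ev D k s =
      ev D k s + (ev D k δ + e) := by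
  set e : D.Idx → k := ((xg R (D.simple i) (1 : k) : GL D.Idx k) : Matrix D.Idx D.Idx k) *ᵥ ev D k s -
    ev D k s - ev D k δ with he
  refine ⟨e, ?_, by rw [he]; abel⟩
  have hx := xg_ev R K (K.simple_lt i i.2) h0 h1 1
  have hev : ∀ (a u : Fin D.nroots), ev D k a (Sum.inr u) = if u = a then 1 else 0 := by
    intro a u
    by_cases h : u = a
    · subst h; rw [ev_same, if_pos rfl]
    · rw [ev_of_ne (by simpa using h), if_neg h]
  apply hP
  · intro j
    rw [he, Pi.sub_apply, Pi.sub_apply, hx, ev_of_ne (by simp), ev_of_ne (by simp)]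
    simp
  · intro u hu
    rw [he, Pi.sub_apply, Pi.sub_apply, hx, hev, hev]
    simp only [Sum.elim_inr, one_pow, one_mul]
    unfold ckE at h
    split at h
    · rename_i a ha
      rw [ha]
      simp only [Bool.and_eq_true, beq_iff_eq] at h
      have h3 : a.1 = δ := Nat.eq_of_beq_eq_true h.1
      simp only [List.getElem?_cons_zero, Option.map_some, Option.some.injEq, Option.getD_some,
        List.getElem?_cons_succ, List.getElem?_nil, Option.map_none, h3]
      by_cases h4 : u = δ
      · subst h4; simp [odd_cast h.2]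
      · have h5 : (δ : ℕ) ≠ u := fun h => h4 (Fin.ext h.symm)
        simp [h4, h5]
    · rename_i a b hab
      rw [hab]
      simp only [Bool.and_eq_true, Bool.or_eq_true, Bool.not_eq_true', beq_iff_eq] at h
      have h3 : b.1 = δ := Nat.eq_of_beq_eq_true h.2.1
      simp only [List.getElem?_cons_zero, Option.map_some, Option.some.injEq, Option.getD_some,
        List.getElem?_cons_succ, List.getElem?_nil, Option.map_none, h3]
      have h6 : ((if a.1 = (u : ℕ) then a.2 else 0 : ℤ) : k) = 0 := by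
        split_ifs with h7
        · rcases h.1 with h8 | h8
          · rw [h7, hu] at h8; exact absurd h8 (by simp)
          · exact even_cast h8
        · simp
      rw [h6]
      by_cases h4 : u = δ
      · subst h4; simp [odd_cast h.2.2]
      · have h5 : (δ : ℕ) ≠ u := fun h => h4 (Fin.ext h.symm)
        simp [h4, h5]
    · exact absurd h (by simp)

/-- the fixed vectors under a product -/
theorem aL_fix {W : List (Fin D.nroots)} {v : D.Idx → k}
    (h : ∀ r ∈ W, ((xg R (r : ℕ) (1 : k) : GL D.Idx k) : Matrix D.Idx D.Idx k) *ᵥ v = v) :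
    ((aL R W : GL D.Idx k) : Matrix D.Idx D.Idx k) *ᵥ v = v := by
  induction W with
  | nil => simp [aL]
  | cons r W ih =>
    rw [aL_cons, Units.val_mul, ← Matrix.mulVec_mulVec, ih fun s hs => h s (List.mem_cons_of_mem _ hs),
      h r List.mem_cons_self]

variable (σ : k →+* k)

theorem cjL_map [CharP k 2] (l : List (Fin D.rank)) (W : List (Fin D.nroots)) :
    ∃ x ∈ L R σ, x * aL R W * x⁻¹ = aL R (W.map ((comb X).w l)) := by
  obtain ⟨ε, h1, h2⟩ := exists_sign_word R X l
  have hn : (-1 : k) = 1 := by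
    have := CharTwo.two_eq_zero (R := k)
    linear_combination (-1) * this
  have hε : ∀ s, ε s = 1 := by
    intro s
    rcases (h1 s).1 with h | h
    · exact h
    · rw [h, hn]
  refine ⟨nsw R l, ?_, ?_⟩
  · rw [nsw_eq_nw R X]; exact nw_mem_L R X σ l
  · induction W with
    | nil => simp [aL]
    | cons r W ih =>
      rw [aL_cons, List.map_cons, aL_cons, ← ih]
      have := h2 r 1
      rw [hε, one_mul] at this
      rw [← this]; group

/-- long root vectors in characteristic two -/
theorem ev_long [CharP k 2] {w : Equiv.Perm (Fin D.nroots)} (hw : w ∈ (comb X).W) :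
    ∃ g ∈ L R σ, (g : Matrix D.Idx D.Idx k) *ᵥ ev D k (top X.rc) = ev D k (w (top X.rc)) := by
  obtain ⟨l, rfl⟩ := (comb X).exists_word hw
  obtain ⟨ε, h1, h2⟩ := nw_ev R (X := X) l (top X.rc)
  refine ⟨_, nw_mem_L R X σ l, ?_⟩
  rw [h2]
  have hn : (-1 : k) = 1 := by
    have := CharTwo.two_eq_zero (R := k)
    linear_combination (-1) * this
  have : ε = 1 := by
    rcases h1 with h | h
    · exact h
    · rw [h, hn]
  rw [this, one_smul]

variable {m : Fin D.rank} {lng : ℕ → Bool}

/-- existence of a suitable long root -/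
theorem exists_gam (hlW : ∀ w ∈ (comb X).W, ∀ r : Fin D.nroots, lng r = true → lng (w r) = true)
    (hpos : ∀ r : Fin D.nroots, 0 < ip Q r r) {i : Fin D.rank} {γ0 : Fin D.nroots}
    (hl : lng γ0 = true) (hneg : D.cartan i γ0 < 0) (hne : (γ0 : ℕ) ≠ D.neg (D.simple i)) :
    ∀ W : List (Fin D.nroots), Orth Q ((comb X).simple i :: W) → ∃ γ : Fin D.nroots,
      lng γ = true ∧ D.cartan i γ < 0 ∧ (γ : ℕ) ≠ D.neg (D.simple i) ∧
      ∀ r ∈ W, 0 ≤ ip Q r γ := by
  intro W
  induction W with
  | nil => intro _; exact ⟨γ0, hl, hneg, hne, by simp⟩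
  | cons r W ih =>
    intro hO
    have hO' := hO
    unfold Orth at hO'
    rw [List.pairwise_cons, List.pairwise_cons] at hO'
    obtain ⟨ho1, ho2, ho3⟩ := hO'
    obtain ⟨γ, h1, h2, h3, h4⟩ := ih (by
      unfold Orth
      rw [List.pairwise_cons]
      exact ⟨fun s hs => ho1 s (List.mem_cons_of_mem _ hs), ho3⟩)
    by_cases h5 : 0 ≤ ip Q r γ
    · refine ⟨γ, h1, h2, h3, ?_⟩
      intro s hs
      rcases List.mem_cons.1 hs with rfl | hs
      · exact h5
      · exact h4 s hs
    · push Not at h5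
      set γ' := rf (hsc X) r γ with hγ'
      have hW : rf (hsc X) r ∈ (comb X).W := rf_mem (hsc X) r
      have hip : ∀ s : Fin D.nroots, ip Q s r = 0 → ip Q s γ' = ip Q s γ := by
        intro s hs
        have e1 : rf (hsc X) r s = s := rf_fix Q (hsc X) (by rw [ip_comm]; exact hs)
        have := ip_W Q hW s γ
        rw [e1] at this
        rw [hγ', this]
      have hipr : ip Q r γ' = - ip Q r γ := by
        have := ip_W Q hW r γ
        rw [rf_self (hsc X) r, ip_neg_left] at this
        rw [hγ']; omega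
      have hc : ∀ s : Fin D.nroots, ip Q ((comb X).simple i) s = Q.d i * D.cartan i s := by
        intro s
        rw [ip_simple_left, H47.RootCent.pair_eq]
      refine ⟨γ', hlW _ hW γ h1, ?_, ?_, ?_⟩
      · have h6 := hip ((comb X).simple i) (ho1 r List.mem_cons_self)
        rw [hc, hc] at h6
        have h7 := mul_left_cancel₀ (ne_of_gt (Q.dpos i)) h6
        rw [h7]; exact h2
      · intro e
        have e' : γ' = (comb X).neg ((comb X).simple i) := Fin.ext e
        rw [e', ip_neg_right, ip_comm, ho1 r List.mem_cons_self] at hipr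
        omega
      · intro s hs
        rcases List.mem_cons.1 hs with rfl | hs
        · omega
        · rw [hip s (by rw [ip_comm]; exact ho2 s hs)]
          exact h4 s hs

/-- lists starting with a simple root -/
theorem good_cons [CharP k 2] (K : H23.ChevCore.Core D)
    (hP : ∀ v : D.Idx → k, (∀ i, v (Sum.inl i) = 0) →
      (∀ u : Fin D.nroots, P u = true → v (Sum.inr u) = 0) → v ∈ I)
    (hlW : ∀ w ∈ (comb X).W, ∀ r : Fin D.nroots, lng r = true → lng (w r) = true)
    (horb : ∀ r : Fin D.nroots, lng r = true → ∃ w ∈ (comb X).W, w (top X.rc) = r)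
    (hpos : ∀ r : Fin D.nroots, 0 < ip Q r r)
    (hmax : ∀ u s : Fin D.nroots, lng s = true → ip Q u u ≤ ip Q s s)
    {i : Fin D.rank}
    (hi : ∃ γ0 : Fin D.nroots, lng γ0 = true ∧ D.cartan i γ0 < 0 ∧ (γ0 : ℕ) ≠ D.neg (D.simple i))
    (hck : ∀ s : Fin D.nroots, lng s = true → D.cartan i s < 0 → (s : ℕ) ≠ D.neg (D.simple i) →
      ckE D P i s (D.reflectRoot i s) = true)
    {W : List (Fin D.nroots)} (hW : Orth Q ((comb X).simple i :: W)) :
    Good R σ X I (aL R ((comb X).simple i :: W)) := by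
  obtain ⟨γ0, a1, a2, a3⟩ := hi
  obtain ⟨γ, h1, h2, h3, h4⟩ := exists_gam Q hlW hpos a1 a2 a3 W hW
  set δ : Fin D.nroots := (comb X).refl i γ with hδ
  have hiW : (comb X).refl i ∈ (comb X).W := Subgroup.subset_closure ⟨_, rfl⟩
  obtain ⟨w, hw, hwδ⟩ := horb δ (hlW _ hiW γ h1)
  obtain ⟨g, hg, hgδ⟩ := ev_long R (X := X) σ hw
  have h0 : (γ : ℕ) ≠ D.simple i := by
    intro e
    rw [e, cartan_simple X.rc i.2 i.2, cartan_self X.rc i.2] at h2
    omega
  obtain ⟨e, he, hxe⟩ := mov_of R K hP h0 h3 (δ := δ) (hck γ h1 h2 h3)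
  refine ⟨ev D k γ, g, hg, e, he, ?_⟩
  rw [hgδ, hwδ, aL_cons, Units.val_mul, ← Matrix.mulVec_mulVec, aL_fix R (v := ev D k γ)]
  · exact hxe
  · intro r hr
    exact xg_fix_of R Q (fun u => hmax u γ h1) (hpos r) (h4 r hr) 1

/-- lists containing a root conjugate to a simple root -/
theorem good_mem [CharP k 2] (hI : Idl X.rc I) (K : H23.ChevCore.Core D) (hc : HC D)
    (hP : ∀ v : D.Idx → k, (∀ i, v (Sum.inl i) = 0) →
      (∀ u : Fin D.nroots, P u = true → v (Sum.inr u) = 0) → v ∈ I)
    (hlW : ∀ w ∈ (comb X).W, ∀ r : Fin D.nroots, lng r = true → lng (w r) = true)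
    (horb : ∀ r : Fin D.nroots, lng r = true → ∃ w ∈ (comb X).W, w (top X.rc) = r)
    (hpos : ∀ r : Fin D.nroots, 0 < ip Q r r)
    (hmax : ∀ u s : Fin D.nroots, lng s = true → ip Q u u ≤ ip Q s s)
    {i : Fin D.rank}
    (hi : ∃ γ0 : Fin D.nroots, lng γ0 = true ∧ D.cartan i γ0 < 0 ∧ (γ0 : ℕ) ≠ D.neg (D.simple i))
    (hck : ∀ s : Fin D.nroots, lng s = true → D.cartan i s < 0 → (s : ℕ) ≠ D.neg (D.simple i) →
      ckE D P i s (D.reflectRoot i s) = true)
    {W : List (Fin D.nroots)} (hW : Orth Q W) {ψ : Fin D.nroots} (hψ : ψ ∈ W)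
    (hψi : ∃ l, (comb X).w l ψ = (comb X).simple i) :
    Good R σ X I (aL R W) := by
  classical
  obtain ⟨l, hl⟩ := hψi
  -- bring `ψ` to the front
  have hperm : W.Perm (ψ :: W.erase ψ) := List.perm_cons_erase hψ
  have h2F : (2 : k) = 0 := CharTwo.two_eq_zero
  have e1 : aL R W = aL R (ψ :: W.erase ψ) := by
    have hc2 : (W.map fun r : Fin D.nroots => xg R (r : ℕ) (1 : k)).Pairwise Commute := by
      rw [List.pairwise_map]
      exact hW.imp fun {r s} hrs => orth_commute R Q h2F hc hrs 1 1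
    have h3 : (W.map fun r : Fin D.nroots => xg R (r : ℕ) (1 : k)).Perm
      ((ψ :: W.erase ψ).map fun r : Fin D.nroots => xg R (r : ℕ) (1 : k)) := hperm.map _
    unfold aL
    exact h3.prod_eq' hc2
  have hO : Orth Q (ψ :: W.erase ψ) := orth_perm Q hW hperm
  obtain ⟨x, hx, hxe⟩ := cjL_map R (X := X) σ l (ψ :: W.erase ψ)
  have hO2 := orth_map Q l hO
  rw [List.map_cons, hl] at hO2
  have h5 := good_cons R Q σ K hP hlW horb hpos hmax hi hck hO2
  rw [List.map_cons, hl] at hxe
  rw [← hxe] at h5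
  have h6 := Good.conj R σ hI h5 (inv_mem hx)
  rw [e1]
  simpa [mul_assoc] using h6

end H42.Subf
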