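import Cfsg.Agent.Lib.H42.SubfJ
import Cfsg.Agent.Lib.H42.Inv2D

/-!
Overgroups of subfield subgroups, part K: characteristic two, the ideal of short roots and tables.
-/

set_option autoImplicit false
set_option linter.unusedVariables false
set_option linter.unusedSectionVars false

namespace H42.Subf

open H22.RGD H22.Coord H22.RCCheck H22.RCComb H22.ChevTri H22.ChevRel H22.ChevSys H22.ChevMain
open H22.ChevStd H22.ChevUni H47.ChevSub H42.Inv2F H42.Inv2E H22.RCPack H42.Inv2C H42.Inv2D
open H42.Inv2M H42.InvCK
open H47.SemiTor (sg sg_apply)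
open Cfsg.Lie (ChevalleyDatum)
open scoped MatrixGroups Matrix

variable {D : ChevalleyDatum} {k : Type*} [Field k] (R : Rel D k) {X : RCX D} (Z : Lex X.rc)

/-- the ideal generated by the short roots -/
def Ish (D : ChevalleyDatum) (k : Type*) [Field k] (lng : ℕ → Bool) : Submodule k (D.Idx → k) where
  carrier := {v | (∀ u : Fin D.nroots, lng u = true → v (Sum.inr u) = 0) ∧
    ∀ r : Fin D.nroots, lng r = true → ∑ j : Fin D.rank, ((D.cartan j r : ℤ) : k) * v (Sum.inl j) = 0}
  zero_mem' := ⟨fun u _ => rfl, fun r _ => by simp⟩
  add_mem' := by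
    rintro v w ⟨h1, h2⟩ ⟨h3, h4⟩
    refine ⟨fun u hu => by rw [Pi.add_apply, h1 u hu, h3 u hu, add_zero], fun r hr => ?_⟩
    simp only [Pi.add_apply, mul_add, Finset.sum_add_distrib, h2 r hr, h4 r hr, add_zero]
  smul_mem' := by
    rintro c v ⟨h1, h2⟩
    refine ⟨fun u hu => by rw [Pi.smul_apply, h1 u hu, smul_zero], fun r hr => ?_⟩
    have : ∑ j : Fin D.rank, ((D.cartan j r : ℤ) : k) * (c • v) (Sum.inl j) =
        c * ∑ j : Fin D.rank, ((D.cartan j r : ℤ) : k) * v (Sum.inl j) := by
      rw [Finset.mul_sum]
      refine Finset.sum_congr rfl fun j _ => ?_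
      rw [Pi.smul_apply, smul_eq_mul]; ring
    rw [this, h2 r hr, mul_zero]

theorem mem_Ish_of {lng : ℕ → Bool} (v : D.Idx → k) (h1 : ∀ i, v (Sum.inl i) = 0)
    (h2 : ∀ u : Fin D.nroots, lng u = true → v (Sum.inr u) = 0) : v ∈ Ish D k lng :=
  ⟨h2, fun r _ => by simp [h1]⟩

/-- the checks -/
def ckS (D : ChevalleyDatum) (lng : ℕ → Bool) : Bool :=
  allN (fun s => lng s || (!(lng (D.neg s)) && (allN (fun w => !(lng w) ||
    (List.range D.rank).foldl (fun a j => a + D.cartan j w * (D.coroot.getD (D.neg s) #[]).getD j 0) 0 % 2 == 0)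
      D.nroots && allN (fun r =>
    (D.chainEntry r s).all fun e => !(lng e.1) || e.2 % 2 == 0) D.nroots))) D.nroots

theorem foldl_add (f : ℕ → ℤ) (n : ℕ) : (List.range n).foldl (fun a j => a + f j) 0 =
    ∑ j ∈ Finset.range n, f j := by
  induction n with
  | zero => rfl
  | succ n ih => rw [List.range_succ, List.foldl_append, ih, Finset.sum_range_succ]; rfl

include R in
theorem idl_Ish [CharP k 2] (K : H23.ChevCore.Core D) {lng : ℕ → Bool} (h : ckS D lng = true)
    (hb : lng (H42.Subf.bot X.rc) = true) : Idl X.rc (Ish D k lng) where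
  bot := fun v hv => hv.1 _ hb
  st := by
    have key : ∀ r < D.nroots, ∀ (t : k), ∀ v ∈ Ish D k lng,
        ((xg R r t : GL D.Idx k) : Matrix D.Idx D.Idx k) *ᵥ v ∈ Ish D k lng := by
      intro r hr t v hv
      obtain ⟨hv1, hv2⟩ := hv
      -- the columns of short roots
      have hcol : ∀ s : Fin D.nroots, lng s = false →
          ((xg R r t : GL D.Idx k) : Matrix D.Idx D.Idx k) *ᵥ ev D k s ∈ Ish D k lng := by
        intro s hs
        have hck := allN_spec h s s.2
        simp only [hs, Bool.false_or, Bool.and_eq_true, Bool.not_eq_true'] at hck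
        obtain ⟨c1, c2, c3⟩ := hck
        by_cases h0 : (s : ℕ) = r
        · have e : ((xg R r t : GL D.Idx k) : Matrix D.Idx D.Idx k) *ᵥ ev D k s = ev D k s := by
            rw [xg_val]
            funext a
            rw [mv_ev]
            unfold ChevalleyDatum.x
            rw [dif_pos hr]
            unfold ChevalleyDatum.xMat
            simp only [Matrix.of_apply]
            have h3 : s = ⟨r, hr⟩ := Fin.ext h0
            rw [if_pos h3]
            rcases a with a | a
            · rw [ev_of_ne (by simp)]
            · by_cases h4 : a = s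
              · subst h4; rw [ev_same]; simp [h3]
              · rw [ev_of_ne (by simpa using h4)]
                simp only
                rw [if_neg]
                rintro rfl; exact h4 h3.symm
          rw [e]
          apply mem_Ish_of
          · intro i; exact ev_of_ne (by simp)
          · intro u hu
            refine ev_of_ne ?_
            intro h'
            rw [Sum.inr_injective h', hs] at hu
            exact absurd hu (by simp)
        · by_cases h1 : (s : ℕ) = D.neg r
          · have hrs : D.neg s = r := by rw [h1]; exact neg_neg X.rc hr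
            have e : ∀ a, (((xg R r t : GL D.Idx k) : Matrix D.Idx D.Idx k) *ᵥ ev D k s) a =
                Sum.elim (fun i : Fin D.rank => (((D.coroot.getD r #[]).getD i 0 : ℤ) : k) * t)
                  (fun u : Fin D.nroots => if u = s then 1 else if u = ⟨r, hr⟩ then - t ^ 2 else 0) a := by
              intro a
              rw [xg_val, mv_ev]
              unfold ChevalleyDatum.x
              rw [dif_pos hr]
              unfold ChevalleyDatum.xMat
              simp only [Matrix.of_apply]
              have h3 : s ≠ ⟨r, hr⟩ := fun h => h0 (congrArg Fin.val h)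
              have h1' : (s : ℕ) = D.negIdx.getD r 0 := h1
              rw [if_neg h3, if_pos h1']
              rcases a with a | a
              · rfl
              · simp only [Sum.elim_inr]
            refine ⟨?_, ?_⟩
            · intro u hu
              rw [e]
              simp only [Sum.elim_inr]
              rw [if_neg, if_neg]
              · intro h'
                rw [h'] at hu
                simp only at hu
                rw [← hrs, c1] at hu
                exact absurd hu (by simp)
              · rintro rfl; rw [hs] at hu; exact absurd hu (by simp)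
            · intro w hw
              simp only [e, Sum.elim_inl]
              have h5 := allN_spec c2 w w.2
              rw [hw, Bool.not_true, Bool.false_or, beq_iff_eq, foldl_add, hrs] at h5
              have h6 := even_cast (k := k) h5
              have h7 : ∑ j : Fin D.rank, ((D.cartan j w : ℤ) : k) *
                  ((((D.coroot.getD r #[]).getD j 0 : ℤ) : k) * t) =
                  ((∑ j ∈ Finset.range D.rank, D.cartan j w * (D.coroot.getD r #[]).getD j 0 : ℤ) : k) * t := by
                rw [← Fin.sum_univ_eq_sum_range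
                  (fun j => D.cartan j w * (D.coroot.getD r #[]).getD j 0) D.rank]
                push_cast
                rw [Finset.sum_mul]
                refine Finset.sum_congr rfl fun j _ => ?_
                ring
              rw [h7, h6, zero_mul]
          · have hx := xg_ev R K hr h0 h1 t
            apply mem_Ish_of
            · intro i; rw [hx]; rfl
            · intro u hu
              rw [hx]
              simp only [Sum.elim_inr]
              have hus : u ≠ s := by rintro rfl; rw [hs] at hu; exact absurd hu (by simp)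
              rw [if_neg hus]
              have h5 := allN_spec c3 r hr
              rw [List.all_eq_true] at h5
              have h6 : ∀ n : ℕ, (((if ((D.chainEntry r s)[n]?).map Prod.fst = some (u : ℕ) then
                  (((D.chainEntry r s)[n]?).map Prod.snd).getD 0 else 0 : ℤ) : k)) = 0 := by
                intro n
                cases hn : (D.chainEntry r s)[n]? with
                | none => simp
                | some e =>
                  have h7 := h5 e (List.mem_of_getElem? hn)
                  simp only [Option.map_some, Option.some.injEq, Option.getD_some]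
                  split_ifs with h8
                  · rw [h8, hu] at h7
                    simp only [Bool.not_true, Bool.false_or, beq_iff_eq] at h7
                    exact even_cast h7
                  · simp
              rw [h6, h6, h6]; ring
      -- decomposition
      have hdec : ((xg R r t : GL D.Idx k) : Matrix D.Idx D.Idx k) *ᵥ v =
          (fun a => ∑ j : Fin D.rank, ((xg R r t : GL D.Idx k) : Matrix D.Idx D.Idx k) a (Sum.inl j) *
            v (Sum.inl j)) + ∑ s : Fin D.nroots, v (Sum.inr s) •
              (((xg R r t : GL D.Idx k) : Matrix D.Idx D.Idx k) *ᵥ ev D k s) := by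
        funext a
        rw [Pi.add_apply, Finset.sum_apply]
        simp only [Pi.smul_apply, mv_ev, smul_eq_mul]
        show ∑ b, ((xg R r t : GL D.Idx k) : Matrix D.Idx D.Idx k) a b * v b = _
        rw [Fintype.sum_sum_type]
        congr 1
        refine Finset.sum_congr rfl fun s _ => ?_
        ring
      rw [hdec]
      refine Submodule.add_mem _ ?_ (Submodule.sum_mem _ fun s _ => ?_)
      · have hxi : ∀ (a : D.Idx) (j : Fin D.rank),
            ((xg R r t : GL D.Idx k) : Matrix D.Idx D.Idx k) a (Sum.inl j) =
              Sum.elim (fun i : Fin D.rank => if i = j then 1 else 0)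
                (fun u : Fin D.nroots => if u = ⟨r, hr⟩ then -((D.cartan j r : ℤ) : k) * t else 0) a := by
          intro a j
          rw [xg_val]
          unfold ChevalleyDatum.x
          rw [dif_pos hr]
          unfold ChevalleyDatum.xMat
          simp only [Matrix.of_apply]
          rcases a with a | a
          · rfl
          · rfl
        refine ⟨?_, ?_⟩
        · intro u hu
          simp only [hxi, Sum.elim_inr]
          by_cases h3 : u = ⟨r, hr⟩
          · subst h3
            simp only [if_true]
            have := hv2 ⟨r, hr⟩ hu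
            have h4 : ∑ j : Fin D.rank, -((D.cartan j r : ℤ) : k) * t * v (Sum.inl j) =
                -t * ∑ j : Fin D.rank, ((D.cartan j r : ℤ) : k) * v (Sum.inl j) := by
              rw [Finset.mul_sum]
              refine Finset.sum_congr rfl fun j _ => ?_
              ring
            rw [h4]
            simp only at this
            rw [this, mul_zero]
          · simp [h3]
        · intro w hw
          simp only [hxi, Sum.elim_inl]
          refine Eq.trans (Finset.sum_congr rfl fun j _ => ?_) (hv2 w hw)
          congr 1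
          rw [Finset.sum_eq_single j]
          · rw [if_pos rfl, one_mul]
          · intro b _ hb; rw [if_neg (Ne.symm hb), zero_mul]
          · intro h'; exact absurd (Finset.mem_univ j) h'
      · by_cases hs : lng s = true
        · rw [hv1 s hs, zero_smul]; exact Submodule.zero_mem _
        · exact Submodule.smul_mem _ _ (hcol s (by simpa using hs))
    intro g hg
    suffices hh : (∀ v ∈ Ish D k lng, (g : Matrix D.Idx D.Idx k) *ᵥ v ∈ Ish D k lng) ∧
        ∀ v ∈ Ish D k lng, ((g⁻¹ : GL D.Idx k) : Matrix D.Idx D.Idx k) *ᵥ v ∈ Ish D k lng from hh.1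
    rw [group_eq_closure] at hg
    induction hg using Subgroup.closure_induction with
    | mem x hx =>
      obtain ⟨r, t, hr, hg⟩ := hx
      rw [xg_eq R hg]
      refine ⟨fun v hv => key r hr t v hv, fun v hv => ?_⟩
      have : (xg R r t)⁻¹ = xg R r (-t) := by
        rw [inv_eq_iff_mul_eq_one, xg_mul, add_neg_cancel, xg_zero]
      rw [this]; exact key r hr _ v hv
    | one => simp
    | mul x y _ _ hx hy =>
      refine ⟨fun v hv => ?_, fun v hv => ?_⟩
      · rw [Units.val_mul, ← Matrix.mulVec_mulVec]; exact hx.1 _ (hy.1 v hv)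
      · rw [mul_inv_rev, Units.val_mul, ← Matrix.mulVec_mulVec]; exact hy.2 _ (hx.2 v hv)
    | inv x _ hx => exact ⟨hx.2, by rw [inv_inv]; exact hx.1⟩

theorem mem_bot_of (v : D.Idx → k) (h1 : ∀ i, v (Sum.inl i) = 0)
    (h2 : ∀ u : Fin D.nroots, (fun _ : ℕ => true) u = true → v (Sum.inr u) = 0) :
    v ∈ (⊥ : Submodule k (D.Idx → k)) := by
  rw [Submodule.mem_bot]
  funext a
  rcases a with a | a
  · exact h1 a
  · exact h2 a rfl

/-- norms -/
def ckMax (T : ℕ) (A : ℕ → ℕ → ℤ) (d : ℕ → ℤ) (D : ChevalleyDatum) (lng : ℕ → Bool) (M : ℤ) : Bool :=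
  allN (fun s => decide (ipB T A d D D.rank s s D.rank ≤ M) &&
    (!(lng s) || ipB T A d D D.rank s s D.rank == M)) D.nroots

theorem max_of {T : ℕ} {A : ℕ → ℕ → ℤ} {d : ℕ → ℤ} (hco : X.rc.co = co T D.rank) (hA : X.rc.A = A)
    (Q : Frm (H22.RCComb.coord X)) (hd : ∀ i : Fin D.rank, Q.d i = d i) {lng : ℕ → Bool} {M : ℤ}
    (h : ckMax T A d D lng M = true) (u s : Fin D.nroots) (hs : lng s = true) :
    ip Q u u ≤ ip Q s s := by
  have h1 := allN_spec h u u.2
  have h2 := allN_spec h s s.2
  rw [ip_eq' hco hA Q hd] at h1 h2
  rw [hs] at h2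
  simp only [Bool.and_eq_true, decide_eq_true_eq, Bool.not_true, Bool.false_or, beq_iff_eq] at h1 h2
  rw [h2.2]; exact h1.1

/-- the check for a simple root -/
def ckI (D : ChevalleyDatum) (lng P : ℕ → Bool) (i γ0 : ℕ) : Bool :=
  Nat.blt γ0 D.nroots && lng γ0 && decide (D.cartan i γ0 < 0) && !(Nat.beq γ0 (D.neg (D.simple i))) &&
  allN (fun s => !(lng s) || !(decide (D.cartan i s < 0)) || Nat.beq s (D.neg (D.simple i)) ||
    ckE D P i s (D.reflectRoot i s)) D.nroots

theorem ckI_spec {lng P : ℕ → Bool} {i γ0 : ℕ} (h : ckI D lng P i γ0 = true) :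
    (∃ γ0 : Fin D.nroots, lng γ0 = true ∧ D.cartan i γ0 < 0 ∧ (γ0 : ℕ) ≠ D.neg (D.simple i)) ∧
    (∀ s : Fin D.nroots, lng s = true → D.cartan i s < 0 → (s : ℕ) ≠ D.neg (D.simple i) →
      ckE D P i s (D.reflectRoot i s) = true) := by
  unfold ckI at h
  simp only [Bool.and_eq_true, decide_eq_true_eq, Bool.not_eq_true'] at h
  obtain ⟨⟨⟨⟨h1, h2⟩, h3⟩, h4⟩, h5⟩ := h
  refine ⟨⟨⟨γ0, by simpa using h1⟩, h2, h3, fun e => ?_⟩, fun s a b c => ?_⟩
  · rw [show γ0 = D.neg (D.simple i) from e] at h4
    simp at h4
  · have h6 := allN_spec h5 s s.2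
    have c' : Nat.beq (s : ℕ) (D.neg (D.simple i)) = false := by
      cases hb : Nat.beq (s : ℕ) (D.neg (D.simple i)) with
      | false => rfl
      | true => exact absurd (Nat.eq_of_beq_eq_true hb) c
    rw [a, c'] at h6
    simpa [b] using h6

variable {m : Fin D.rank} {lng P : ℕ → Bool} (σ : k →+* k)

theorem lng_W (hr : ∀ i < D.rank, ∀ r < D.nroots, lng r = true → lng (D.reflectRoot i r) = true) :
    ∀ w ∈ (comb X).W, ∀ r : Fin D.nroots, lng r = true → lng (w r) = true := by
  intro w hw
  obtain ⟨l, rfl⟩ := (comb X).exists_word hw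
  clear hw
  induction l with
  | nil => intro r h; exact h
  | cons i l ih =>
    intro r h
    rw [RootComb.w_cons, Equiv.Perm.mul_apply]
    exact hr i i.2 _ ((comb X).w l r).2 (ih r h)

/-- all lists are good if all simple roots are -/
theorem good_all [CharP k 2] (E : LH R X m lng) (Z : Lex X.rc) (K : H23.ChevCore.Core D) (hc : HC D)
    {I : Submodule k (D.Idx → k)} (hI : Idl X.rc I)
    (hP : ∀ v : D.Idx → k, (∀ i, v (Sum.inl i) = 0) →
      (∀ u : Fin D.nroots, P u = true → v (Sum.inr u) = 0) → v ∈ I)
    (Q : Frm (H22.RCComb.coord X))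
    (hmax : ∀ u s : Fin D.nroots, lng s = true → ip Q u u ≤ ip Q s s)
    {W : List (Fin D.nroots)} (hW : Orth Q W) {ψ : Fin D.nroots} (hψ : ψ ∈ W) {i : Fin D.rank}
    {γ0 : ℕ} (hψi : ∃ l, (comb X).w l ψ = (comb X).simple i) (h : ckI D lng P i γ0 = true) :
    Good R σ X I (aL R W) :=
  good_mem R Q σ hI K hc hP (lng_W E.refl) (fun r hr => E.orb' R Z hr)
    (fun r => ip_self_pos Q (hsc X) r) hmax (ckI_spec h).1 (ckI_spec h).2 hW hψ hψi

theorem exists_to_simple (X : RCX D) (ψ : Fin D.nroots) : ∃ (i : Fin D.rank) (l : List (Fin D.rank)),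
    (comb X).w l ψ = (comb X).simple i := by
  obtain ⟨L, i, h⟩ := hsc X ψ
  obtain ⟨l, hl⟩ := (comb X).exists_word ((comb X).W.inv_mem ((comb X).w_mem L))
  exact ⟨i, l, by rw [hl, ← h]; simp⟩

end H42.Subf
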