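import Cfsg.Agent.Lib.H42.SubfK

/-!
Overgroups of subfield subgroups, part L: the data of a type from tables.
-/

set_option autoImplicit false
set_option linter.unusedVariables false
set_option linter.unusedSectionVars false

namespace H42.Subf

open H22.RGD H22.Coord H22.RCCheck H22.RCComb H22.ChevTri H22.ChevRel H22.ChevSys H22.ChevMain
open H22.ChevStd H22.ChevUni H47.ChevSub H42.Inv2F H42.Inv2E H22.RCPack H42.Inv2C H42.Inv2D
open H42.Inv2M H42.InvCK
open Cfsg.Lie (ChevalleyDatum)
open scoped MatrixGroups Matrix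

variable {D : ChevalleyDatum} {k : Type*} [Field k] (R : Rel D k) {X : RCX D} (Z : Lex X.rc)

/-- shape of a chain entry from a long root -/
def shp : List (ℕ × ℤ) → Bool
  | [] => true
  | a :: rest => (a.2 == 1 || a.2 == -1) && rest.all (fun b => !(Nat.beq b.1 a.1))

def ckPl (D : ChevalleyDatum) (lng : ℕ → Bool) : Bool :=
  D.chain.toList.all fun row => row.toList.all fun e => !(lng e.1) || shp e.2.toList

theorem entry_find {r s : ℕ} {a : ℕ × ℤ} {rest : List (ℕ × ℤ)} (h : D.chainEntry r s = a :: rest) :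
    ∃ e ∈ (D.chain.getD r #[]).toList, e.1 = s ∧ e.2.toList = a :: rest := by
  unfold ChevalleyDatum.chainEntry at h
  split at h
  · exact absurd h (by simp)
  · rename_i e he
    have h1 := List.find?_some he
    exact ⟨e, List.mem_of_find?_eq_some he, by simpa using h1, h⟩

theorem shp_entry {lng : ℕ → Bool} (h : ckPl D lng = true) {r s : ℕ} (hs : lng s = true) :
    shp (D.chainEntry r s) = true := by
  cases hc : D.chainEntry r s with
  | nil => rfl
  | cons a rest =>
    obtain ⟨e, he, h1, h2⟩ := entry_find hc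
    unfold ckPl at h
    rw [List.all_eq_true] at h
    have hrow : D.chain.getD r #[] ∈ D.chain.toList := by
      rw [Array.getD_eq_getD_getElem?] at he ⊢
      cases hr : D.chain[r]? with
      | none => rw [hr] at he; simp at he
      | some x => 
        simp only [Option.getD_some]
        exact Array.mem_toList_iff.2 (Array.mem_of_getElem? hr)
    have h3 := h _ hrow
    rw [List.all_eq_true] at h3
    have h4 := h3 e he
    rw [h1, hs, Bool.not_true, Bool.false_or, h2] at h4
    exact h4

theorem chainCoeff_head (hD : H23.ChevOp.RowsOK D) {r s : ℕ} (hr : r < D.nroots) {a : ℕ × ℤ}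
    {rest : List (ℕ × ℤ)} (h : D.chainEntry r s = a :: rest) (hrest : ∀ b ∈ rest, b.1 ≠ a.1) :
    D.chainCoeff r s a.1 = [(1, a.2)] := by
  rw [H23.ChevOp.chainCoeff_eq hD hr, h, List.zipIdx_cons, List.filter_cons]
  simp only [decide_true, if_true, List.map_cons, Nat.zero_add, List.cons.injEq, true_and]
  rw [List.map_eq_nil_iff, List.filter_eq_nil_iff]
  intro q hq
  simp only [decide_eq_true_eq]
  have := List.fst_mem_of_mem_zipIdx hq
  exact hrest _ this

theorem head_co (Q : RC D) {r s : ℕ} (hr : r < D.nroots) {a : ℕ × ℤ}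
    {rest : List (ℕ × ℤ)} (h : D.chainEntry r s = a :: rest) :
    a.1 < D.nroots ∧ ∀ j < D.rank, Q.co a.1 j = Q.co r j + Q.co s j := by
  obtain ⟨e, he, h1, h2⟩ := entry_find h
  refine ⟨(Q.chain_lt r hr e he).2 a (by rw [h2]; simp), fun j hj => ?_⟩
  have := Q.chain_co r hr e he 0 (by rw [h2]; simp) j hj
  simp only [h2, List.getElem_cons_zero, h1] at this
  rw [this]; push_cast; ring

theorem Pl_of_nil (hD : H23.ChevOp.RowsOK D) {r : ℕ} (hr : r < D.nroots) {s : Fin D.nroots}
    (h1 : (s : ℕ) ≠ D.neg r) (h : D.chainEntry r s = []) (t : k) : xg R r t ∈ Pl k s := by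
  apply xg_mem_Pl R hr h1
  intro u
  rw [H23.ChevOp.chainCoeff_eq hD hr, h]
  simp

/-- the check for `pr` -/
def ckPr (D : ChevalleyDatum) (lng : ℕ → Bool) : Bool :=
  allN (fun β => !(lng β) || Nat.beq β (D.neg (D.nroots - 1)) ||
    (D.chainEntry β (D.nroots - 1)).isEmpty ||
    (match D.commTerms (D.nroots - 1) β with
     | [(δ, N, 1, 1)] => (N == 1 || N == -1) && lng δ && Nat.blt δ D.nroots &&
        !(Nat.beq β (D.nroots - 1)) && (D.chainEntry δ (D.nroots - 1)).isEmpty &&
        !(Nat.beq (D.nroots - 1) (D.neg δ)) && (D.chainEntry β δ).isEmpty &&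
        !(Nat.beq δ (D.neg β))
     | _ => false)) D.nroots

/-- the remaining checks -/
def ckMisc (D : ChevalleyDatum) (lng : ℕ → Bool) (m : ℕ) (co : ℕ → ℕ → ℤ) : Bool :=
  lng (D.nroots - 1) && allN (fun r => !(lng r) || (allN (fun i => lng (D.reflectRoot i r)) D.rank &&
    (Nat.beq r (D.nroots - 1) || (List.range D.rank).any fun i => decide (D.cartan i r < 0)))) D.nroots &&
  allN (fun i => Nat.beq i m || (decide (D.cartan i (D.nroots - 1) = 0) &&
    (List.range D.nroots).any fun b => decide (1 ≤ co b m) &&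
      !((D.chainEntry (D.simple i) b).isEmpty))) D.rank &&
  !(decide (D.cartan m (D.nroots - 1) = 0)) && allN (fun r => (D.chainEntry r r).isEmpty) D.nroots

theorem beq_false_ne {a b : ℕ} (h : Nat.beq a b = false) : a ≠ b := by
  rintro rfl
  rw [Nat.beq_refl] at h; exact absurd h (by decide)

theorem st_of (Q : Frm (H22.RCComb.coord X)) {m : Fin D.rank}
    (h0 : ∀ i < D.rank, i ≠ m → D.cartan i (D.nroots - 1) = 0)
    (hm : D.cartan m (D.nroots - 1) ≠ 0) :
    ∀ w ∈ (comb X).W, w (H42.Subf.top X.rc) = H42.Subf.top X.rc →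
    ∀ r : Fin D.nroots, X.rc.co (w r) m = X.rc.co r m := by
  intro w hw hwt r
  have key : ∀ s : Fin D.nroots, ip Q s (H42.Subf.top X.rc) =
      Q.d m * X.rc.co s m * D.cartan m (D.nroots - 1) := by
    intro s
    unfold ip
    rw [Finset.sum_eq_single m]
    · rw [H47.RootCent.pair_eq]; rfl
    · intro i _ hi
      rw [H47.RootCent.pair_eq]
      have : D.cartan i (H42.Subf.top X.rc : Fin D.nroots) = 0 := h0 i i.2 (fun h => hi (Fin.ext h))
      rw [this, mul_zero]
    · intro h; exact absurd (Finset.mem_univ m) h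
  have h1 := ip_W Q hw r (H42.Subf.top X.rc)
  rw [hwt, key, key] at h1
  have h2 := mul_right_cancel₀ hm h1
  exact mul_left_cancel₀ (ne_of_gt (Q.dpos m)) h2

/-- the long root data from tables -/
theorem LH_of (K : H23.ChevCore.Core D) (Q : Frm (H22.RCComb.coord X)) {m : Fin D.rank}
    {lng : ℕ → Bool} (h1 : ckPl D lng = true) (h2 : ckPr D lng = true)
    (h3 : ckMisc D lng m X.rc.co = true) : LH R X m lng := by
  unfold ckMisc at h3
  simp only [Bool.and_eq_true, Bool.not_eq_true', decide_eq_false_iff_not] at h3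
  obtain ⟨⟨⟨⟨c1, c2⟩, c3⟩, c4⟩, c5⟩ := h3
  have hone : ∀ {N : ℤ}, (N == 1 || N == -1) = true → (N : k) ≠ 0 := by
    intro N h
    simp only [Bool.or_eq_true, beq_iff_eq] at h
    rcases h with rfl | rfl <;> simp
  refine ⟨c1, ?_, ?_, ?_, ?_, ?_, ?_⟩
  · intro i hi r hr hl
    have h := allN_spec c2 r hr
    rw [hl, Bool.not_true, Bool.false_or, Bool.and_eq_true] at h
    exact allN_spec h.1 i hi
  · intro r hr hl hne
    have h := allN_spec c2 r hr
    rw [hl, Bool.not_true, Bool.false_or, Bool.and_eq_true, Bool.or_eq_true] at h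
    rcases h.2 with h | h
    · exact absurd (Nat.eq_of_beq_eq_true h) hne
    · rw [List.any_eq_true] at h
      obtain ⟨i, hi, h⟩ := h
      exact ⟨i, List.mem_range.1 hi, of_decide_eq_true h⟩
  · refine st_of Q ?_ c4
    intro i hi hne
    have h := allN_spec c3 i hi
    simp only [Bool.or_eq_true, Bool.and_eq_true, decide_eq_true_eq] at h
    rcases h with h | h
    · exact absurd (Nat.eq_of_beq_eq_true h) hne
    · exact h.1
  · intro i hi
    have h := allN_spec c3 i i.2
    simp only [Bool.or_eq_true, Bool.and_eq_true, List.any_eq_true] at h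
    rcases h with h | h
    · exact absurd (Fin.ext (Nat.eq_of_beq_eq_true h)) hi
    · obtain ⟨_, b, hb, h4, h5⟩ := h
      rw [decide_eq_true_eq] at h4
      cases hc : D.chainEntry (D.simple i) b with
      | nil => rw [hc] at h5; exact absurd h5 (by simp)
      | cons a rest =>
        obtain ⟨ha, hco⟩ := head_co X.rc (X.rc.simple_lt i i.2) hc
        have hb' := List.mem_range.1 hb
        refine ⟨⟨a.1, ha⟩, ⟨b, hb'⟩, ?_, h4, ?_⟩
        · show 1 ≤ X.rc.co a.1 m
          have hs : X.rc.co (D.simple i) m = 0 := by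
            rw [X.rc.co_simple i i.2 m m.2, if_neg]
            intro h; exact hi (Fin.ext h.symm)
          rw [hco m m.2, hs, zero_add]; exact h4
        · intro j hj
          show X.rc.co a.1 j = X.rc.co b j + X.rc.co (D.simple i) j
          rw [hco j hj]; ring
  · intro δ hδ q hq hq'
    by_cases hn : (δ : ℕ) = D.neg q
    · exact Or.inr (Or.inl hn)
    · have hsh := shp_entry h1 (r := q) hδ
      cases hc : D.chainEntry q δ with
      | nil => exact Or.inl fun t => Pl_of_nil R K.rows hq hn hc t
      | cons a rest =>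
        right; right
        rw [hc] at hsh
        simp only [shp, Bool.and_eq_true, List.all_eq_true, Bool.not_eq_true'] at hsh
        obtain ⟨ha, hco⟩ := head_co X.rc hq hc
        refine ⟨⟨a.1, ha⟩, hco, a.2, hone hsh.1, ?_, hn, ?_⟩
        · exact chainCoeff_head K.rows hq hc fun b hb => beq_false_ne (hsh.2 b hb)
        · intro hqδ
          have h5 := allN_spec c5 q hq
          rw [← hqδ] at hc h5
          rw [hc] at h5
          exact absurd h5 (by simp)
  · intro β hβ hne
    have h := allN_spec h2 β β.2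
    rw [hβ, Bool.not_true, Bool.false_or] at h
    have hb0 : Nat.beq (β : ℕ) (D.neg (D.nroots - 1)) = false := by
      cases hb : Nat.beq (β : ℕ) (D.neg (D.nroots - 1)) with
      | false => rfl
      | true => exact absurd (Nat.eq_of_beq_eq_true hb) hne
    rw [hb0, Bool.false_or, Bool.or_eq_true] at h
    rcases h with h | h
    · left
      intro t
      refine Pl_of_nil R K.rows β.2 ?_ (List.isEmpty_iff.1 h) t
      intro h'
      apply hne
      have h'' : D.nroots - 1 = D.neg β := h'
      rw [h'', neg_neg X.rc β.2]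
    · right
      split at h
      · rename_i δ N hct
        simp only [Bool.and_eq_true, Bool.not_eq_true', List.isEmpty_iff] at h
        obtain ⟨⟨⟨⟨⟨⟨⟨d1, d2⟩, d3⟩, d4⟩, d5⟩, d6⟩, d7⟩, d8⟩ := h
        have hδ : δ < D.nroots := by simpa using d3
        refine ⟨⟨δ, hδ⟩, d2, N, hone d1, hct, beq_false_ne d4, ?_, ?_⟩
        · intro t
          exact Pl_of_nil R K.rows hδ (s := H42.Subf.top X.rc) (beq_false_ne d6) d5 t
        · intro t
          exact Pl_of_nil R K.rows β.2 (s := ⟨δ, hδ⟩) (beq_false_ne d8) d7 t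
      · exact absurd h (by simp)

end H42.Subf
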