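import Cfsg.Agent.Lib.H42.SubfL

/-!
Overgroups of subfield subgroups, part M: the central root groups from tables.
-/

set_option autoImplicit false
set_option linter.unusedVariables false
set_option linter.unusedSectionVars false

namespace H42.Subf

open H22.RGD H22.Coord H22.RCCheck H22.RCComb H22.ChevTri H22.ChevRel H22.ChevSys H22.ChevMain
open H22.ChevStd H22.ChevUni H47.ChevSub H42.Inv2F H42.Inv2E H22.RCPack H42.Inv2C H42.Inv2D
open H42.Inv2M H42.InvCK
open Cfsg.Lie (ChevalleyDatum)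
open scoped MatrixGroups Matrix

variable {D : ChevalleyDatum} {k : Type*} [Field k] (R : Rel D k) {X : RCX D} (Z : Lex X.rc)

/-- commuting by vanishing constants -/
def ckC (D : ChevalleyDatum) (e0 : ℤ) (r s : ℕ) : Bool := (D.commTerms r s).all fun c => c.2.1 % e0 == 0

theorem wg_one {L : List (ℕ × k)} (h : ∀ c ∈ L, c.2 = 0) : wg R L = 1 := by
  induction L with
  | nil => simp [wg]
  | cons a L ih =>
    have : wg R (a :: L) = xg R a.1 a.2 * wg R L := by simp [wg]
    rw [this, h a List.mem_cons_self, xg_zero, one_mul, ih fun c hc => h c (List.mem_cons_of_mem _ hc)]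

theorem comm_of_ckC {e0 : ℤ} (he : (e0 : k) = 0) {r s : ℕ} (hr : r < D.nroots) (hs : s < D.nroots)
    (h1 : s ≠ r) (h2 : s ≠ D.neg r) (h : ckC D e0 r s = true) (t u : k) :
    xg R s u * xg R r t = xg R r t * xg R s u := by
  rw [comm_g R hr hs h1 h2 t u, wg_one, mul_one]
  intro c hc
  unfold ChevalleyDatum.commWord at hc
  rw [List.mem_map] at hc
  obtain ⟨c', hc', rfl⟩ := hc
  unfold ckC at h
  rw [List.all_eq_true] at h
  have h3 := h c' hc'
  rw [beq_iff_eq] at h3
  obtain ⟨z, hz⟩ := Int.dvd_of_emod_eq_zero h3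
  simp only [hz]
  push_cast
  rw [he]; ring

/-- the leading coefficient of a word -/
theorem wg_lead (Z : Lex X.rc) {r0 : ℕ} (hr0 : X.rc.half ≤ r0) (hr0n : r0 < D.nroots) :
    ∀ L : List (ℕ × k), (∀ c ∈ L, c.2 = 0 ∨ (r0 ≤ c.1 ∧ c.1 < D.nroots)) →
    ∃ v ∈ Vk R (r0 + 1), wg R L = xg R r0 (((L.filter fun c => c.1 = r0).map Prod.snd).sum) * v := by
  intro L
  induction L with
  | nil => intro _; exact ⟨1, one_mem _, by simp [wg, xg_zero]⟩
  | cons a L ih =>
    intro h
    obtain ⟨v, hv, e⟩ := ih fun c hc => h c (List.mem_cons_of_mem _ hc)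
    have hw : wg R (a :: L) = xg R a.1 a.2 * wg R L := by simp [wg]
    rw [hw, e]
    rcases h a List.mem_cons_self with ha0 | ⟨ha1, ha2⟩
    · refine ⟨v, hv, ?_⟩
      rw [ha0, xg_zero, one_mul]
      by_cases h0 : a.1 = r0
      · rw [List.filter_cons_of_pos (by simpa using h0), List.map_cons, List.sum_cons, ha0, zero_add]
      · rw [List.filter_cons_of_neg (by simpa using h0)]
    by_cases h0 : a.1 = r0
    · refine ⟨v, hv, ?_⟩
      rw [List.filter_cons_of_pos (by simpa using h0), List.map_cons, List.sum_cons, ← mul_assoc, h0,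
        xg_mul]
    · set t := ((L.filter fun c => c.1 = r0).map Prod.snd).sum with ht
      have h1 : xg R a.1 a.2 ∈ Vk R (r0 + 1) := xg_mem_Vk R (by omega) ha2 _
      have h2 := conj_Vk R Z (m := r0 + 1) (by omega)
        (u := (xg R r0 t)⁻¹) (inv_mem (xg_mem_Vk R hr0 hr0n t)) h1
      rw [inv_inv] at h2
      refine ⟨(xg R r0 t)⁻¹ * xg R a.1 a.2 * xg R r0 t * v, mul_mem h2 hv, ?_⟩
      rw [List.filter_cons_of_neg (by simpa using h0), ← ht]
      simp [mul_assoc]

theorem lead_inj (Z : Lex X.rc) {r0 : ℕ} (hr0 : X.rc.half ≤ r0) (hr0n : r0 < D.nroots) {t t' : k}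
    {v v' : GL D.Idx k} (hv : v ∈ Vk R (r0 + 1)) (hv' : v' ∈ Vk R (r0 + 1))
    (h : xg R r0 t * v = xg R r0 t' * v') : t = t' := by
  have h1 : xg R r0 (t - t') ∈ Vk R (r0 + 1) := by
    have h2 : xg R r0 (t - t') = v' * v⁻¹ := by
      rw [eq_mul_inv_iff_mul_eq, sub_eq_neg_add, ← xg_mul, mul_assoc, h, ← mul_assoc, xg_mul,
        neg_add_cancel, xg_zero, one_mul]
    rw [h2]; exact mul_mem hv' (inv_mem hv)
  exact sub_eq_zero.1 (Vk_disj R Z hr0 hr0n h1)

def ckUp (D : ChevalleyDatum) (half : ℕ) (e : ℤ) (zl : List ℕ) (q : ℕ) : Bool :=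
  zl.contains q || (List.range D.nroots).any fun s => Nat.ble half s && !(Nat.beq q s) &&
    (match D.commTerms s q with
     | (m, N, 1, 1) :: rest => e % N == 0 && rest.all (fun c => Nat.blt m c.1)
     | _ => false)

def ckDn (D : ChevalleyDatum) (half : ℕ) (e e0 : ℤ) (zl : List ℕ) (q ν : ℕ) : Bool :=
  Nat.blt ν D.nroots && !(Nat.beq q ν) && !(Nat.beq q (D.neg ν)) &&
  zl.all (fun q' => !(Nat.blt q q') || (!(Nat.beq q' ν) && !(Nat.beq ν (D.neg q')) && ckC D e0 q' ν)) &&
  (D.commTerms ν q).all (fun c => Nat.ble half c.1 && Nat.blt c.1 D.nroots) &&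
  (D.commTerms ν q).any (fun c0 => c0.2.2.2 == 1 && e % c0.2.1 == 0 &&
    (D.commTerms ν q).filter (fun c => decide (c.1 = c0.1)) == [c0] &&
    (D.commTerms ν q).all (fun c => c.2.1 % e0 == 0 || Nat.ble c0.1 c.1))

def ckBH (D : ChevalleyDatum) (half : ℕ) (e e0 : ℤ) (zl nl : List ℕ) : Bool :=
  zl.all (fun q => Nat.ble half q && Nat.blt q D.nroots) &&
  zl.all (fun q => allN (fun s => Nat.ble s (half - 1) || Nat.beq s q || ckC D e0 q s) D.nroots) &&
  allN (fun q => Nat.ble q (half - 1) || ckUp D half e zl q) D.nroots &&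
  (List.zip zl nl).all (fun p => ckDn D half e e0 zl p.1 p.2) && Nat.beq zl.length nl.length

theorem unit_of {e N : ℤ} (he : (e : k) ≠ 0) (h : e % N = 0) : (N : k) ≠ 0 := by
  obtain ⟨z, hz⟩ := Int.dvd_of_emod_eq_zero h
  intro h0
  apply he
  rw [hz]; push_cast; rw [h0, zero_mul]

theorem blt_lt {a b : ℕ} (h : Nat.blt a b = true) : a < b := by simpa using h

theorem ble_le {a b : ℕ} (h : Nat.ble a b = true) : a ≤ b := by simpa using h

/-- the data on the central root groups from tables -/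
theorem BH_of (Z : Lex X.rc) {e e0 : ℤ} (he : (e : k) ≠ 0) (he0 : (e0 : k) = 0) {zl nl : List ℕ}
    (h : ckBH D X.rc.half e e0 zl nl = true) : BH R X zl := by
  have hh := X.rc.half_pos
  have hn := X.rc.nroots_eq
  unfold ckBH at h
  simp only [Bool.and_eq_true] at h
  obtain ⟨⟨⟨⟨c1, c2⟩, c3⟩, c4⟩, c5⟩ := h
  rw [List.all_eq_true] at c1 c2 c4
  have hpos : ∀ q ∈ zl, X.rc.half ≤ q ∧ q < D.nroots := by
    intro q hq
    have := c1 q hq
    simp only [Bool.and_eq_true] at this
    exact ⟨ble_le this.1, blt_lt this.2⟩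
  refine ⟨hpos, ?_, ?_, ?_⟩
  · intro q hq s hs hs' a t
    obtain ⟨hq1, hq2⟩ := hpos q hq
    by_cases hsq : s = q
    · subst hsq; exact xg_comm R _ _ _
    · have h1 := allN_spec (c2 q hq) s hs
      simp only [Bool.or_eq_true] at h1
      rcases h1 with (h1 | h1) | h1
      · have := ble_le h1; omega
      · exact absurd (Nat.eq_of_beq_eq_true h1) hsq
      · exact comm_of_ckC R he0 hq2 hs hsq (by
          rw [X.rc.neg_eq q hq2]; omega) h1 t a
  · intro q hq hq' hqz
    have h1 := allN_spec c3 q hq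
    simp only [Bool.or_eq_true] at h1
    rcases h1 with h1 | h1
    · have := ble_le h1; omega
    · unfold ckUp at h1
      simp only [Bool.or_eq_true, List.contains_iff_mem, List.any_eq_true, Bool.and_eq_true,
        Bool.not_eq_true'] at h1
      rcases h1 with h1 | ⟨s, hs, ⟨h2, h3⟩, h4⟩
      · exact absurd h1 hqz
      · split at h4
        · rename_i m N rest hct
          simp only [Bool.and_eq_true, beq_iff_eq, List.all_eq_true] at h4
          refine ⟨s, m, N, List.mem_range.1 hs, ble_le h2, beq_false_ne h3, ⟨rest, hct⟩, ?_,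
            unit_of he h4.1⟩
          intro rest' hr' c hc
          rw [hct] at hr'
          have : rest' = rest := by
            have := List.cons.inj hr'; exact this.2.symm
          rw [this] at hc
          exact blt_lt (h4.2 c hc)
        · exact absurd h4 (by simp)
  · intro q hq
    obtain ⟨i, hi, rfl⟩ := List.getElem_of_mem hq
    have hlen : zl.length = nl.length := Nat.eq_of_beq_eq_true c5
    have hi' : i < nl.length := by omega
    have h1 := c4 (zl[i], nl[i]) (by
      rw [List.mem_iff_getElem]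
      exact ⟨i, by simp [List.length_zip]; omega, by simp⟩)
    simp only at h1
    set q := zl[i] with hq0
    set ν := nl[i] with hν0
    unfold ckDn at h1
    simp only [Bool.and_eq_true, Bool.not_eq_true'] at h1
    obtain ⟨⟨⟨⟨⟨d1, d2⟩, d3⟩, d4⟩, d5⟩, d6⟩ := h1
    rw [List.all_eq_true] at d4 d5
    rw [List.any_eq_true] at d6
    obtain ⟨c0, hc0, d6⟩ := d6
    simp only [Bool.and_eq_true, beq_iff_eq] at d6
    obtain ⟨⟨⟨d6, d7⟩, hfil2⟩, d9⟩ := d6
    rw [List.all_eq_true] at d9
    have hd5 : ∀ c ∈ D.commTerms ν q, X.rc.half ≤ c.1 ∧ c.1 < D.nroots := by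
      intro c hc
      have := d5 c hc
      simp only [Bool.and_eq_true] at this
      exact ⟨ble_le this.1, blt_lt this.2⟩
    refine ⟨ν, blt_lt d1, beq_false_ne d2, beq_false_ne d3, ?_, fun c hc => (hd5 c hc).1, ?_⟩
    · intro q' hq' hlt a t
      obtain ⟨hq1, hq2⟩ := hpos q' hq'
      have h2 := d4 q' hq'
      have hb : Nat.blt q q' = true := by simpa using hlt
      rw [hb, Bool.not_true, Bool.false_or] at h2
      simp only [Bool.and_eq_true, Bool.not_eq_true'] at h2
      exact comm_of_ckC R he0 hq2 (blt_lt d1) (beq_false_ne h2.1.1).symm (beq_false_ne h2.1.2) h2.2 t a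
    · intro χ s s' hχ hw
      have hge : ∀ x : k, ∀ c ∈ D.commWord k ν q χ x, c.2 = 0 ∨ (c0.1 ≤ c.1 ∧ c.1 < D.nroots) := by
        intro x c hc
        unfold ChevalleyDatum.commWord at hc
        rw [List.mem_map] at hc
        obtain ⟨c', hc', rfl⟩ := hc
        have h2 := d9 c' hc'
        simp only [Bool.or_eq_true, beq_iff_eq] at h2
        rcases h2 with h2 | h2
        · left
          obtain ⟨z, hz⟩ := Int.dvd_of_emod_eq_zero h2
          simp only [hz]
          push_cast
          rw [he0]; ring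
        · exact Or.inr ⟨ble_le h2, (hd5 c' hc').2⟩
      have hsum : ∀ x : k, (((D.commWord k ν q χ x).filter fun c => c.1 = c0.1).map Prod.snd).sum =
          (c0.2.1 : k) * (-χ) ^ c0.2.2.1 * x := by
        intro x
        unfold ChevalleyDatum.commWord
        rw [List.filter_map]
        have : (D.commTerms ν q).filter ((fun c : ℕ × k => decide (c.1 = c0.1)) ∘ fun c =>
            (c.1, (c.2.1 : k) * (-χ) ^ c.2.2.1 * x ^ c.2.2.2)) = [c0] := hfil2
        rw [this]
        simp [d6]
      obtain ⟨h3, h4⟩ := hd5 c0 hc0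
      obtain ⟨v, hv, e1⟩ := wg_lead R Z h3 h4 _ (hge s)
      obtain ⟨v', hv', e2⟩ := wg_lead R Z h3 h4 _ (hge s')
      rw [e1, e2] at hw
      have h5 := lead_inj R Z h3 h4 hv hv' hw
      rw [hsum, hsum] at h5
      exact mul_left_cancel₀ (mul_ne_zero (unit_of he d7) (pow_ne_zero _ (neg_ne_zero.2 hχ))) h5

end H42.Subf
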