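import Cfsg.Agent.Lib.H42.SubfM

/-!
Overgroups of subfield subgroups, part N: the data for odd characteristic from tables.
-/

set_option autoImplicit false
set_option linter.unusedVariables false
set_option linter.unusedSectionVars false

namespace H42.Subf

open H22.RGD H22.Coord H22.RCCheck H22.RCComb H22.ChevTri H22.ChevRel H22.ChevSys H22.ChevMain
open H22.ChevStd H22.ChevUni H47.ChevSub H42.Inv2F H42.Inv2E H22.RCPack H42.Inv2C H42.Inv2D
open H42.Inv2M H42.InvCK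
open Cfsg.Lie (ChevalleyDatum)
open scoped MatrixGroups Matrix

variable {D : ChevalleyDatum} {k : Type*} [Field k] (R : Rel D k) {X : RCX D} (Z : Lex X.rc)

/-- the pairing with the highest root -/
def prT (D : ChevalleyDatum) (q : ℕ) : ℤ :=
  (List.range D.rank).foldl (fun a i => a + (D.coroot.getD (D.nroots - 1) #[]).getD i 0 * D.cartan i q) 0

theorem prT_eq (q : ℕ) : prT D q = H23.ChevCore.pr D (D.nroots - 1) q := by
  unfold prT
  rw [foldl_add (fun i => (D.coroot.getD (D.nroots - 1) #[]).getD i 0 * D.cartan i q)]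
  rfl

def ckPar (D : ChevalleyDatum) (half : ℕ) : Bool :=
  allN (fun q => Nat.ble q (half - 1) || Nat.beq q (D.nroots - 1) || prT D q == 1 ||
    (prT D q == 0 && ckC D 0 (D.neg (D.nroots - 1)) q)) D.nroots

theorem hg_conj (K : H23.ChevCore.Core D) {r s : ℕ} (hr : r < D.nroots) (hs : s < D.nroots) {c : k}
    (hc : c ≠ 0) (t : k) : hg R r c * xg R s t * (hg R r c)⁻¹ =
      xg R s (c ^ (H23.ChevCore.pr D r s) * t) := by
  rw [mul_inv_eq_iff_eq_mul]
  apply Units.ext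
  rw [Units.val_mul, Units.val_mul, hg_val, xg_val, xg_val]
  exact H23.ChevH2.h_x K hr hs hc t

include Z in
theorem par_of (K : H23.ChevCore.Core D) (h : ckPar D X.rc.half = true) : ∀ q < D.nroots,
    X.rc.half ≤ q → q ≠ D.nroots - 1 →
    (∀ t : k, hg R (D.nroots - 1) (-1) * xg R q t * (hg R (D.nroots - 1) (-1))⁻¹ = xg R q (-t)) ∨
    ((∀ t : k, hg R (D.nroots - 1) (-1) * xg R q t * (hg R (D.nroots - 1) (-1))⁻¹ = xg R q t) ∧
      ∀ a t : k, Commute (xg R q a) (xg R (D.neg (D.nroots - 1)) t)) := by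
  intro q hq hq' hne
  have hh := X.rc.half_pos
  have hn := X.rc.nroots_eq
  have hθ := H47.ChevLong.top_lt X.rc
  have h1 := allN_spec h q hq
  simp only [Bool.or_eq_true, Bool.and_eq_true, beq_iff_eq] at h1
  rcases h1 with ((h1 | h1) | h1) | ⟨h1, h2⟩
  · have := ble_le h1; omega
  · exact absurd (Nat.eq_of_beq_eq_true h1) hne
  · left
    intro t
    rw [hg_conj R K hθ hq (by simp), ← prT_eq, h1]
    simp
  · right
    refine ⟨fun t => ?_, fun a t => ?_⟩
    · rw [hg_conj R K hθ hq (by simp), ← prT_eq, h1]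
      simp
    · have hm := neg_lt X.rc hθ
      have hmv : D.neg (D.nroots - 1) = 0 := by rw [X.rc.neg_eq _ hθ]; omega
      exact comm_of_ckC R (e0 := 0) (by simp) hm hq (by rw [hmv]; omega)
        (by rw [neg_neg X.rc hθ]; exact hne) h2 t a

/-- integral signs -/
theorem sgn_of {ε : k} (h : ε = 1 ∨ ε = -1) : ∃ z : ℤ, (z : k) = ε ∧ (z = 1 ∨ z = -1) := by
  rcases h with rfl | rfl
  · exact ⟨1, by simp, Or.inl rfl⟩
  · exact ⟨-1, by simp, Or.inr rfl⟩

theorem sgn_ne {z : ℤ} (h : z = 1 ∨ z = -1) : (z : k) ≠ 0 := by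
  rcases h with rfl | rfl <;> simp

include X in
/-- signs for a simple reflection -/
theorem ns_xg (i : Fin D.rank) : ∃ η : Fin D.nroots → ℤ, (∀ s, η s = 1 ∨ η s = -1) ∧
    ∀ (s : Fin D.nroots) (t : k), ns R i * xg R s t * (ns R i)⁻¹ =
      xg R ((comb X).refl i s) ((η s : k) * t) := by
  obtain ⟨ε, h1, h2⟩ := exists_sign_word (F := k) R X [i]
  have h3 : ∀ s, ∃ z : ℤ, (z : k) = ε s ∧ (z = 1 ∨ z = -1) := fun s => sgn_of (h1 s).1
  choose η h4 h5 using h3
  refine ⟨η, h5, fun s t => ?_⟩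
  have h6 := h2 s t
  have h7 : nsw R [i] = ns R i := by
    have := nsw_cons R i []
    rw [this]; simp [nsw]
  rw [h7] at h6
  rw [h6, h4]
  rfl

/-- the check of the last condition -/
def ckLast (D : ChevalleyDatum) (half m γ : ℕ) : Bool :=
  (match D.commTerms (D.neg (D.nroots - 1)) γ with
   | [(a, N, 1, 1)] => Nat.beq a (D.neg (D.simple m)) && (N == 1 || N == -1)
   | _ => false) &&
  (match D.commTerms (D.nroots - 1) (D.neg (D.simple m)) with
   | [(a, N, 1, 1)] => Nat.beq a γ && (N == 1 || N == -1)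
   | _ => false) &&
  ckC D 0 γ (D.neg (D.simple m)) && Nat.blt γ (D.nroots - 1) && Nat.ble half γ &&
  Nat.beq (D.reflectRoot m γ) (D.nroots - 1) &&
  Nat.beq (D.reflectRoot m (D.neg (D.simple m))) (D.simple m) &&
  !(Nat.beq (D.neg (D.simple m)) (D.neg γ)) && Nat.blt (D.simple m) (D.nroots - 1) &&
  Nat.ble half (D.simple m)

include Z in
theorem last_of {m : Fin D.rank} {γ : ℕ} (h : ckLast D X.rc.half m γ = true) :
    ∃ (γ i α γ' : ℕ) (A0 B0 B1 : ℤ), X.rc.half ≤ α ∧ α < γ' ∧ γ' < D.nroots ∧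
    (A0 : k) ≠ 0 ∧ (B1 : k) ≠ 0 ∧ ∀ s c : k, ∃ w ∈ Vk R (γ' + 1),
      ns R i * ((xg R (D.nroots - 1) s * xg R (D.neg (D.nroots - 1)) c * (xg R (D.nroots - 1) s)⁻¹) *
        xg R γ 1 * (xg R (D.nroots - 1) s * xg R (D.neg (D.nroots - 1)) c *
          (xg R (D.nroots - 1) s)⁻¹)⁻¹) * (ns R i)⁻¹ =
        xg R α ((A0 : k) * c) * xg R γ' ((B0 : k) + (B1 : k) * s * c) * w := by
  unfold ckLast at h
  simp only [Bool.and_eq_true, Bool.not_eq_true'] at h
  obtain ⟨⟨⟨⟨⟨⟨⟨⟨⟨c1, c2⟩, c3⟩, c4⟩, c5⟩, c6⟩, c7⟩, c8⟩, c9⟩, c10⟩ := h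
  have hh := X.rc.half_pos
  have hn := X.rc.nroots_eq
  have hθ := H47.ChevLong.top_lt X.rc
  have hmv : D.neg (D.nroots - 1) = 0 := by rw [X.rc.neg_eq _ hθ]; omega
  have hα := X.rc.simple_lt m m.2
  have hα' := neg_lt X.rc hα
  have hγ1 := blt_lt c4
  have hγ2 := ble_le c5
  have hγ : γ < D.nroots := by omega
  have hα2 := ble_le c10
  have hnα : D.neg (D.simple m) = D.nroots - 1 - D.simple m := X.rc.neg_eq _ hα
  split at c1
  swap
  · exact absurd c1 (by simp)
  rename_i a1 N1 hct1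
  simp only [Bool.and_eq_true, Bool.or_eq_true, beq_iff_eq] at c1
  obtain ⟨c1a, c1b⟩ := c1
  have c1a' := Nat.eq_of_beq_eq_true c1a
  subst c1a'
  split at c2
  swap
  · exact absurd c2 (by simp)
  rename_i a2 N2 hct2
  simp only [Bool.and_eq_true, Bool.or_eq_true, beq_iff_eq] at c2
  obtain ⟨c2a, c2b⟩ := c2
  have c2a' := Nat.eq_of_beq_eq_true c2a
  subst c2a'
  obtain ⟨η, hη1, hη2⟩ := ns_xg (k := k) (X := X) R m
  set αn : Fin D.nroots := ⟨D.neg (D.simple m), hα'⟩ with hαn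
  set γf : Fin D.nroots := ⟨a2, hγ⟩ with hγf
  refine ⟨a2, m, D.simple m, D.nroots - 1, η αn * N1, η γf, η γf * (N1 * N2), hα2, blt_lt c9, hθ,
    ?_, ?_, ?_⟩
  · push_cast; exact mul_ne_zero (sgn_ne (hη1 _)) (sgn_ne c1b)
  · push_cast; exact mul_ne_zero (sgn_ne (hη1 _)) (mul_ne_zero (sgn_ne c1b) (sgn_ne c2b))
  · intro s c
    refine ⟨1, one_mem _, ?_⟩
    have e1 : (xg R (D.nroots - 1) s)⁻¹ * xg R a2 1 * xg R (D.nroots - 1) s = xg R a2 1 := by
      have h1 := H47.ChevLong.U_comm R Z (show xg R a2 1 ∈ (chevSys R X).U by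
        rw [U_eq_Vk R]; exact xg_mem_Vk R hγ2 hγ _) s
      rw [mul_assoc, h1.eq]; simp
    have e2 : xg R (D.neg (D.nroots - 1)) c * xg R a2 1 * (xg R (D.neg (D.nroots - 1)) c)⁻¹ =
        xg R a2 1 * xg R (D.neg (D.simple m)) ((N1 : k) * c) := by
      rw [conj_eq R (neg_lt X.rc hθ) hγ (by rw [hmv]; omega) (by rw [neg_neg X.rc hθ]; omega)]
      congr 1
      unfold ChevalleyDatum.commWord
      rw [hct1]
      simp [wg]
    have e3 : xg R (D.nroots - 1) s * xg R a2 1 * (xg R (D.nroots - 1) s)⁻¹ = xg R a2 1 := by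
      have h1 := H47.ChevLong.U_comm R Z (show xg R a2 1 ∈ (chevSys R X).U by
        rw [U_eq_Vk R]; exact xg_mem_Vk R hγ2 hγ _) s
      rw [← h1.eq]; simp
    have e4 : ∀ y : k, xg R (D.nroots - 1) s * xg R (D.neg (D.simple m)) y *
        (xg R (D.nroots - 1) s)⁻¹ = xg R (D.neg (D.simple m)) y * xg R a2 ((N2 : k) * s * y) := by
      intro y
      rw [conj_eq R hθ hα' (by rw [hnα]; omega) (by rw [hnα, hmv]; have := blt_lt c9; omega)]
      congr 1
      unfold ChevalleyDatum.commWord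
      rw [hct2]
      simp [wg]
    have e5 : ∀ y z : k, xg R a2 z * xg R (D.neg (D.simple m)) y =
        xg R (D.neg (D.simple m)) y * xg R a2 z := by
      intro y z
      exact (comm_of_ckC R (e0 := 0) (by simp) hγ hα' (by rw [hnα]; omega) (beq_false_ne c8) c3 z y).symm
    have e6 : (xg R (D.nroots - 1) s * xg R (D.neg (D.nroots - 1)) c * (xg R (D.nroots - 1) s)⁻¹) *
        xg R a2 1 * (xg R (D.nroots - 1) s * xg R (D.neg (D.nroots - 1)) c *
          (xg R (D.nroots - 1) s)⁻¹)⁻¹ =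
        xg R (D.neg (D.simple m)) ((N1 : k) * c) * xg R a2 (1 + (N2 : k) * s * ((N1 : k) * c)) := by
      calc _ = xg R (D.nroots - 1) s * (xg R (D.neg (D.nroots - 1)) c *
            ((xg R (D.nroots - 1) s)⁻¹ * xg R a2 1 * xg R (D.nroots - 1) s) *
            (xg R (D.neg (D.nroots - 1)) c)⁻¹) * (xg R (D.nroots - 1) s)⁻¹ := by
            simp only [mul_assoc, mul_inv_rev, inv_inv]
        _ = (xg R (D.nroots - 1) s * xg R a2 1 * (xg R (D.nroots - 1) s)⁻¹) *
            (xg R (D.nroots - 1) s * xg R (D.neg (D.simple m)) ((N1 : k) * c) *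
              (xg R (D.nroots - 1) s)⁻¹) := by
            rw [e1, e2]; simp [mul_assoc]
        _ = _ := by
            rw [e3, e4, ← mul_assoc, e5, mul_assoc, xg_mul]
    rw [e6]
    have h1 := hη2 αn ((N1 : k) * c)
    have h2 := hη2 γf (1 + (N2 : k) * s * ((N1 : k) * c))
    have r1 : (((comb X).refl m αn : Fin D.nroots) : ℕ) = D.simple m := Nat.eq_of_beq_eq_true c7
    have r2 : (((comb X).refl m γf : Fin D.nroots) : ℕ) = D.nroots - 1 := Nat.eq_of_beq_eq_true c6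
    rw [r1] at h1
    rw [r2] at h2
    have h3 : ns R m * (xg R (D.neg (D.simple m)) ((N1 : k) * c) *
        xg R a2 (1 + (N2 : k) * s * ((N1 : k) * c))) * (ns R m)⁻¹ =
        (ns R m * xg R αn ((N1 : k) * c) * (ns R m)⁻¹) *
        (ns R m * xg R γf (1 + (N2 : k) * s * ((N1 : k) * c)) * (ns R m)⁻¹) := by
      simp [mul_assoc, hαn, hγf]
    rw [h3, h1, h2, mul_one]
    congr 1
    · congr 1; push_cast; ring
    · congr 1; push_cast; ring

/-- the data for odd characteristic -/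
theorem OD_of (Z : Lex X.rc) (K : H23.ChevCore.Core D) {m : Fin D.rank} {γ : ℕ}
    (h1 : ckPar D X.rc.half = true) (h2 : ckLast D X.rc.half m γ = true) : OD R X :=
  ⟨par_of R Z K h1, last_of R Z h2⟩

end H42.Subf
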