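import Cfsg.Agent.Lib.H42.SubfN

/-!
Overgroups of subfield subgroups, part P: characteristic two, assembly.
-/

set_option autoImplicit false
set_option linter.unusedVariables false
set_option linter.unusedSectionVars false

namespace H42.Subf

open H22.RGD H22.Coord H22.RCCheck H22.RCComb H22.ChevTri H22.ChevRel H22.ChevSys H22.ChevMain
open H22.ChevStd H22.ChevUni H47.ChevSub H42.Inv2F H42.Inv2E H22.RCPack H42.Inv2C H42.Inv2D
open H42.Inv2M H42.InvCK
open H47.SemiTor (sg sg_apply)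
open Cfsg.Lie (ChevalleyDatum)
open scoped MatrixGroups Matrix

variable {D : ChevalleyDatum} {k : Type*} [Field k] (R : Rel D k)
variable {F : Type*} [Field F] [Fintype F] [Algebra F k] (RF : Rel D F)
variable {m : ℕ} {lng : ℕ → Bool} {zl : List ℕ} {H : Subgroup (GL D.Idx k)}

theorem aL_mem_L {W : List (Fin D.nroots)} (σ : k →+* k) : aL R W ∈ L R σ := by
  unfold aL
  apply Subgroup.list_prod_mem
  intro x hx
  obtain ⟨r, _, rfl⟩ := List.mem_map.1 hx
  exact xg_mem_L R σ (map_one σ)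

include RF in
/-- the main result in characteristic two from lists of orthogonal roots and ranks -/
theorem rat2_rk [CharP k 2] {n : ℕ} (hn : n ≠ 0) (hq : Fintype.card F = 2 ^ n) (En : Env D k)
    {m : Fin D.rank} (E : LH R En.X m lng) (Z : Lex En.X.rc) (B : BH R En.X zl)
    (C : Ctx R En.X (sg k 2 n) H) [Finite H] {I : Submodule k (D.Idx → k)} (hI : Idl En.X.rc I)
    (hW : ∀ W : List (Fin D.nroots), Orth En.Q W → W ≠ [] →
      (∃ x ∈ L R (sg k 2 n), x * aL R W * x⁻¹ = xg R (D.nroots - 1) 1) ∨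
      Good R (sg k 2 n) En.X I (aL R W))
    {Y : List ℕ} (hY : ckB D Y = true) (hYo : Env.ckOrth En.T En.A En.d D Y = true) {N : ℕ}
    (hN : D.rank + D.nroots ≤ N)
    (hr : rkP (2 ^ N - 1) (wm D k [D.nroots - 1]) ≠ rkP (2 ^ N - 1) (wm D k Y))
    (hr1 : rkP (2 ^ N - 1) (wm D k Y) ≠ 0) {x : GL D.Idx k} (hx : x ∈ H) :
    Fr (D := D) (sg k 2 n) x = x := by
  have hv := En.aL_fl hY
  refine E.rat_two R (sg k 2 n) Z B C hI
    (invH_of R Z RF hn hq hI En.Q En.hc En.K hW) (i2 := aL R (En.fl Y)) (aL_mem_L R _)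
    (En.aL_sq (En.orth_spec hYo)) ?_ ?_ hx
  · intro h
    apply hr1
    rw [← hv]
    have h' : ((aL En.R (En.fl Y) : GL D.Idx k) : Matrix D.Idx D.Idx k) = 1 := by
      have : aL En.R (En.fl Y) = 1 := h
      rw [this]; rfl
    rw [h', rkP_one]
  · intro h hh e
    apply hr
    have e1 : ((xg R (D.nroots - 1) (1 : k) : GL D.Idx k) : Matrix D.Idx D.Idx k) =
        wm D k [D.nroots - 1] := by
      rw [xg_val]; simp [wm]
    rw [← e1, ← rk_full_conj hN h (xg R (D.nroots - 1) 1), e]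
    exact congrArg _ hv

include RF in
/-- the case where all simple roots are good -/
theorem rat2_all [CharP k 2] {n : ℕ} (hn : n ≠ 0) (hq : Fintype.card F = 2 ^ n) (En : Env D k)
    {m : Fin D.rank} (E : LH R En.X m lng) (Z : Lex En.X.rc) (B : BH R En.X zl)
    (C : Ctx R En.X (sg k 2 n) H) [Finite H] (hS : ckS D lng = true)
    (hb : lng (H42.Subf.bot En.X.rc) = true) {M : ℤ}
    (hM : ckMax En.T En.A En.d D lng M = true)
    (hI : ∀ i : Fin D.rank, ∃ γ0, ckI D lng lng i γ0 = true)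
    {Y : List ℕ} (hY : ckB D Y = true) (hYo : Env.ckOrth En.T En.A En.d D Y = true) {N : ℕ}
    (hN : D.rank + D.nroots ≤ N)
    (hr : rkP (2 ^ N - 1) (wm D k [D.nroots - 1]) ≠ rkP (2 ^ N - 1) (wm D k Y))
    (hr1 : rkP (2 ^ N - 1) (wm D k Y) ≠ 0) {x : GL D.Idx k} (hx : x ∈ H) :
    Fr (D := D) (sg k 2 n) x = x := by
  have hId : Idl En.X.rc (Ish D k lng) := idl_Ish R (X := En.X) En.K hS hb
  refine rat2_rk R RF hn hq En E Z B C hId ?_ hY hYo hN hr hr1 hx
  intro W hWo hWn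
  right
  obtain ⟨ψ, hψ⟩ := List.exists_mem_of_ne_nil W hWn
  obtain ⟨i, l, hl⟩ := exists_to_simple En.X ψ
  obtain ⟨γ0, h0⟩ := hI i
  exact good_all R (sg k 2 n) E Z En.K En.hc hId mem_Ish_of En.Q
    (max_of En.hco En.hA En.Q En.hd hM) hWo hψ ⟨l, hl⟩ h0

end H42.Subf
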