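import Cfsg.Agent.Lib.H42.Inv2D
import Cfsg.Agent.Lib.H22.PoinB2

/-!
Characteristic two, type B2: sparse forms of root elements and the parity condition.
-/

set_option autoImplicit false
set_option maxRecDepth 100000

namespace H42.SubfB2

open H22.RCPack H42.Inv2M H42.Inv2D H42.Inv2E H42.Inv2C

/-- sparse forms of the root elements -/
def O (r : ℕ) : List (ℕ × ℕ) :=
  bif Nat.beq r 4 then [(3, 0x10), (5, 0x42), (7, 0x100)] else
  bif Nat.beq r 5 then [(1, 0x80), (2, 0x28), (4, 0x81), (6, 0x300)] else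
  bif Nat.beq r 6 then [(1, 0x100), (2, 0x50), (3, 0x101), (5, 0x280)] else
  bif Nat.beq r 7 then [(2, 0x203), (3, 0x80), (4, 0x100)] else
  []

theorem ckO4 : ckOps Cfsg.Lie.chevB2 4 (O 4) = true := by decide +kernel

theorem ckO5 : ckOps Cfsg.Lie.chevB2 5 (O 5) = true := by decide +kernel

theorem ckO6 : ckOps Cfsg.Lie.chevB2 6 (O 6) = true := by decide +kernel

theorem ckO7 : ckOps Cfsg.Lie.chevB2 7 (O 7) = true := by decide +kernel

/-- the roots of the table -/
def Rs : List ℕ := [4, 5, 6, 7]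

theorem ckO : ∀ r ∈ Rs, ckOps Cfsg.Lie.chevB2 r (O r) = true := by
  intro r hr
  unfold Rs at hr
  simp only [List.mem_cons, List.not_mem_nil, or_false] at hr
  rcases hr with rfl | rfl | rfl | rfl
  · exact ckO4
  · exact ckO5
  · exact ckO6
  · exact ckO7

theorem hc0 : ckHC1 Cfsg.Lie.chevB2 0 = true := by decide +kernel

theorem hc1 : ckHC1 Cfsg.Lie.chevB2 1 = true := by decide +kernel

theorem hc : HC Cfsg.Lie.chevB2 := by
  apply hc_of
  intro i hi
  have hi' : i < 2 := hi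
  interval_cases i
  · exact hc0
  · exact hc1

def cert1 : List (ℕ × ℕ) := [(9, 0x4), (7, 0x8), (8, 0x10)]

def A1 : List (ℕ × ℕ) := [(9, 0x203), (7, 0x80), (8, 0x100)]

theorem rk1 {F : Type*} [Field F] (h2F : (2 : F) = 0) :
    rkP (2 ^ 10 - 1) (wm Cfsg.Lie.chevB2 F [7]) = 3 :=
  rank_spec' h2F (O := O) (fun r hr => ckO r ((by decide +kernel : ∀ r ∈ ([7] : List ℕ), r ∈ Rs) r hr))
    (cert := cert1) (A := A1) (by decide +kernel) (by decide +kernel)

def cert2 : List (ℕ × ℕ) := [(8, 0x2), (6, 0x4), (0, 0xa), (9, 0x20)]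

def A2 : List (ℕ × ℕ) := [(8, 0x100), (6, 0x50), (0, 0x1), (9, 0x280)]

theorem rk2 {F : Type*} [Field F] (h2F : (2 : F) = 0) :
    rkP (2 ^ 10 - 1) (wm Cfsg.Lie.chevB2 F [6]) = 4 :=
  rank_spec' h2F (O := O) (fun r hr => ckO r ((by decide +kernel : ∀ r ∈ ([6] : List ℕ), r ∈ Rs) r hr))
    (cert := cert2) (A := A2) (by decide +kernel) (by decide +kernel)

end H42.SubfB2
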