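import Cfsg.Agent.Lib.H42.Inv2D
import Cfsg.Agent.Lib.H22.PoinD4

/-!
Characteristic two, type D4: sparse forms of root elements and the parity condition.
-/

set_option autoImplicit false
set_option maxRecDepth 100000

namespace H42.SubfD4

open H22.RCPack H42.Inv2M H42.Inv2D H42.Inv2E H42.Inv2C

/-- sparse forms of the root elements -/
def O (r : ℕ) : List (ℕ × ℕ) :=
  bif Nat.beq r 12 then [(1, 0x10000), (5, 0x40), (7, 0x100), (10, 0x800), (12, 0x2000), (15, 0x10008), (18, 0x80000), (20, 0x200000), (23, 0x1000000), (25, 0x4000000)] else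
  bif Nat.beq r 23 then [(1, 0x8000000), (4, 0x800000d), (5, 0x40000), (6, 0x80000), (7, 0x100000), (8, 0x200000), (10, 0x800000), (11, 0x1000000), (12, 0x2000000), (13, 0x4000000)] else
  []

theorem ckO12 : ckOps Cfsg.Lie.chevD4 12 (O 12) = true := by decide +kernel

theorem ckO23 : ckOps Cfsg.Lie.chevD4 23 (O 23) = true := by decide +kernel

/-- the roots of the table -/
def Rs : List ℕ := [12, 23]

theorem ckO : ∀ r ∈ Rs, ckOps Cfsg.Lie.chevD4 r (O r) = true := by
  intro r hr
  unfold Rs at hr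
  simp only [List.mem_cons, List.not_mem_nil, or_false] at hr
  rcases hr with rfl | rfl
  · exact ckO12
  · exact ckO23

theorem hc0 : ckHC1 Cfsg.Lie.chevD4 0 = true := by decide +kernel

theorem hc1 : ckHC1 Cfsg.Lie.chevD4 1 = true := by decide +kernel

theorem hc2 : ckHC1 Cfsg.Lie.chevD4 2 = true := by decide +kernel

theorem hc3 : ckHC1 Cfsg.Lie.chevD4 3 = true := by decide +kernel

theorem hc : HC Cfsg.Lie.chevD4 := by
  apply hc_of
  intro i hi
  have hi' : i < 4 := hi
  interval_cases i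
  · exact hc0
  · exact hc1
  · exact hc2
  · exact hc3

def cert1 : List (ℕ × ℕ) := [(27, 0x2), (3, 0x12), (18, 0x20), (19, 0x40), (20, 0x80), (21, 0x100), (23, 0x400), (24, 0x800), (25, 0x1000), (26, 0x2000)]

def A1 : List (ℕ × ℕ) := [(27, 0x8000000), (3, 0xd), (18, 0x40000), (19, 0x80000), (20, 0x100000), (21, 0x200000), (23, 0x800000), (24, 0x1000000), (25, 0x2000000), (26, 0x4000000)]

theorem rk1 {F : Type*} [Field F] (h2F : (2 : F) = 0) :
    rkP (2 ^ 28 - 1) (wm Cfsg.Lie.chevD4 F [23]) = 10 :=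
  rank_spec' h2F (O := O) (fun r hr => ckO r ((by decide +kernel : ∀ r ∈ ([23] : List ℕ), r ∈ Rs) r hr))
    (cert := cert1) (A := A1) (by decide +kernel) (by decide +kernel)

def cert2 : List (ℕ × ℕ) := [(27, 0x8002), (16, 0x8000), (19, 0x40), (18, 0x60), (21, 0x100), (20, 0x180), (24, 0x800), (23, 0xc00), (26, 0x2000), (25, 0x3000), (2, 0x8012)]

def A2 : List (ℕ × ℕ) := [(27, 0x8000008), (16, 0x10008), (19, 0x80000), (18, 0x40040), (21, 0x200000), (20, 0x100100), (24, 0x1000000), (23, 0x800800), (26, 0x4000000), (25, 0x2002000), (2, 0x5)]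

theorem rk2 {F : Type*} [Field F] (h2F : (2 : F) = 0) :
    rkP (2 ^ 28 - 1) (wm Cfsg.Lie.chevD4 F [23, 12]) = 11 :=
  rank_spec' h2F (O := O) (fun r hr => ckO r ((by decide +kernel : ∀ r ∈ ([23, 12] : List ℕ), r ∈ Rs) r hr))
    (cert := cert2) (A := A2) (by decide +kernel) (by decide +kernel)

end H42.SubfD4
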