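import Cfsg.Agent.Lib.H42.Inv2D
import Cfsg.Agent.Lib.H22.PoinG2

/-!
Characteristic two, type G2: sparse forms of root elements and the parity condition.
-/

set_option autoImplicit false
set_option maxRecDepth 100000

namespace H42.SubfG2

open H22.RCPack H42.Inv2M H42.Inv2D H42.Inv2E H42.Inv2C


theorem hc0 : ckHC1 Cfsg.Lie.chevG2 0 = true := by decide +kernel

theorem hc1 : ckHC1 Cfsg.Lie.chevG2 1 = true := by decide +kernel

theorem hc : HC Cfsg.Lie.chevG2 := by
  apply hc_of
  intro i hi
  have hi' : i < 2 := hi
  interval_cases i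
  · exact hc0
  · exact hc1

end H42.SubfG2
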