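import Cfsg.Agent.Lib.H42.SubfM
import Cfsg.Agent.Lib.H47.FixPt

/-!
Overgroups of subfield subgroups, part S: the field of parameters.
-/

set_option autoImplicit false
set_option linter.unusedVariables false
set_option linter.unusedSectionVars false

namespace H42.Subf

open H22.RGD H22.Coord H22.RCCheck H22.RCComb H22.ChevTri H22.ChevRel H22.ChevSys H22.ChevMain
open H22.ChevStd H22.ChevUni H47.ChevSub
open H47.SemiTor (sg sg_apply)
open Cfsg.Lie (ChevalleyDatum)
open scoped MatrixGroups Matrix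

variable {D : ChevalleyDatum} {k : Type*} [Field k] (R : Rel D k) {X : RCX D} (Z : Lex X.rc)
variable (H : Subgroup (GL D.Idx k))

/-- parameters of the root elements in `H` -/
def SS (r : ℕ) : AddSubgroup k where
  carrier := {t | xg R r t ∈ H}
  zero_mem' := by
    show xg R r 0 ∈ H
    rw [xg_zero]; exact H.one_mem
  add_mem' := by
    intro a b ha hb
    show xg R r (a + b) ∈ H
    rw [← xg_mul]; exact H.mul_mem ha hb
  neg_mem' := by
    intro a ha
    show xg R r (-a) ∈ H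
    rw [← xg_inv]; exact H.inv_mem ha

theorem mem_SS {r : ℕ} {t : k} : t ∈ SS R H r ↔ xg R r t ∈ H := Iff.rfl

/-- the situation -/
structure Pre : Prop where
  hG : H ≤ D.group k
  h1 : ∀ r, xg R r (1 : k) ∈ H

variable {R H}

theorem Pre.neg_one (P : Pre R H) (r : ℕ) : xg R r (-1 : k) ∈ H := by
  rw [← xg_inv]; exact H.inv_mem (P.h1 r)

theorem Pre.ns' (P : Pre R H) (i : ℕ) : ns R i ∈ H := by
  unfold ns
  rw [ng_def, inv_one]
  exact H.mul_mem (H.mul_mem (P.h1 _) (P.neg_one _)) (P.h1 _)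

theorem Pre.nsw (P : Pre R H) (l : List (Fin D.rank)) : H22.ChevSys.nsw R l ∈ H := by
  induction l with
  | nil => simp [H22.ChevSys.nsw, H.one_mem]
  | cons i l ih => rw [nsw_cons]; exact H.mul_mem (P.ns' i) ih

theorem Pre.SS_w (P : Pre R H) (X : RCX D) (l : List (Fin D.rank)) (r : Fin D.nroots) (t : k) :
    t ∈ SS R H ((comb X).w l r : Fin D.nroots) ↔ t ∈ SS R H r := by
  obtain ⟨ε, h1, h2⟩ := exists_sign_word R X l
  have h3 := h2 r t
  have hn := P.nsw l
  have key : xg R ((comb X).w l r : Fin D.nroots) (ε r * t) ∈ H ↔ xg R r t ∈ H := by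
    rw [← h3]
    constructor
    · intro h
      have := H.mul_mem (H.mul_mem (H.inv_mem hn) h) hn
      simpa [mul_assoc] using this
    · intro h; exact H.mul_mem (H.mul_mem hn h) (H.inv_mem hn)
  rw [mem_SS, mem_SS, ← key]
  rcases (h1 r).1 with h | h
  · rw [h, one_mul]
  · rw [h, neg_one_mul, ← xg_inv, inv_mem_iff]

theorem Pre.SS_W (P : Pre R H) {w : Equiv.Perm (Fin D.nroots)} (hw : w ∈ (comb X).W)
    (r : Fin D.nroots) (t : k) : t ∈ SS R H (w r : Fin D.nroots) ↔ t ∈ SS R H r := by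
  obtain ⟨l, rfl⟩ := (comb X).exists_word hw
  exact P.SS_w X l r t

theorem SS_finite (Q : RC D) [Finite H] {r : ℕ} (hr : r < D.nroots) : Finite (SS R H r) := by
  refine Finite.of_injective (fun t : SS R H r => (⟨xg R r (t : k), t.2⟩ : H)) ?_
  intro a b h
  have := congrArg Subtype.val h
  exact Subtype.ext (xg_inj R Q hr this)

/-- a finite additive subgroup containing one and closed under multiplication -/
def subf (B : AddSubgroup k) [Finite B] (h1 : (1 : k) ∈ B) (hm : ∀ t ∈ B, ∀ u ∈ B, t * u ∈ B) :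
    Subfield k where
  carrier := B
  zero_mem' := B.zero_mem
  add_mem' := fun ha hb => B.add_mem ha hb
  neg_mem' := fun ha => B.neg_mem ha
  one_mem' := h1
  mul_mem' := fun ha hb => hm _ ha _ hb
  inv_mem' := by
    intro t ht
    by_cases h0 : t = 0
    · subst h0; rw [inv_zero]; exact B.zero_mem
    · have hinj : Function.Injective (fun u : B => (⟨t * u, hm t ht u u.2⟩ : B)) := by
        intro a b h
        have := congrArg Subtype.val h
        exact Subtype.ext (mul_left_cancel₀ h0 this)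
      obtain ⟨u, hu⟩ := (Finite.surjective_of_injective hinj) ⟨1, h1⟩
      have h2 : t * u = 1 := congrArg Subtype.val hu
      have : t⁻¹ = u := inv_eq_of_mul_eq_one_right h2
      rw [this]; exact u.2

theorem mem_subf {B : AddSubgroup k} [Finite B] {h1 : (1 : k) ∈ B}
    {hm : ∀ t ∈ B, ∀ u ∈ B, t * u ∈ B} {t : k} : t ∈ subf B h1 hm ↔ t ∈ B := Iff.rfl

/-- counting -/
theorem sub_of_pow {p : ℕ} [Fact p.Prime] [CharP k p] {A B : AddSubgroup k} [Finite B]
    (hAB : A ≤ B) (h : ∀ u ∈ B, u ^ p ∈ A) : B ≤ A := by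
  have : Finite A := Finite.of_injective (fun a : A => (⟨a, hAB a.2⟩ : B)) (by
    intro a b h; exact Subtype.ext (congrArg (fun x : B => (x : k)) h))
  have hc : Nat.card B ≤ Nat.card A := by
    refine Nat.card_le_card_of_injective (fun u : B => (⟨(u : k) ^ p, h u u.2⟩ : A)) ?_
    intro a b h
    have h2 : (a : k) ^ p = (b : k) ^ p := congrArg Subtype.val h
    exact Subtype.ext (frobenius_inj k p h2)
  have hset : (A : Set k) = (B : Set k) :=
    Set.eq_of_subset_of_ncard_le hAB (by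
      rw [← Nat.card_coe_set_eq, ← Nat.card_coe_set_eq]; exact hc) (Set.toFinite _)
  intro x hx
  have : x ∈ (A : Set k) := by rw [hset]; exact hx
  exact this

/-! ### leading coefficients -/

variable (R H)

/-- leading coefficients at `j` lie in the field -/
def TA (A : Subfield k) (j : ℕ) : Prop := ∀ t : k, ∀ v ∈ Vk R (j + 1), xg R j t * v ∈ H → t ∈ A

variable {R H} {A : Subfield k} {zl : List ℕ}

theorem of_int_mul {N : ℤ} (hN : (N : k) ≠ 0) {t : k} (h : (N : k) * t ∈ A) : t ∈ A := by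
  have h1 : (N : k) ∈ A := intCast_mem A N
  have : t = (N : k)⁻¹ * ((N : k) * t) := by field_simp
  rw [this]; exact A.mul_mem (A.inv_mem h1) h

/-- central root groups commute with the unipotent group -/
theorem BH.comm (B : BH R X zl) {q : ℕ} (hq : q ∈ zl) (t : k) {z : GL D.Idx k}
    (hz : z ∈ Vk R X.rc.half) : xg R q t * z = z * xg R q t := by
  unfold Vk at hz
  induction hz using Subgroup.closure_induction with
  | mem x hx =>
    obtain ⟨r, u, h1, h2, rfl⟩ := hx
    exact (B.cen q hq r h2 h1 u t).symm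
  | one => simp
  | mul x y _ _ hx hy => rw [← mul_assoc, hx, mul_assoc, hy, mul_assoc]
  | inv x _ hx =>
    have := congrArg (fun g => x⁻¹ * g * x⁻¹) hx
    simpa [mul_assoc] using this.symm

/-- the commutator step, with a central factor -/
theorem lead1 (P : Pre R H) (Z : Lex X.rc) (B : BH R X zl) {j : ℕ} (hj : X.rc.half ≤ j)
    (hjn : j < D.nroots) (hjz : j ∉ zl) (hT : ∀ j', j < j' → j' < D.nroots → TA R H A j')
    {c : GL D.Idx k} (hc : ∀ z ∈ Vk R X.rc.half, c * z = z * c) {τ : k} {v : GL D.Idx k}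
    (hv : v ∈ Vk R (j + 1)) (h : c * (xg R j τ * v) ∈ H) : τ ∈ A := by
  obtain ⟨s, m, N, hs, hs', hqs, hL, hcount, hN⟩ := B.up j hjn hj hjz
  obtain ⟨w, hw, e⟩ := comm_lead R Z hs hs' hjn hj hL hcount hqs 1 τ hv
  obtain ⟨rest, hrest⟩ := hL
  have hmem : (m, N, 1, 1) ∈ D.commTerms s j := by rw [hrest]; simp
  obtain ⟨hm, _, _, hmc⟩ := commTerms_co X.rc hs hjn hmem
  have hjm : j < m := lt_of_comb (a := 1) (b := 1) Z hm hs hjn hs' hj le_rfl le_rfl hmc
  have h1 := P.h1 s
  have h2 : xg R s 1 * (c * (xg R j τ * v)) * (xg R s 1)⁻¹ * (c * (xg R j τ * v))⁻¹ ∈ H :=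
    H.mul_mem (H.mul_mem (H.mul_mem h1 h) (H.inv_mem h1)) (H.inv_mem h)
  have hcs : c * xg R s 1 = xg R s 1 * c := hc _ (xg_mem_Vk R hs' hs 1)
  have h3 : xg R s 1 * (c * (xg R j τ * v)) * (xg R s 1)⁻¹ * (c * (xg R j τ * v))⁻¹ =
      xg R m ((N : k) * 1 * τ) * w := by
    have h4 : xg R m ((N : k) * 1 * τ) * w ∈ Vk R X.rc.half :=
      mul_mem (xg_mem_Vk R (by omega) hm _) (Vk_anti R (by omega) hw)
    have h5 := hc _ h4
    calc _ = (xg R s 1 * c) * (xg R j τ * v) * (xg R s 1)⁻¹ * (xg R j τ * v)⁻¹ * c⁻¹ := by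
          simp [mul_assoc]
      _ = c * (xg R s 1 * (xg R j τ * v) * (xg R s 1)⁻¹ * (xg R j τ * v)⁻¹) * c⁻¹ := by
          rw [← hcs]; simp only [mul_assoc]
      _ = _ := by rw [e, h5, mul_inv_cancel_right]
  rw [h3] at h2
  have h6 := hT m hjm hm _ w hw h2
  rw [mul_one] at h6
  exact of_int_mul hN h6

/-- all leading coefficients lie in the field -/
theorem TA_all (P : Pre R H) (Z : Lex X.rc) (B : BH R X zl)
    (hz : ∀ j ∈ zl, (∀ j', j < j' → j' < D.nroots → TA R H A j') → TA R H A j) :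
    ∀ j, X.rc.half ≤ j → j < D.nroots → TA R H A j := by
  have key : ∀ m j, D.nroots - j ≤ m → X.rc.half ≤ j → j < D.nroots → TA R H A j := by
    intro m
    induction m with
    | zero => intro j h1 _ h2; omega
    | succ m ih =>
      intro j h1 h2 h3
      by_cases hjz : j ∈ zl
      · exact hz j hjz fun j' h4 h5 => ih j' (by omega) (by omega) h5
      · intro t v hv h
        exact lead1 P Z B h2 h3 hjz (fun j' h4 h5 => ih j' (by omega) (by omega) h5) (c := 1)
          (fun z _ => by simp) hv (by simpa using h)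
  exact fun j h1 h2 => key _ j le_rfl h1 h2

/-- the top root -/
theorem TA_top (Q : RC D) (hA : ∀ t, t ∈ A ↔ xg R (D.nroots - 1) t ∈ H) : TA R H A (D.nroots - 1) := by
  intro t v hv h
  have hn : D.nroots - 1 + 1 = D.nroots := by
    have := Q.nroots_eq; have := Q.half_pos; omega
  rw [hn, Vk_nroots, Subgroup.mem_bot] at hv
  rw [hv, mul_one] at h
  exact (hA t).2 h

/-- elements of `U ∩ H` are rational -/
theorem hU_of (Z : Lex X.rc) (σ : k →+* k) (hσ : ∀ t, t ∈ A ↔ σ t = t)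
    (hS : ∀ r < D.nroots, ∀ t ∈ A, xg R r t ∈ H)
    (hT : ∀ j, X.rc.half ≤ j → j < D.nroots → TA R H A j) :
    ∀ m j, j + m = D.nroots → X.rc.half ≤ j → ∀ u ∈ Vk R j, u ∈ H → Fr (D := D) σ u = u := by
  intro m
  induction m with
  | zero =>
    intro j h1 h2 u hu _
    have : j = D.nroots := by omega
    rw [this, Vk_nroots, Subgroup.mem_bot] at hu
    rw [hu, map_one]
  | succ m ih =>
    intro j h1 h2 u hu huH
    obtain ⟨t, v, hv, rfl⟩ := (Vk_step R Z h2 (by omega)).1 hu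
    have ht := hT j h2 (by omega) t v hv huH
    have hvH : v ∈ H := by
      have := H.mul_mem (H.inv_mem (hS j (by omega) t ht)) huH
      simpa using this
    rw [map_mul, Fr_xg, (hσ t).1 ht, ih (j + 1) (by omega) (by omega) v hv hvH]

/-- stripping the roots above a special one -/
theorem strip (P : Pre R H) (Z : Lex X.rc) (B : BH R X zl) {θs : ℕ} (hθ : D.nroots - 1 ∈ zl)
    (hs : θs ∈ zl) (hz : ∀ j ∈ zl, j = θs ∨ j = D.nroots - 1)
    (hS : ∀ r < D.nroots, ∀ t ∈ A, xg R r t ∈ H)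
    (hT : ∀ j', θs < j' → j' < D.nroots → TA R H A j') (t : k) :
    ∀ m j, j + m = D.nroots - 1 → θs < j → ∀ v ∈ Vk R j, xg R θs t * v ∈ H →
      ∃ t', xg R θs t * xg R (D.nroots - 1) t' ∈ H := by
  have hn := X.rc.nroots_eq
  have hp := X.rc.half_pos
  have hθs := (B.pos θs hs).1
  intro m
  induction m with
  | zero =>
    intro j h1 h2 v hv h
    have hj : j = D.nroots - 1 := by omega
    obtain ⟨t', v', hv', rfl⟩ := (Vk_step R Z (by omega) (by omega)).1 hv
    have hn' : j + 1 = D.nroots := by omega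
    rw [hn', Vk_nroots, Subgroup.mem_bot] at hv'
    rw [hv', mul_one, hj] at h
    exact ⟨t', h⟩
  | succ m ih =>
    intro j h1 h2 v hv h
    obtain ⟨τ, v', hv', rfl⟩ := (Vk_step R Z (by omega) (by omega)).1 hv
    have hjz : j ∉ zl := by
      intro hjz
      rcases hz j hjz with h | h <;> omega
    have hτ : τ ∈ A := lead1 P Z B (by omega) (by omega) hjz
      (fun j' h3 h4 => hT j' (by omega) h4) (fun z hz => B.comm hs t hz) hv' h
    refine ih (j + 1) (by omega) (by omega) v' hv' ?_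
    have h3 := H.mul_mem (H.inv_mem (hS j (by omega) τ hτ)) h
    have h4 := B.comm hs t (xg_mem_Vk R (show X.rc.half ≤ j by omega) (by omega) τ)
    have h5 : (xg R j τ)⁻¹ * (xg R θs t * (xg R j τ * v')) = xg R θs t * v' := by
      rw [← mul_assoc (xg R θs t), h4]; simp [mul_assoc]
    rwa [h5] at h3

/-- the special short root -/
theorem TA_short (P : Pre R H) (Z : Lex X.rc) (B : BH R X zl) {θs : Fin D.nroots}
    (hθ : D.nroots - 1 ∈ zl)
    (hs : (θs : ℕ) ∈ zl) (hz : ∀ j ∈ zl, j = θs ∨ j = D.nroots - 1)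
    (hA : ∀ t, t ∈ A ↔ xg R (D.nroots - 1) t ∈ H)
    (hS : ∀ r < D.nroots, ∀ t ∈ A, xg R r t ∈ H)
    (hT : ∀ j', (θs : ℕ) < j' → j' < D.nroots → TA R H A j')
    (hB : ∀ t, xg R θs t ∈ H → t ∈ A) {l : List (Fin D.rank)} (hl : (comb X).w l θs = θs)
    {r : ℕ} (hr : r < D.nroots) (hr' : X.rc.half ≤ r) {N : ℤ} (hN : (N : k) ≠ 0)
    (hct : D.commTerms r ((comb X).w l (top X.rc) : Fin D.nroots) = [(D.nroots - 1, N, 1, 1)])
    (h1 : (((comb X).w l (top X.rc) : Fin D.nroots) : ℕ) ≠ r)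
    (h2 : (((comb X).w l (top X.rc) : Fin D.nroots) : ℕ) ≠ D.neg r)
    (h3 : (θs : ℕ) < D.nroots - 1)
    (h4 : X.rc.half ≤ (((comb X).w l (top X.rc) : Fin D.nroots) : ℕ)) : TA R H A θs := by
  intro t v hv h
  obtain ⟨t', ht'⟩ := strip P Z B hθ hs hz hS hT t (D.nroots - 1 - (θs + 1)) (θs + 1) (by omega)
    (Nat.lt_succ_self _) v hv h
  set φ : Fin D.nroots := (comb X).w l (top X.rc) with hφ
  obtain ⟨ε, e1, e2⟩ := exists_sign_word R X l
  have hn := P.nsw l
  have h5 : xg R θs (ε θs * t) * xg R φ (ε (top X.rc) * t') ∈ H := by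
    have h6 := H.mul_mem (H.mul_mem hn ht') (H.inv_mem hn)
    have h7 := e2 θs t
    have h8 := e2 (top X.rc) t'
    rw [hl] at h7
    rw [← h7, ← h8]
    have : nsw R l * (xg R θs t * xg R (D.nroots - 1) t') * (nsw R l)⁻¹ =
        nsw R l * xg R θs t * (nsw R l)⁻¹ * (nsw R l * xg R (top X.rc : Fin D.nroots) t' * (nsw R l)⁻¹) := by
      simp [mul_assoc, top]
    rw [← this]; exact h6
  set c := xg R θs (ε θs * t) with hc
  set u := ε (top X.rc) * t' with hu
  have hcc : ∀ z ∈ Vk R X.rc.half, c * z = z * c := fun z hz => B.comm hs _ hz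
  have hr1 := P.h1 r
  have h6 : xg R r 1 * (c * xg R φ u) * (xg R r 1)⁻¹ * (c * xg R φ u)⁻¹ ∈ H :=
    H.mul_mem (H.mul_mem (H.mul_mem hr1 h5) (H.inv_mem hr1)) (H.inv_mem h5)
  have h7 := conj_eq R hr φ.2 h1 h2 1 u
  have h8 : wg R (D.commWord k r φ (-1) u) = xg R (D.nroots - 1) ((N : k) * u) := by
    unfold ChevalleyDatum.commWord
    rw [hct]
    simp [wg]
  rw [h8] at h7
  have hθn := H47.ChevLong.top_lt X.rc
  have hθp := H47.ChevLong.top_pos X.rc
  have h9 : xg R r 1 * (c * xg R φ u) * (xg R r 1)⁻¹ * (c * xg R φ u)⁻¹ =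
      xg R (D.nroots - 1) ((N : k) * u) := by
    have a1 : xg R r 1 * c = c * xg R r 1 := (hcc _ (xg_mem_Vk R hr' hr 1)).symm
    have a2 := B.comm hθ ((N : k) * u) (xg_mem_Vk R h4 φ.2 u)
    have a3 := hcc _ (xg_mem_Vk R hθp hθn ((N : k) * u))
    calc _ = (xg R r 1 * c) * xg R φ u * (xg R r 1)⁻¹ * (xg R φ u)⁻¹ * c⁻¹ := by simp [mul_assoc]
      _ = c * (xg R r 1 * xg R φ u * (xg R r 1)⁻¹) * (xg R φ u)⁻¹ * c⁻¹ := by
          rw [a1]; simp only [mul_assoc]
      _ = _ := by rw [h7, ← a2, ← mul_assoc, a3]; simp [mul_assoc]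
  rw [h9] at h6
  have h10 : u ∈ A := of_int_mul hN ((hA _).2 h6)
  have h11 : t' ∈ A := by
    rcases (e1 (top X.rc)).1 with h | h
    · rw [hu, h, one_mul] at h10; exact h10
    · rw [hu, h, neg_one_mul] at h10; simpa using A.neg_mem h10
  apply hB
  have := H.mul_mem ht' (H.inv_mem ((hA t').1 h11))
  simpa using this

end H42.Subf
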