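import Cfsg.Agent.Lib.H42.SubfP
import Cfsg.Agent.Lib.H42.SubfRB2
import Cfsg.Agent.Lib.H22.ChevAll
import Cfsg.Agent.Lib.H22.ChevLex
import Cfsg.Agent.Lib.H23.ChevAll

/-!
Overgroups of subfield subgroups, type B2.
-/

set_option autoImplicit false
set_option maxRecDepth 100000
set_option linter.unusedSectionVars false

namespace H42.SubfTB2

open H22.RCPack H22.RCComb H42.Subf H42.Inv2F H42.Inv2E H42.Inv2D H42.Inv2M H47.ChevSub H22.ChevRel
open H22.ChevSys H22.ChevUni H22.ChevMain H22.ChevStd H22.RCCheck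
open H47.SemiTor (sg)
open scoped MatrixGroups Matrix

/-- the long roots -/
def lng : ℕ → Bool := fun r => [0, 3, 4, 7].contains r

theorem pl : ckPl Cfsg.Lie.chevB2 lng = true := by decide +kernel
theorem pr : ckPr Cfsg.Lie.chevB2 lng = true := by decide +kernel
theorem mi : ckMisc Cfsg.Lie.chevB2 lng 0 (co H22.RCSmall.tabB2 2) = true := by decide +kernel
theorem bh0 : ckBH Cfsg.Lie.chevB2 4 2 0 [7] [2] = true := by decide +kernel
theorem bh1 : ckBH Cfsg.Lie.chevB2 4 1 2 [6, 7] [3, 2] = true := by decide +kernel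
theorem pa : ckPar Cfsg.Lie.chevB2 4 = true := by decide +kernel
theorem cs : ckS Cfsg.Lie.chevB2 lng = true := by decide +kernel

/-- lengths -/
def dd : ℕ → ℤ := fun i => bif Nat.ble 1 i then 2 else 1

/-- the form -/
def frm : Frm (H22.RCComb.coord H22.PoinB2.rcxB2) :=
  frmOf H22.PoinB2.rcxB2 H22.RCSmall.matB2 dd rfl (by decide +kernel) (by decide +kernel)

/-- the environment -/
noncomputable def env {F : Type*} [Field F] (h2F : (2 : F) = 0) : Env Cfsg.Lie.chevB2 F where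
  R := H22.ChevAll.rel _ (by simp) F
  X := H22.PoinB2.rcxB2
  Q := frm
  h2F := h2F
  hc := H42.SubfB2.hc
  K := H23.ChevAll.core Cfsg.Lie.chevB2 (by simp)
  T := H22.RCSmall.tabB2
  A := H22.RCSmall.matB2
  d := dd
  hco := rfl
  hA := rfl
  hd := fun _ => rfl
  h0 := by decide

theorem mx : ckMax H22.RCSmall.tabB2 H22.RCSmall.matB2 dd Cfsg.Lie.chevB2 lng 4 = true := by decide +kernel
theorem ci0 : ckI Cfsg.Lie.chevB2 lng lng 0 4 = true := by decide +kernel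
theorem oY : Env.ckOrth H22.RCSmall.tabB2 H22.RCSmall.matB2 dd Cfsg.Lie.chevB2 [6] = true := by decide +kernel

theorem t06 : Cfsg.Lie.chevB2.commTerms 0 6 = [(2, -1, 1, 1), (4, 1, 1, 2)] := by decide +kernel
theorem t72 : Cfsg.Lie.chevB2.commTerms 7 2 = [(6, -1, 1, 1), (4, -1, 1, 2)] := by decide +kernel
theorem t56 : Cfsg.Lie.chevB2.commTerms 5 6 = [(7, 2, 1, 1)] := by decide +kernel
theorem r6 : Cfsg.Lie.chevB2.reflectRoot 0 6 = 6 := by decide +kernel
theorem r2 : Cfsg.Lie.chevB2.reflectRoot 0 2 = 5 := by decide +kernel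
theorem r4 : Cfsg.Lie.chevB2.reflectRoot 0 4 = 7 := by decide +kernel

section
variable {k : Type*} [Field k] (R : Rel Cfsg.Lie.chevB2 k)

theorem lh : LH R H22.PoinB2.rcxB2 ⟨0, by decide⟩ lng :=
  LH_of R (H23.ChevAll.core Cfsg.Lie.chevB2 (by simp)) frm pl pr mi

theorem bh {p : ℕ} [Fact p.Prime] [CharP k p] : ∃ zl, BH R H22.PoinB2.rcxB2 zl := by
  by_cases hp : p = 2
  · subst hp
    exact ⟨_, BH_of R H22.ChevLex.lexB2 (e := 1) (e0 := 2) (by simp)
      (by exact_mod_cast CharTwo.two_eq_zero (R := k)) bh1⟩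
  · refine ⟨_, BH_of R H22.ChevLex.lexB2 (e := 2) (e0 := 0) ?_ (by simp) bh0⟩
    intro h
    have h1 : ((2 : ℕ) : k) = 0 := by exact_mod_cast h
    rw [CharP.cast_eq_zero_iff k p] at h1
    exact hp ((Nat.prime_dvd_prime_iff_eq Fact.out Nat.prime_two).1 h1)

theorem last : ∃ (γ i α γ' : ℕ) (A0 B0 B1 : ℤ), H22.PoinB2.rcxB2.rc.half ≤ α ∧ α < γ' ∧
    γ' < Cfsg.Lie.chevB2.nroots ∧ (A0 : k) ≠ 0 ∧ (B1 : k) ≠ 0 ∧ ∀ s c : k, ∃ w ∈ Vk R (γ' + 1),
      ns R i * ((xg R (Cfsg.Lie.chevB2.nroots - 1) s * xg R (Cfsg.Lie.chevB2.neg (Cfsg.Lie.chevB2.nroots - 1)) c *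
        (xg R (Cfsg.Lie.chevB2.nroots - 1) s)⁻¹) *
        xg R γ 1 * (xg R (Cfsg.Lie.chevB2.nroots - 1) s * xg R (Cfsg.Lie.chevB2.neg (Cfsg.Lie.chevB2.nroots - 1)) c *
          (xg R (Cfsg.Lie.chevB2.nroots - 1) s)⁻¹)⁻¹) * (ns R i)⁻¹ =
        xg R α ((A0 : k) * c) * xg R γ' ((B0 : k) + (B1 : k) * s * c) * w := by
  obtain ⟨η, hη1, hη2⟩ := ns_xg (k := k) (X := H22.PoinB2.rcxB2) R ⟨0, by decide⟩
  have hn7 : Cfsg.Lie.chevB2.nroots - 1 = 7 := by decide
  have hm0 : Cfsg.Lie.chevB2.neg 7 = 0 := by decide +kernel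
  have hc6 : ∀ (r : ℕ) (_ : 4 ≤ r) (_ : r < 8) (t u : k), xg R r t * xg R 7 u = xg R 7 u * xg R r t := by
    intro r h1 h2 t u
    have h3 := H47.ChevLong.U_comm (X := H22.PoinB2.rcxB2) R H22.ChevLex.lexB2
      (show xg R r t ∈ (chevSys R H22.PoinB2.rcxB2).U by
        rw [U_eq_Vk R]; exact xg_mem_Vk R h1 h2 _) u
    exact h3.eq
  refine ⟨6, 0, 5, 6, - η ⟨2, by decide⟩, η ⟨6, by decide⟩, η ⟨6, by decide⟩, by decide, by decide,
    by decide, ?_, sgn_ne (hη1 _), ?_⟩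
  · push_cast; exact neg_ne_zero.2 (sgn_ne (hη1 _))
  intro s c
  rw [hn7, hm0]
  have e1 : (xg R 7 s)⁻¹ * xg R 6 1 * xg R 7 s = xg R 6 1 := by
    rw [mul_assoc, hc6 6 (by norm_num) (by norm_num)]; simp
  have e2 : xg R 0 c * xg R 6 1 * (xg R 0 c)⁻¹ = xg R 6 1 * (xg R 2 (-c) * xg R 4 c) := by
    rw [conj_eq R (by decide) (by decide) (by decide) (by decide +kernel)]
    congr 1
    unfold Cfsg.Lie.ChevalleyDatum.commWord
    rw [t06]
    simp [wg]
  have e3 : xg R 7 s * xg R 2 (-c) * (xg R 7 s)⁻¹ =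
      xg R 2 (-c) * (xg R 6 (s * c) * xg R 4 (-s * c ^ 2)) := by
    rw [conj_eq R (by decide) (by decide) (by decide) (by decide +kernel)]
    congr 1
    unfold Cfsg.Lie.ChevalleyDatum.commWord
    rw [t72]
    simp [wg]
  have e4 : ∀ u : k, xg R 7 s * xg R 6 u * (xg R 7 s)⁻¹ = xg R 6 u := by
    intro u; rw [← hc6 6 (by norm_num) (by norm_num)]; simp
  have e5 : ∀ u : k, xg R 7 s * xg R 4 u * (xg R 7 s)⁻¹ = xg R 4 u := by
    intro u; rw [← hc6 4 (by norm_num) (by norm_num)]; simp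
  have e6 : (xg R 7 s * xg R 0 c * (xg R 7 s)⁻¹) * xg R 6 1 * (xg R 7 s * xg R 0 c * (xg R 7 s)⁻¹)⁻¹ =
      xg R 6 1 * (xg R 2 (-c) * (xg R 6 (s * c) * xg R 4 (-s * c ^ 2))) * xg R 4 c := by
    calc _ = xg R 7 s * (xg R 0 c * ((xg R 7 s)⁻¹ * xg R 6 1 * xg R 7 s) * (xg R 0 c)⁻¹) *
          (xg R 7 s)⁻¹ := by simp only [mul_assoc, mul_inv_rev, inv_inv]
      _ = (xg R 7 s * xg R 6 1 * (xg R 7 s)⁻¹) * (xg R 7 s * xg R 2 (-c) * (xg R 7 s)⁻¹) *
          (xg R 7 s * xg R 4 c * (xg R 7 s)⁻¹) := by rw [e1, e2]; simp [mul_assoc]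
      _ = _ := by rw [e4, e3, e5]
  have n6 : ∀ t : k, ns R 0 * xg R 6 t * (ns R 0)⁻¹ = xg R 6 ((η ⟨6, by decide⟩ : k) * t) := by
    intro t
    have := hη2 ⟨6, by decide⟩ t
    have e : (((comb H22.PoinB2.rcxB2).refl ⟨0, by decide⟩ ⟨6, by decide⟩ : Fin Cfsg.Lie.chevB2.nroots) : ℕ) = 6 := r6
    rw [e] at this; exact this
  have n2 : ∀ t : k, ns R 0 * xg R 2 t * (ns R 0)⁻¹ = xg R 5 ((η ⟨2, by decide⟩ : k) * t) := by
    intro t
    have := hη2 ⟨2, by decide⟩ t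
    have e : (((comb H22.PoinB2.rcxB2).refl ⟨0, by decide⟩ ⟨2, by decide⟩ : Fin Cfsg.Lie.chevB2.nroots) : ℕ) = 5 := r2
    rw [e] at this; exact this
  have n4 : ∀ t : k, ns R 0 * xg R 4 t * (ns R 0)⁻¹ = xg R 7 ((η ⟨4, by decide⟩ : k) * t) := by
    intro t
    have := hη2 ⟨4, by decide⟩ t
    have e : (((comb H22.PoinB2.rcxB2).refl ⟨0, by decide⟩ ⟨4, by decide⟩ : Fin Cfsg.Lie.chevB2.nroots) : ℕ) = 7 := r4
    rw [e] at this; exact this
  have c56 : ∀ u v : k, xg R 6 u * xg R 5 v = xg R 5 v * xg R 6 u * xg R 7 (2 * (-v) * u) := by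
    intro u v
    have := comm_g R (D := Cfsg.Lie.chevB2) (r := 5) (s := 6) (by decide) (by decide) (by decide) (by decide +kernel) v u
    unfold Cfsg.Lie.ChevalleyDatum.commWord at this
    rw [t56] at this
    simpa [wg] using this
  rw [e6]
  set E6 : k := (η ⟨6, by decide⟩ : k) with hE6
  set E2 : k := (η ⟨2, by decide⟩ : k) with hE2
  set E4 : k := (η ⟨4, by decide⟩ : k) with hE4
  refine ⟨xg R 7 (2 * -(E2 * -c) * (E6 * 1)) * (xg R 7 (E4 * (-s * c ^ 2)) * xg R 7 (E4 * c)),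
    mul_mem (xg_mem_Vk R (by decide) (by decide) _)
    (mul_mem (xg_mem_Vk R (by decide) (by decide) _) (xg_mem_Vk R (by decide) (by decide) _)), ?_⟩
  calc _ = (ns R 0 * xg R 6 1 * (ns R 0)⁻¹) * (ns R 0 * xg R 2 (-c) * (ns R 0)⁻¹) *
        (ns R 0 * xg R 6 (s * c) * (ns R 0)⁻¹) * (ns R 0 * xg R 4 (-s * c ^ 2) * (ns R 0)⁻¹) *
        (ns R 0 * xg R 4 c * (ns R 0)⁻¹) := by simp [mul_assoc]
    _ = (xg R 6 (E6 * 1) * xg R 5 (E2 * -c)) * xg R 6 (E6 * (s * c)) * xg R 7 (E4 * (-s * c ^ 2)) *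
        xg R 7 (E4 * c) := by rw [n6, n6, n2, n4, n4]
    _ = xg R 5 (E2 * -c) * xg R 6 (E6 * 1) * (xg R 7 (2 * -(E2 * -c) * (E6 * 1)) *
        xg R 6 (E6 * (s * c))) * xg R 7 (E4 * (-s * c ^ 2)) * xg R 7 (E4 * c) := by
        rw [c56]; simp only [mul_assoc]
    _ = xg R 5 (E2 * -c) * (xg R 6 (E6 * 1) * xg R 6 (E6 * (s * c))) *
        (xg R 7 (2 * -(E2 * -c) * (E6 * 1)) * (xg R 7 (E4 * (-s * c ^ 2)) * xg R 7 (E4 * c))) := by
        rw [← hc6 6 (by norm_num) (by norm_num)]; simp only [mul_assoc]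
    _ = _ := by
        rw [xg_mul]
        congr 2
        · congr 1; push_cast; ring
        · congr 1; ring

theorem od : OD R H22.PoinB2.rcxB2 :=
  ⟨par_of R H22.ChevLex.lexB2 (H23.ChevAll.core Cfsg.Lie.chevB2 (by simp)) pa, last R⟩

end

/-! ### characteristic two -/

theorem vc (s : ℕ) (hs : s < Cfsg.Lie.chevB2.nroots) (k : Type*) [Field k] :
    (vec k (2 ^ (2 + s)) : Cfsg.Lie.chevB2.Idx → k) = ev Cfsg.Lie.chevB2 k ⟨s, hs⟩ := by
  have := vec_pow_cd (D := Cfsg.Lie.chevB2) (F := k) (Sum.inr ⟨s, hs⟩)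
  rw [cd_inr] at this
  exact this

theorem memI {k : Type*} [Field k] [CharP k 2] : (vec k 0x101 : Cfsg.Lie.chevB2.Idx → k) ∈
    Ish Cfsg.Lie.chevB2 k lng := by
  refine ⟨?_, ?_⟩
  · intro u hu
    rw [vec_apply, if_neg]
    have key : ∀ u : Fin 8, lng u = true → Nat.testBit 0x101 (2 + u) = false := by decide
    have := key u hu
    rw [cd_inr]
    intro h
    have h2 : Nat.testBit 0x101 (2 + u) = true := h
    rw [this] at h2; exact absurd h2 (by simp)
  · intro r hr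
    have key : ∀ r : Fin 8, lng r = true → Cfsg.Lie.chevB2.cartan 0 r % 2 = 0 := by decide +kernel
    have h1 := even_cast (k := k) (key r hr)
    show ∑ j : Fin 2, ((Cfsg.Lie.chevB2.cartan j r : ℤ) : k) * vec k 0x101 (Sum.inl j : Cfsg.Lie.chevB2.Idx) = 0
    rw [Fin.sum_univ_two]
    have e1 : (vec k 0x101 (Sum.inl (1 : Fin 2) : Cfsg.Lie.chevB2.Idx)) = 0 := by
      rw [vec_apply]
      exact if_neg (by show ¬ (Nat.testBit 0x101 1 = true); decide)
    have h1' : ((Cfsg.Lie.chevB2.cartan ((0 : Fin 2) : ℕ) r : ℤ) : k) = 0 := h1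
    rw [h1', e1]; ring

section
variable {k : Type*} [Field k] [CharP k 2] (R : Rel Cfsg.Lie.chevB2 k) (σ : k →+* k)

include R in
theorem idl : Idl H22.PoinB2.rcxB2.rc (Ish Cfsg.Lie.chevB2 k lng) :=
  idl_Ish R (X := H22.PoinB2.rcxB2) (H23.ChevAll.core Cfsg.Lie.chevB2 (by simp)) cs rfl

/-- two orthogonal long roots -/
theorem good74 : Good R σ H22.PoinB2.rcxB2 (Ish Cfsg.Lie.chevB2 k lng)
    (aL R [(⟨7, by decide⟩ : Fin Cfsg.Lie.chevB2.nroots), ⟨4, by decide⟩]) := by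
  have h2 : (2 : k) = 0 := CharTwo.two_eq_zero
  have hw : ∃ w ∈ (comb H22.PoinB2.rcxB2).W, w (H42.Subf.top H22.PoinB2.rcxB2.rc) =
      (⟨4, by decide⟩ : Fin Cfsg.Lie.chevB2.nroots) :=
    (lh R).orb' R H22.ChevLex.lexB2 (by decide)
  obtain ⟨w, hw, hwt⟩ := hw
  obtain ⟨g, hg, hge⟩ := ev_long R (X := H22.PoinB2.rcxB2) σ hw
  rw [hwt] at hge
  refine ⟨vec k 36, xg R 5 1 * g, mul_mem (xg_mem_L R σ (map_one σ)) hg, vec k 0x101, memI, ?_⟩
  have e1 : ((aL R [(⟨7, by decide⟩ : Fin Cfsg.Lie.chevB2.nroots), ⟨4, by decide⟩] :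
      GL Cfsg.Lie.chevB2.Idx k) : Matrix Cfsg.Lie.chevB2.Idx Cfsg.Lie.chevB2.Idx k) =
      wm Cfsg.Lie.chevB2 k [7, 4] := by
    rw [H42.Inv2C.aL_val]; rfl
  rw [e1, wm_mulVec (O := H42.SubfB2.O) h2 (fun r hr => H42.SubfB2.ckO r
    ((by decide +kernel : ∀ r ∈ ([7, 4] : List ℕ), r ∈ H42.SubfB2.Rs) r hr))]
  have e2 : ((xg R 5 1 * g : GL Cfsg.Lie.chevB2.Idx k) : Matrix Cfsg.Lie.chevB2.Idx Cfsg.Lie.chevB2.Idx k) *ᵥ
      ev Cfsg.Lie.chevB2 k (H42.Subf.top H22.PoinB2.rcxB2.rc) = vec k 832 := by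
    rw [Units.val_mul, ← Matrix.mulVec_mulVec, hge, xg_val, ← vc 4 (by decide) k,
      mulVec_x h2 (H42.SubfB2.ckO 5 (by decide))]
    congr 1
  rw [e2, ← vec_xor h2, ← vec_xor h2]
  congr 1

/-- all lists -/
theorem lists (E : LH R H22.PoinB2.rcxB2 ⟨0, by decide⟩ lng) {W : List (Fin Cfsg.Lie.chevB2.nroots)}
    (hWo : Orth frm W) (hWn : W ≠ []) :
    (∃ x ∈ L R σ, x * aL R W * x⁻¹ = xg R (Cfsg.Lie.chevB2.nroots - 1) 1) ∨
      Good R σ H22.PoinB2.rcxB2 (Ish Cfsg.Lie.chevB2 k lng) (aL R W) := by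
  by_cases hs : ∃ ψ ∈ W, lng ψ = false
  · obtain ⟨ψ, hψ, hl⟩ := hs
    right
    obtain ⟨i, l, hil⟩ := exists_to_simple H22.PoinB2.rcxB2 ψ
    have hi : i = ⟨0, by decide⟩ := by
      by_contra hne
      have hi1 : i = ⟨1, by decide⟩ := by
        obtain ⟨i, hi⟩ := i
        have hi' : i < 2 := hi
        have : i ≠ 0 := fun h => hne (by subst h; rfl)
        have : i = 1 := by omega
        subst this; rfl
      have h1 : lng ((comb H22.PoinB2.rcxB2).simple i) = true := by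
        rw [hi1]; decide
      have h2 := lng_W (X := H22.PoinB2.rcxB2) E.refl _
        ((comb H22.PoinB2.rcxB2).W.inv_mem ((comb H22.PoinB2.rcxB2).w_mem l)) _ h1
      rw [← hil] at h2
      have h3 : ((comb H22.PoinB2.rcxB2).w l)⁻¹ ((comb H22.PoinB2.rcxB2).w l ψ) = ψ :=
        ((comb H22.PoinB2.rcxB2).w l).symm_apply_apply ψ
      rw [h3, hl] at h2
      exact absurd h2 (by simp)
    subst hi
    exact good_all R σ E H22.ChevLex.lexB2 (H23.ChevAll.core Cfsg.Lie.chevB2 (by simp)) H42.SubfB2.hc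
      (idl R) mem_Ish_of frm (max_of (T := H22.RCSmall.tabB2) (A := H22.RCSmall.matB2) rfl rfl frm
        (fun _ => rfl) mx) hWo hψ ⟨l, hil⟩ ci0
  · push Not at hs
    have hs' : ∀ ψ ∈ W, lng ψ = true := by
      intro ψ hψ
      have := hs ψ hψ
      simpa using this
    clear hs
    cases W with
    | nil => exact absurd rfl hWn
    | cons ψ W' =>
      obtain ⟨w, hw, hwψ⟩ := E.orb' R H22.ChevLex.lexB2 (hs' ψ List.mem_cons_self)
      obtain ⟨l, hl⟩ := (comb H22.PoinB2.rcxB2).exists_word ((comb H22.PoinB2.rcxB2).W.inv_mem hw)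
      obtain ⟨x, hx, hxe⟩ := cjL_map R (X := H22.PoinB2.rcxB2) σ l (ψ :: W')
      have hl7 : (comb H22.PoinB2.rcxB2).w l ψ = H42.Subf.top H22.PoinB2.rcxB2.rc := by
        rw [hl, ← hwψ]; exact w.symm_apply_apply _
      have hO := orth_map frm l hWo
      rw [List.map_cons, hl7] at hO hxe
      have hlg : ∀ r ∈ W'.map ((comb H22.PoinB2.rcxB2).w l), lng r = true := by
        intro r hr
        obtain ⟨r', hr', rfl⟩ := List.mem_map.1 hr
        exact lng_W (X := H22.PoinB2.rcxB2) E.refl _ ((comb H22.PoinB2.rcxB2).w_mem l) _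
          (hs' r' (List.mem_cons_of_mem _ hr'))
      generalize W'.map ((comb H22.PoinB2.rcxB2).w l) = V at hO hxe hlg
      -- roots orthogonal to the highest root
      have key : ∀ r s : Fin Cfsg.Lie.chevB2.nroots, ip frm r s =
          H42.Inv2C.ipB H22.RCSmall.tabB2 H22.RCSmall.matB2 dd Cfsg.Lie.chevB2 2 r s 2 := by
        intro r s
        exact (H42.Inv2C.ip_eq' (X := H22.PoinB2.rcxB2) (T := H22.RCSmall.tabB2)
          (A := H22.RCSmall.matB2) (d := dd) rfl rfl frm (fun _ => rfl) r s).symm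
      have kt : ∀ r : Fin 8, lng r = true →
          H42.Inv2C.ipB H22.RCSmall.tabB2 H22.RCSmall.matB2 dd Cfsg.Lie.chevB2 2 7 r 2 = 0 →
          r = 3 ∨ r = 4 := by decide +kernel
      have k34 : ∀ r s : Fin 8, (r = 3 ∨ r = 4) → (s = 3 ∨ s = 4) →
          H42.Inv2C.ipB H22.RCSmall.tabB2 H22.RCSmall.matB2 dd Cfsg.Lie.chevB2 2 r s 2 ≠ 0 := by
        decide +kernel
      unfold Orth at hO
      rw [List.pairwise_cons] at hO
      have hV : ∀ r ∈ V, r = (3 : Fin 8) ∨ r = (4 : Fin 8) := by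
        intro r hr
        have h1 := hO.1 r hr
        rw [key] at h1
        exact kt r (hlg r hr) h1
      cases V with
      | nil =>
        left
        refine ⟨x, hx, ?_⟩
        rw [hxe]; simp [aL]; rfl
      | cons r V' =>
        cases V' with
        | cons s V'' =>
          exfalso
          have h1 := (List.pairwise_cons.1 hO.2).1 s List.mem_cons_self
          rw [key] at h1
          exact k34 r s (hV r List.mem_cons_self) (hV s (List.mem_cons_of_mem _ List.mem_cons_self)) h1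
        | nil =>
          right
          have hI := idl R (k := k)
          have g4 := good74 R σ
          have fin : Good R σ H22.PoinB2.rcxB2 (Ish Cfsg.Lie.chevB2 k lng)
              (aL R [H42.Subf.top H22.PoinB2.rcxB2.rc, r]) := by
            rcases hV r List.mem_cons_self with hr | hr
            · obtain ⟨y, hy, hye⟩ := cjL_map R (X := H22.PoinB2.rcxB2) σ [⟨1, by decide⟩]
                [(⟨7, by decide⟩ : Fin Cfsg.Lie.chevB2.nroots), ⟨4, by decide⟩]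
              have e : [(⟨7, by decide⟩ : Fin Cfsg.Lie.chevB2.nroots), ⟨4, by decide⟩].map
                  ((comb H22.PoinB2.rcxB2).w [⟨1, by decide⟩]) =
                  [H42.Subf.top H22.PoinB2.rcxB2.rc, r] := by
                have e7 : (comb H22.PoinB2.rcxB2).w [⟨1, by decide⟩] (⟨7, by decide⟩ : Fin Cfsg.Lie.chevB2.nroots) =
                    H42.Subf.top H22.PoinB2.rcxB2.rc := by
                  apply Fin.ext
                  show Cfsg.Lie.chevB2.reflectRoot 1 7 = 7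
                  decide +kernel
                have e4 : (comb H22.PoinB2.rcxB2).w [⟨1, by decide⟩] (⟨4, by decide⟩ : Fin Cfsg.Lie.chevB2.nroots) = r := by
                  rw [hr]
                  apply Fin.ext
                  show Cfsg.Lie.chevB2.reflectRoot 1 4 = 3
                  decide +kernel
                rw [List.map_cons, List.map_cons, List.map_nil, e7, e4]
              rw [e] at hye
              rw [← hye]
              exact g4.conj R σ hI hy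
            · have e : [H42.Subf.top H22.PoinB2.rcxB2.rc, r] =
                  [(⟨7, by decide⟩ : Fin Cfsg.Lie.chevB2.nroots), ⟨4, by decide⟩] := by
                rw [hr]; rfl
              rw [e]; exact g4
          rw [← hxe] at fin
          have h6 := Good.conj R σ hI fin (inv_mem hx)
          simpa [mul_assoc] using h6

end

section
variable {k : Type*} [Field k] (R : Rel Cfsg.Lie.chevB2 k)

/-- finite overgroups consist of rational elements -/
theorem rat {p : ℕ} [Fact p.Prime] [CharP k p] {F : Type*} [Field F] [Fintype F] [Algebra F k]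
    (RF : Rel Cfsg.Lie.chevB2 F) {n : ℕ} (hn : n ≠ 0) (hq : Fintype.card F = p ^ n)
    {H : Subgroup (GL Cfsg.Lie.chevB2.Idx k)} [Finite H] (C : Ctx R H22.PoinB2.rcxB2 (sg k p n) H)
    {x : GL Cfsg.Lie.chevB2.Idx k} (hx : x ∈ H) : Fr (D := Cfsg.Lie.chevB2) (sg k p n) x = x := by
  obtain ⟨zl, B⟩ := bh R (p := p)
  by_cases hp : p = 2
  · subst hp
    have h2 : (2 : k) = 0 := CharTwo.two_eq_zero
    refine rat2_rk R RF hn hq (env h2) (lh R) H22.ChevLex.lexB2 B C (idl R)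
      (fun W hWo hWn => lists R (sg k 2 n) (lh R) hWo hWn)
      (Y := [6]) (by decide) oY (N := 10) (by decide) ?_ ?_ hx
    · have e1 := H42.SubfB2.rk1 h2
      have e2 := H42.SubfB2.rk2 h2
      show rkP (2 ^ 10 - 1) (wm Cfsg.Lie.chevB2 k [7]) ≠ rkP (2 ^ 10 - 1) (wm Cfsg.Lie.chevB2 k [6])
      rw [e1, e2]; decide
    · have e2 := H42.SubfB2.rk2 h2
      show rkP (2 ^ 10 - 1) (wm Cfsg.Lie.chevB2 k [6]) ≠ 0
      rw [e2]; decide
  · exact (lh R).rat_odd R (sg k p n) H22.ChevLex.lexB2 B C (H23.ChevAll.core Cfsg.Lie.chevB2 (by simp)) hp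
      (od R) hx

end

end H42.SubfTB2
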