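import Cfsg.Agent.Lib.H42.SubfP
import Cfsg.Agent.Lib.H42.Inv2E7
import Cfsg.Agent.Lib.H22.ChevAll
import Cfsg.Agent.Lib.H22.ChevLex
import Cfsg.Agent.Lib.H23.ChevAll

/-!
Overgroups of subfield subgroups, type E7.
-/

set_option autoImplicit false
set_option maxRecDepth 100000

namespace H42.SubfTE7

open H22.RCPack H42.Subf H42.Inv2F H42.Inv2E H42.Inv2D H42.Inv2M H47.ChevSub H22.ChevRel
open H47.SemiTor (sg)
open scoped MatrixGroups Matrix

/-- all roots are long -/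
def lng : ℕ → Bool := fun _ => true

theorem pl : ckPl Cfsg.Lie.chevE7 lng = true := by decide +kernel
theorem pr : ckPr Cfsg.Lie.chevE7 lng = true := by decide +kernel
theorem mi : ckMisc Cfsg.Lie.chevE7 lng 0 (co H22.RCE7.tabE7 7) = true := by decide +kernel
theorem bh0 : ckBH Cfsg.Lie.chevE7 63 1 0 [125] [32] = true := by decide +kernel
theorem pa : ckPar Cfsg.Lie.chevE7 63 = true := by decide +kernel
theorem la : ckLast Cfsg.Lie.chevE7 63 0 124 = true := by decide +kernel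
theorem cs : ckS Cfsg.Lie.chevE7 lng = true := by decide +kernel
theorem mx : ckMax H22.RCE7.tabE7 H22.RCE7.matE7 H42.Inv2E7.dd Cfsg.Lie.chevE7 lng 2 = true := by decide +kernel
theorem ci0 : ckI Cfsg.Lie.chevE7 lng lng 0 0 = true := by decide +kernel
theorem ci1 : ckI Cfsg.Lie.chevE7 lng lng 1 3 = true := by decide +kernel
theorem ci2 : ckI Cfsg.Lie.chevE7 lng lng 2 1 = true := by decide +kernel
theorem ci3 : ckI Cfsg.Lie.chevE7 lng lng 3 2 = true := by decide +kernel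
theorem ci4 : ckI Cfsg.Lie.chevE7 lng lng 4 3 = true := by decide +kernel
theorem ci5 : ckI Cfsg.Lie.chevE7 lng lng 5 4 = true := by decide +kernel
theorem ci6 : ckI Cfsg.Lie.chevE7 lng lng 6 5 = true := by decide +kernel
theorem oY : Env.ckOrth H22.RCE7.tabE7 H22.RCE7.matE7 H42.Inv2E7.dd Cfsg.Lie.chevE7 [125, 92] = true := by decide +kernel

theorem ci (i : Fin Cfsg.Lie.chevE7.rank) : ∃ γ0, ckI Cfsg.Lie.chevE7 lng lng i γ0 = true := by
  obtain ⟨i, hi⟩ := i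
  have hi' : i < 7 := hi
  interval_cases i
  · exact ⟨_, ci0⟩
  · exact ⟨_, ci1⟩
  · exact ⟨_, ci2⟩
  · exact ⟨_, ci3⟩
  · exact ⟨_, ci4⟩
  · exact ⟨_, ci5⟩
  · exact ⟨_, ci6⟩

section
variable {k : Type*} [Field k] (R : Rel Cfsg.Lie.chevE7 k)

theorem lh : LH R H22.PoinE7.rcxE7 ⟨0, by decide⟩ lng :=
  LH_of R (H23.ChevAll.core Cfsg.Lie.chevE7 (by simp)) H42.Inv2E7.frm pl pr mi

theorem od : OD R H22.PoinE7.rcxE7 :=
  OD_of R H22.ChevLex.lexE7 (H23.ChevAll.core Cfsg.Lie.chevE7 (by simp)) (m := ⟨0, by decide⟩) pa la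

theorem bh {p : ℕ} [Fact p.Prime] [CharP k p] : ∃ zl, BH R H22.PoinE7.rcxE7 zl := by
  exact ⟨_, BH_of R H22.ChevLex.lexE7 (e := 1) (e0 := 0) (by simp) (by simp) bh0⟩

/-- finite overgroups consist of rational elements -/
theorem rat {p : ℕ} [Fact p.Prime] [CharP k p] {F : Type*} [Field F] [Fintype F] [Algebra F k]
    (RF : Rel Cfsg.Lie.chevE7 F) {n : ℕ} (hn : n ≠ 0) (hq : Fintype.card F = p ^ n)
    {H : Subgroup (GL Cfsg.Lie.chevE7.Idx k)} [Finite H] (C : Ctx R H22.PoinE7.rcxE7 (sg k p n) H)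
    {x : GL Cfsg.Lie.chevE7.Idx k} (hx : x ∈ H) : Fr (D := Cfsg.Lie.chevE7) (sg k p n) x = x := by
  obtain ⟨zl, B⟩ := bh R (p := p)
  by_cases hp : p = 2
  · subst hp
    have h2 : (2 : k) = 0 := CharTwo.two_eq_zero
    refine rat2_all R RF hn hq (H42.Inv2E7.env h2) (lh R) H22.ChevLex.lexE7 B C cs rfl mx ci
      (Y := [125, 92]) (by decide) oY (N := 133) (by decide) ?_ ?_ hx
    · have e1 := H42.Inv2E7.rk1 h2
      have e2 := H42.Inv2E7.rk2 h2
      show rkP (2 ^ 133 - 1) (wm Cfsg.Lie.chevE7 k [125]) ≠ rkP (2 ^ 133 - 1) (wm Cfsg.Lie.chevE7 k [125, 92])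
      rw [e1, e2]; decide
    · have e2 := H42.Inv2E7.rk2 h2
      show rkP (2 ^ 133 - 1) (wm Cfsg.Lie.chevE7 k [125, 92]) ≠ 0
      rw [e2]; decide
  · exact (lh R).rat_odd R (sg k p n) H22.ChevLex.lexE7 B C (H23.ChevAll.core Cfsg.Lie.chevE7 (by simp)) hp
      (od R) hx

end

end H42.SubfTE7
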