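import Cfsg.Agent.Lib.H42.SubfP
import Cfsg.Agent.Lib.H42.Inv2F4
import Cfsg.Agent.Lib.H22.ChevAll
import Cfsg.Agent.Lib.H22.ChevLex
import Cfsg.Agent.Lib.H23.ChevAll

/-!
Overgroups of subfield subgroups, type F4.
-/

set_option autoImplicit false
set_option maxRecDepth 100000

namespace H42.SubfTF4

open H22.RCPack H42.Subf H42.Inv2F H42.Inv2E H42.Inv2D H42.Inv2M H47.ChevSub H22.ChevRel
open H47.SemiTor (sg)
open scoped MatrixGroups Matrix

/-- the long roots -/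
def lng : ℕ → Bool := fun r => [0, 1, 2, 4, 5, 6, 15, 16, 17, 21, 22, 23, 24, 25, 26, 30, 31, 32, 41, 42, 43, 45, 46, 47].contains r

theorem pl : ckPl Cfsg.Lie.chevF4 lng = true := by decide +kernel
theorem pr : ckPr Cfsg.Lie.chevF4 lng = true := by decide +kernel
theorem mi : ckMisc Cfsg.Lie.chevF4 lng 3 (co H22.RCSmall.tabF4 4) = true := by decide +kernel
theorem bh0 : ckBH Cfsg.Lie.chevF4 24 2 0 [47] [23] = true := by decide +kernel
theorem bh1 : ckBH Cfsg.Lie.chevF4 24 1 2 [44, 47] [14, 23] = true := by decide +kernel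
theorem pa : ckPar Cfsg.Lie.chevF4 24 = true := by decide +kernel
theorem la : ckLast Cfsg.Lie.chevF4 24 3 46 = true := by decide +kernel
theorem cs : ckS Cfsg.Lie.chevF4 lng = true := by decide +kernel
theorem mx : ckMax H22.RCSmall.tabF4 H22.RCSmall.matF4 H42.Inv2F4.dd Cfsg.Lie.chevF4 lng 4 = true := by decide +kernel
theorem ci0 : ckI Cfsg.Lie.chevF4 lng lng 0 4 = true := by decide +kernel
theorem ci1 : ckI Cfsg.Lie.chevF4 lng lng 1 2 = true := by decide +kernel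
theorem ci2 : ckI Cfsg.Lie.chevF4 lng lng 2 1 = true := by decide +kernel
theorem ci3 : ckI Cfsg.Lie.chevF4 lng lng 3 0 = true := by decide +kernel
theorem oY : Env.ckOrth H22.RCSmall.tabF4 H22.RCSmall.matF4 H42.Inv2F4.dd Cfsg.Lie.chevF4 [39, 45] = true := by decide +kernel

theorem ci (i : Fin Cfsg.Lie.chevF4.rank) : ∃ γ0, ckI Cfsg.Lie.chevF4 lng lng i γ0 = true := by
  obtain ⟨i, hi⟩ := i
  have hi' : i < 4 := hi
  interval_cases i
  · exact ⟨_, ci0⟩
  · exact ⟨_, ci1⟩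
  · exact ⟨_, ci2⟩
  · exact ⟨_, ci3⟩

section
variable {k : Type*} [Field k] (R : Rel Cfsg.Lie.chevF4 k)

theorem lh : LH R H22.PoinF4.rcxF4 ⟨3, by decide⟩ lng :=
  LH_of R (H23.ChevAll.core Cfsg.Lie.chevF4 (by simp)) H42.Inv2F4.frm pl pr mi

theorem od : OD R H22.PoinF4.rcxF4 :=
  OD_of R H22.ChevLex.lexF4 (H23.ChevAll.core Cfsg.Lie.chevF4 (by simp)) (m := ⟨3, by decide⟩) pa la

theorem bh {p : ℕ} [Fact p.Prime] [CharP k p] : ∃ zl, BH R H22.PoinF4.rcxF4 zl := by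
  by_cases hp : p = 2
  · subst hp
    exact ⟨_, BH_of R H22.ChevLex.lexF4 (e := 1) (e0 := 2) (by simp)
      (by exact_mod_cast CharTwo.two_eq_zero (R := k)) bh1⟩
  · refine ⟨_, BH_of R H22.ChevLex.lexF4 (e := 2) (e0 := 0) ?_ (by simp) bh0⟩
    intro h
    have h1 : ((2 : ℕ) : k) = 0 := by exact_mod_cast h
    rw [CharP.cast_eq_zero_iff k p] at h1
    exact hp ((Nat.prime_dvd_prime_iff_eq Fact.out Nat.prime_two).1 h1)

/-- finite overgroups consist of rational elements -/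
theorem rat {p : ℕ} [Fact p.Prime] [CharP k p] {F : Type*} [Field F] [Fintype F] [Algebra F k]
    (RF : Rel Cfsg.Lie.chevF4 F) {n : ℕ} (hn : n ≠ 0) (hq : Fintype.card F = p ^ n)
    {H : Subgroup (GL Cfsg.Lie.chevF4.Idx k)} [Finite H] (C : Ctx R H22.PoinF4.rcxF4 (sg k p n) H)
    {x : GL Cfsg.Lie.chevF4.Idx k} (hx : x ∈ H) : Fr (D := Cfsg.Lie.chevF4) (sg k p n) x = x := by
  obtain ⟨zl, B⟩ := bh R (p := p)
  by_cases hp : p = 2
  · subst hp
    have h2 : (2 : k) = 0 := CharTwo.two_eq_zero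
    refine rat2_all R RF hn hq (H42.Inv2F4.env h2) (lh R) H22.ChevLex.lexF4 B C cs rfl mx ci
      (Y := [39, 45]) (by decide) oY (N := 52) (by decide) ?_ ?_ hx
    · have e1 := H42.Inv2F4.rk1 h2
      have e2 := H42.Inv2F4.rk4 h2
      show rkP (2 ^ 52 - 1) (wm Cfsg.Lie.chevF4 k [47]) ≠ rkP (2 ^ 52 - 1) (wm Cfsg.Lie.chevF4 k [39, 45])
      rw [e1, e2]; decide
    · have e2 := H42.Inv2F4.rk4 h2
      show rkP (2 ^ 52 - 1) (wm Cfsg.Lie.chevF4 k [39, 45]) ≠ 0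
      rw [e2]; decide
  · exact (lh R).rat_odd R (sg k p n) H22.ChevLex.lexF4 B C (H23.ChevAll.core Cfsg.Lie.chevF4 (by simp)) hp
      (od R) hx

end

end H42.SubfTF4
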