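import Cfsg.Agent.Lib.H42.SubfS
import Cfsg.Agent.Lib.H42.SubfN

/-!
Overgroups of subfield subgroups, part U: assembly.
-/

set_option autoImplicit false
set_option linter.unusedVariables false
set_option linter.unusedSectionVars false

namespace H42.Subf

open H22.RGD H22.Coord H22.RCCheck H22.RCComb H22.ChevTri H22.ChevRel H22.ChevSys H22.ChevMain
open H22.ChevStd H22.ChevUni H47.ChevSub H22.RCPack
open H47.SemiTor (sg sg_apply)
open Cfsg.Lie (ChevalleyDatum)
open scoped MatrixGroups Matrix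

variable {D : ChevalleyDatum} {k : Type*} [Field k] {R : Rel D k} {X : RCX D}
variable {H : Subgroup (GL D.Idx k)} {m : Fin D.rank} {lng : ℕ → Bool} {zl : List ℕ}

/-- the conclusion -/
structure Out (R : Rel D k) (H : Subgroup (GL D.Idx k)) (p : ℕ) [Fact p.Prime] [CharP k p]
    (A : Subfield k) (n : ℕ) : Prop where
  hn : n ≠ 0
  card : Nat.card A = p ^ n
  fin : Finite A
  mem : ∀ t, t ∈ A ↔ t ^ p ^ n = t
  top : ∀ t, t ∈ A ↔ xg R (D.nroots - 1) t ∈ H
  all : ∀ r < D.nroots, ∀ t ∈ A, xg R r t ∈ H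
  rat : ∀ x ∈ H, Fr (D := D) (sg k p n) x = x

/-- parameters of long roots -/
theorem SS_long (P : Pre R H) (E : LH R X m lng) (Z : Lex X.rc) {r : Fin D.nroots}
    (h : lng r = true) (t : k) : xg R r t ∈ H ↔ xg R (D.nroots - 1) t ∈ H := by
  obtain ⟨w, hw, rfl⟩ := E.orb' R Z h
  exact P.SS_W (X := X) hw (H42.Subf.top X.rc) t

/-- products of parameters -/
theorem mul_SS (P : Pre R H) (E : LH R X m lng) (Z : Lex X.rc) {r s : Fin D.nroots}
    (hr : lng r = true) (hs : lng s = true) (h1 : (s : ℕ) ≠ r) (h2 : (s : ℕ) ≠ D.neg r) {N : ℤ}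
    (hN : N = 1 ∨ N = -1) (hct : D.commTerms r s = [(D.nroots - 1, N, 1, 1)]) :
    ∀ t ∈ SS R H (D.nroots - 1), ∀ u ∈ SS R H (D.nroots - 1), t * u ∈ SS R H (D.nroots - 1) := by
  intro t ht u hu
  have ht' : xg R r t ∈ H := (SS_long P E Z hr t).2 ht
  have hu' : xg R s u ∈ H := (SS_long P E Z hs u).2 hu
  have h3 := conj_eq R r.2 s.2 h1 h2 t u
  have h4 : wg R (D.commWord k r s (-t) u) = xg R (D.nroots - 1) ((N : k) * t * u) := by
    unfold ChevalleyDatum.commWord
    rw [hct]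
    simp [wg]
  rw [h4] at h3
  have h5 := H.mul_mem (H.mul_mem ht' hu') (H.inv_mem ht')
  rw [h3] at h5
  have h6 : xg R (D.nroots - 1) ((N : k) * t * u) ∈ H := by
    have := H.mul_mem (H.inv_mem hu') h5
    simpa using this
  rw [mem_SS]
  rcases hN with rfl | rfl
  · simpa using h6
  · have h7 := H.inv_mem h6
    rw [xg_inv] at h7
    simpa using h7

/-- torus elements -/
theorem hg_mem_H (P : Pre R H) (E : LH R X m lng) (Z : Lex X.rc)
    (hb : lng (H42.Subf.bot X.rc) = true) {A : Subfield k}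
    (hA : ∀ t, t ∈ A ↔ xg R (D.nroots - 1) t ∈ H) {t : k} (ht : t ∈ A) (h0 : t ≠ 0) :
    hg R (D.nroots - 1) t ∈ H := by
  have h1 : ∀ c ∈ A, c ≠ 0 → ng R (D.nroots - 1) c ∈ H := by
    intro c hc _
    rw [ng_def]
    refine H.mul_mem (H.mul_mem ((hA c).1 hc) ?_) ((hA c).1 hc)
    have h2 := (SS_long P E Z hb (-c⁻¹)).2 ((hA _).1 (A.neg_mem (A.inv_mem hc)))
    exact h2
  rw [hg_def]
  exact H.mul_mem (h1 t ht h0) (h1 _ (A.neg_mem A.one_mem) (by simp))

/-- all root elements over the field -/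
theorem all_of (P : Pre R H) (E : LH R X m lng) (Z : Lex X.rc) (K : H23.ChevCore.Core D)
    (hb : lng (H42.Subf.bot X.rc) = true)
    (hl : ∀ i : Fin D.rank, ∃ l : List (Fin D.rank),
      prT D ((comb X).w l ((comb X).simple i) : Fin D.nroots) = 1 ∨
      (((comb X).w l ((comb X).simple i) : Fin D.nroots) : ℕ) = D.nroots - 1)
    {A : Subfield k} (hA : ∀ t, t ∈ A ↔ xg R (D.nroots - 1) t ∈ H) :
    ∀ r < D.nroots, ∀ t ∈ A, xg R r t ∈ H := by
  have hθ := H47.ChevLong.top_lt X.rc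
  intro r hr t ht
  obtain ⟨L, i, hL⟩ := H22.ChevSys.exists_simple_conj X ⟨r, hr⟩
  have h1 : xg R ((comb X).simple i : Fin D.nroots) t ∈ H := by
    obtain ⟨l, hl⟩ := hl i
    rw [← mem_SS, ← P.SS_w X l]
    rcases hl with hl | hl
    · rw [mem_SS]
      by_cases h0 : t = 0
      · rw [h0, xg_zero]; exact H.one_mem
      · have h2 := hg_mem_H P E Z hb hA ht h0
        have h3 := hg_conj R K hθ ((comb X).w l ((comb X).simple i)).2 h0 (1 : k)
        rw [← prT_eq, hl, zpow_one, mul_one] at h3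
        rw [← h3]
        exact H.mul_mem (H.mul_mem h2 (P.h1 _)) (H.inv_mem h2)
    · rw [mem_SS, hl]; exact (hA t).1 ht
  have h2 := (P.SS_w X L ((comb X).simple i) t).2 h1
  rw [hL] at h2
  exact h2

/-- assembly -/
theorem out_of {p : ℕ} [Fact p.Prime] [CharP k p] [Finite H] (P : Pre R H) (E : LH R X m lng)
    (Z : Lex X.rc) (K : H23.ChevCore.Core D) (hb : lng (H42.Subf.bot X.rc) = true)
    (hl : ∀ i : Fin D.rank, ∃ l : List (Fin D.rank),
      prT D ((comb X).w l ((comb X).simple i) : Fin D.nroots) = 1 ∨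
      (((comb X).w l ((comb X).simple i) : Fin D.nroots) : ℕ) = D.nroots - 1)
    (hM : ∀ t ∈ SS R H (D.nroots - 1), ∀ u ∈ SS R H (D.nroots - 1), t * u ∈ SS R H (D.nroots - 1))
    (B : BH R X zl)
    (hz : ∀ A : Subfield k, Finite A → (∀ t, t ∈ A ↔ xg R (D.nroots - 1) t ∈ H) →
      (∀ r < D.nroots, ∀ t ∈ A, xg R r t ∈ H) →
      ∀ j ∈ zl, (∀ j', j < j' → j' < D.nroots → TA R H A j') → TA R H A j)
    (hrat : ∀ (A : Subfield k) [Fintype A] (n : ℕ), n ≠ 0 → Fintype.card A = p ^ n →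
      Ctx R X (sg k p n) H → ∀ x ∈ H, Fr (D := D) (sg k p n) x = x) :
    ∃ (A : Subfield k) (n : ℕ), Out R H p A n := by
  classical
  have hθ := H47.ChevLong.top_lt X.rc
  have hfin : Finite (SS R H (D.nroots - 1)) := SS_finite X.rc hθ
  set A := subf (SS R H (D.nroots - 1)) (P.h1 _) hM with hA0
  have hA : ∀ t, t ∈ A ↔ xg R (D.nroots - 1) t ∈ H := fun t => Iff.rfl
  have hAf : Finite A := hfin
  have : Fintype A := Fintype.ofFinite A
  have : CharP A p := (algebraMap A k).charP (algebraMap A k).injective p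
  obtain ⟨n, _, hn⟩ := FiniteField.card A p
  have hn0 : (n : ℕ) ≠ 0 := n.ne_zero
  have hall := all_of P E Z K hb hl hA
  have hmem : ∀ t, t ∈ A ↔ sg k p n t = t := by
    intro t
    rw [H47.FixPt.mem_range_iff (F := A) p hn t]
    constructor
    · intro h; exact ⟨⟨t, h⟩, rfl⟩
    · rintro ⟨u, rfl⟩; exact u.2
  have hT := TA_all P Z B (hz A hAf hA hall)
  have hU := hU_of Z (sg k p n) hmem hall hT X.rc.half X.rc.half (hn_half X) le_rfl
  have hL : L R (sg k p n) ≤ H := by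
    unfold H47.ChevSub.L
    rw [Subgroup.closure_le]
    rintro _ ⟨s, t, ht, rfl⟩
    by_cases hs : s < D.nroots
    · exact hall s hs t ((hmem t).2 ht)
    · have : xg R s t = 1 := by
        apply Units.ext
        rw [xg_val]
        unfold ChevalleyDatum.x
        rw [dif_neg hs]; rfl
      rw [this]; exact H.one_mem
  refine ⟨A, n, hn0, ?_, hAf, fun t => ?_, hA, hall, ?_⟩
  · rw [Nat.card_eq_fintype_card]; exact hn
  · rw [hmem, sg_apply]
  · exact hrat A n hn0 hn ⟨P.hG, hL, fun u hu huH => hU u hu huH⟩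

/-- the non-special case -/
theorem hz_top {θ : ℕ} (hzl : zl = [D.nroots - 1]) (Q : RC D) (A : Subfield k)
    (hA : ∀ t, t ∈ A ↔ xg R (D.nroots - 1) t ∈ H) :
    ∀ j ∈ zl, (∀ j', j < j' → j' < D.nroots → TA R H A j') → TA R H A j := by
  intro j hj _
  rw [hzl] at hj
  simp only [List.mem_cons, List.not_mem_nil, or_false] at hj
  rw [hj]
  exact TA_top Q hA

end H42.Subf
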