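import Cfsg.Agent.Lib.H42.SubfU

/-!
Overgroups of subfield subgroups, part V: more assembly.
-/

set_option autoImplicit false
set_option linter.unusedVariables false
set_option linter.unusedSectionVars false

namespace H42.Subf

open H22.RGD H22.Coord H22.RCCheck H22.RCComb H22.ChevTri H22.ChevRel H22.ChevSys H22.ChevMain
open H22.ChevStd H22.ChevUni H47.ChevSub H22.RCPack H42.Inv2C H42.Inv2D H42.InvCK
open H47.SemiTor (sg sg_apply)
open Cfsg.Lie (ChevalleyDatum)
open scoped MatrixGroups Matrix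

variable {D : ChevalleyDatum} {k : Type*} [Field k] {R : Rel D k} {X : RCX D}
variable {H : Subgroup (GL D.Idx k)} {m : Fin D.rank} {lng : ℕ → Bool} {zl : List ℕ}

/-- words for the simple roots -/
theorem hl_of (L : List (List (Fin D.rank)))
    (h : allN (fun i => L.any fun l => prT D (wr D (l.map Fin.val) (D.simple i)) == 1 ||
      Nat.beq (wr D (l.map Fin.val) (D.simple i)) (D.nroots - 1)) D.rank = true) :
    ∀ i : Fin D.rank, ∃ l : List (Fin D.rank),
      prT D ((comb X).w l ((comb X).simple i) : Fin D.nroots) = 1 ∨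
      (((comb X).w l ((comb X).simple i) : Fin D.nroots) : ℕ) = D.nroots - 1 := by
  intro i
  have h1 := allN_spec h i i.2
  rw [List.any_eq_true] at h1
  obtain ⟨l, _, hl⟩ := h1
  refine ⟨l, ?_⟩
  rw [wr_eq]
  simp only [Bool.or_eq_true, beq_iff_eq] at hl
  rcases hl with hl | hl
  · exact Or.inl hl
  · exact Or.inr (Nat.eq_of_beq_eq_true hl)

/-- the simply laced case and the nonspecial case -/
theorem out_ns {p : ℕ} [Fact p.Prime] [CharP k p] [Finite H] (P : Pre R H) (E : LH R X m lng)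
    (Z : Lex X.rc) (K : H23.ChevCore.Core D) (hb : lng (H42.Subf.bot X.rc) = true)
    (hl : ∀ i : Fin D.rank, ∃ l : List (Fin D.rank),
      prT D ((comb X).w l ((comb X).simple i) : Fin D.nroots) = 1 ∨
      (((comb X).w l ((comb X).simple i) : Fin D.nroots) : ℕ) = D.nroots - 1)
    (hM : ∀ t ∈ SS R H (D.nroots - 1), ∀ u ∈ SS R H (D.nroots - 1), t * u ∈ SS R H (D.nroots - 1))
    (B : BH R X [D.nroots - 1])
    (hrat : ∀ (A : Subfield k) [Fintype A] (n : ℕ), n ≠ 0 → Fintype.card A = p ^ n →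
      Ctx R X (sg k p n) H → ∀ x ∈ H, Fr (D := D) (sg k p n) x = x) :
    ∃ (A : Subfield k) (n : ℕ), Out R H p A n :=
  out_of P E Z K hb hl hM B
    (fun A _ hA _ => hz_top (θ := 0) rfl X.rc A hA) hrat

/-- the special case -/
theorem out_sp {p : ℕ} [Fact p.Prime] [CharP k p] [Finite H] (P : Pre R H) (E : LH R X m lng)
    (Z : Lex X.rc) (K : H23.ChevCore.Core D) (hb : lng (H42.Subf.bot X.rc) = true)
    (hl : ∀ i : Fin D.rank, ∃ l : List (Fin D.rank),
      prT D ((comb X).w l ((comb X).simple i) : Fin D.nroots) = 1 ∨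
      (((comb X).w l ((comb X).simple i) : Fin D.nroots) : ℕ) = D.nroots - 1)
    (hM : ∀ t ∈ SS R H (D.nroots - 1), ∀ u ∈ SS R H (D.nroots - 1), t * u ∈ SS R H (D.nroots - 1))
    {θs : Fin D.nroots} (hθs : (θs : ℕ) < D.nroots - 1)
    (B : BH R X [(θs : ℕ), D.nroots - 1])
    (hstar : ∀ A : Subfield k, (∀ t, t ∈ A ↔ xg R (D.nroots - 1) t ∈ H) →
      (∀ r < D.nroots, ∀ t ∈ A, xg R r t ∈ H) →
      (∀ j', (θs : ℕ) < j' → j' < D.nroots → TA R H A j') → ∀ u, xg R θs u ∈ H → u ^ p ∈ A)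
    {l : List (Fin D.rank)} (hl' : wr D (l.map Fin.val) θs = θs)
    {r : ℕ} (hr : r < D.nroots) (hr' : X.rc.half ≤ r) {N : ℤ} (hN : (N : k) ≠ 0)
    (hct : D.commTerms r (wr D (l.map Fin.val) (D.nroots - 1)) = [(D.nroots - 1, N, 1, 1)])
    (h1 : wr D (l.map Fin.val) (D.nroots - 1) ≠ r)
    (h2 : wr D (l.map Fin.val) (D.nroots - 1) ≠ D.neg r)
    (h4 : X.rc.half ≤ wr D (l.map Fin.val) (D.nroots - 1))
    (hrat : ∀ (A : Subfield k) [Fintype A] (n : ℕ), n ≠ 0 → Fintype.card A = p ^ n →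
      Ctx R X (sg k p n) H → ∀ x ∈ H, Fr (D := D) (sg k p n) x = x) :
    ∃ (A : Subfield k) (n : ℕ), Out R H p A n := by
  have hw : (((comb X).w l (top X.rc) : Fin D.nroots) : ℕ) = wr D (l.map Fin.val) (D.nroots - 1) :=
    wr_eq (X := X) l (top X.rc)
  refine out_of P E Z K hb hl hM B ?_ hrat
  intro A hAf hA hS j hj hT
  simp only [List.mem_cons, List.not_mem_nil, or_false] at hj
  rcases hj with rfl | rfl
  · have hfin : Finite (SS R H θs) := SS_finite X.rc θs.2
    have hB : ∀ t, xg R θs t ∈ H → t ∈ A := by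
      have h := sub_of_pow (p := p) (A := A.toAddSubgroup) (B := SS R H θs)
        (fun t ht => hS θs θs.2 t ht) (fun u hu => hstar A hA hS hT u hu)
      exact fun t ht => h ht
    refine TA_short P Z B (θs := θs) (l := l) (r := r) (N := N) (by simp) (by simp) ?_ hA hS hT hB ?_ hr hr'
      hN ?_ ?_ ?_ hθs ?_
    · intro j hj
      simpa using hj
    · apply Fin.ext
      rw [wr_eq, hl']
    · rw [hw]; exact hct
    · rw [hw]; exact h1
    · rw [hw]; exact h2
    · rw [hw]; exact h4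
  · exact TA_top X.rc hA

/-- moving a root element by a word -/
theorem Pre.move (P : Pre R H) (X : RCX D) (l : List (Fin D.rank)) (r s : Fin D.nroots)
    (h : wr D (l.map Fin.val) r = s) {t : k} (ht : xg R r t ∈ H) : xg R s t ∈ H := by
  have h1 := (P.SS_w X l r t).2 ht
  rw [wr_eq, h] at h1
  exact h1

end H42.Subf
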