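import Cfsg.Agent.Lib.H42.SubfVB2a

/-!
Overgroups of subfield subgroups, the conclusion for type B2.
-/

set_option autoImplicit false
set_option maxRecDepth 100000
set_option linter.unusedSectionVars false
set_option linter.unusedVariables false

namespace H42.SubfTB2

open H22.RCPack H42.Subf H42.Inv2C H42.Inv2F H42.Inv2E H42.Inv2D H42.Inv2M H47.ChevSub H22.ChevRel H42.InvCK
open H22.ChevMain H22.ChevStd H22.ChevUni H22.ChevSys H22.RCCheck H22.RCComb
open H47.SemiTor (sg)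
open scoped MatrixGroups Matrix

theorem comm_central {G : Type*} [Group G] {a b c d : G} (h1 : c * a = a * c) (h2 : c * b = b * c)
    (h3 : c * d = d * c) (h4 : d * a = a * d) (h5 : d * b = b * d) :
    (c * a) * (b * d) * (c * a)⁻¹ * (b * d)⁻¹ = a * b * a⁻¹ * b⁻¹ := by
  have e1 : (c * a) * (b * d) = (a * b) * (c * d) := by
    rw [h1, mul_assoc, ← mul_assoc c b d, h2]; simp only [mul_assoc]
  have e2 : (b * d) * (c * a) = (b * a) * (c * d) := by
    rw [h1, mul_assoc, ← mul_assoc d a c, h4, h3]; simp only [mul_assoc]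
  calc _ = ((c * a) * (b * d)) * ((b * d) * (c * a))⁻¹ := by simp only [mul_inv_rev, mul_assoc]
    _ = _ := by rw [e1, e2]; simp [mul_assoc]

section
variable {k : Type*} [Field k] [CharP k 2] {R : Rel Cfsg.Lie.chevB2 k}
variable {H : Subgroup (GL Cfsg.Lie.chevB2.Idx k)}

theorem r06 : Cfsg.Lie.chevB2.reflectRoot 0 6 = 6 := by decide +kernel

theorem c56' (t u : k) : xg R 5 t * xg R 6 u = xg R 6 u * xg R 5 t := by
  have := c56 R t u
  rw [CharTwo.two_eq_zero, zero_mul, zero_mul, xg_zero, mul_one, mul_inv_eq_iff_eq_mul] at this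
  exact this

/-- (5) -/
theorem T5 (P : Pre R H) {α β : k} (h : xg R 6 α * xg R 7 β ∈ H) : xg R 6 β * xg R 7 β ∈ H := by
  have h1 : xg R 6 α * xg R 4 β ∈ H := cnj (P := P) 0 (by decide) (by decide) r06 r05 h
  have h5 := P.h1 5
  have h2 := H.mul_mem (H.mul_mem (H.mul_mem h1 h5) (H.inv_mem h1)) (H.inv_mem h5)
  have e := comm_central (a := xg R 4 β) (b := xg R 5 1) (c := xg R 6 α) (d := (1 : GL Cfsg.Lie.chevB2.Idx k))
    (c46 R β α).symm (c56' 1 α).symm (by simp) (by simp) (by simp)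
  rw [mul_one] at e
  rw [e, c45 R β 1, CharTwo.neg_eq, one_pow, mul_one] at h2
  have e3 : xg R 5 1 * (xg R 6 β * xg R 7 β) * (xg R 5 1)⁻¹ = xg R 6 β * xg R 7 β := by
    rw [mul_inv_eq_iff_eq_mul, ← mul_assoc, c56' 1 β, mul_assoc, c7 R (by decide) (by decide) 1 β, mul_assoc]
  rw [e3] at h2
  exact h2

/-- (8) -/
theorem T8 (P : Pre R H) {s u : k} (hs : xg R 6 s * xg R 7 s ∈ H) (hu : xg R 6 u * xg R 7 u ∈ H) :
    xg R 6 (s * u) * xg R 7 (s * u ^ 2) ∈ H := by
  have h1 : xg R 6 s * xg R 4 s ∈ H := cnj (P := P) 0 (by decide) (by decide) r06 r05 hs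
  have h2 : xg R 5 u * xg R 7 u ∈ H := cnj (P := P) 1 (by decide) (by decide) r16 r17 hu
  have h3 := H.mul_mem (H.mul_mem (H.mul_mem h1 h2) (H.inv_mem h1)) (H.inv_mem h2)
  have e := comm_central (a := xg R 4 s) (b := xg R 5 u) (c := xg R 6 s) (d := xg R 7 u)
    (c46 R s s).symm (c56' u s).symm (c7 R (by decide) (by decide) s u)
    (c7 R (by decide) (by decide) s u).symm (c7 R (by decide) (by decide) u u).symm
  rw [e, c45 R s u, CharTwo.neg_eq] at h3
  have e3 : xg R 5 u * (xg R 6 (s * u) * xg R 7 (s * u ^ 2)) * (xg R 5 u)⁻¹ =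
      xg R 6 (s * u) * xg R 7 (s * u ^ 2) := by
    rw [mul_inv_eq_iff_eq_mul, ← mul_assoc, c56' u _, mul_assoc, c7 R (by decide) (by decide) u _, mul_assoc]
  rw [e3] at h3
  exact h3

/-- the short root -/
theorem TA6 (P : Pre R H) [Finite H] {A : Subfield k} (hA : ∀ t, t ∈ A ↔ xg R 7 t ∈ H) :
    TA R H A 6 := by
  intro t v hv h
  obtain ⟨β, v', hv', rfl⟩ := (Vk_step R H22.ChevLex.lexB2 (by decide) (by decide)).1 hv
  have hn : (7 + 1 : ℕ) = Cfsg.Lie.chevB2.nroots := by decide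
  rw [hn, Vk_nroots, Subgroup.mem_bot] at hv'
  subst hv'
  rw [mul_one] at h
  -- the group of parameters
  have hadd : ∀ {a b c d : k}, xg R 6 a * xg R 7 b ∈ H → xg R 6 c * xg R 7 d ∈ H →
      xg R 6 (a + c) * xg R 7 (b + d) ∈ H := by
    intro a b c d h1 h2
    have h3 := H.mul_mem h1 h2
    have e : xg R 6 a * xg R 7 b * (xg R 6 c * xg R 7 d) = xg R 6 (a + c) * xg R 7 (b + d) := by
      rw [← xg_mul, ← xg_mul]
      have := c7 R (r := 6) (by decide) (by decide) c b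
      calc _ = xg R 6 a * (xg R 7 b * xg R 6 c) * xg R 7 d := by simp only [mul_assoc]
        _ = _ := by rw [← this]; simp only [mul_assoc]
    rwa [e] at h3
  let A2 : AddSubgroup k :=
    { carrier := {α | ∃ β, xg R 6 α * xg R 7 β ∈ H}
      zero_mem' := ⟨0, by rw [xg_zero, xg_zero, mul_one]; exact H.one_mem⟩
      add_mem' := by
        rintro a b ⟨β, h1⟩ ⟨γ, h2⟩
        exact ⟨β + γ, hadd h1 h2⟩
      neg_mem' := by
        rintro a ⟨β, h1⟩
        rw [CharTwo.neg_eq]; exact ⟨β, h1⟩ }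
  have hA2 : ∀ α, α ∈ A2 ↔ ∃ β, xg R 6 α * xg R 7 β ∈ H := fun _ => Iff.rfl
  have hfin : Finite A2 := by
    refine Finite.of_injective (fun α : A2 => (⟨xg R 6 (α : k) * xg R 7 ((α : k) ^ 2),
      by obtain ⟨β, hβ⟩ := (hA2 _).1 α.2; exact T2 P hβ⟩ : H)) ?_
    intro a b e
    have h1 := congrArg Subtype.val e
    exact Subtype.ext (lead_inj R H22.ChevLex.lexB2 (r0 := 6) (by decide) (by decide)
      (xg_mem_Vk R (by decide) (by decide) _) (xg_mem_Vk R (by decide) (by decide) _) h1)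
  have hsq0 : ∀ α ∈ A2, xg R 6 (α ^ 2) * xg R 7 (α ^ 2) ∈ H := by
    rintro α ⟨β, hβ⟩
    exact T5 P (T2 P hβ)
  have hsq : ∀ α ∈ A2, α ^ 2 ∈ A2 := fun α hα => ⟨_, hsq0 α hα⟩
  have hinj : Function.Injective (fun v : A2 => (⟨(v : k) ^ 2, hsq v v.2⟩ : A2)) := by
    intro a b e
    have h2 : (a : k) ^ 2 = (b : k) ^ 2 := congrArg Subtype.val e
    exact Subtype.ext (frobenius_inj k 2 h2)
  have hdiag : ∀ α ∈ A2, xg R 6 α * xg R 7 α ∈ H := by
    intro α hα
    obtain ⟨w, hw⟩ := (Finite.surjective_of_injective hinj) ⟨α, hα⟩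
    have hw' : (w : k) ^ 2 = α := congrArg Subtype.val hw
    rw [← hw']
    exact hsq0 w w.2
  have h7 : ∀ α ∈ A2, α + α ^ 2 ∈ A := fun α hα => (hA _).2 (T3 P (hdiag α hα))
  have h8 : ∀ s ∈ A2, ∀ u ∈ A2, s * (u + u ^ 2) ∈ A := by
    intro s hs u hu
    have h1 := T8 P (hdiag s hs) (hdiag u hu)
    have h2 := hdiag (s * u) ⟨_, h1⟩
    have h3 := hadd h1 h2
    rw [CharTwo.add_self_eq_zero, xg_zero, one_mul] at h3
    have : s * u ^ 2 + s * u = s * (u + u ^ 2) := by ring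
    rw [this] at h3
    exact (hA _).2 h3
  have ht2 : t ∈ A2 := ⟨β, h⟩
  by_cases hu : ∃ u ∈ A2, u + u ^ 2 ≠ 0
  · obtain ⟨u, hu, hu0⟩ := hu
    have h9 := A.mul_mem (h8 t ht2 u hu) (A.inv_mem (h7 u hu))
    rwa [mul_inv_cancel_right₀ hu0] at h9
  · push Not at hu
    have h9 := hu t ht2
    have h10 : t * (t + 1) = 0 := by rw [← h9]; ring
    rcases mul_eq_zero.1 h10 with h11 | h11
    · rw [h11]; exact A.zero_mem
    · rw [← CharTwo.sub_eq_add, sub_eq_zero] at h11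
      rw [h11]; exact A.one_mem

end

/-- words for the simple roots -/
def ls : List (List (Fin 2)) := [[], [0]]

theorem ckls : allN (fun i => ls.any fun l => prT Cfsg.Lie.chevB2 (wr Cfsg.Lie.chevB2 (l.map Fin.val)
    (Cfsg.Lie.chevB2.simple i)) == 1 ||
      Nat.beq (wr Cfsg.Lie.chevB2 (l.map Fin.val) (Cfsg.Lie.chevB2.simple i)) (Cfsg.Lie.chevB2.nroots - 1))
      Cfsg.Lie.chevB2.rank = true := by decide +kernel

section
variable {k : Type*} [Field k] (R : Rel Cfsg.Lie.chevB2 k)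

/-- the conclusion -/
theorem out {p : ℕ} [Fact p.Prime] [CharP k p] {H : Subgroup (GL Cfsg.Lie.chevB2.Idx k)} [Finite H]
    (P : Pre R H) : ∃ (A : Subfield k) (n : ℕ), Out R H p A n := by
  by_cases hp : p = 2
  · subst hp
    have B : BH R H22.PoinB2.rcxB2 [6, 7] := BH_of R H22.ChevLex.lexB2 (e := 1) (e0 := 2) (by simp)
      (by exact_mod_cast CharTwo.two_eq_zero (R := k)) bh1
    refine out_of P (lh R) H22.ChevLex.lexB2 (H23.ChevAll.core Cfsg.Lie.chevB2 (by simp)) (by decide +kernel)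
      (hl_of ls ckls) (hM_two P) B ?_ ?_
    · intro A hAf hA hS j hj hT
      simp only [List.mem_cons, List.not_mem_nil, or_false] at hj
      rcases hj with rfl | rfl
      · exact TA6 P hA
      · exact TA_top H22.PoinB2.rcxB2.rc hA
    · intro A _ n hn hq C x hx
      exact rat R (F := A) (H22.ChevAll.rel _ (by simp) A) hn hq C hx
  · have B : BH R H22.PoinB2.rcxB2 [7] := by
      refine BH_of R H22.ChevLex.lexB2 (e := 2) (e0 := 0) ?_ (by simp) bh0
      intro h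
      have h1 : ((2 : ℕ) : k) = 0 := by exact_mod_cast h
      rw [CharP.cast_eq_zero_iff k p] at h1
      exact hp ((Nat.prime_dvd_prime_iff_eq Fact.out Nat.prime_two).1 h1)
    refine out_ns P (lh R) H22.ChevLex.lexB2 (H23.ChevAll.core Cfsg.Lie.chevB2 (by simp)) (by decide +kernel)
      (hl_of ls ckls) (hM_odd hp P) B ?_
    intro A _ n hn hq C x hx
    exact rat R (F := A) (H22.ChevAll.rel _ (by simp) A) hn hq C hx

end

end H42.SubfTB2
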