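import Cfsg.Agent.Lib.H42.SubfV
import Cfsg.Agent.Lib.H42.SubfTB2

/-!
Overgroups of subfield subgroups, type B2, products of parameters.
-/

set_option autoImplicit false
set_option maxRecDepth 100000
set_option linter.unusedSectionVars false
set_option linter.unusedVariables false

namespace H42.SubfTB2

open H22.RCPack H42.Subf H42.Inv2C H42.Inv2F H42.Inv2E H42.Inv2D H42.Inv2M H47.ChevSub H22.ChevRel H42.InvCK
open H22.ChevMain H22.ChevStd H22.ChevUni H22.ChevSys H22.RCCheck H22.RCComb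
open H47.SemiTor (sg)
open scoped MatrixGroups Matrix

/-! ### fields -/

section fld
variable {k : Type*} [Field k]

/-- closure under multiplication in characteristic two -/
theorem closed_two [CharP k 2] (A : AddSubgroup k) [Finite A] (h1 : (1 : k) ∈ A)
    (h : ∀ t ∈ A, ∀ v ∈ A, (t + t ^ 2) * v ^ 2 ∈ A) : ∀ t ∈ A, ∀ u ∈ A, t * u ∈ A := by
  have hsq : ∀ t ∈ A, t ^ 2 ∈ A := by
    intro t ht
    have h2 := h t ht 1 h1
    have h3 := A.sub_mem h2 ht
    have : (t + t ^ 2) * 1 ^ 2 - t = t ^ 2 := by ring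
    rwa [this] at h3
  have hinj : Function.Injective (fun v : A => (⟨(v : k) ^ 2, hsq v v.2⟩ : A)) := by
    intro a b e
    have h2 : (a : k) ^ 2 = (b : k) ^ 2 := congrArg Subtype.val e
    exact Subtype.ext (frobenius_inj k 2 h2)
  have hsur := Finite.surjective_of_injective hinj
  have h' : ∀ t ∈ A, ∀ v ∈ A, (t + t ^ 2) * v ∈ A := by
    intro t ht v hv
    obtain ⟨w, hw⟩ := hsur ⟨v, hv⟩
    have hw' : (w : k) ^ 2 = v := congrArg Subtype.val hw
    rw [← hw']
    exact h t ht w w.2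
  -- the stabiliser
  let S : AddSubgroup k :=
    { carrier := {r | ∀ v ∈ A, r * v ∈ A}
      zero_mem' := by intro v _; rw [zero_mul]; exact A.zero_mem
      add_mem' := by
        intro a b ha hb v hv
        rw [add_mul]; exact A.add_mem (ha v hv) (hb v hv)
      neg_mem' := by
        intro a ha v hv
        rw [neg_mul]; exact A.neg_mem (ha v hv) }
  have hS : ∀ r, r ∈ S ↔ ∀ v ∈ A, r * v ∈ A := fun r => Iff.rfl
  have hSA : S ≤ A := by
    intro r hr
    have := (hS r).1 hr 1 h1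
    rwa [mul_one] at this
  have hSf : Finite S := Finite.of_injective (fun a : S => (⟨a, hSA a.2⟩ : A)) (by
    intro a b h; exact Subtype.ext (congrArg (fun x : A => (x : k)) h))
  have hS1 : (1 : k) ∈ S := by
    rw [hS]; intro v hv; rwa [one_mul]
  have hSm : ∀ t ∈ S, ∀ u ∈ S, t * u ∈ S := by
    intro t ht u hu
    rw [hS]; intro v hv
    rw [mul_assoc]; exact (hS t).1 ht _ ((hS u).1 hu v hv)
  have hSt : ∀ t ∈ A, t + t ^ 2 ∈ S := fun t ht => (hS _).2 (h' t ht)
  let K := subf S hS1 hSm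
  have hK : ∀ t, t ∈ K ↔ t ∈ S := fun t => Iff.rfl
  by_cases hr : ∃ r ∈ S, r + r ^ 2 ≠ 0
  · obtain ⟨r, hr, hr0⟩ := hr
    have hAS : ∀ t ∈ A, t ∈ S := by
      intro t ht
      have e1 : r * t + (r * t) ^ 2 ∈ S := hSt _ ((hS r).1 hr t ht)
      have e2 : r ^ 2 * (t + t ^ 2) ∈ S := by
        rw [pow_two]; exact hSm _ (hSm _ hr _ hr) _ (hSt t ht)
      have e3 : (r + r ^ 2) * t ∈ S := by
        have e4 := S.add_mem e1 e2
        have : r * t + (r * t) ^ 2 + r ^ 2 * (t + t ^ 2) = (r + r ^ 2) * t + 2 * (r ^ 2 * t ^ 2) := by ring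
        rw [this, CharTwo.two_eq_zero (R := k), zero_mul, add_zero] at e4
        exact e4
      have e5 : r + r ^ 2 ∈ K := by
        rw [hK]
        refine S.add_mem hr ?_
        rw [pow_two]; exact hSm _ hr _ hr
      have e6 : (r + r ^ 2)⁻¹ * ((r + r ^ 2) * t) ∈ K := K.mul_mem (K.inv_mem e5) e3
      rw [inv_mul_cancel_left₀ hr0] at e6
      exact e6
    intro t ht u hu
    exact (hS t).1 (hAS t ht) u hu
  · push Not at hr
    have h01 : ∀ r ∈ S, r = 0 ∨ r = 1 := by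
      intro r hr1
      have h2 := hr r hr1
      have h3 : r * (r + 1) = 0 := by rw [← h2]; ring
      rcases mul_eq_zero.1 h3 with h4 | h4
      · exact Or.inl h4
      · right
        rw [← CharTwo.sub_eq_add, sub_eq_zero] at h4
        exact h4
    intro t ht u hu
    have key : ∀ x ∈ A, x = 0 ∨ x = 1 ∨ x + x ^ 2 = 1 := by
      intro x hx
      rcases h01 _ (hSt x hx) with h2 | h2
      · have h3 : x * (x + 1) = 0 := by rw [← h2]; ring
        rcases mul_eq_zero.1 h3 with h4 | h4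
        · exact Or.inl h4
        · right; left
          rw [← CharTwo.sub_eq_add, sub_eq_zero] at h4
          exact h4
      · exact Or.inr (Or.inr h2)
    rcases key t ht with h2 | h2 | h2
    · rw [h2, zero_mul]; exact A.zero_mem
    · rw [h2, one_mul]; exact hu
    · rcases key u hu with h3 | h3 | h3
      · rw [h3, mul_zero]; exact A.zero_mem
      · rw [h3, mul_one]; exact ht
      · have h4 : (t + u) * (t + u + 1) = 0 := by
          have : (t + u) * (t + u + 1) = (t + t ^ 2) + (u + u ^ 2) + 2 * (t * u) := by ring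
          rw [this, h2, h3, CharTwo.two_eq_zero (R := k), zero_mul, add_zero]
          exact CharTwo.add_self_eq_zero (1 : k)
        rcases mul_eq_zero.1 h4 with h5 | h5
        · rw [← CharTwo.sub_eq_add, sub_eq_zero] at h5
          subst h5
          have := hsq t ht
          rwa [pow_two] at this
        · have h6 : u = t + 1 := by
            have h7 : t + u + 1 = 0 := h5
            have h8 : u = t + 1 + (t + u + 1) - 2 * (t + 1) := by ring
            rw [h7, CharTwo.two_eq_zero (R := k), zero_mul, add_zero, sub_zero] at h8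
            exact h8
          have h7 : t * u = t + t ^ 2 := by rw [h6]; ring
          rw [h7, h2]; exact h1

end fld

theorem c45' : Cfsg.Lie.chevB2.commTerms 4 5 = [(6, 1, 1, 1), (7, -1, 1, 2)] := by decide +kernel
theorem c54' : Cfsg.Lie.chevB2.commTerms 5 4 = [(6, -1, 1, 1), (7, -1, 2, 1)] := by decide +kernel
theorem c46' : Cfsg.Lie.chevB2.commTerms 4 6 = [] := by decide +kernel

section
variable {k : Type*} [Field k] (R : Rel Cfsg.Lie.chevB2 k)

theorem c7 {r : ℕ} (h1 : 4 ≤ r) (h2 : r < 8) (t u : k) : xg R r t * xg R 7 u = xg R 7 u * xg R r t := by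
  have h3 := H47.ChevLong.U_comm (X := H22.PoinB2.rcxB2) R H22.ChevLex.lexB2
    (show xg R r t ∈ (chevSys R H22.PoinB2.rcxB2).U by
      rw [U_eq_Vk R]; exact xg_mem_Vk R h1 h2 _) u
  exact h3.eq

theorem c45 (t u : k) : xg R 4 t * xg R 5 u * (xg R 4 t)⁻¹ =
    xg R 5 u * (xg R 6 (t * u) * xg R 7 (-(t * u ^ 2))) := by
  rw [conj_eq R (by decide) (by decide) (by decide) (by decide +kernel)]
  congr 1
  unfold Cfsg.Lie.ChevalleyDatum.commWord
  rw [c45']
  simp [wg]

theorem c54 (t u : k) : xg R 5 t * xg R 4 u * (xg R 5 t)⁻¹ =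
    xg R 4 u * (xg R 6 (-(t * u)) * xg R 7 (-(t ^ 2 * u))) := by
  rw [conj_eq R (by decide) (by decide) (by decide) (by decide +kernel)]
  congr 1
  unfold Cfsg.Lie.ChevalleyDatum.commWord
  rw [c54']
  simp [wg]

theorem c56 (t u : k) : xg R 5 t * xg R 6 u * (xg R 5 t)⁻¹ = xg R 6 u * xg R 7 (2 * t * u) := by
  rw [conj_eq R (by decide) (by decide) (by decide) (by decide +kernel)]
  congr 1
  unfold Cfsg.Lie.ChevalleyDatum.commWord
  rw [t56]
  simp [wg]

theorem c46 (t u : k) : xg R 4 t * xg R 6 u = xg R 6 u * xg R 4 t := by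
  have := conj_eq R (D := Cfsg.Lie.chevB2) (r := 4) (s := 6) (by decide) (by decide) (by decide)
    (by decide +kernel) t u
  have e : wg R (Cfsg.Lie.chevB2.commWord k 4 6 (-t) u) = 1 := by
    unfold Cfsg.Lie.ChevalleyDatum.commWord
    rw [c46']
    simp [wg]
  rw [e, mul_one, mul_inv_eq_iff_eq_mul] at this
  exact this

variable {R} {H : Subgroup (GL Cfsg.Lie.chevB2.Idx k)}

/-- products -/
theorem hM_odd {p : ℕ} [Fact p.Prime] [CharP k p] (hp : p ≠ 2) (P : Pre R H) [Finite H] :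
    ∀ t ∈ SS R H 7, ∀ u ∈ SS R H 7, t * u ∈ SS R H 7 := by
  have hodd : Odd p := (Fact.out : p.Prime).odd_of_ne_two hp
  obtain ⟨m, hm⟩ := hodd
  have half : ∀ x : k, 2 * x ∈ SS R H 7 → x ∈ SS R H 7 := by
    intro x hx
    have h1 : (m + 1) • (2 * x) ∈ SS R H 7 := (SS R H 7).nsmul_mem hx _
    have h2 : (m + 1) • (2 * x) = x := by
      rw [nsmul_eq_mul]
      have h3 : ((m + 1 : ℕ) : k) * 2 = ((p : ℕ) : k) + 1 := by rw [hm]; push_cast; ring
      rw [← mul_assoc, h3, CharP.cast_eq_zero, zero_add, one_mul]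
    rwa [h2] at h1
  have e65 : ∀ t : k, xg R 6 t ∈ H → xg R 5 t ∈ H := fun t ht =>
    P.move H22.PoinB2.rcxB2 (([1] : List (Fin 2))) ⟨6, by decide⟩ ⟨5, by decide⟩ (by decide +kernel) ht
  have e74 : ∀ t : k, xg R 7 t ∈ H → xg R 4 t ∈ H := fun t ht =>
    P.move H22.PoinB2.rcxB2 (([0] : List (Fin 2))) ⟨7, by decide⟩ ⟨4, by decide⟩ (by decide +kernel) ht
  -- short times short
  have h1 : ∀ t u : k, xg R 6 t ∈ H → xg R 6 u ∈ H → t * u ∈ SS R H 7 := by
    intro t u ht hu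
    have h2 := e65 t ht
    have h3 := H.mul_mem (H.mul_mem h2 hu) (H.inv_mem h2)
    rw [c56] at h3
    have h4 : xg R 7 (2 * t * u) ∈ H := by
      have := H.mul_mem (H.inv_mem hu) h3
      simpa using this
    apply half
    rw [mem_SS, ← mul_assoc]; exact h4
  have h2 : ∀ t : k, xg R 6 t ∈ H → xg R 7 t ∈ H := by
    intro t ht
    have := h1 t 1 ht (P.h1 6)
    rwa [mul_one] at this
  have h3 : ∀ t : k, xg R 7 t ∈ H → xg R 6 t ∈ H := by
    intro t ht
    have h4 := e74 t ht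
    have h5 := P.h1 5
    have h6 := H.mul_mem (H.mul_mem h4 h5) (H.inv_mem h4)
    rw [c45] at h6
    have h7 : xg R 7 (-(t * 1 ^ 2)) ∈ H := by
      rw [one_pow, mul_one, ← xg_inv]; exact H.inv_mem ht
    have h8 := H.mul_mem (H.mul_mem (H.inv_mem h5) h6) (H.inv_mem h7)
    simpa using h8
  intro t ht u hu
  exact h1 t u (h3 t ht) (h3 u hu)

end

/-! ### characteristic two -/

section
variable {k : Type*} [Field k] [CharP k 2] {R : Rel Cfsg.Lie.chevB2 k}
variable {H : Subgroup (GL Cfsg.Lie.chevB2.Idx k)}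

theorem sgn1 {z : ℤ} (h : z = 1 ∨ z = -1) : (z : k) = 1 := by
  rcases h with rfl | rfl
  · simp
  · simp [CharTwo.neg_eq]

/-- conjugation by a simple reflection -/
theorem nsx (R : Rel Cfsg.Lie.chevB2 k) (i : Fin 2) {r s : ℕ} (hr : r < 8) (h : Cfsg.Lie.chevB2.reflectRoot i r = s) (t : k) :
    ns R i * xg R r t * (ns R i)⁻¹ = xg R s t := by
  obtain ⟨η, hη1, hη2⟩ := ns_xg (k := k) (X := H22.PoinB2.rcxB2) R i
  have h1 := hη2 ⟨r, hr⟩ t
  rw [sgn1 (hη1 _), one_mul] at h1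
  have e : (((comb H22.PoinB2.rcxB2).refl i ⟨r, hr⟩ : Fin Cfsg.Lie.chevB2.nroots) : ℕ) = s := h
  rw [e] at h1
  exact h1

/-- conjugation of a product -/
theorem cnj {P : Pre R H} (i : Fin 2) {r s r' s' : ℕ} (hr : r < 8) (hs : s < 8)
    (h : Cfsg.Lie.chevB2.reflectRoot i r = r') (h' : Cfsg.Lie.chevB2.reflectRoot i s = s') {t u : k}
    (hx : xg R r t * xg R s u ∈ H) : xg R r' t * xg R s' u ∈ H := by
  have h1 := P.ns' i
  have h2 := H.mul_mem (H.mul_mem h1 hx) (H.inv_mem h1)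
  have h3 : ns R i * (xg R r t * xg R s u) * (ns R i)⁻¹ = (ns R i * xg R r t * (ns R i)⁻¹) *
      (ns R i * xg R s u * (ns R i)⁻¹) := by simp [mul_assoc]
  rw [h3, nsx R i hr h, nsx R i hs h'] at h2
  exact h2

theorem r05 : Cfsg.Lie.chevB2.reflectRoot 0 7 = 4 := by decide +kernel
theorem r16 : Cfsg.Lie.chevB2.reflectRoot 1 6 = 5 := by decide +kernel
theorem r17 : Cfsg.Lie.chevB2.reflectRoot 1 7 = 7 := by decide +kernel

/-- (1) -/
theorem T1 (P : Pre R H) {t u : k} (ht : xg R 4 t ∈ H) (hu : xg R 5 u ∈ H) :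
    xg R 6 (t * u) * xg R 7 (t * u ^ 2) ∈ H := by
  have h1 := H.mul_mem (H.mul_mem ht hu) (H.inv_mem ht)
  rw [c45, CharTwo.neg_eq] at h1
  have h2 := H.mul_mem (H.inv_mem hu) h1
  simpa using h2

/-- (2) -/
theorem T2 (P : Pre R H) {α β : k} (h : xg R 6 α * xg R 7 β ∈ H) :
    xg R 6 α * xg R 7 (α ^ 2) ∈ H := by
  have h1 : xg R 5 α * xg R 7 β ∈ H := cnj (P := P) 1 (by decide) (by decide) r16 r17 h
  have h4 := P.h1 4
  have h2 := H.mul_mem (H.mul_mem (H.mul_mem h4 h1) (H.inv_mem h4)) (H.inv_mem h1)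
  have e : xg R 4 1 * (xg R 5 α * xg R 7 β) * (xg R 4 1)⁻¹ * (xg R 5 α * xg R 7 β)⁻¹ =
      xg R 6 α * xg R 7 (α ^ 2) := by
    have e1 := c45 R 1 α
    rw [CharTwo.neg_eq, one_mul, one_mul] at e1
    have e2 := c7 R (r := 4) (by decide) (by decide) 1 β
    have e3 := c7 R (r := 5) (by decide) (by decide) α β
    have e56 : xg R 5 α * xg R 6 α = xg R 6 α * xg R 5 α := by
      have := c56 R α α
      rw [CharTwo.two_eq_zero, zero_mul, zero_mul, xg_zero, mul_one, mul_inv_eq_iff_eq_mul] at this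
      exact this
    calc _ = xg R 4 1 * xg R 5 α * (xg R 7 β * (xg R 4 1)⁻¹) * (xg R 7 β)⁻¹ * (xg R 5 α)⁻¹ := by
          simp only [mul_assoc, mul_inv_rev]
      _ = xg R 4 1 * xg R 5 α * ((xg R 4 1)⁻¹ * xg R 7 β) * (xg R 7 β)⁻¹ * (xg R 5 α)⁻¹ := by
          congr 3
          rw [eq_inv_mul_iff_mul_eq, ← mul_assoc, e2, mul_inv_cancel_right]
      _ = (xg R 4 1 * xg R 5 α * (xg R 4 1)⁻¹) * (xg R 5 α)⁻¹ := by simp [mul_assoc]
      _ = _ := by
          rw [e1]
          have e7 := c7 R (r := 5) (by decide) (by decide) α (α ^ 2)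
          calc _ = (xg R 5 α * xg R 6 α) * xg R 7 (α ^ 2) * (xg R 5 α)⁻¹ := by simp only [mul_assoc]
            _ = xg R 6 α * (xg R 5 α * xg R 7 (α ^ 2)) * (xg R 5 α)⁻¹ := by rw [e56]; simp only [mul_assoc]
            _ = _ := by rw [e7]; simp [mul_assoc]
  rw [e] at h2
  exact h2

/-- (3) -/
theorem T3 (P : Pre R H) {α β : k} (h : xg R 6 α * xg R 7 β ∈ H) : xg R 7 (β + α ^ 2) ∈ H := by
  have h1 := H.mul_mem (H.inv_mem h) (T2 P h)
  have e : (xg R 6 α * xg R 7 β)⁻¹ * (xg R 6 α * xg R 7 (α ^ 2)) = xg R 7 (β + α ^ 2) := by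
    rw [mul_inv_rev, xg_inv, CharTwo.neg_eq]
    simp only [mul_assoc]
    rw [inv_mul_cancel_left, xg_mul]
  rw [e] at h1
  exact h1

/-- products in characteristic two -/
theorem hM_two (P : Pre R H) [Finite H] :
    ∀ t ∈ SS R H 7, ∀ u ∈ SS R H 7, t * u ∈ SS R H 7 := by
  have e65 : ∀ t : k, xg R 6 t ∈ H → xg R 5 t ∈ H := fun t ht =>
    P.move H22.PoinB2.rcxB2 (([1] : List (Fin 2))) ⟨6, by decide⟩ ⟨5, by decide⟩ (by decide +kernel) ht
  have e74 : ∀ t : k, xg R 7 t ∈ H → xg R 4 t ∈ H := fun t ht =>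
    P.move H22.PoinB2.rcxB2 (([0] : List (Fin 2))) ⟨7, by decide⟩ ⟨4, by decide⟩ (by decide +kernel) ht
  have k1 : ∀ t u : k, xg R 7 t ∈ H → xg R 6 u ∈ H → (t + t ^ 2) * u ^ 2 ∈ SS R H 7 := by
    intro t u ht hu
    have h1 := T3 P (T1 P (e74 t ht) (e65 u hu))
    rw [mem_SS]
    have : t * u ^ 2 + (t * u) ^ 2 = (t + t ^ 2) * u ^ 2 := by ring
    rwa [this] at h1
  have k2 : ∀ u : k, xg R 6 u ∈ H → xg R 7 (u ^ 2) ∈ H := by
    intro u hu
    have h1 := T1 P (P.h1 4) (e65 u hu)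
    rw [one_mul, one_mul] at h1
    have := H.mul_mem (H.inv_mem hu) h1
    simpa using this
  have k3 : ∀ t : k, xg R 7 t ∈ H → xg R 6 t ∈ H := by
    intro t ht
    have h1 := T1 P (e74 t ht) (P.h1 5)
    rw [one_pow, mul_one] at h1
    have := H.mul_mem h1 (H.inv_mem ht)
    simpa using this
  have hf : Finite (SS R H 7) := SS_finite H22.PoinB2.rcxB2.rc (by decide)
  refine closed_two (SS R H 7) (P.h1 7) ?_
  intro t ht v hv
  exact k1 t v ht (k3 v hv)

end

end H42.SubfTB2
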