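import Cfsg.Agent.Lib.H42.SubfV
import Cfsg.Agent.Lib.H42.SubfTE7

/-!
Overgroups of subfield subgroups, the conclusion for type E7.
-/

set_option autoImplicit false
set_option maxRecDepth 100000
set_option linter.unusedSectionVars false

namespace H42.SubfTE7

open H22.RCPack H42.Subf H42.Inv2C H42.Inv2F H42.Inv2E H42.Inv2D H42.Inv2M H47.ChevSub H22.ChevRel H42.InvCK
open H47.SemiTor (sg)
open scoped MatrixGroups Matrix

/-- words for the simple roots -/
def ls : List (List (Fin 7)) := [[], [0, 2, 3], [0], [0, 2], [0, 2, 3, 4], [0, 2, 3, 4, 5]]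

theorem ckls : allN (fun i => ls.any fun l => prT Cfsg.Lie.chevE7 (wr Cfsg.Lie.chevE7 (l.map Fin.val)
    (Cfsg.Lie.chevE7.simple i)) == 1 ||
      Nat.beq (wr Cfsg.Lie.chevE7 (l.map Fin.val) (Cfsg.Lie.chevE7.simple i)) (Cfsg.Lie.chevE7.nroots - 1))
      Cfsg.Lie.chevE7.rank = true := by decide +kernel

theorem ct : Cfsg.Lie.chevE7.commTerms 93 124 = [(125, 1, 1, 1)] := by decide +kernel

section
variable {k : Type*} [Field k] (R : Rel Cfsg.Lie.chevE7 k)

theorem bh' {p : ℕ} [Fact p.Prime] [CharP k p] : BH R H22.PoinE7.rcxE7 [125] :=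
  BH_of R H22.ChevLex.lexE7 (e := 1) (e0 := 0) (by simp) (by simp) bh0

/-- the conclusion -/
theorem out {p : ℕ} [Fact p.Prime] [CharP k p] {H : Subgroup (GL Cfsg.Lie.chevE7.Idx k)} [Finite H]
    (P : Pre R H) : ∃ (A : Subfield k) (n : ℕ), Out R H p A n := by
  refine out_ns P (lh R) H22.ChevLex.lexE7 (H23.ChevAll.core Cfsg.Lie.chevE7 (by simp)) (by decide +kernel)
    (hl_of ls ckls)
    (mul_SS P (lh R) H22.ChevLex.lexE7 (r := ⟨93, by decide⟩) (s := ⟨124, by decide⟩) (by decide) (by decide)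
      (by decide) (by decide +kernel) (Or.inl rfl) ct)
    (bh' R (p := p)) ?_
  intro A _ n hn hq C x hx
  exact rat R (F := A) (H22.ChevAll.rel _ (by simp) A) hn hq C hx

end

end H42.SubfTE7
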