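import Cfsg.Agent.Lib.H42.SubfV
import Cfsg.Agent.Lib.H42.SubfTF4

/-!
Overgroups of subfield subgroups, the conclusion for type F4.
-/

set_option autoImplicit false
set_option maxRecDepth 100000
set_option linter.unusedSectionVars false

namespace H42.SubfTF4

open H22.RCPack H42.Subf H42.Inv2C H42.Inv2F H42.Inv2E H42.Inv2D H42.Inv2M H47.ChevSub H22.ChevRel H42.InvCK
open H22.ChevMain H22.ChevStd H22.ChevUni H22.RCCheck
open H47.SemiTor (sg)
open scoped MatrixGroups Matrix

/-- words for the simple roots -/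
def ls : List (List (Fin 4)) := [[3, 2, 1], [3, 2], [3], []]

theorem ckls : allN (fun i => ls.any fun l => prT Cfsg.Lie.chevF4 (wr Cfsg.Lie.chevF4 (l.map Fin.val)
    (Cfsg.Lie.chevF4.simple i)) == 1 ||
      Nat.beq (wr Cfsg.Lie.chevF4 (l.map Fin.val) (Cfsg.Lie.chevF4.simple i)) (Cfsg.Lie.chevF4.nroots - 1))
      Cfsg.Lie.chevF4.rank = true := by decide +kernel

theorem ct : Cfsg.Lie.chevF4.commTerms 24 46 = [(47, 1, 1, 1)] := by decide +kernel
theorem ct2 : Cfsg.Lie.chevF4.commTerms 25 27 = [(28, 1, 1, 1), (30, -1, 1, 2)] := by decide +kernel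

section
variable {k : Type*} [Field k] (R : Rel Cfsg.Lie.chevF4 k)

/-- squares of short parameters -/
theorem star {H : Subgroup (GL Cfsg.Lie.chevF4.Idx k)} (P : Pre R H) {u : k} (hu : xg R 44 u ∈ H) :
    xg R 47 (u ^ 2) ∈ H := by
  have h27 : xg R 27 u ∈ H := P.move H22.PoinF4.rcxF4 (([0, 2, 1, 3, 2, 1, 0] : List (Fin 4)))
    ⟨44, by decide⟩ ⟨27, by decide⟩ (by decide +kernel) hu
  have h28 : xg R 28 u ∈ H := P.move H22.PoinF4.rcxF4 (([3, 0, 1, 2, 1, 0] : List (Fin 4)))
    ⟨44, by decide⟩ ⟨28, by decide⟩ (by decide +kernel) hu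
  have e : xg R 25 1 * xg R 27 u * (xg R 25 1)⁻¹ = xg R 27 u * (xg R 28 u * xg R 30 (-u ^ 2)) := by
    rw [conj_eq R (by decide) (by decide) (by decide) (by decide +kernel)]
    congr 1
    unfold Cfsg.Lie.ChevalleyDatum.commWord
    rw [ct2]
    simp [wg]
  have h1 := P.h1 25
  have h2 := H.mul_mem (H.mul_mem h1 h27) (H.inv_mem h1)
  rw [e] at h2
  have h3 : xg R 30 (-u ^ 2) ∈ H := by
    have := H.mul_mem (H.inv_mem h28) (H.mul_mem (H.inv_mem h27) h2)
    simpa using this
  have h4 : xg R 30 (u ^ 2) ∈ H := by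
    have := H.inv_mem h3
    rwa [xg_inv, neg_neg] at this
  exact (SS_long P (lh R) H22.ChevLex.lexF4 (r := ⟨30, by decide⟩) (by decide) _).1 h4

/-- the conclusion -/
theorem out {p : ℕ} [Fact p.Prime] [CharP k p] {H : Subgroup (GL Cfsg.Lie.chevF4.Idx k)} [Finite H]
    (P : Pre R H) : ∃ (A : Subfield k) (n : ℕ), Out R H p A n := by
  have hM := mul_SS P (lh R) H22.ChevLex.lexF4 (r := ⟨24, by decide⟩) (s := ⟨46, by decide⟩) (by decide) (by decide)
      (by decide) (by decide +kernel) (Or.inl rfl) ct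
  by_cases hp : p = 2
  · subst hp
    have B : BH R H22.PoinF4.rcxF4 [44, 47] := BH_of R H22.ChevLex.lexF4 (e := 1) (e0 := 2) (by simp)
      (by exact_mod_cast CharTwo.two_eq_zero (R := k)) bh1
    refine out_sp P (lh R) H22.ChevLex.lexF4 (H23.ChevAll.core Cfsg.Lie.chevF4 (by simp)) (by decide +kernel)
      (hl_of ls ckls) hM (θs := ⟨44, by decide⟩) (by decide) B ?_ (l := (([3] : List (Fin 4))))
      (by decide +kernel) (r := 24) (by decide) (by decide) (N := 1) (by simp) (by decide +kernel)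
      (by decide +kernel) (by decide +kernel) (by decide +kernel) ?_
    · intro A hA _ _ u hu
      exact (hA _).2 (star R P hu)
    · intro A _ n hn hq C x hx
      exact rat R (F := A) (H22.ChevAll.rel _ (by simp) A) hn hq C hx
  · have B : BH R H22.PoinF4.rcxF4 [47] := by
      refine BH_of R H22.ChevLex.lexF4 (e := 2) (e0 := 0) ?_ (by simp) bh0
      intro h
      have h1 : ((2 : ℕ) : k) = 0 := by exact_mod_cast h
      rw [CharP.cast_eq_zero_iff k p] at h1
      exact hp ((Nat.prime_dvd_prime_iff_eq Fact.out Nat.prime_two).1 h1)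
    refine out_ns P (lh R) H22.ChevLex.lexF4 (H23.ChevAll.core Cfsg.Lie.chevF4 (by simp)) (by decide +kernel)
      (hl_of ls ckls) hM B ?_
    intro A _ n hn hq C x hx
    exact rat R (F := A) (H22.ChevAll.rel _ (by simp) A) hn hq C hx

end

end H42.SubfTF4
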