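import Mathlib.GroupTheory.Sylow
import Mathlib.GroupTheory.Perm.Cycle.Type
import Mathlib.Tactic

set_option autoImplicit false

/-! Automizers of abelian Sylow subgroups have even order when some element is inverted. -/

namespace H42.SylAb

open Subgroup

theorem two_dvd_index {G : Type*} [Group G] [Finite G] {p : ℕ} [Fact p.Prime] (P : Sylow p G)
    (hP : IsMulCommutative (P : Subgroup G)) (x : G) (hx : x ∈ (P : Subgroup G)) (hne : x⁻¹ ≠ x)
    (hc : IsConj x x⁻¹) :
    2 ∣ ((centralizer ((P : Subgroup G) : Set G)).subgroupOf (normalizer ((P : Subgroup G) : Set G))).index := by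
  obtain ⟨c, hc⟩ := isConj_iff.1 hc
  have hx' : (c⁻¹)⁻¹ * x * c⁻¹ ∈ (P : Subgroup G) := by
    rw [inv_inv, hc]; exact inv_mem hx
  obtain ⟨n, hn, hnx⟩ := P.conj_eq_normalizer_conj_of_mem x c⁻¹ hx hx'
  rw [inv_inv, hc] at hnx
  by_contra h2
  have hodd : Odd ((centralizer ((P : Subgroup G) : Set G)).subgroupOf (normalizer ((P : Subgroup G) : Set G))).index := by
    rwa [← Nat.not_even_iff_odd, even_iff_two_dvd]
  have hnorm : ((centralizer ((P : Subgroup G) : Set G)).subgroupOf (normalizer ((P : Subgroup G) : Set G))).Normal := by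
    refine ⟨fun a ha g => ?_⟩
    rw [mem_subgroupOf, mem_centralizer_iff] at ha ⊢
    intro y hy
    have h1 : (g : G)⁻¹ * y * g ∈ (P : Subgroup G) := by
      have := (mem_normalizer_iff.1 (inv_mem g.2) y).1 hy
      simpa using this
    have h2 := ha _ h1
    have h3 : (g : G) * ((g : G)⁻¹ * y * g * a) * (g : G)⁻¹ = g * (a * ((g : G)⁻¹ * y * g)) * (g : G)⁻¹ := by rw [h2]
    simp only [mul_assoc, mul_inv_cancel_left, mul_inv_cancel, mul_one, coe_mul, coe_inv] at h3 ⊢
    exact h3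
  have hmem := pow_index_mem (H := (centralizer ((P : Subgroup G) : Set G)).subgroupOf (normalizer ((P : Subgroup G) : Set G))) ⟨n, hn⟩
  rw [mem_subgroupOf, mem_centralizer_iff] at hmem
  have h1 := hmem x hx
  have key : ∀ m : ℕ, Odd m → n ^ m * x⁻¹ = x * n ^ m := by
    rintro m ⟨k, rfl⟩
    have e1 : n * x⁻¹ = x * n := by rw [hnx]; group
    have e2 : n * x = x⁻¹ * n := by
      have : n * x⁻¹ * n⁻¹ = x := by rw [hnx]; group
      have h3 : (n * x⁻¹ * n⁻¹)⁻¹ = x⁻¹ := by rw [this]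
      rw [mul_inv_rev, mul_inv_rev, inv_inv, inv_inv] at h3
      rw [← h3]; group
    have e3 : n ^ 2 * x⁻¹ = x⁻¹ * n ^ 2 := by
      rw [pow_two, mul_assoc, e1, ← mul_assoc, e2, mul_assoc]
    have e4 : n ^ (2 * k) * x⁻¹ = x⁻¹ * n ^ (2 * k) := by
      rw [pow_mul]
      exact ((show Commute (n ^ 2) x⁻¹ from e3).pow_left k)
    rw [pow_succ, mul_assoc, e1, ← mul_assoc]
    have e5 : n ^ (2 * k) * x = x * n ^ (2 * k) := by
      have := (show Commute (n ^ (2 * k)) x⁻¹ from e4).inv_right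
      rwa [inv_inv] at this
    rw [e5, mul_assoc]
  have h2' := key _ hodd
  apply hne
  simp only [coe_pow] at h1
  rw [h1] at h2'
  exact mul_left_cancel h2'

end H42.SylAb
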