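import Cfsg.Agent.Lib.H42.WkSep

/-!
Subgroups of the unipotent group `U` of a Chevalley group which are weakly closed in `U`.
-/

set_option autoImplicit false

namespace H42.WkClosed

open H22.RGD H22.Coord H22.RCCheck H22.RCComb H22.ChevTri H22.ChevRel H22.ChevSys H22.ChevMain
open H22.ChevStd H22.ChevUni H42.WkSep
open Cfsg.Lie (ChevalleyDatum)
open scoped MatrixGroups Matrix

variable {D : ChevalleyDatum} {F : Type*} [Field F] (R : Rel D F)

theorem neg_lt_half {Q : RC D} {r : ℕ} (hr : Q.half ≤ r) (hrn : r < D.nroots) : D.neg r < Q.half := by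
  rw [Q.neg_eq r hrn]; have := Q.nroots_eq; omega

theorem fr_add {Q : RC D} (c : ℕ → ℤ) {l r s : ℕ} {a b : ℕ}
    (hco : ∀ j < D.rank, Q.co l j = a * Q.co r j + b * Q.co s j) :
    fr Q c l = a * fr Q c r + b * fr Q c s := by
  unfold fr
  rw [Finset.mul_sum, Finset.mul_sum, ← Finset.sum_add_distrib]
  refine Finset.sum_congr rfl fun j hj => ?_
  rw [hco j (Finset.mem_range.1 hj)]; ring

theorem gt_of_co {Q : RC D} (Z : Lex Q) {l r s : ℕ} (hl : l < D.nroots) (hr : Q.half ≤ r)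
    (hrn : r < D.nroots) (hs : Q.half ≤ s) (hsn : s < D.nroots) {a b : ℕ} (ha : 1 ≤ a) (hb : 1 ≤ b)
    (hco : ∀ j < D.rank, Q.co l j = a * Q.co r j + b * Q.co s j) : s < l := by
  have h1 := fr_add Z.c hco
  have h2 := Z.pos hrn hr
  have h3 := Z.pos hsn hs
  rw [← Z.lt_iff hsn hl, h1]
  have h4 : fr Q Z.c s ≤ b * fr Q Z.c s := by
    have : (1 : ℤ) * fr Q Z.c s ≤ b * fr Q Z.c s :=
      mul_le_mul_of_nonneg_right (by exact_mod_cast hb) h3.le
    omega
  have h5 : 0 < a * fr Q Z.c r := mul_pos (by exact_mod_cast ha) h2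
  omega

/-- `U` normalises `Vk`. -/
theorem X_le_stab {Q : RC D} (Z : Lex Q) {r : ℕ} (hr : Q.half ≤ r) (hrn : r < D.nroots) {k : ℕ}
    (hk : Q.half ≤ k) : D.rootSubgroup F r ≤ stabSub (Vk R k) := by
  apply le_stabSub_of_conj
  intro a ha x hx
  rw [mem_rootSubgroup R] at ha
  obtain ⟨t, rfl⟩ := ha
  have key : cj (xg R r t) (Vk R k) ≤ Vk R k := by
    rw [cj]
    conv_lhs => unfold Vk
    rw [MonoidHom.map_closure, Subgroup.closure_le]
    rintro _ ⟨_, ⟨s, u, h1, h2, rfl⟩, rfl⟩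
    show xg R r t * xg R s u * (xg R r t)⁻¹ ∈ Vk R k
    by_cases hsr : s = r
    · subst hsr
      rw [xg_inv, xg_mul, xg_mul, show t + u + -t = u by ring]
      exact xg_mem_Vk R h1 h2 u
    · have hsn : s ≠ D.neg r := by
        have := neg_lt_half (Q := Q) hr hrn
        omega
      refine conj_mem_of_closed R Q hrn h2 hsr hsn (fun u => xg_mem_Vk R h1 h2 u) ?_ t u
      intro l hl a b ha hb hco v
      exact xg_mem_Vk R (h1.trans (gt_of_co Z hl hr hrn (hk.trans h1) h2 ha hb hco).le) hl v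
  exact key (conj_mem_cj hx)

theorem Hs_le_stab_Vk (Q : RC D) (k : ℕ) : Hs R ≤ stabSub (Vk R k) := by
  apply le_stabSub_of_conj
  intro a ha x hx
  have key : cj a (Vk R k) ≤ Vk R k := by
    rw [cj]
    conv_lhs => unfold Vk
    rw [MonoidHom.map_closure, Subgroup.closure_le]
    rintro _ ⟨_, ⟨s, u, h1, h2, rfl⟩, rfl⟩
    show a * xg R s u * a⁻¹ ∈ Vk R k
    obtain ⟨χ, _, _, h3⟩ := Hs_char R Q ha
    rw [h3 s h2]
    exact xg_mem_Vk R h1 h2 _
  exact key (conj_mem_cj hx)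

theorem Vk_anti {k m : ℕ} (h : k ≤ m) : Vk R m ≤ Vk R k := by
  unfold Vk
  apply Subgroup.closure_mono
  rintro g ⟨r, t, h1, h2, h3⟩
  exact ⟨r, t, h.trans h1, h2, h3⟩

variable {P : Subgroup (GL D.Idx F)}

/-- one elimination step -/
theorem elim_step {Q : RC D} (Z : Lex Q) (hP : Hs R ≤ stabSub P) {r m : ℕ} (hr : Q.half ≤ r)
    (hrm : r < m) (hm : m < D.nroots) {h : GL D.Idx F} (hh : h ∈ Hs R) {χ : F} (hχ : χ ≠ 1)
    (h1 : ∀ t, h * xg R r t * h⁻¹ = xg R r (χ * t)) (h2 : ∀ u, h * xg R m u * h⁻¹ = xg R m u)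
    {t : F} (ht : t ≠ 0) {v : GL D.Idx F} (hv : v ∈ Vk R m) (hx : xg R r t * v ∈ P) :
    ∃ t' ≠ 0, ∃ v' ∈ Vk R (m + 1), xg R r t' * v' ∈ P := by
  have hrn : r < D.nroots := hrm.trans hm
  have hmh : Q.half ≤ m := hr.trans hrm.le
  obtain ⟨u, v1, hv1, rfl⟩ := (Vk_step R Z hmh hm).1 hv
  have hneg := neg_lt_half (Q := Q) hr hrn
  have e1 := comm_g R hrn hm (by omega) (by omega) ((χ - 1) * t) (-u)
  set w := wg R (D.commWord F r m ((χ - 1) * t) (-u)) with hw
  have hwV : w ∈ Vk R (m + 1) := by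
    rw [hw]
    refine wg_mem R _ ?_
    intro p hp
    unfold ChevalleyDatum.commWord at hp
    simp only [List.mem_map] at hp
    obtain ⟨c, hc, rfl⟩ := hp
    obtain ⟨g1, g2, g3, g4⟩ := commTerms_co Q hrn hm hc
    exact xg_mem_Vk R (gt_of_co Z g1 hr hrn hmh hm g2 g3 g4) g1 _
  have hc : xg R m (-u) * w * (xg R m (-u))⁻¹ ∈ Vk R (m + 1) :=
    conj_mem_of_stabSub (X_le_stab R Z hmh hm (by omega) (xg_mem R _ _)) hwV
  have hv2 : h * v1 * h⁻¹ ∈ Vk R (m + 1) := conj_mem_of_stabSub (Hs_le_stab_Vk R Q _ hh) hv1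
  have hv3 : (xg R r ((χ - 1) * t))⁻¹ * v1⁻¹ * xg R r ((χ - 1) * t) ∈ Vk R (m + 1) :=
    inv_conj_mem_of_stabSub (X_le_stab R Z hr hrn (by omega) (xg_mem R _ _)) ((Vk R _).inv_mem hv1)
  refine ⟨(χ - 1) * t, mul_ne_zero (sub_ne_zero.2 hχ) ht, _,
    (Vk R _).mul_mem ((Vk R _).mul_mem hv3 hc) hv2, ?_⟩
  have hy : (xg R r t * (xg R m u * v1))⁻¹ * (h * (xg R r t * (xg R m u * v1)) * h⁻¹) ∈ P :=
    P.mul_mem (P.inv_mem hx) (conj_mem_of_stabSub (hP hh) hx)
  convert hy using 1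
  have e2 : h * (xg R r t * (xg R m u * v1)) * h⁻¹ =
      xg R r (χ * t) * (xg R m u * (h * v1 * h⁻¹)) := by
    calc h * (xg R r t * (xg R m u * v1)) * h⁻¹ =
        (h * xg R r t * h⁻¹) * ((h * xg R m u * h⁻¹) * (h * v1 * h⁻¹)) := by simp [mul_assoc]
      _ = _ := by rw [h1, h2]
  have e3 : xg R r (χ * t) = xg R r t * xg R r ((χ - 1) * t) := by
    rw [xg_mul]; congr 1; ring
  rw [e2, e3]
  have e4 : (xg R m (-u))⁻¹ = xg R m u := by rw [xg_inv, _root_.neg_neg]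
  have e5 : (xg R m u)⁻¹ = xg R m (-u) := xg_inv R _ _
  rw [e4, mul_inv_rev, mul_inv_rev, e5]
  calc xg R r ((χ - 1) * t) * ((xg R r ((χ - 1) * t))⁻¹ * v1⁻¹ * xg R r ((χ - 1) * t) *
        (xg R m (-u) * w * xg R m u) * (h * v1 * h⁻¹))
      = v1⁻¹ * (xg R r ((χ - 1) * t) * xg R m (-u) * w) * xg R m u * (h * v1 * h⁻¹) := by
        simp [mul_assoc]
    _ = v1⁻¹ * (xg R m (-u) * xg R r ((χ - 1) * t)) * xg R m u * (h * v1 * h⁻¹) := by rw [e1]
    _ = _ := by simp [mul_assoc]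

/-- the separating elements of the torus -/
theorem exists_sep [Fintype F] {Q : RC D} {M r s : ℕ} (hr : r < D.nroots) (hs' : s < D.nroots)
    (hM : M + 1 < Fintype.card F) (h : Sep D M r s) : ∃ h ∈ Hs R, ∃ χ : F, χ ≠ 1 ∧
      (∀ t, h * xg R r t * h⁻¹ = xg R r (χ * t)) ∧ ∀ u, h * xg R s u * h⁻¹ = xg R s u := by
  classical
  obtain ⟨j, hj, k, hk, e, f, h1, h2, h3⟩ := h
  obtain ⟨c, hc⟩ := IsCyclic.exists_generator (α := Fˣ)
  have hord : orderOf c = Fintype.card F - 1 := by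
    rw [orderOf_eq_card_of_forall_mem_zpowers hc, Nat.card_eq_fintype_card, Fintype.card_units]
  have hc0 : (c : F) ≠ 0 := c.ne_zero
  refine ⟨hs R j ((c : F) ^ e) * hs R k ((c : F) ^ f), (Hs R).mul_mem (hs_mem R hj (zpow_ne_zero _ hc0))
    (hs_mem R hk (zpow_ne_zero _ hc0)), (c : F) ^ (e * D.cartan j r + f * D.cartan k r), ?_, ?_, ?_⟩
  · intro h4
    have h5 : c ^ (e * D.cartan j r + f * D.cartan k r) = 1 := by
      apply Units.ext
      rw [Units.val_zpow_eq_zpow_val, h4, Units.val_one]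
    have h6 := orderOf_dvd_iff_zpow_eq_one.2 h5
    rw [hord] at h6
    have h7 := Int.natAbs_dvd_natAbs.2 h6
    rw [Int.natAbs_natCast] at h7
    have h8 := Nat.le_of_dvd (Int.natAbs_pos.2 h2) h7
    omega
  · intro t
    have e1 : hs R j ((c : F) ^ e) * hs R k ((c : F) ^ f) * xg R r t *
        (hs R j ((c : F) ^ e) * hs R k ((c : F) ^ f))⁻¹ = hs R j ((c : F) ^ e) *
          (hs R k ((c : F) ^ f) * xg R r t * (hs R k ((c : F) ^ f))⁻¹) * (hs R j ((c : F) ^ e))⁻¹ := by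
      simp [mul_assoc]
    rw [e1, hs_conj R hk (zpow_ne_zero _ hc0) hr Q, hs_conj R hj (zpow_ne_zero _ hc0) hr Q]
    congr 1
    rw [zpow_add₀ hc0, _root_.zpow_mul, _root_.zpow_mul, mul_assoc]
  · intro t
    have e1 : hs R j ((c : F) ^ e) * hs R k ((c : F) ^ f) * xg R s t *
        (hs R j ((c : F) ^ e) * hs R k ((c : F) ^ f))⁻¹ = hs R j ((c : F) ^ e) *
          (hs R k ((c : F) ^ f) * xg R s t * (hs R k ((c : F) ^ f))⁻¹) * (hs R j ((c : F) ^ e))⁻¹ := by
      simp [mul_assoc]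
    rw [e1, hs_conj R hk (zpow_ne_zero _ hc0) hs' Q, hs_conj R hj (zpow_ne_zero _ hc0) hs' Q]
    congr 1
    rw [← _root_.zpow_mul, ← _root_.zpow_mul, ← mul_assoc, ← zpow_add₀ hc0, h1, zpow_zero, one_mul]

/-- elimination up to `m` -/
theorem elim [Fintype F] {Q : RC D} (Z : Lex Q) (hP : Hs R ≤ stabSub P) {M r : ℕ}
    (hM : M + 1 < Fintype.card F) (hr : Q.half ≤ r) : ∀ n, r + 1 + n ≤ D.nroots →
    (∀ s, r < s → s < r + 1 + n → Sep D M r s) →
    ∀ {t : F}, t ≠ 0 → ∀ {v : GL D.Idx F}, v ∈ Vk R (r + 1) → xg R r t * v ∈ P →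
    ∃ t' ≠ 0, ∃ v' ∈ Vk R (r + 1 + n), xg R r t' * v' ∈ P := by
  intro n
  induction n with
  | zero => intro _ _ t ht v hv hx; exact ⟨t, ht, v, hv, hx⟩
  | succ n ih =>
    intro hn hsep t ht v hv hx
    obtain ⟨t', ht', v', hv', hx'⟩ := ih (by omega) (fun s h1 h2 => hsep s h1 (by omega)) ht hv hx
    obtain ⟨h, hh, χ, hχ, h1, h2⟩ := exists_sep R (Q := Q) (r := r) (s := r + 1 + n) (by omega) (by omega)
      hM (hsep _ (by omega) (by omega))
    exact elim_step R Z hP (m := r + 1 + n) hr (by omega) (by omega) hh hχ h1 h2 ht' hv' hx'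

theorem field_sq [Fintype F] (z : F) : ∃ x y : F, z = x ^ 2 - y ^ 2 := by
  by_cases h2 : (2 : F) = 0
  · have hch : ringChar F = 2 := by
      have h3 : ringChar F ∣ 2 := (ringChar.spec F 2).1 (by exact_mod_cast h2)
      rcases (Nat.dvd_prime Nat.prime_two).1 h3 with h | h
      · exfalso
        have : ((1 : ℕ) : F) = 0 := (ringChar.spec F 1).2 (by rw [h])
        simp at this
      · exact h
    obtain ⟨x, hx⟩ := FiniteField.isSquare_of_char_two hch z
    exact ⟨x, 0, by rw [hx]; ring⟩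
  · refine ⟨(z + 1) / 2, (z - 1) / 2, ?_⟩
    field_simp
    ring

theorem root_le [Fintype F] {Q : RC D} (hP : Hs R ≤ stabSub P) {r : ℕ} (hrn : r < D.nroots)
    (hsq : ∃ j < D.rank, (D.cartan j r).natAbs = 1 ∨ (D.cartan j r).natAbs = 2) {t : F} (ht : t ≠ 0)
    (hx : xg R r t ∈ P) : D.rootSubgroup F r ≤ P := by
  obtain ⟨j, hj, hA⟩ := hsq
  have key : ∀ c : F, c ≠ 0 → ∀ t, xg R r t ∈ P → xg R r (c ^ 2 * t) ∈ P := by
    intro c hc t ht
    obtain ⟨d, hd, e⟩ : ∃ d : F, d ≠ 0 ∧ d ^ D.cartan j r = c ^ 2 := by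
      have h4 : D.cartan j r = 1 ∨ D.cartan j r = -1 ∨ D.cartan j r = 2 ∨ D.cartan j r = -2 := by
        omega
      rcases h4 with h4 | h4 | h4 | h4
      · exact ⟨c ^ 2, pow_ne_zero _ hc, by rw [h4]; simp⟩
      · exact ⟨(c ^ 2)⁻¹, inv_ne_zero (pow_ne_zero _ hc), by rw [h4]; simp⟩
      · exact ⟨c, hc, by rw [h4]; norm_cast⟩
      · exact ⟨c⁻¹, inv_ne_zero hc, by rw [h4, inv_zpow, zpow_neg, inv_inv]; norm_cast⟩
    have h5 := conj_mem_of_stabSub (hP (hs_mem R hj hd)) ht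
    rwa [hs_conj R hj hd hrn Q, e] at h5
  have key2 : ∀ c : F, xg R r (c ^ 2 * t) ∈ P := by
    intro c
    by_cases hc : c = 0
    · rw [hc]
      have : ((0 : F) ^ 2 * t) = 0 := by ring
      rw [this, xg_zero]; exact P.one_mem
    · exact key c hc t hx
  intro x hx
  rw [mem_rootSubgroup R] at hx
  obtain ⟨u, rfl⟩ := hx
  obtain ⟨a, b, hab⟩ := field_sq (u / t)
  have h1 : u = a ^ 2 * t + -(b ^ 2 * t) := by
    have : u = (u / t) * t := by field_simp
    rw [this, hab]; ring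
  rw [h1, ← xg_mul, ← xg_inv]
  exact P.mul_mem (key2 a) (P.inv_mem (key2 b))

/-- extraction property at `r` -/
def Ext (P : Subgroup (GL D.Idx F)) (r : ℕ) : Prop :=
  ∀ t : F, t ≠ 0 → ∀ v ∈ Vk R (r + 1), xg R r t * v ∈ P → D.rootSubgroup F r ≤ P

theorem ext_of_sep [Fintype F] {Q : RC D} (Z : Lex Q) (hP : Hs R ≤ stabSub P) {M r : ℕ}
    (hM : M + 1 < Fintype.card F) (hr : Q.half ≤ r) (hrn : r < D.nroots)
    (hsep : ∀ s, r < s → s < D.nroots → Sep D M r s)
    (hsq : ∃ j < D.rank, (D.cartan j r).natAbs = 1 ∨ (D.cartan j r).natAbs = 2) : Ext R P r := by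
  intro t ht v hv hx
  obtain ⟨t', ht', v', hv', hx'⟩ := elim R Z hP hM hr (D.nroots - (r + 1)) (by omega)
    (fun s h1 h2 => hsep s h1 (by omega)) ht hv hx
  rw [show r + 1 + (D.nroots - (r + 1)) = D.nroots by omega, Vk_nroots, Subgroup.mem_bot] at hv'
  rw [hv', mul_one] at hx'
  exact root_le R (Q := Q) hP hrn hsq ht' hx'

/-- the subgroup generated by the root subgroups in `P` -/
def gen (Q : RC D) (P : Subgroup (GL D.Idx F)) : Subgroup (GL D.Idx F) :=
  Subgroup.closure {g | ∃ (r : ℕ) (t : F), Q.half ≤ r ∧ r < D.nroots ∧ D.rootSubgroup F r ≤ P ∧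
    g = xg R r t}

theorem mem_gen {Q : RC D} (Z : Lex Q) (hE : ∀ r, Q.half ≤ r → r < D.nroots → Ext R P r) :
    ∀ n k, k + n = D.nroots → Q.half ≤ k → ∀ x ∈ P, x ∈ Vk R k → x ∈ gen R Q P := by
  intro n
  induction n with
  | zero =>
    intro k hk _ x _ hx
    rw [show k = D.nroots by omega, Vk_nroots, Subgroup.mem_bot] at hx
    rw [hx]; exact Subgroup.one_mem _
  | succ n ih =>
    intro k hk hh x hxP hx
    obtain ⟨t, v, hv, rfl⟩ := (Vk_step R Z hh (by omega)).1 hx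
    by_cases ht : t = 0
    · subst ht
      rw [xg_zero, one_mul] at hxP ⊢
      exact ih (k + 1) (by omega) (by omega) _ hxP hv
    · have h1 := hE k hh (by omega) t ht v hv hxP
      have h2 : v ∈ P := by
        have := P.mul_mem (P.inv_mem (h1 (xg_mem R k t))) hxP
        simpa using this
      exact Subgroup.mul_mem _ (Subgroup.subset_closure ⟨k, t, hh, by omega, h1, rfl⟩)
        (ih (k + 1) (by omega) (by omega) _ h2 hv)

theorem word_mem (val : ℕ × ℤ × ℕ × ℕ → F) : ∀ (L : List (ℕ × ℤ × ℕ × ℕ)) (k : ℕ),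
    srt k L = true → (∀ c ∈ L, c.1 < D.nroots) → wg R (L.map fun c => (c.1, val c)) ∈ Vk R k := by
  intro L
  induction L with
  | nil => intro k _ _; simp [wg, (Vk R k).one_mem]
  | cons a L ih =>
    intro k hk hL
    simp only [srt, Bool.and_eq_true] at hk
    have hk1 := Nat.le_of_ble_eq_true hk.1
    have e : wg R ((a :: L).map fun c => (c.1, val c)) =
        xg R a.1 (val a) * wg R (L.map fun c => (c.1, val c)) := by simp [wg]
    rw [e]
    exact (Vk R k).mul_mem (xg_mem_Vk R hk1 (hL a (by simp)) _)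
      (Vk_anti R (by omega) (ih (a.1 + 1) hk.2 (fun c hc => hL c (by simp [hc]))))

theorem word_ext {k0 : ℕ} (hE : ∀ r, k0 ≤ r → r < D.nroots → Ext R P r)
    (val : ℕ × ℤ × ℕ × ℕ → F) : ∀ (L : List (ℕ × ℤ × ℕ × ℕ)) (k : ℕ), k0 ≤ k →
    srt k L = true → (∀ c ∈ L, c.1 < D.nroots) → wg R (L.map fun c => (c.1, val c)) ∈ P →
    ∀ c ∈ L, val c ≠ 0 → D.rootSubgroup F c.1 ≤ P := by
  intro L
  induction L with
  | nil => intro k _ _ _ _ c hc; simp at hc
  | cons a L ih =>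
    intro k hh hk hL hw c hc hc0
    simp only [srt, Bool.and_eq_true] at hk
    have hk1 := Nat.le_of_ble_eq_true hk.1
    have e : wg R ((a :: L).map fun c => (c.1, val c)) =
        xg R a.1 (val a) * wg R (L.map fun c => (c.1, val c)) := by simp [wg]
    rw [e] at hw
    have hV := word_mem R val L (a.1 + 1) hk.2 (fun c hc => hL c (by simp [hc]))
    have hxa : xg R a.1 (val a) ∈ P := by
      by_cases h0 : val a = 0
      · rw [h0, xg_zero]; exact P.one_mem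
      · exact hE a.1 (hh.trans hk1) (hL a (by simp)) _ h0 _ hV hw (xg_mem R _ _)
    have hwL : wg R (L.map fun c => (c.1, val c)) ∈ P := by
      have := P.mul_mem (P.inv_mem hxa) hw
      simpa using this
    rcases List.mem_cons.1 hc with rfl | hc
    · exact hE c.1 (hh.trans hk1) (hL c (by simp)) _ hc0 _ hV hw
    · exact ih (a.1 + 1) (by omega) hk.2 (fun c hc => hL c (by simp [hc])) hwL c hc hc0

theorem refl_lt_self {Q : RC D} (Z : Lex Q) {i r : ℕ} (hi : i < D.rank) (hr : r < D.nroots)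
    (h : 0 < D.cartan i r) : D.reflectRoot i r < r := by
  rw [← Z.lt_iff (Q.refl_lt i hi r hr) hr]
  have h1 : fr Q Z.c (D.simple i) = Z.c i := by
    unfold fr
    rw [Finset.sum_eq_single i]
    · rw [Q.co_simple i hi i hi, if_pos rfl, mul_one]
    · intro b hb hbi
      rw [Q.co_simple i hi b (Finset.mem_range.1 hb), if_neg hbi, mul_zero]
    · intro h; exact absurd (Finset.mem_range.2 hi) h
  have h2 : 0 < Z.c i := by
    rw [← h1]
    refine Z.pos (Q.simple_lt i hi) (half_le_of_pos Q (Q.simple_lt i hi) hi ?_)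
    rw [Q.co_simple i hi i hi, if_pos rfl]; norm_num
  have h3 : fr Q Z.c (D.reflectRoot i r) = fr Q Z.c r - Z.c i * D.cartan i r := by
    unfold fr
    have : ∑ j ∈ Finset.range D.rank, Z.c j * Q.co (D.reflectRoot i r) j =
        ∑ j ∈ Finset.range D.rank, (Z.c j * Q.co r j - if j = i then Z.c i * D.cartan i r else 0) := by
      refine Finset.sum_congr rfl fun j hj => ?_
      rw [Q.co_refl i hi r hr j (Finset.mem_range.1 hj)]
      split_ifs with h
      · subst h; ring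
      · ring
    rw [this, Finset.sum_sub_distrib, Finset.sum_ite_eq' (Finset.range D.rank) i,
      if_pos (Finset.mem_range.2 hi)]
  rw [h3]
  have := mul_pos h2 h
  omega

theorem coroot_zero (Q : RC D) {r j : ℕ} (hr : r < D.nroots) (hj : j < D.rank) :
    (D.coroot.getD r #[]).getD j 0 = 0 ↔ Q.co r j = 0 := by
  have h1 := Q.coroot_pos r hr j hj
  have h2 := Q.coroot_neg r hr j hj
  constructor <;> intro h <;> omega

theorem comm_nil {Q : RC D} {r s : ℕ} (hr : Q.half ≤ r) (hrn : r < D.nroots) (hs : Q.half ≤ s)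
    (hsn : s < D.nroots) (hne : s ≠ r) (h : D.commTerms r s = []) (t u : F) :
    xg R s u * xg R r t = xg R r t * xg R s u := by
  have hneg := neg_lt_half (Q := Q) hr hrn
  have e := comm_g R hrn hsn hne (by omega) t u
  unfold ChevalleyDatum.commWord at e
  rw [h] at e
  simpa [wg] using e

end H42.WkClosed
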