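import Cfsg.Agent.Lib.H42.WkClosed

/-!
Subgroups of `U` weakly closed in `U` are the unipotent radicals of the standard parabolic subgroups.
-/

set_option autoImplicit false

namespace H42.WkMain

open H22.RGD H22.Coord H22.RCCheck H22.RCComb H22.ChevTri H22.ChevRel H22.ChevSys H22.ChevMain
open H22.ChevStd H22.ChevUni H42.WkSep H42.WkClosed
open Cfsg.Lie (ChevalleyDatum)
open scoped MatrixGroups Matrix

variable {D : ChevalleyDatum} {F : Type*} [Field F] (R : Rel D F)

theorem B_stab (Y : RCX D) {P : Subgroup (GL D.Idx F)} (hPU : P ≤ D.posUnipotent F)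
    (hwc : ∀ g ∈ D.group F, cj g P ≤ D.posUnipotent F → cj g P = P) :
    D.posUnipotent F ≤ stabSub P ∧ Hs R ≤ stabSub P := by
  have hΓ := chevSys_Γ R Y
  constructor
  · intro u hu
    refine hwc u ?_ ?_
    · rw [← hΓ]
      apply (chevSys R Y).B_le_Γ
      apply (chevSys R Y).U_le_B
      rw [chevSys_U]; exact hu
    · calc cj u P ≤ cj u (D.posUnipotent F) := cj_mono hPU
        _ = _ := cj_eq_self_of_mem hu
  · intro h hh
    refine hwc h ?_ ?_
    · rw [← hΓ]
      apply (chevSys R Y).B_le_Γ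
      apply (chevSys R Y).H_le_B
      rw [chevSys_H, diagonalSubgroup_eq R Y]; exact hh
    · calc cj h P ≤ cj h (D.posUnipotent F) := cj_mono hPU
        _ = _ := by
          have h1 := (chevSys R Y).H_le_stab_U
          rw [chevSys_U, chevSys_H, diagonalSubgroup_eq R Y] at h1
          exact h1 hh

theorem main (Y : RCX D) (Z : Lex Y.rc) {M : ℕ} (W : Wk D Y.rc.half M)
    {P : Subgroup (GL D.Idx F)} (hPU : P ≤ D.posUnipotent F)
    (hwc : ∀ g ∈ D.group F, cj g P ≤ D.posUnipotent F → cj g P = P)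
    (hE : ∀ r, Y.rc.half ≤ r → r < D.nroots → Ext R P r) :
    ∃ J : Set ℕ, (∀ j ∈ J, j < D.rank) ∧ P = D.unipotentRadical F J := by
  obtain ⟨hU, hH⟩ := B_stab R Y hPU hwc
  have hn2 : D.nroots = 2 * Y.rc.half := Y.rc.nroots_eq
  have hXU : ∀ r, Y.rc.half ≤ r → r < D.nroots → D.rootSubgroup F r ≤ D.posUnipotent F := by
    intro r h1 h2
    rw [posUnipotent_eq_Vk R Y.rc]
    intro x hx
    rw [mem_rootSubgroup R] at hx
    obtain ⟨t, rfl⟩ := hx
    exact xg_mem_Vk R h1 h2 t
  have hPg : P ≤ gen R Y.rc P := by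
    intro x hx
    refine mem_gen R Z hE Y.rc.half Y.rc.half (by omega) le_rfl x hx ?_
    rw [← posUnipotent_eq_Vk R Y.rc]; exact hPU hx
  have hsp : ∀ i < D.rank, Y.rc.half ≤ D.simple i := by
    intro i hi
    refine half_le_of_pos Y.rc (Y.rc.simple_lt i hi) hi ?_
    rw [Y.rc.co_simple i hi i hi, if_pos rfl]; norm_num
  let J : Set ℕ := {j | j < D.rank ∧ ¬ D.rootSubgroup F (D.simple j) ≤ P}
  -- reflections in `J` preserve `P`
  have hJP : ∀ j ∈ J, cj (ns R j) P = P := by
    rintro j ⟨hj, hjP⟩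
    refine hwc _ ?_ ?_
    · rw [← chevSys_Γ R Y]
      exact (chevSys R Y).N_le_Γ ((chevSys R Y).n_mem_N ⟨j, hj⟩)
    · refine (cj_mono hPg).trans ?_
      unfold gen
      rw [cj, MonoidHom.map_closure, Subgroup.closure_le]
      rintro _ ⟨_, ⟨r, t, h1, h2, h3, rfl⟩, rfl⟩
      show ns R j * xg R r t * (ns R j)⁻¹ ∈ D.posUnipotent F
      have h4 : ns R j * xg R r t * (ns R j)⁻¹ ∈ cj (ns R j) (D.rootSubgroup F r) :=
        conj_mem_cj (xg_mem R r t)
      rw [cj_ns R Y ⟨j, hj⟩ ⟨r, h2⟩] at h4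
      refine hXU _ ?_ ((comb Y).refl ⟨j, hj⟩ ⟨r, h2⟩).2 h4
      refine (comb Y).refl_pos ⟨j, hj⟩ ⟨r, h2⟩ h1 ?_
      intro h5
      apply hjP
      have h6 : r = D.simple j := congrArg Fin.val h5
      rw [← h6]; exact h3
  have hJr : ∀ j ∈ J, ∀ r, r < D.nroots → D.rootSubgroup F r ≤ P →
      D.rootSubgroup F (D.reflectRoot j r) ≤ P := by
    intro j hj r hr h
    have h1 := cj_ns R Y ⟨j, hj.1⟩ ⟨r, hr⟩
    have h2 : D.rootSubgroup F (D.reflectRoot j r) = cj (ns R j) (D.rootSubgroup F r) := h1.symm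
    rw [h2, ← hJP j hj]
    exact cj_mono h
  have hrefl_pos : ∀ j < D.rank, ∀ r, Y.rc.half ≤ r → r < D.nroots → r ≠ D.simple j →
      Y.rc.half ≤ D.reflectRoot j r := by
    intro j hj r h1 h2 h3
    exact (comb Y).refl_pos ⟨j, hj⟩ ⟨r, h2⟩ h1 (fun h => h3 (congrArg Fin.val h))
  -- roots of `Φ_J` are not in `P`
  have hi : ∀ r, Y.rc.half ≤ r → r < D.nroots → D.rootSubgroup F r ≤ P → ¬ D.InRootSub J r := by
    intro r
    induction r using Nat.strong_induction_on with
    | _ r ih =>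
      intro h1 h2 h3 h4
      rcases Y.rc.red r h2 h1 with ⟨i, hi, h5⟩ | ⟨i, hi, h5, h6⟩
      · by_cases hiJ : i ∈ J
        · exact hiJ.2 (by rw [← h5]; exact h3)
        · have h7 := h4.2 i hi hiJ
          rw [coroot_zero Y.rc h2 hi, h5, Y.rc.co_simple i hi i hi, if_pos rfl] at h7
          exact one_ne_zero h7
      · have hiJ : i ∈ J := by
          by_contra hiJ
          have h7 := h4.2 i hi hiJ
          rw [coroot_zero Y.rc h2 hi] at h7
          omega
        have hne : r ≠ D.simple i := by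
          rintro rfl
          exact hiJ.2 h3
        refine ih _ (refl_lt_self Z hi h2 h6) (hrefl_pos i hi r h1 h2 hne) (Y.rc.refl_lt i hi r h2)
          (hJr i hiJ r h2 h3) ⟨Y.rc.refl_lt i hi r h2, fun k hk hkJ => ?_⟩
        rw [coroot_zero Y.rc (Y.rc.refl_lt i hi r h2) hk, Y.rc.co_refl i hi r h2 k hk, if_neg, sub_zero,
          ← coroot_zero Y.rc h2 hk]
        · exact h4.2 k hk hkJ
        · rintro rfl; exact hkJ hiJ
  -- roots outside `Φ_J` are in `P`
  have hii : ∀ r, Y.rc.half ≤ r → r < D.nroots → ¬ D.InRootSub J r → D.rootSubgroup F r ≤ P := by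
    intro r
    induction r using Nat.strong_induction_on with
    | _ r ih =>
      intro h1 h2 h4
      rcases W.chain r h1 (by omega) with ⟨i, hi, h5⟩ | ⟨i, hi, h5, s, h6, h7, h8, h9, c, hc, h10, h11⟩
      · subst h5
        by_contra h3
        apply h4
        refine ⟨h2, fun k hk hkJ => ?_⟩
        rw [coroot_zero Y.rc h2 hk, Y.rc.co_simple i hi k hk, if_neg]
        rintro rfl
        exact hkJ ⟨hi, h3⟩
      · by_cases hne : r = D.simple i
        · subst hne
          by_contra h3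
          apply h4
          refine ⟨h2, fun k hk hkJ => ?_⟩
          rw [coroot_zero Y.rc h2 hk, Y.rc.co_simple i hi k hk, if_neg]
          rintro rfl
          exact hkJ ⟨hi, h3⟩
        by_cases hiJ : i ∈ J
        · have hlt := Y.rc.refl_lt i hi r h2
          have h12 := ih _ (refl_lt_self Z hi h2 h5) (hrefl_pos i hi r h1 h2 hne) hlt ?_
          · have h13 := hJr i hiJ _ hlt h12
            rwa [refl_refl Y.rc hi h2] at h13
          · intro h13
            apply h4
            refine ⟨h2, fun k hk hkJ => ?_⟩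
            have h14 := h13.2 k hk hkJ
            rw [coroot_zero Y.rc hlt hk, Y.rc.co_refl i hi r h2 k hk, if_neg, sub_zero] at h14
            · rwa [coroot_zero Y.rc h2 hk]
            · rintro rfl; exact hkJ hiJ
        · -- the commutator of `X_i ≤ P` with `X_s`
          have hXi : D.rootSubgroup F (D.simple i) ≤ P := by
            by_contra h; exact hiJ ⟨hi, h⟩
          have hin := Y.rc.simple_lt i hi
          have hneg := neg_lt_half (Q := Y.rc) (hsp i hi) hin
          have hsn : s < D.nroots := by omega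
          have e1 := comm_g R hin hsn h8 (by omega) 1 1
          have hw : wg R (D.commWord F (D.simple i) s 1 1) ∈ P := by
            have e2 : wg R (D.commWord F (D.simple i) s 1 1) =
                ((xg R s (1 : F))⁻¹ * (xg R (D.simple i) 1)⁻¹ * xg R s 1) * xg R (D.simple i) 1 := by
              have : (xg R s (1 : F))⁻¹ * (xg R (D.simple i) 1)⁻¹ * (xg R s 1 * xg R (D.simple i) 1) =
                  wg R (D.commWord F (D.simple i) s 1 1) := by
                rw [e1]; simp [mul_assoc]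
              rw [← this]; simp [mul_assoc]
            rw [e2]
            have hs1 : xg R s (1 : F) ∈ stabSub P := hU (hXU s h6 hsn (xg_mem R _ _))
            exact P.mul_mem (inv_conj_mem_of_stabSub hs1 (P.inv_mem (hXi (xg_mem R _ _))))
              (hXi (xg_mem R _ _))
          have h12 := word_ext R hE (fun c => (c.2.1 : F) * (-1) ^ c.2.2.1 * 1 ^ c.2.2.2) _ _ le_rfl h9
            (fun c hc => (commTerms_co Y.rc hin hsn hc).1) hw c hc ?_
          · rw [h10] at h12; exact h12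
          · have h13 : c.2.1 = 1 ∨ c.2.1 = -1 := by omega
            rw [one_pow, mul_one]
            refine mul_ne_zero ?_ (pow_ne_zero _ (neg_ne_zero.2 one_ne_zero))
            rcases h13 with h13 | h13 <;> rw [h13] <;> simp
  refine ⟨J, fun j hj => hj.1, le_antisymm ?_ ?_⟩
  · refine hPg.trans ?_
    unfold gen ChevalleyDatum.unipotentRadical
    apply Subgroup.closure_mono
    rintro g ⟨r, t, h1, h2, h3, rfl⟩
    exact ⟨r, t, (Y.rc.isPos_iff r h2).2 h1, hi r h1 h2 h3, rfl⟩
  · unfold ChevalleyDatum.unipotentRadical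
    rw [Subgroup.closure_le]
    rintro g ⟨r, t, h1, h2, h3⟩
    rw [xg_eq R h3]
    exact hii r ((Y.rc.isPos_iff r h1.1).1 h1) h1.1 h2 (xg_mem R r t)

include R in
theorem main_sep [Fintype F] (Y : RCX D) (Z : Lex Y.rc) {M : ℕ} (W : Wk D Y.rc.half M)
    (hM : M + 1 < Fintype.card F) {P : Subgroup (GL D.Idx F)} (hPU : P ≤ D.posUnipotent F)
    (hwc : ∀ g ∈ D.group F, cj g P ≤ D.posUnipotent F → cj g P = P) :
    ∃ J : Set ℕ, (∀ j ∈ J, j < D.rank) ∧ P = D.unipotentRadical F J := by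
  obtain ⟨_, hH⟩ := B_stab R Y hPU hwc
  have hn2 : D.nroots = 2 * Y.rc.half := Y.rc.nroots_eq
  refine main R Y Z W hPU hwc fun r h1 h2 => ?_
  exact ext_of_sep R Z hH hM h1 h2 (fun s h3 h4 => W.sep r s h1 h3 (by omega)) (W.sq r h1 (by omega))

/-! ### type `G2`, four elements -/

def ckG : Bool := (List.range 12).all fun r => (List.range 12).all fun s =>
  !(Nat.ble 6 r && Nat.blt r s && !(Nat.beq r 10) && !(Nat.beq r 6 && Nat.ble 10 s)) ||
    es.any fun e => decide (e.1 * Cfsg.Lie.chevG2.cartan 0 s + e.2 * Cfsg.Lie.chevG2.cartan 1 s = 0) &&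
      decide (e.1 * Cfsg.Lie.chevG2.cartan 0 r + e.2 * Cfsg.Lie.chevG2.cartan 1 r ≠ 0) &&
      decide ((e.1 * Cfsg.Lie.chevG2.cartan 0 r + e.2 * Cfsg.Lie.chevG2.cartan 1 r).natAbs ≤ 2)

theorem ckG_true : ckG = true := by decide +kernel

theorem sepG (r s : ℕ) (h1 : 6 ≤ r) (h2 : r < s) (h3 : s < 12) (h4 : r ≠ 10) (h5 : r = 6 → s < 10) :
    Sep Cfsg.Lie.chevG2 2 r s := by
  have h := ckG_true
  unfold ckG at h
  rw [List.all_eq_true] at h
  have h6 := h r (List.mem_range.2 (by omega))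
  rw [List.all_eq_true] at h6
  have h7 := h6 s (List.mem_range.2 h3)
  rw [Bool.or_eq_true] at h7
  rcases h7 with h7 | h7
  · exfalso
    simp only [Bool.not_eq_true', Bool.and_eq_false_iff, Bool.not_eq_false', Bool.and_eq_true] at h7
    rcases h7 with ((h7 | h7) | h7) | h7
    · have : Nat.ble 6 r = true := Nat.ble_eq_true_of_le h1
      rw [this] at h7; simp at h7
    · have : Nat.blt r s = true := Nat.ble_eq_true_of_le h2
      rw [this] at h7; simp at h7
    · exact h4 (Nat.eq_of_beq_eq_true h7)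
    · have h8 := h5 (Nat.eq_of_beq_eq_true h7.1)
      have h9 := Nat.le_of_ble_eq_true h7.2
      omega
  · rw [List.any_eq_true] at h7
    obtain ⟨e, _, h8⟩ := h7
    simp only [Bool.and_eq_true, decide_eq_true_eq] at h8
    exact ⟨0, by decide, 1, by decide, e.1, e.2, h8.1.1, h8.1.2, h8.2⟩

theorem conj_word {Y : RCX D} {P : Subgroup (GL D.Idx F)} (hU : D.posUnipotent F ≤ stabSub P)
    {r s : ℕ} (hr : Y.rc.half ≤ r) (hrn : r < D.nroots) (hs : Y.rc.half ≤ s) (hsn : s < D.nroots)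
    (hne : s ≠ r) (t : F) {v : GL D.Idx F} (hv : v ∈ D.posUnipotent F)
    (hc : v * xg R r 1 = xg R r 1 * v) (hx : xg R s t * v ∈ P) :
    wg R (D.commWord F r s 1 t) ∈ P := by
  have hneg := neg_lt_half (Q := Y.rc) hr hrn
  have e := comm_g R hrn hsn hne (by omega) 1 t
  have hXU : ∀ u : F, xg R r u ∈ D.posUnipotent F := fun u => by
    rw [posUnipotent_eq_Vk R Y.rc]; exact xg_mem_Vk R hr hrn u
  have h1 := inv_conj_mem_of_stabSub (hU (hXU 1)) hx
  have h2 := P.mul_mem (P.inv_mem hx) h1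
  have h3 := conj_mem_of_stabSub (hU hv) h2
  convert h3 using 1
  calc wg R (D.commWord F r s 1 t) = (xg R s t)⁻¹ * (xg R r 1)⁻¹ *
        (xg R r 1 * xg R s t * wg R (D.commWord F r s 1 t)) := by simp [mul_assoc]
    _ = (xg R s t)⁻¹ * (xg R r 1)⁻¹ * (xg R s t * xg R r 1) := by rw [e]
    _ = (xg R s t)⁻¹ * (xg R r 1)⁻¹ * (xg R s t * (xg R r 1 * v) * v⁻¹) := by simp [mul_assoc]
    _ = (xg R s t)⁻¹ * (xg R r 1)⁻¹ * (xg R s t * (v * xg R r 1) * v⁻¹) := by rw [hc]
    _ = _ := by simp [mul_assoc]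

theorem main_G2 [Fintype F] (R : Rel Cfsg.Lie.chevG2 F) (hq : Fintype.card F = 4)
    {P : Subgroup (GL Cfsg.Lie.chevG2.Idx F)} (hPU : P ≤ Cfsg.Lie.chevG2.posUnipotent F)
    (hwc : ∀ g ∈ Cfsg.Lie.chevG2.group F, cj g P ≤ Cfsg.Lie.chevG2.posUnipotent F → cj g P = P) :
    ∃ J : Set ℕ, (∀ j ∈ J, j < Cfsg.Lie.chevG2.rank) ∧ P = Cfsg.Lie.chevG2.unipotentRadical F J := by
  have Z := H22.ChevLex.lexG2
  let Y := H22.PoinG2.rcxG2
  obtain ⟨hU, hH⟩ := B_stab R Y hPU hwc
  have hn : Cfsg.Lie.chevG2.nroots = 12 := rfl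
  have hh : Y.rc.half = 6 := rfl
  have hsq := wkG2.sq
  have E : ∀ r, 6 ≤ r → r < 12 → r ≠ 6 → r ≠ 10 → Ext R P r := by
    intro r h1 h2 h3 h4
    exact ext_of_sep R (Q := Y.rc) Z hH (M := 2) (by rw [hq]; norm_num) h1 h2
      (fun s h5 h6 => sepG r s h1 h5 h6 h4 (fun h => absurd h h3)) (hsq r h1 h2)
  have hV12 : Vk R 12 = ⊥ := Vk_nroots R
  have h10 : ∀ t : F, t ≠ 0 → ∀ v ∈ Vk R 11, xg R 10 t * v ∈ P →
      Cfsg.Lie.chevG2.rootSubgroup F 11 ≤ P := by
    intro t ht v hv hx
    have hc : v * xg R 6 1 = xg R 6 1 * v := by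
      rw [Vk_step R (Q := Y.rc) Z (by decide) (by decide)] at hv
      obtain ⟨u, w, hw, rfl⟩ := hv
      rw [hV12, Subgroup.mem_bot] at hw
      rw [hw, mul_one]
      exact comm_nil R (Q := Y.rc) (by decide) (by decide) (by decide) (by decide) (by decide)
        (by decide +kernel) _ _
    have hvU : v ∈ Cfsg.Lie.chevG2.posUnipotent F := by
      rw [posUnipotent_eq_Vk R Y.rc]; exact Vk_anti R (by decide) hv
    have h1 := conj_word R (Y := Y) hU (r := 6) (s := 10) (by decide) (by decide) (by decide)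
      (by decide) (by decide) t hvU hc hx
    have h2 : Cfsg.Lie.chevG2.commTerms 6 10 = [(11, 1, 1, 1)] := by decide +kernel
    have h3 := word_ext R (k0 := 11) (fun r h1 h2 => E r (by omega) h2 (by omega) (by omega))
      (fun c => (c.2.1 : F) * (-1) ^ c.2.2.1 * t ^ c.2.2.2) (Cfsg.Lie.chevG2.commTerms 6 10) 11 le_rfl
      (by decide +kernel) (by decide +kernel) h1 (11, 1, 1, 1) (by rw [h2]; simp) (by simpa using ht)
    exact h3
  have E10 : Ext R P 10 := by
    intro t ht v hv hx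
    have h1 := h10 t ht v hv hx
    have h2 : v ∈ P := by
      rw [Vk_step R (Q := Y.rc) Z (by decide) (by decide)] at hv
      obtain ⟨u, w, hw, rfl⟩ := hv
      rw [hV12, Subgroup.mem_bot] at hw
      rw [hw, mul_one]; exact h1 (xg_mem R _ _)
    have h3 : xg R 10 t ∈ P := by
      have := P.mul_mem hx (P.inv_mem h2)
      simpa using this
    exact root_le R (Q := Y.rc) hH (by decide) (hsq 10 (by norm_num) (by norm_num)) ht h3
  have E6 : Ext R P 6 := by
    intro t ht v hv hx
    obtain ⟨t', ht', v', hv', hx'⟩ := elim R (Q := Y.rc) Z hH (M := 2) (r := 6) (by rw [hq]; norm_num)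
      (by decide) 3 (by decide) (fun s h1 h2 => sepG 6 s (by norm_num) h1 (by omega) (by norm_num)
        (fun _ => by omega)) ht hv hx
    have hc : v' * xg R 7 1 = xg R 7 1 * v' := by
      rw [show 6 + 1 + 3 = 10 by norm_num, Vk_step R (Q := Y.rc) Z (by decide) (by decide)] at hv'
      obtain ⟨a, w, hw, rfl⟩ := hv'
      rw [Vk_step R (Q := Y.rc) Z (by decide) (by decide)] at hw
      obtain ⟨b, z, hz, rfl⟩ := hw
      rw [hV12, Subgroup.mem_bot] at hz
      rw [hz, mul_one]
      have e1 := comm_nil R (Q := Y.rc) (r := 7) (s := 10) (by decide) (by decide) (by decide)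
        (by decide) (by decide) (by decide +kernel) 1 a
      have e2 := comm_nil R (Q := Y.rc) (r := 7) (s := 11) (by decide) (by decide) (by decide)
        (by decide) (by decide) (by decide +kernel) 1 b
      rw [mul_assoc, e2, ← mul_assoc, e1, mul_assoc]
    have hvU : v' ∈ Cfsg.Lie.chevG2.posUnipotent F := by
      rw [posUnipotent_eq_Vk R Y.rc]; exact Vk_anti R (by decide) hv'
    have h1 := conj_word R (Y := Y) hU (r := 7) (s := 6) (by decide) (by decide) (by decide)
      (by decide) (by decide) t' hvU hc hx'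
    have hE8 : ∀ r, 8 ≤ r → r < Cfsg.Lie.chevG2.nroots → Ext R P r := by
      intro r h2 h3
      by_cases h : r = 10
      · rw [h]; exact E10
      · exact E r (by omega) h3 (by omega) h
    have h2 : ∃ c ∈ Cfsg.Lie.chevG2.commTerms 7 6, c.1 = 10 ∧ c.2.1.natAbs = 1 := by decide +kernel
    obtain ⟨c, hc1, hc2, hc3⟩ := h2
    have h3 := word_ext R (k0 := 8) hE8
      (fun c => (c.2.1 : F) * (-1) ^ c.2.2.1 * t' ^ c.2.2.2) (Cfsg.Lie.chevG2.commTerms 7 6) 8 le_rfl
      (by decide +kernel) (by decide +kernel) h1 c hc1 (by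
        have h13 : c.2.1 = 1 ∨ c.2.1 = -1 := by omega
        refine mul_ne_zero (mul_ne_zero ?_ (pow_ne_zero _ (neg_ne_zero.2 one_ne_zero)))
          (pow_ne_zero _ ht')
        rcases h13 with h13 | h13 <;> rw [h13] <;> simp)
    rw [hc2] at h3
    have h4 := h10 1 one_ne_zero 1 (Subgroup.one_mem _) (by rw [mul_one]; exact h3 (xg_mem R _ _))
    have hv'P : v' ∈ P := by
      rw [show 6 + 1 + 3 = 10 by norm_num, Vk_step R (Q := Y.rc) Z (by decide) (by decide)] at hv'
      obtain ⟨a, w, hw, rfl⟩ := hv'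
      rw [Vk_step R (Q := Y.rc) Z (by decide) (by decide)] at hw
      obtain ⟨b, z, hz, rfl⟩ := hw
      rw [hV12, Subgroup.mem_bot] at hz
      rw [hz, mul_one]
      exact P.mul_mem (h3 (xg_mem R _ _)) (h4 (xg_mem R _ _))
    have h5 : xg R 6 t' ∈ P := by
      have := P.mul_mem hx' (P.inv_mem hv'P)
      simpa using this
    exact root_le R (Q := Y.rc) hH (by decide) (hsq 6 (by norm_num) (by norm_num)) ht' h5
  refine main R Y Z wkG2 hPU hwc fun r h1 h2 => ?_
  by_cases h : r = 6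
  · rw [h]; exact E6
  by_cases h' : r = 10
  · rw [h']; exact E10
  exact E r h1 h2 h h'

end H42.WkMain
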