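import Cfsg.Agent.Lib.H22.ChevRC

/-!
Kernel checks for the seven Chevalley data: separation of the characters of the torus on the positive
root subgroups, and bottoms of root strings.
-/

set_option autoImplicit false

namespace H42.WkSep

open H22.RCPack H22.RCCheck H22.RCComb H22.ChevRel H22.ChevUni H22.ChevLex
open Cfsg.Lie (ChevalleyDatum)

/-- digits with offset -/
def dg (c j : ℕ) : ℤ := Int.ofNat (c / 8 ^ j % 8) - 4

/-- the codes describe the Cartan integers -/
def ckCode (D : ChevalleyDatum) (h : ℕ) (L : List ℕ) : Bool :=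
  Nat.beq L.length h && allN (fun j => allIdx (fun k c => decide (D.cartan j (h + k) = dg c j)) 0 L) D.rank

def pairsB (p : ℕ → ℕ → Bool) : List ℕ → Bool
  | [] => true
  | a :: l => l.all (p a) && pairsB p l

theorem pairsB_spec {p : ℕ → ℕ → Bool} : ∀ {L : List ℕ}, pairsB p L = true →
    ∀ i j (hi : i < L.length) (hj : j < L.length), i < j → p L[i] L[j] = true := by
  intro L
  induction L with
  | nil => intro _ i j hi; simp at hi
  | cons a l ih =>
    intro h i j hi hj hij
    simp only [pairsB, Bool.and_eq_true, List.all_eq_true] at h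
    cases j with
    | zero => omega
    | succ j =>
      cases i with
      | zero =>
        simp only [List.getElem_cons_zero, List.getElem_cons_succ]
        exact h.1 _ (List.getElem_mem _)
      | succ i =>
        simp only [List.getElem_cons_succ]
        exact ih h.2 i j (by simpa using hi) (by simpa using hj) (by omega)

/-- minors -/
def sepM (rank a b : ℕ) : Bool :=
  exN (fun j => exN (fun k => decide ((dg b k * dg a j - dg b j * dg a k).natAbs = 1)) rank) rank

def es : List (ℤ × ℤ) := [(1, 0), (0, 1), (1, 1), (1, -1), (1, 2), (1, -2), (2, 1), (2, -1), (1, 3), (1, -3),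
  (3, 1), (3, -1), (2, 3), (2, -3), (3, 2), (3, -2)]

/-- small combinations -/
def sepE (rank M a b : ℕ) : Bool :=
  exN (fun j => exN (fun k => es.any fun e => decide (e.1 * dg b j + e.2 * dg b k = 0) &&
    decide (e.1 * dg a j + e.2 * dg a k ≠ 0) &&
    decide ((e.1 * dg a j + e.2 * dg a k).natAbs ≤ M)) rank) rank

/-- separation of the roots `r` and `s`: an element of the torus trivial on `s` and of small order
on `r`. -/
def Sep (D : ChevalleyDatum) (M r s : ℕ) : Prop :=
  ∃ j < D.rank, ∃ k < D.rank, ∃ e f : ℤ, e * D.cartan j s + f * D.cartan k s = 0 ∧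
    e * D.cartan j r + f * D.cartan k r ≠ 0 ∧ (e * D.cartan j r + f * D.cartan k r).natAbs ≤ M

theorem cartan_of {D : ChevalleyDatum} {h : ℕ} {L : List ℕ} (hc : ckCode D h L = true) {j : ℕ}
    (hj : j < D.rank) {k : ℕ} (hk : k < L.length) : D.cartan j (h + k) = dg L[k] j := by
  unfold ckCode at hc
  rw [Bool.and_eq_true] at hc
  have h1 := allN_spec hc.2 j hj
  have h2 := allIdx_spec h1 k hk
  rw [zero_add, decide_eq_true_eq] at h2
  exact h2

theorem len_of {D : ChevalleyDatum} {h : ℕ} {L : List ℕ} (hc : ckCode D h L = true) : L.length = h := by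
  unfold ckCode at hc
  rw [Bool.and_eq_true] at hc
  exact Nat.eq_of_beq_eq_true hc.1

theorem sep_of_M {D : ChevalleyDatum} {h : ℕ} {L : List ℕ} (hc : ckCode D h L = true)
    (hp : pairsB (sepM D.rank) L = true) (r s : ℕ) (hr : h ≤ r) (hrs : r < s) (hs : s < 2 * h) :
    Sep D 1 r s := by
  have hl := len_of hc
  obtain ⟨a, rfl⟩ := Nat.exists_eq_add_of_le hr
  obtain ⟨b, rfl⟩ := Nat.exists_eq_add_of_le (hr.trans hrs.le)
  have ha : a < L.length := by omega
  have hb : b < L.length := by omega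
  have h1 := pairsB_spec hp a b ha hb (by omega)
  obtain ⟨j, hj, h2⟩ := exN_spec h1
  obtain ⟨k, hk, h3⟩ := exN_spec h2
  rw [decide_eq_true_eq] at h3
  refine ⟨j, hj, k, hk, D.cartan k (h + b), - D.cartan j (h + b), by ring, ?_, ?_⟩
  · rw [cartan_of hc hj ha, cartan_of hc hk ha, cartan_of hc hj hb, cartan_of hc hk hb]
    intro h0
    rw [neg_mul, ← sub_eq_add_neg] at h0
    rw [h0] at h3
    simp at h3
  · rw [cartan_of hc hj ha, cartan_of hc hk ha, cartan_of hc hj hb, cartan_of hc hk hb, neg_mul,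
      ← sub_eq_add_neg, h3]

theorem sep_of_E {D : ChevalleyDatum} {h M : ℕ} {L : List ℕ} (hc : ckCode D h L = true)
    (hp : pairsB (sepE D.rank M) L = true) (r s : ℕ) (hr : h ≤ r) (hrs : r < s) (hs : s < 2 * h) :
    Sep D M r s := by
  have hl := len_of hc
  obtain ⟨a, rfl⟩ := Nat.exists_eq_add_of_le hr
  obtain ⟨b, rfl⟩ := Nat.exists_eq_add_of_le (hr.trans hrs.le)
  have ha : a < L.length := by omega
  have hb : b < L.length := by omega
  have h1 := pairsB_spec hp a b ha hb (by omega)
  obtain ⟨j, hj, h2⟩ := exN_spec h1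
  obtain ⟨k, hk, h3⟩ := exN_spec h2
  rw [List.any_eq_true] at h3
  obtain ⟨e, _, h4⟩ := h3
  simp only [Bool.and_eq_true, decide_eq_true_eq] at h4
  refine ⟨j, hj, k, hk, e.1, e.2, ?_, ?_, ?_⟩
  · rw [cartan_of hc hj hb, cartan_of hc hk hb]; exact h4.1.1
  · rw [cartan_of hc hj ha, cartan_of hc hk ha]; exact h4.1.2
  · rw [cartan_of hc hj ha, cartan_of hc hk ha]; exact h4.2

/-- squares -/
def ckSq (rank : ℕ) (L : List ℕ) : Bool :=
  L.all fun a => exN (fun j => Nat.beq (dg a j).natAbs 1 || Nat.beq (dg a j).natAbs 2) rank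

theorem sq_of {D : ChevalleyDatum} {h : ℕ} {L : List ℕ} (hc : ckCode D h L = true)
    (hp : ckSq D.rank L = true) (r : ℕ) (hr : h ≤ r) (hs : r < 2 * h) :
    ∃ j < D.rank, (D.cartan j r).natAbs = 1 ∨ (D.cartan j r).natAbs = 2 := by
  have hl := len_of hc
  obtain ⟨a, rfl⟩ := Nat.exists_eq_add_of_le hr
  have ha : a < L.length := by omega
  unfold ckSq at hp
  rw [List.all_eq_true] at hp
  obtain ⟨j, hj, h2⟩ := exN_spec (hp _ (List.getElem_mem ha))
  refine ⟨j, hj, ?_⟩
  rw [cartan_of hc hj ha]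
  rw [Bool.or_eq_true] at h2
  rcases h2 with h2 | h2
  · left; exact Nat.eq_of_beq_eq_true h2
  · right; exact Nat.eq_of_beq_eq_true h2

/-- increasing indices, from `k` on -/
def srt : ℕ → List (ℕ × ℤ × ℕ × ℕ) → Bool
  | _, [] => true
  | k, a :: l => Nat.ble k a.1 && srt (a.1 + 1) l

/-- bottom of a root string -/
def bot (D : ChevalleyDatum) (i r : ℕ) : ℕ :=
  match (D.chainEntry (D.neg (D.simple i)) r).getLast? with
  | some p => p.1
  | none => 0

def ckc (D : ChevalleyDatum) (h i r s : ℕ) : Bool :=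
  Nat.ble h s && Nat.ble (s + 1) (2 * h) && !(Nat.beq s (D.simple i)) &&
    srt h (D.commTerms (D.simple i) s) &&
    (D.commTerms (D.simple i) s).any (fun c => Nat.beq c.1 r && Nat.beq c.2.1.natAbs 1)

def ckChain (D : ChevalleyDatum) (h : ℕ) : Bool :=
  allN (fun r => exN (fun i => Nat.beq (h + r) (D.simple i)) D.rank ||
    exN (fun i => decide (0 < D.cartan i (h + r)) && ckc D h i (h + r) (bot D i (h + r))) D.rank) h

theorem chain_of {D : ChevalleyDatum} {h : ℕ} (hc : ckChain D h = true) (r : ℕ) (hr : h ≤ r)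
    (hr' : r < 2 * h) : (∃ i < D.rank, r = D.simple i) ∨ ∃ i < D.rank, 0 < D.cartan i r ∧
      ∃ s, h ≤ s ∧ s < 2 * h ∧ s ≠ D.simple i ∧ srt h (D.commTerms (D.simple i) s) = true ∧
        ∃ c ∈ D.commTerms (D.simple i) s, c.1 = r ∧ c.2.1.natAbs = 1 := by
  obtain ⟨a, rfl⟩ := Nat.exists_eq_add_of_le hr
  have h1 := allN_spec hc a (by omega)
  rw [Bool.or_eq_true] at h1
  rcases h1 with h1 | h1
  · left
    obtain ⟨i, hi, h2⟩ := exN_spec h1
    exact ⟨i, hi, Nat.eq_of_beq_eq_true h2⟩
  · right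
    obtain ⟨i, hi, h2⟩ := exN_spec h1
    rw [Bool.and_eq_true, decide_eq_true_eq] at h2
    refine ⟨i, hi, h2.1, bot D i (h + a), ?_⟩
    have h3 := h2.2
    unfold ckc at h3
    simp only [Bool.and_eq_true, List.any_eq_true] at h3
    obtain ⟨⟨⟨⟨h4, h5⟩, h6⟩, h7⟩, c, hc, h8, h9⟩ := h3
    refine ⟨Nat.le_of_ble_eq_true h4, Nat.le_of_ble_eq_true h5, ?_, h7, c, hc,
      Nat.eq_of_beq_eq_true h8, Nat.eq_of_beq_eq_true h9⟩
    intro he
    rw [he] at h6
    simp at h6

/-- The combinatorial facts. -/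
structure Wk (D : ChevalleyDatum) (h M : ℕ) : Prop where
  sep : ∀ r s, h ≤ r → r < s → s < 2 * h → Sep D M r s
  sq : ∀ r, h ≤ r → r < 2 * h → ∃ j < D.rank, (D.cartan j r).natAbs = 1 ∨ (D.cartan j r).natAbs = 2
  chain : ∀ r, h ≤ r → r < 2 * h → (∃ i < D.rank, r = D.simple i) ∨ ∃ i < D.rank, 0 < D.cartan i r ∧
      ∃ s, h ≤ s ∧ s < 2 * h ∧ s ≠ D.simple i ∧ srt h (D.commTerms (D.simple i) s) = true ∧
        ∃ c ∈ D.commTerms (D.simple i) s, c.1 = r ∧ c.2.1.natAbs = 1

def cdG2 : List ℕ := [49, 30, 43, 37, 31, 44]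

def cdB2 : List ℕ := [50, 30, 44, 38]

def cdD4 : List ℕ := [3356, 2460, 1779, 2795, 1899, 2915, 2334, 1773, 2789, 1893, 2909, 2348]

def cdF4 : List ℕ := [3300, 1940, 2900, 2291, 1891, 2851, 1842, 2802, 2402, 2334, 2285, 1885, 2845, 1836, 2796, 2396, 2347, 1830, 2790, 2390, 2341, 2292, 1892, 2852]

def cdE6 : List ℕ := [211236, 124708, 186148, 146652, 121564, 183004, 149411, 146267, 121179, 182619, 149300, 146156, 121068, 182508, 145771, 120683, 182123, 117539, 178979, 153891, 149734, 149349, 146205, 121117, 182557, 145709, 120621, 182061, 117477, 178917, 153829, 117092, 178532, 153444, 150300, 149804]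

def cdE7 : List ℕ := [1689892, 997668, 1489188, 1173284, 972580, 1464100, 1195228, 1170140, 969436, 1460956, 1197987, 1194843, 1169755, 969051, 1460571, 1197876, 1194732, 1169644, 968940, 1460460, 1194347, 1169259, 968555, 1460075, 1166115, 965411, 1456931, 940323, 1431843, 1231139, 1198310, 1197925, 1194781, 1169693, 968989, 1460509, 1194285, 1169197, 968493, 1460013, 1166053, 965349, 1456869, 940261, 1431781, 1231077, 1165668, 964964, 1456484, 939876, 1431396, 1230692, 936732, 1428252, 1227548, 1202460, 936236, 1427756, 1227052, 1201964, 1198820, 1198435, 1198373]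

def cdE8 : List ℕ := [13519140, 7981348, 11913508, 9386276, 7780644, 11712804, 9561892, 9361188, 7755556, 11687716, 9583836, 9558748, 9358044, 7752412, 11684572, 9586595, 9583451, 9558363, 9357659, 7752027, 11684187, 9586484, 9583340, 9558252, 9357548, 7751916, 11684076, 9582955, 9557867, 9357163, 7751531, 11683691, 9554723, 9354019, 7748387, 11680547, 9328931, 7723299, 11655459, 7522595, 11454755, 9849123, 9586918, 9586533, 9583389, 9558301, 9357597, 7751965, 11684125, 9582893, 9557805, 9357101, 7751469, 11683629, 9554661, 9353957, 7748325, 11680485, 9328869, 7723237, 11655397, 7522533, 11454693, 9849061, 9554276, 9353572, 7747940, 11680100, 9328484, 7722852, 11655012, 7522148, 11454308, 9848676, 9325340, 7719708, 11651868, 7519004, 11451164, 9845532, 7493916, 11426076, 9820444, 9619740, 9324844, 7719212, 11651372, 7518508, 11450668, 9845036, 7493420, 11425580, 9819948, 9619244, 7490276, 11422436, 9816804, 9616100, 9591012, 7489891, 11422051, 9816419, 9615715, 9590627, 9587483, 9586987,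 7489829, 11421989, 9816357, 9615653, 9590565, 9587421, 9587036, 9586925, 9586540, 9583396, 9558308, 9357604, 7751972, 11684132]

theorem ckG2 : ckCode Cfsg.Lie.chevG2 6 cdG2 = true := by decide +kernel
theorem wkG2 : Wk Cfsg.Lie.chevG2 6 3 where
  sep := sep_of_E ckG2 (by decide +kernel)
  sq := sq_of ckG2 (by decide +kernel)
  chain := chain_of (by decide +kernel)

theorem ckB2 : ckCode Cfsg.Lie.chevB2 4 cdB2 = true := by decide +kernel
theorem wkB2 : Wk Cfsg.Lie.chevB2 4 2 where
  sep := sep_of_E ckB2 (by decide +kernel)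
  sq := sq_of ckB2 (by decide +kernel)
  chain := chain_of (by decide +kernel)

theorem ckD4 : ckCode Cfsg.Lie.chevD4 12 cdD4 = true := by decide +kernel
theorem wkD4 : Wk Cfsg.Lie.chevD4 12 2 where
  sep := sep_of_E ckD4 (by decide +kernel)
  sq := sq_of ckD4 (by decide +kernel)
  chain := chain_of (by decide +kernel)

theorem ckF4 : ckCode Cfsg.Lie.chevF4 24 cdF4 = true := by decide +kernel
theorem wkF4 : Wk Cfsg.Lie.chevF4 24 2 where
  sep := sep_of_E ckF4 (by decide +kernel)
  sq := sq_of ckF4 (by decide +kernel)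
  chain := chain_of (by decide +kernel)

theorem ckE6 : ckCode Cfsg.Lie.chevE6 36 cdE6 = true := by decide +kernel
theorem wkE6 : Wk Cfsg.Lie.chevE6 36 1 where
  sep := sep_of_M ckE6 (by decide +kernel)
  sq := sq_of ckE6 (by decide +kernel)
  chain := chain_of (by decide +kernel)

theorem ckE7 : ckCode Cfsg.Lie.chevE7 63 cdE7 = true := by decide +kernel
theorem wkE7 : Wk Cfsg.Lie.chevE7 63 1 where
  sep := sep_of_M ckE7 (by decide +kernel)
  sq := sq_of ckE7 (by decide +kernel)
  chain := chain_of (by decide +kernel)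

theorem ckE8 : ckCode Cfsg.Lie.chevE8 120 cdE8 = true := by decide +kernel
theorem wkE8 : Wk Cfsg.Lie.chevE8 120 1 where
  sep := sep_of_M ckE8 (by decide +kernel)
  sq := sq_of ckE8 (by decide +kernel)
  chain := chain_of (by decide +kernel)

end H42.WkSep
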